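import Mathlib
import Cfsg.Agent.Lib.Helper4.FCDefs

/-! Project FC (S4146), piece AIDX (helper45, for helper4). -/

set_option autoImplicit false

namespace Cfsg.Agent.Lib.Helper4.FC

universe u

/-- an element of `C(g)` whose order involves only primes dividing `n` is central, if all
`p`-elements (`p ∣ n`) of `C(g)` are central (induction on the order, Bezout). -/
theorem aidx_helper45_central {G : Type u} [Group G] (n : ℕ) (g : G)
    (hcen : ∀ (p : ℕ) (u : G), p.Prime → p ∣ n → Prim p u → u ∈ Cen g → u ∈ Subgroup.center G) :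
    ∀ N : ℕ, ∀ a : G, orderOf a = N → N ≠ 0 → (∀ p : ℕ, p.Prime → p ∣ N → p ∣ n) → a ∈ Cen g →
      a ∈ Subgroup.center G := by
  intro N
  induction N using Nat.strong_induction_on with
  | _ N ih =>
    intro a haN hN0 hpr hag
    by_cases hN1 : N = 1
    · have h1 : a = 1 := orderOf_eq_one_iff.mp (haN.trans hN1)
      rw [h1]; exact Subgroup.one_mem _
    · obtain ⟨p, hp, hpN⟩ := Nat.exists_prime_and_dvd hN1
      obtain ⟨e, N', hpN', hNeq⟩ := Nat.exists_eq_pow_mul_and_not_dvd hN0 p hp.ne_one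
      have hN'0 : N' ≠ 0 := by rintro rfl; exact hpN' (dvd_zero p)
      have he : e ≠ 0 := by
        rintro rfl
        rw [pow_zero, one_mul] at hNeq
        exact hpN' (hNeq ▸ hpN)
      have hcop : Nat.Coprime (p ^ e) N' :=
        Nat.Coprime.pow_left e ((Nat.Prime.coprime_iff_not_dvd hp).mpr hpN')
      have hoa : orderOf a ≠ 0 := by rw [haN]; exact hN0
      have hd1 : p ^ e ∣ orderOf a := by rw [haN, hNeq]; exact dvd_mul_right _ _
      have hd2 : N' ∣ orderOf a := by rw [haN, hNeq]; exact dvd_mul_left _ _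
      have hq1 : orderOf a / p ^ e = N' := by
        rw [haN, hNeq]; exact Nat.mul_div_cancel_left N' (pow_pos hp.pos e)
      have hq2 : orderOf a / N' = p ^ e := by
        rw [haN, hNeq]; exact Nat.mul_div_cancel (p ^ e) (Nat.pos_of_ne_zero hN'0)
      have ho1 : orderOf (a ^ N') = p ^ e := by
        have h := orderOf_pow_orderOf_div hoa hd1
        rwa [hq1] at h
      have ho2 : orderOf (a ^ (p ^ e)) = N' := by
        have h := orderOf_pow_orderOf_div hoa hd2
        rwa [hq2] at h
      have hb1 : a ^ N' ∈ Subgroup.center G :=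
        hcen p (a ^ N') hp (hpr p hp hpN) ⟨e, ho1⟩ ((Cen g).pow_mem hag N')
      have hlt : N' < N := by
        rw [hNeq]
        have h2 : 2 ≤ p ^ e := le_trans hp.two_le (Nat.le_self_pow he p)
        have h3 : 0 < N' := Nat.pos_of_ne_zero hN'0
        nlinarith
      have hb2 : a ^ (p ^ e) ∈ Subgroup.center G :=
        ih N' hlt (a ^ (p ^ e)) ho2 hN'0
          (fun r hr hrN' => hpr r hr (by rw [hNeq]; exact dvd_mul_of_dvd_right hrN' _))
          ((Cen g).pow_mem hag _)
      have hbez : ((p ^ e : ℕ) : ℤ) * Nat.gcdA (p ^ e) N' + (N' : ℤ) * Nat.gcdB (p ^ e) N' = 1 := by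
        have h := Nat.gcd_eq_gcd_ab (p ^ e) N'
        rw [hcop.gcd_eq_one] at h
        exact_mod_cast h.symm
      have ha : a = (a ^ (p ^ e)) ^ (Nat.gcdA (p ^ e) N') * (a ^ N') ^ (Nat.gcdB (p ^ e) N') := by
        rw [← zpow_natCast a (p ^ e), ← zpow_natCast a N', ← zpow_mul, ← zpow_mul, ← zpow_add,
          hbez, zpow_one]
      rw [ha]
      exact Subgroup.mul_mem _ (Subgroup.zpow_mem _ hb2 _) (Subgroup.zpow_mem _ hb1 _)

theorem fc_aidx : AIdxStmt.{u} := by
  intro G _ _ n m A g hF hAn hHall hprA hAll hcg hcen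
  obtain ⟨hn1, hm1, hnm, -, ⟨x0, hx0⟩, -, -⟩ := hF
  have hnA : ∀ p : ℕ, p.Prime → p ∣ n → p ∣ Nat.card A := by
    intro p hp hpn
    have : Fact p.Prime := ⟨hp⟩
    have hpG : p ∣ Nat.card G := dvd_trans hpn (hx0 ▸ Subgroup.index_dvd_card (Cen x0))
    obtain ⟨x, hx⟩ := exists_prime_orderOf_dvd_card' p hpG
    have hxA : x ∈ A := hAll p x hp hpn ⟨1, by rw [hx, pow_one]⟩
    rw [← hx]; exact Subgroup.orderOf_dvd_natCard A hxA
  have hle : A ⊓ Cen g ≤ Subgroup.center G := by
    rintro a ⟨haA, hag⟩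
    exact aidx_helper45_central n g hcen (orderOf a) a rfl (orderOf_pos a).ne'
      (fun p hp hpo => hprA p hp (dvd_trans hpo (Subgroup.orderOf_dvd_natCard A haA))) hag
  have hZle : Subgroup.center G ≤ Cen g := Subgroup.center_le_centralizer _
  have hinf : Subgroup.center G ⊓ A = Cen g ⊓ A := by
    apply le_antisymm
    · exact inf_le_inf_right A hZle
    · exact le_inf (by rw [inf_comm]; exact hle) inf_le_right
  have hrel : (Subgroup.center G).relIndex A = (Cen g).relIndex A := by
    rw [← Subgroup.inf_relIndex_right (Subgroup.center G) A, hinf, Subgroup.inf_relIndex_right]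
  rw [hrel]
  have h1 : (Cen g).relIndex A ∣ cs g := by
    have e1 : (A ⊓ Cen g).relIndex A * A.index = (A ⊓ Cen g).index :=
      Subgroup.relIndex_mul_index inf_le_left
    rw [Subgroup.inf_relIndex_left] at e1
    have e2 : (A ⊓ Cen g).relIndex (Cen g) * (Cen g).index = (A ⊓ Cen g).index :=
      Subgroup.relIndex_mul_index inf_le_right
    rw [Subgroup.inf_relIndex_right] at e2
    obtain ⟨j, hj⟩ : A.relIndex (Cen g) ∣ A.index :=
      Subgroup.relIndex_dvd_index_of_normal A (Cen g)
    have hτ : A.relIndex (Cen g) ≠ 0 := Subgroup.index_ne_zero_of_finite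
    refine ⟨j, ?_⟩
    have h5 : A.relIndex (Cen g) * ((Cen g).relIndex A * j) =
        A.relIndex (Cen g) * (Cen g).index := by
      rw [e2, ← e1, hj]; ring
    exact (Nat.eq_of_mul_eq_mul_left (Nat.pos_of_ne_zero hτ) h5).symm
  have h2 : (Cen g).relIndex A ∣ Nat.card A := Subgroup.index_dvd_card _
  have h3 : cs g ∣ (Cen g).relIndex A * A.index := by
    have e1 : (Cen g ⊓ A).relIndex A * A.index = (Cen g ⊓ A).index :=
      Subgroup.relIndex_mul_index inf_le_right
    rw [Subgroup.inf_relIndex_right] at e1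
    rw [e1]
    exact Subgroup.index_dvd_of_le inf_le_left
  have hρm : Nat.Coprime ((Cen g).relIndex A) m := Nat.coprime_of_dvd (fun k hk hkρ hkm => by
    have hkn : k ∣ n := hprA k hk (dvd_trans hkρ h2)
    have h := Nat.dvd_gcd hkn hkm
    rw [hnm.gcd_eq_one] at h
    exact hk.one_lt.ne' (Nat.dvd_one.mp h))
  have hnidx : Nat.Coprime n A.index := Nat.coprime_of_dvd (fun k hk hkn hki => by
    have hkA : k ∣ Nat.card A := hnA k hk hkn
    have h := Nat.dvd_gcd hkA hki
    rw [hHall.gcd_eq_one] at h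
    exact hk.one_lt.ne' (Nat.dvd_one.mp h))
  have hρn : (Cen g).relIndex A ∣ n := by
    rcases hcg with h | h
    · rw [h] at h1; exact h1
    · rw [h] at h1; exact hρm.dvd_of_dvd_mul_right h1
  have hnρ : n ∣ (Cen g).relIndex A := by
    have h4 : n ∣ (Cen g).relIndex A * A.index := by
      rcases hcg with h | h
      · rw [h] at h3; exact h3
      · rw [h] at h3; exact dvd_trans (dvd_mul_right n m) h3
    exact hnidx.dvd_of_dvd_mul_right h4
  exact Nat.dvd_antisymm hρn hnρ

end Cfsg.Agent.Lib.Helper4.FC
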