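import Mathlib
import Cfsg.Agent.Lib.Helper4.FCDefs

/-! Project FC (S4146), piece BCB (helper45, for helper4). -/

set_option autoImplicit false

namespace Cfsg.Agent.Lib.Helper4.FC

universe u

theorem fc_bcb : L1Stmt.{u} → BCb1Stmt.{u} → BCbStmt.{u} := by
  intro hL1 hB1 G _ _ n m p s A x y hF hp hpn hs hAn hAp hyA hcsy hxs hcsx hxA
  have hn1 : 1 < n := hF.1
  have hm1 : 1 < m := hF.2.1
  have hcop : (cs x).Coprime (cs y) := by rw [hcsx, hcsy]; exact hF.2.2.1
  have hidx : (Cen x ⊓ Cen y).index = n * m := by rw [hL1 G x y hcop, hcsx, hcsy]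
  have hle : Cen x ⊓ Cen y ≤ Cen x := inf_le_left
  have hrel : (Cen x ⊓ Cen y).relIndex (Cen x) = m := by
    have h1 := Subgroup.relIndex_mul_index hle
    rw [hidx] at h1
    have h2 : (Cen x).index = n := hcsx
    rw [h2, mul_comm] at h1
    exact Nat.eq_of_mul_eq_mul_left (by omega) h1
  have key : ∀ r : ℕ, r.Prime → r ∣ m → r = s := by
    intro r hr hrm
    by_contra hrs
    have : Fact r.Prime := ⟨hr⟩
    obtain ⟨R⟩ : Nonempty (Sylow r ↥(Cen x)) := inferInstance
    have hRle : (R : Subgroup ↥(Cen x)) ≤ (Cen x ⊓ Cen y).subgroupOf (Cen x) := by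
      intro g hg
      rw [Subgroup.mem_subgroupOf]
      refine ⟨g.2, ?_⟩
      obtain ⟨k, hk⟩ := R.isPGroup' ⟨g, hg⟩
      have hk' : (g : G) ^ r ^ k = 1 := by
        have := congrArg (fun z : ↥(R : Subgroup ↥(Cen x)) => ((z : ↥(Cen x)) : G)) hk
        simpa using this
      have hprim : Prim r (g : G) := by
        obtain ⟨j, -, hj⟩ := (Nat.dvd_prime_pow hr).mp (orderOf_dvd_of_pow_eq_one hk')
        exact ⟨j, hj⟩
      have hcomm := hB1 G n m p s r A x (g : G) hF hp hpn hs hr hrs hAn hAp hxs hcsx hxA hprim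
        g.2 y hyA
      exact Subgroup.mem_centralizer_iff.mpr
        (fun h hh => by rw [Set.mem_singleton_iff.mp hh]; exact hcomm.symm)
    have hdvd : ((Cen x ⊓ Cen y).subgroupOf (Cen x)).index ∣ (R : Subgroup ↥(Cen x)).index :=
      Subgroup.index_dvd_of_le hRle
    have hnd : ¬ r ∣ (R : Subgroup ↥(Cen x)).index := R.not_dvd_index
    apply hnd
    refine dvd_trans ?_ hdvd
    change r ∣ (Cen x ⊓ Cen y).relIndex (Cen x)
    rw [hrel]
    exact hrm
  exact ⟨_, Nat.eq_prime_pow_of_unique_prime_dvd (by omega) (fun {d} hd hdm => key d hd hdm)⟩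

end Cfsg.Agent.Lib.Helper4.FC
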