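import Mathlib
import Cfsg.Agent.Lib.Helper4.FCDefs

/-! Project FC (S4146), piece W3 (helper45, for helper4). -/

set_option autoImplicit false

namespace Cfsg.Agent.Lib.Helper4.FC

universe u

theorem fc_w3 : W3Stmt.{u} := by
  intro C _ _ q K T u hq hK hKT hndvd
  have : Fact q.Prime := ⟨hq⟩
  have hcard : ¬ q ∣ Nat.card (C ⧸ Cen u) := by
    rw [← Subgroup.index_eq_card]; exact hndvd
  obtain ⟨a, ha⟩ := T.isPGroup'.nonempty_fixed_point_of_prime_not_dvd_card (C ⧸ Cen u) hcard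
  obtain ⟨c, rfl⟩ := QuotientGroup.mk_surjective a
  have hconj : ∀ x ∈ (T : Subgroup C), c⁻¹ * x * c ∈ Cen u := by
    intro x hx
    have h1 := ha ⟨x⁻¹, inv_mem hx⟩
    have h2 : ((x⁻¹ * c : C) : C ⧸ Cen u) = (c : C ⧸ Cen u) := h1
    rw [QuotientGroup.eq] at h2
    have h3 : (x⁻¹ * c)⁻¹ * c = c⁻¹ * x * c := by group
    rw [h3] at h2
    exact h2
  have hd : c⁻¹ ∈ (↑(K ⊔ (T : Subgroup C)) : Set C) := by
    rw [hKT]; exact Subgroup.mem_top _
  rw [Subgroup.normal_mul] at hd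
  obtain ⟨k, hk, y, hy, hky⟩ := hd
  refine ⟨k, hk, fun x hx => ?_⟩
  have h3 := hconj (y⁻¹ * x * y)
    ((T : Subgroup C).mul_mem ((T : Subgroup C).mul_mem ((T : Subgroup C).inv_mem hy) hx) hy)
  have hc : c = y⁻¹ * k⁻¹ := by
    have h : c⁻¹ = k * y := hky.symm
    rw [← inv_inv c, h]; group
  have h4 : c⁻¹ * (y⁻¹ * x * y) * c = k * x * k⁻¹ := by rw [hc]; group
  rw [h4] at h3
  have h5 : u * (k * x * k⁻¹) = (k * x * k⁻¹) * u :=
    Subgroup.mem_centralizer_iff.mp h3 u (Set.mem_singleton u)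
  calc x * (k⁻¹ * u * k) = k⁻¹ * ((k * x * k⁻¹) * u) * k := by group
    _ = k⁻¹ * (u * (k * x * k⁻¹)) * k := by rw [h5]
    _ = (k⁻¹ * u * k) * x := by group

end Cfsg.Agent.Lib.Helper4.FC
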