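import Mathlib

set_option autoImplicit false

/-!
Extremal nilpotent subgroups of `S_n` for `n ≡ 3 (mod 4)`: a nilpotent subgroup of order
`3 * 2 ^ ν₂((n-3)!)` is generated by a `3`-cycle `z` and a `2`-group centralizing `z`, and any two
such subgroups are conjugate.
-/

namespace Cfsg.Agent.Lib.Helper45.NilC3

open Equiv Equiv.Perm
open scoped Pointwise Nat

/-- In a finite nilpotent group, elements of Sylow subgroups for different primes commute. -/
theorem commute_sylow {G : Type*} [Group G] [Finite G] [Group.IsNilpotent G] {p q : ℕ}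
    [Fact p.Prime] [Fact q.Prime] (hpq : p ≠ q) (P : Sylow p G) (Q : Sylow q G) (x y : G)
    (hx : x ∈ P) (hy : y ∈ Q) : Commute x y :=
  Subgroup.commute_of_normal_of_disjoint (P : Subgroup G) (Q : Subgroup G) inferInstance
    inferInstance (IsPGroup.disjoint_of_ne p q hpq _ _ P.isPGroup' Q.isPGroup') x y hx hy

/-- Sylow conjugacy inside a subgroup, for subgroups of the right order. -/
theorem exists_conj_of_card {G : Type*} [Group G] [Finite G] {p : ℕ} [Fact p.Prime]
    (C A B : Subgroup G) (hA : A ≤ C) (hB : B ≤ C)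
    (cA : Nat.card A = p ^ (Nat.card C).factorization p)
    (cB : Nat.card B = p ^ (Nat.card C).factorization p) :
    ∃ h ∈ C, B = A.map (MulAut.conj h).toMonoidHom := by
  have eA : Nat.card (A.subgroupOf C) = Nat.card A :=
    Nat.card_congr (Subgroup.subgroupOfEquivOfLe hA).toEquiv
  have eB : Nat.card (B.subgroupOf C) = Nat.card B :=
    Nat.card_congr (Subgroup.subgroupOfEquivOfLe hB).toEquiv
  let A' : Sylow p C := Sylow.ofCard (A.subgroupOf C) (by rw [eA, cA])
  let B' : Sylow p C := Sylow.ofCard (B.subgroupOf C) (by rw [eB, cB])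
  obtain ⟨h, hh⟩ := MulAction.exists_smul_eq C A' B'
  have key : ∀ x : C, x ∈ B.subgroupOf C ↔ h⁻¹ * x * h ∈ A.subgroupOf C := by
    intro x
    have h1 : (B' : Subgroup C) = MulAut.conj h • (A' : Subgroup C) := by
      rw [← hh]; rfl
    have h2 : x ∈ (B' : Subgroup C) ↔ x ∈ MulAut.conj h • (A' : Subgroup C) := by rw [h1]
    rw [Subgroup.mem_pointwise_smul_iff_inv_smul_mem] at h2
    have h3 : (MulAut.conj h)⁻¹ • x = h⁻¹ * x * h := by
      simp [MulAut.smul_def]
    rw [h3] at h2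
    exact h2
  refine ⟨h, h.2, ?_⟩
  ext y
  constructor
  · intro hy
    have hyC : y ∈ C := hB hy
    have h1 := (key ⟨y, hyC⟩).1 (by rw [Subgroup.mem_subgroupOf]; exact hy)
    rw [Subgroup.mem_subgroupOf] at h1
    refine ⟨_, h1, ?_⟩
    simp [mul_assoc]
  · rintro ⟨a, ha, rfl⟩
    have haC : a ∈ C := hA ha
    have hyC : (MulAut.conj (h : G)).toMonoidHom a ∈ C := by
      simp only [MulEquiv.coe_toMonoidHom, MulAut.conj_apply]
      exact C.mul_mem (C.mul_mem h.2 haC) (C.inv_mem h.2)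
    have h1 := (key ⟨_, hyC⟩).2 (by
      rw [Subgroup.mem_subgroupOf]
      simpa [mul_assoc] using ha)
    rw [Subgroup.mem_subgroupOf] at h1
    exact h1

theorem fact_three_mul (e : ℕ) : (3 * 2 ^ e).factorization 2 = e := by
  rw [Nat.factorization_mul (by norm_num) (by positivity), Nat.factorization_pow]
  simp [Nat.Prime.factorization Nat.prime_two, Nat.factorization_eq_zero_of_not_dvd]

theorem two_pow_dvd_factorial_lt {n e : ℕ} (hn : n % 4 = 3) (h7 : 7 ≤ n)
    (he : e = (n - 3)!.factorization 2) : ¬ 2 ^ e ∣ (n - 4)! := by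
  intro h
  have h1 : n - 3 = (n - 4) + 1 := by omega
  have h2 : (n - 3)! = (n - 3) * (n - 4)! := by
    rw [h1, Nat.factorial_succ]
  have h3 : (n - 3)!.factorization 2 = (n - 3).factorization 2 + (n - 4)!.factorization 2 := by
    rw [h2, Nat.factorization_mul (by omega) (Nat.factorial_ne_zero _)]
    rfl
  have h4 : 1 ≤ (n - 3).factorization 2 := by
    have : 2 ∣ n - 3 := by omega
    exact (Nat.Prime.dvd_iff_one_le_factorization Nat.prime_two (by omega)).1 this
  have h5 : e ≤ (n - 4)!.factorization 2 :=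
    (Nat.Prime.pow_dvd_iff_le_factorization Nat.prime_two (Nat.factorial_ne_zero _)).1 h
  omega

/-- Structure of a nilpotent subgroup of `S_n` of order `3 * 2 ^ ν₂((n-3)!)`, `n ≡ 3 (mod 4)`. -/
theorem structure_thm {n e : ℕ} (hn : n % 4 = 3) (he : e = (n - 3)!.factorization 2)
    (N : Subgroup (Perm (Fin n))) (hN : Group.IsNilpotent N) (hcard : Nat.card N = 3 * 2 ^ e) :
    ∃ (z : Perm (Fin n)) (Q : Subgroup (Perm (Fin n))), z.IsThreeCycle ∧ Nat.card Q = 2 ^ e ∧
      Q ≤ Subgroup.centralizer {z} ∧ N = Q ⊔ Subgroup.zpowers z := by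
  have := hN
  have : Fact (Nat.Prime 2) := ⟨Nat.prime_two⟩
  have : Fact (Nat.Prime 3) := ⟨Nat.prime_three⟩
  -- an element of order 3
  obtain ⟨zN, hzN⟩ := exists_prime_orderOf_dvd_card' (G := N) 3 (by rw [hcard]; exact dvd_mul_right _ _)
  -- a Sylow 2-subgroup
  let T : Sylow 2 N := default
  have hT : Nat.card T = 2 ^ e := by
    rw [Sylow.card_eq_multiplicity, hcard, fact_three_mul]
  -- a Sylow 3-subgroup containing zN
  have hp3 : IsPGroup 3 (Subgroup.zpowers zN) := by
    apply IsPGroup.of_card (n := 1)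
    rw [Nat.card_zpowers, hzN, pow_one]
  obtain ⟨Z, hZ⟩ := hp3.exists_le_sylow
  have hcomm : ∀ t ∈ T, Commute t zN := fun t ht =>
    commute_sylow (by norm_num) T Z t zN ht (hZ (Subgroup.mem_zpowers zN))
  set z : Perm (Fin n) := (zN : Perm (Fin n)) with hz
  have hz3 : orderOf z = 3 := by rw [hz, Subgroup.orderOf_coe, hzN]
  obtain ⟨j, hj⟩ := cycleType_prime_order (σ := z) (by rw [hz3]; exact Nat.prime_three)
  rw [hz3] at hj
  set Q : Subgroup (Perm (Fin n)) := (T : Subgroup N).map N.subtype with hQ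
  have hQcard : Nat.card Q = 2 ^ e := by
    rw [hQ, Subgroup.card_map_of_injective (Subgroup.subtype_injective N)]
    exact hT
  have hQcent : Q ≤ Subgroup.centralizer {z} := by
    rintro _ ⟨t, ht, rfl⟩
    rw [Subgroup.mem_centralizer_iff]
    intro y hy
    rw [Set.mem_singleton_iff] at hy
    subst hy
    have := (hcomm t ht).eq
    have h2 := congrArg (Subtype.val) this
    simp only [Subgroup.coe_mul] at h2
    exact h2.symm
  -- cardinality of the centralizer
  have hcardC : Nat.card (Subgroup.centralizer {z}) = (n - 3 * (j + 1))! * 3 ^ (j + 1) * (j + 1)! := by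
    have hts : (Multiset.replicate (j + 1) 3).toFinset = {3} := by
      rw [Multiset.toFinset_replicate]; simp
    rw [nat_card_centralizer, hj, hts, Finset.prod_singleton, Multiset.count_replicate_self,
      Multiset.sum_replicate, Multiset.prod_replicate, Fintype.card_fin, smul_eq_mul,
      mul_comm (j + 1) 3]
  have hsum : 3 * (j + 1) ≤ n := by
    have h1 := sum_cycleType z
    rw [hj] at h1
    simp only [Multiset.sum_replicate, smul_eq_mul] at h1
    have h2 : z.support.card ≤ Fintype.card (Fin n) := Finset.card_le_univ _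
    rw [Fintype.card_fin] at h2
    omega
  have hdvd : 2 ^ e ∣ (n - 3 * (j + 1))! * (j + 1)! := by
    have h1 : 2 ^ e ∣ (n - 3 * (j + 1))! * 3 ^ (j + 1) * (j + 1)! := by
      rw [← hcardC, ← hQcard]
      exact Subgroup.card_dvd_of_le hQcent
    have h2 : (n - 3 * (j + 1))! * 3 ^ (j + 1) * (j + 1)! =
        3 ^ (j + 1) * ((n - 3 * (j + 1))! * (j + 1)!) := by ring
    rw [h2] at h1
    exact (Nat.Coprime.dvd_mul_left (Nat.Coprime.pow _ _ (by norm_num))).1 h1
  have hj0 : j = 0 := by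
    by_contra hne
    have h7 : 7 ≤ n := by omega
    have h1 : (n - 3 * (j + 1))! * (j + 1)! ∣ (n - 3 * (j + 1) + (j + 1))! :=
      Nat.factorial_mul_factorial_dvd_factorial_add _ _
    have h2 : (n - 3 * (j + 1) + (j + 1))! ∣ (n - 4)! :=
      Nat.factorial_dvd_factorial (by omega)
    exact two_pow_dvd_factorial_lt hn h7 he (hdvd.trans (h1.trans h2))
  subst hj0
  have hz3c : z.IsThreeCycle := by
    unfold IsThreeCycle
    rw [hj]
    rfl
  refine ⟨z, Q, hz3c, hQcard, hQcent, ?_⟩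
  have hle : Q ⊔ Subgroup.zpowers z ≤ N := by
    refine sup_le ?_ ?_
    · rw [hQ]; exact Subgroup.map_subtype_le _
    · rw [Subgroup.zpowers_le]; exact zN.2
  refine (Subgroup.eq_of_le_of_card_ge hle ?_).symm
  have d1 : 2 ^ e ∣ Nat.card (Q ⊔ Subgroup.zpowers z : Subgroup (Perm (Fin n))) := by
    rw [← hQcard]; exact Subgroup.card_dvd_of_le le_sup_left
  have d2 : 3 ∣ Nat.card (Q ⊔ Subgroup.zpowers z : Subgroup (Perm (Fin n))) := by
    have : Nat.card (Subgroup.zpowers z) = 3 := by rw [Nat.card_zpowers, hz3]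
    rw [← this]; exact Subgroup.card_dvd_of_le le_sup_right
  have d3 : 3 * 2 ^ e ∣ Nat.card (Q ⊔ Subgroup.zpowers z : Subgroup (Perm (Fin n))) :=
    Nat.Coprime.mul_dvd_of_dvd_of_dvd (Nat.Coprime.pow_right _ (by norm_num)) d2 d1
  rw [hcard]
  exact Nat.le_of_dvd Nat.card_pos d3

/-- Any two nilpotent subgroups of `S_n` of order `3 * 2 ^ ν₂((n-3)!)` are conjugate. -/
theorem conj_thm {n e : ℕ} (hn : n % 4 = 3) (he : e = (n - 3)!.factorization 2)
    (N₁ N₂ : Subgroup (Perm (Fin n))) (h₁ : Group.IsNilpotent N₁) (h₂ : Group.IsNilpotent N₂)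
    (c₁ : Nat.card N₁ = 3 * 2 ^ e) (c₂ : Nat.card N₂ = 3 * 2 ^ e) :
    ∃ g : Perm (Fin n), N₂ = N₁.map (MulAut.conj g).toMonoidHom := by
  have : Fact (Nat.Prime 2) := ⟨Nat.prime_two⟩
  obtain ⟨z₁, Q₁, hz₁, hQ₁, hc₁, rfl⟩ := structure_thm hn he N₁ h₁ c₁
  obtain ⟨z₂, Q₂, hz₂, hQ₂, hc₂, rfl⟩ := structure_thm hn he N₂ h₂ c₂
  obtain ⟨g₀, hg₀⟩ : ∃ g₀, g₀ * z₁ * g₀⁻¹ = z₂ :=
    isConj_iff.1 (isConj_iff_cycleType_eq.2 (hz₁.cycleType.trans hz₂.cycleType.symm))
  have hn3 : 3 ≤ n := by omega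
  have hcardC : Nat.card (Subgroup.centralizer {z₂}) = (n - 3)! * 3 := by
    rw [nat_card_centralizer, hz₂.cycleType]
    simp
  have hfac : (Nat.card (Subgroup.centralizer {z₂})).factorization 2 = e := by
    rw [hcardC, Nat.factorization_mul (Nat.factorial_ne_zero _) (by norm_num), he]
    simp [Nat.factorization_eq_zero_of_not_dvd]
  have hQ₁' : Q₁.map (MulAut.conj g₀).toMonoidHom ≤ Subgroup.centralizer {z₂} := by
    rintro _ ⟨x, hx, rfl⟩
    rw [Subgroup.mem_centralizer_iff]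
    intro y hy
    rw [Set.mem_singleton_iff] at hy
    subst hy
    have hxz := hc₁ hx
    rw [Subgroup.mem_centralizer_iff] at hxz
    have hxz' := hxz z₁ (Set.mem_singleton _)
    simp only [MulEquiv.coe_toMonoidHom, MulAut.conj_apply]
    rw [← hg₀]
    calc g₀ * z₁ * g₀⁻¹ * (g₀ * x * g₀⁻¹) = g₀ * (z₁ * x) * g₀⁻¹ := by group
      _ = g₀ * (x * z₁) * g₀⁻¹ := by rw [hxz']
      _ = g₀ * x * g₀⁻¹ * (g₀ * z₁ * g₀⁻¹) := by group
  have hcard' : Nat.card (Q₁.map (MulAut.conj g₀).toMonoidHom) = 2 ^ e := by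
    rw [Subgroup.card_map_of_injective (MulAut.conj g₀).injective, hQ₁]
  obtain ⟨h, hhC, hB⟩ := exists_conj_of_card (p := 2) (Subgroup.centralizer {z₂})
    (Q₁.map (MulAut.conj g₀).toMonoidHom) Q₂ hQ₁' hc₂ (by rw [hcard', hfac]) (by rw [hQ₂, hfac])
  refine ⟨h * g₀, ?_⟩
  have hcomp : (MulAut.conj (h * g₀)).toMonoidHom =
      (MulAut.conj h).toMonoidHom.comp (MulAut.conj g₀).toMonoidHom := by
    ext x
    simp [mul_assoc]
  rw [Subgroup.map_sup, MonoidHom.map_zpowers, hcomp, ← Subgroup.map_map, ← hB]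
  congr 2
  rw [Subgroup.mem_centralizer_iff] at hhC
  have hh := hhC z₂ (Set.mem_singleton _)
  simp only [MonoidHom.comp_apply, MulEquiv.coe_toMonoidHom, MulAut.conj_apply]
  rw [hg₀, ← hh]
  group

end Cfsg.Agent.Lib.Helper45.NilC3
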