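import Mathlib

set_option autoImplicit false

/-!
Existence of a nilpotent subgroup `P × C₃` of `S_n` (`n ≥ 3`), `P` a Sylow `2`-subgroup of
`S_{n-3}` acting on the first `n - 3` points and `C₃` generated by a `3`-cycle on the last three.
-/

namespace Cfsg.Agent.Lib.Helper45.NilC3

open Equiv Equiv.Perm

/-- the homomorphism `Multiplicative (ZMod 3) →* G` attached to an element of order `3` -/
noncomputable def zmod3Hom {G : Type*} [Group G] (z : G) (hz : orderOf z = 3) :
    Multiplicative (ZMod 3) →* G :=
  MonoidHom.mk' (fun c => z ^ (Multiplicative.toAdd c).val) (by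
    intro c d
    change z ^ (Multiplicative.toAdd c + Multiplicative.toAdd d).val = _
    have h := pow_mod_orderOf z ((Multiplicative.toAdd c).val + (Multiplicative.toAdd d).val)
    rw [hz] at h
    rw [ZMod.val_add, h, pow_add])

theorem zmod3Hom_apply {G : Type*} [Group G] (z : G) (hz : orderOf z = 3)
    (c : Multiplicative (ZMod 3)) : zmod3Hom z hz c = z ^ (Multiplicative.toAdd c).val := rfl

/-- General existence statement: a `2`-subgroup `P` of `Perm α` embedded via `ι : α ↪ β`
together with a `3`-cycle `z` whose support avoids the range of `ι`. -/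
theorem exists_prod {α β : Type*} [Fintype α] [DecidableEq α] [Fintype β] [DecidableEq β]
    (ι : α ↪ β) (P : Subgroup (Perm α)) (hP : Group.IsNilpotent P) (z : Perm β)
    (hz : z.IsThreeCycle) (hdisj : ∀ x, z (ι x) = ι x) :
    ∃ M : Subgroup (Perm β), Group.IsNilpotent M ∧ Nat.card M = 3 * Nat.card P ∧
      Nonempty (M ≃* (↥P × Multiplicative (ZMod 3))) := by
  classical
  have hz3 : orderOf z = 3 := hz.orderOf
  let f : ↥P →* Perm β := (viaEmbeddingHom ι).comp P.subtype
  let g : Multiplicative (ZMod 3) →* Perm β := zmod3Hom z hz3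
  have hfix : ∀ (p : ↥P) (x : β), z x ≠ x → f p x = x := by
    intro p x hx
    have hx' : x ∉ Set.range ι := by
      rintro ⟨y, rfl⟩
      exact hx (hdisj y)
    change (viaEmbeddingHom ι (p : Perm α)) x = x
    rw [viaEmbeddingHom_apply, viaEmbedding_apply_of_notMem _ _ _ hx']
  have hcommz : ∀ p : ↥P, Commute (f p) z := by
    intro p
    apply Equiv.Perm.Disjoint.commute
    intro x
    by_cases hx : z x = x
    · exact Or.inr hx
    · exact Or.inl (hfix p x hx)
  have hcomm : ∀ (p : ↥P) (c : Multiplicative (ZMod 3)), Commute (f p) (g c) := by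
    intro p c
    change Commute (f p) (z ^ _)
    exact (hcommz p).pow_right _
  let φ : ↥P × Multiplicative (ZMod 3) →* Perm β := MonoidHom.noncommCoprod f g hcomm
  have hφ : Function.Injective φ := by
    rw [injective_iff_map_eq_one]
    rintro ⟨p, c⟩ h
    have h1 : f p * g c = 1 := h
    obtain ⟨a, ha⟩ : ∃ a, z a ≠ a := by
      have := hz.card_support
      have hne : z.support.Nonempty := by
        rw [← Finset.card_pos, this]; norm_num
      obtain ⟨a, ha⟩ := hne
      exact ⟨a, mem_support.1 ha⟩
    have h2 : g c = (f p)⁻¹ := eq_inv_of_mul_eq_one_right h1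
    have h3 : (g c) a = a := by
      rw [h2]
      have := hfix p a ha
      rw [Perm.inv_eq_iff_eq]
      exact this.symm
    have h4 : z ^ (Multiplicative.toAdd c).val = 1 :=
      (hz.isCycle.pow_eq_one_iff' ha).2 h3
    have h5 : 3 ∣ (Multiplicative.toAdd c).val := by
      have h5' := orderOf_dvd_of_pow_eq_one h4
      rw [hz3] at h5'
      exact h5'
    have h6 : (Multiplicative.toAdd c).val < 3 := ZMod.val_lt _
    have h7 : (Multiplicative.toAdd c).val = 0 := by omega
    have h8 : Multiplicative.toAdd c = 0 := (ZMod.val_eq_zero _).1 h7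
    have h9 : c = 1 := by
      rw [← ofAdd_toAdd c, h8]; rfl
    subst h9
    rw [map_one, mul_one] at h1
    have h10 : (p : Perm α) = 1 := by
      apply viaEmbeddingHom_injective ι
      rw [map_one]
      exact h1
    have h11 : p = 1 := Subtype.ext h10
    rw [h11]
    rfl
  let e : (↥P × Multiplicative (ZMod 3)) ≃* φ.range := MonoidHom.ofInjective hφ
  refine ⟨φ.range, ?_, ?_, ⟨e.symm⟩⟩
  · have := hP
    exact Group.nilpotent_of_mulEquiv e
  · rw [← Nat.card_congr e.toEquiv, Nat.card_prod]
    have : Nat.card (Multiplicative (ZMod 3)) = 3 := by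
      rw [Nat.card_eq_fintype_card, Fintype.card_multiplicative, ZMod.card]
    rw [this, mul_comm]

/-- the version on `Fin n` -/
theorem exists_nil {n : ℕ} (h3 : 3 ≤ n) (P : Subgroup (Perm (Fin (n - 3))))
    (hP : Group.IsNilpotent P) :
    ∃ M : Subgroup (Perm (Fin n)), Group.IsNilpotent M ∧ Nat.card M = 3 * Nat.card P ∧
      Nonempty (M ≃* (↥P × Multiplicative (ZMod 3))) := by
  let a : Fin n := ⟨n - 3, by omega⟩
  let b : Fin n := ⟨n - 2, by omega⟩
  let c : Fin n := ⟨n - 1, by omega⟩
  have hab : a ≠ b := by
    intro h; have := congrArg Fin.val h; simp only [a, b] at this; omega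
  have hac : a ≠ c := by
    intro h; have := congrArg Fin.val h; simp only [a, c] at this; omega
  have hbc : b ≠ c := by
    intro h; have := congrArg Fin.val h; simp only [b, c] at this; omega
  refine exists_prod (Fin.castLEEmb (Nat.sub_le n 3)) P hP (swap a b * swap a c)
    (isThreeCycle_swap_mul_swap_same hab hac hbc) ?_
  intro x
  have hx : ((Fin.castLEEmb (Nat.sub_le n 3)) x : Fin n).val < n - 3 := by
    simp
  have ha : (Fin.castLEEmb (Nat.sub_le n 3)) x ≠ a := by
    intro h; have := congrArg Fin.val h; simp only [a] at this; omega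
  have hb : (Fin.castLEEmb (Nat.sub_le n 3)) x ≠ b := by
    intro h; have := congrArg Fin.val h; simp only [b] at this; omega
  have hc : (Fin.castLEEmb (Nat.sub_le n 3)) x ≠ c := by
    intro h; have := congrArg Fin.val h; simp only [c] at this; omega
  rw [Perm.mul_apply, swap_apply_of_ne_of_ne ha hc, swap_apply_of_ne_of_ne ha hb]

end Cfsg.Agent.Lib.Helper45.NilC3
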