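import Mathlib
import Cfsg.Agent.Lib.Helper45.NilC3a
import Cfsg.Agent.Lib.Helper45.NilC3b

set_option autoImplicit false

/-!
Extremal nilpotent subgroups of `A_n` for `n ≡ 3 (mod 4)`, `n ≥ 7`: structure, conjugacy in `A_n`
and existence of `P × C₃` with `P` a Sylow `2`-subgroup of `A_{n-3}`.
-/

namespace Cfsg.Agent.Lib.Helper45.NilC3

open Equiv Equiv.Perm
open scoped Pointwise Nat

/-- Structure of a nilpotent subgroup of `S_n` of order `3 * 2 ^ e` when `2 ^ e ∤ (n-4)!`. -/
theorem structure_gen {n e : ℕ} (hnd : ¬ 2 ^ e ∣ (n - 4)!)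
    (N : Subgroup (Perm (Fin n))) (hN : Group.IsNilpotent N) (hcard : Nat.card N = 3 * 2 ^ e) :
    ∃ (z : Perm (Fin n)) (Q : Subgroup (Perm (Fin n))), z.IsThreeCycle ∧ Nat.card Q = 2 ^ e ∧
      Q ≤ Subgroup.centralizer {z} ∧ N = Q ⊔ Subgroup.zpowers z := by
  have := hN
  have : Fact (Nat.Prime 2) := ⟨Nat.prime_two⟩
  have : Fact (Nat.Prime 3) := ⟨Nat.prime_three⟩
  obtain ⟨zN, hzN⟩ := exists_prime_orderOf_dvd_card' (G := N) 3 (by rw [hcard]; exact dvd_mul_right _ _)
  let T : Sylow 2 N := default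
  have hT : Nat.card T = 2 ^ e := by
    rw [Sylow.card_eq_multiplicity, hcard, fact_three_mul]
  have hp3 : IsPGroup 3 (Subgroup.zpowers zN) := by
    apply IsPGroup.of_card (n := 1)
    rw [Nat.card_zpowers, hzN, pow_one]
  obtain ⟨Z, hZ⟩ := hp3.exists_le_sylow
  have hcomm : ∀ t ∈ T, Commute t zN := fun t ht =>
    commute_sylow (by norm_num) T Z t zN ht (hZ (Subgroup.mem_zpowers zN))
  set z : Perm (Fin n) := (zN : Perm (Fin n)) with hz
  have hz3 : orderOf z = 3 := by rw [hz, Subgroup.orderOf_coe, hzN]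
  obtain ⟨j, hj⟩ := cycleType_prime_order (σ := z) (by rw [hz3]; exact Nat.prime_three)
  rw [hz3] at hj
  set Q : Subgroup (Perm (Fin n)) := (T : Subgroup N).map N.subtype with hQ
  have hQcard : Nat.card Q = 2 ^ e := by
    rw [hQ, Subgroup.card_map_of_injective (Subgroup.subtype_injective N)]
    exact hT
  have hQcent : Q ≤ Subgroup.centralizer {z} := by
    rintro _ ⟨t, ht, rfl⟩
    rw [Subgroup.mem_centralizer_iff]
    intro y hy
    rw [Set.mem_singleton_iff] at hy
    subst hy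
    have := (hcomm t ht).eq
    have h2 := congrArg (Subtype.val) this
    simp only [Subgroup.coe_mul] at h2
    exact h2.symm
  have hcardC : Nat.card (Subgroup.centralizer {z}) = (n - 3 * (j + 1))! * 3 ^ (j + 1) * (j + 1)! := by
    have hts : (Multiset.replicate (j + 1) 3).toFinset = {3} := by
      rw [Multiset.toFinset_replicate]; simp
    rw [nat_card_centralizer, hj, hts, Finset.prod_singleton, Multiset.count_replicate_self,
      Multiset.sum_replicate, Multiset.prod_replicate, Fintype.card_fin, smul_eq_mul,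
      mul_comm (j + 1) 3]
  have hsum : 3 * (j + 1) ≤ n := by
    have h1 := sum_cycleType z
    rw [hj] at h1
    simp only [Multiset.sum_replicate, smul_eq_mul] at h1
    have h2 : z.support.card ≤ Fintype.card (Fin n) := Finset.card_le_univ _
    rw [Fintype.card_fin] at h2
    omega
  have hdvd : 2 ^ e ∣ (n - 3 * (j + 1))! * (j + 1)! := by
    have h1 : 2 ^ e ∣ (n - 3 * (j + 1))! * 3 ^ (j + 1) * (j + 1)! := by
      rw [← hcardC, ← hQcard]
      exact Subgroup.card_dvd_of_le hQcent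
    have h2 : (n - 3 * (j + 1))! * 3 ^ (j + 1) * (j + 1)! =
        3 ^ (j + 1) * ((n - 3 * (j + 1))! * (j + 1)!) := by ring
    rw [h2] at h1
    exact (Nat.Coprime.dvd_mul_left (Nat.Coprime.pow _ _ (by norm_num))).1 h1
  have hj0 : j = 0 := by
    by_contra hne
    have h1 : (n - 3 * (j + 1))! * (j + 1)! ∣ (n - 3 * (j + 1) + (j + 1))! :=
      Nat.factorial_mul_factorial_dvd_factorial_add _ _
    have h2 : (n - 3 * (j + 1) + (j + 1))! ∣ (n - 4)! :=
      Nat.factorial_dvd_factorial (by omega)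
    exact hnd (hdvd.trans (h1.trans h2))
  subst hj0
  have hz3c : z.IsThreeCycle := by
    unfold IsThreeCycle
    rw [hj]
    rfl
  refine ⟨z, Q, hz3c, hQcard, hQcent, ?_⟩
  have hle : Q ⊔ Subgroup.zpowers z ≤ N := by
    refine sup_le ?_ ?_
    · rw [hQ]; exact Subgroup.map_subtype_le _
    · rw [Subgroup.zpowers_le]; exact zN.2
  refine (Subgroup.eq_of_le_of_card_ge hle ?_).symm
  have d1 : 2 ^ e ∣ Nat.card (Q ⊔ Subgroup.zpowers z : Subgroup (Perm (Fin n))) := by
    rw [← hQcard]; exact Subgroup.card_dvd_of_le le_sup_left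
  have d2 : 3 ∣ Nat.card (Q ⊔ Subgroup.zpowers z : Subgroup (Perm (Fin n))) := by
    have : Nat.card (Subgroup.zpowers z) = 3 := by rw [Nat.card_zpowers, hz3]
    rw [← this]; exact Subgroup.card_dvd_of_le le_sup_right
  have d3 : 3 * 2 ^ e ∣ Nat.card (Q ⊔ Subgroup.zpowers z : Subgroup (Perm (Fin n))) :=
    Nat.Coprime.mul_dvd_of_dvd_of_dvd (Nat.Coprime.pow_right _ (by norm_num)) d2 d1
  rw [hcard]
  exact Nat.le_of_dvd Nat.card_pos d3

/-- cardinality of the even part of a subgroup containing an odd permutation -/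
theorem two_mul_card_inf_alt {n : ℕ} (Z : Subgroup (Perm (Fin n))) (τ : Perm (Fin n))
    (hτ : τ ∈ Z) (hodd : τ ∉ alternatingGroup (Fin n)) :
    2 * Nat.card (alternatingGroup (Fin n) ⊓ Z : Subgroup (Perm (Fin n))) = Nat.card Z := by
  have hnt : Nontrivial (Fin n) := by
    by_contra h
    rw [not_nontrivial_iff_subsingleton] at h
    exact hodd (by
      have : τ = 1 := Subsingleton.elim _ _
      rw [this]; exact Subgroup.one_mem _)
  have h1 : (alternatingGroup (Fin n)).relIndex Z ∣ 2 := by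
    have := Subgroup.relIndex_dvd_index_of_normal (alternatingGroup (Fin n)) Z
    rwa [alternatingGroup.index_eq_two] at this
  have h2 : (alternatingGroup (Fin n)).relIndex Z ≠ 1 := by
    intro h
    rw [Subgroup.relIndex_eq_one] at h
    exact hodd (h hτ)
  have h3 : (alternatingGroup (Fin n)).relIndex Z = 2 := by
    rcases (Nat.dvd_prime Nat.prime_two).1 h1 with h | h
    · exact absurd h h2
    · exact h
  have h4 : Nat.card ((alternatingGroup (Fin n) ⊓ Z).subgroupOf Z) *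
      ((alternatingGroup (Fin n) ⊓ Z).subgroupOf Z).index = Nat.card Z :=
    Subgroup.card_mul_index _
  have h5 : ((alternatingGroup (Fin n) ⊓ Z).subgroupOf Z).index = 2 := by
    have : ((alternatingGroup (Fin n) ⊓ Z).subgroupOf Z).index =
        (alternatingGroup (Fin n) ⊓ Z).relIndex Z := rfl
    rw [this, Subgroup.inf_relIndex_right, h3]
  have h6 : Nat.card ((alternatingGroup (Fin n) ⊓ Z).subgroupOf Z) =
      Nat.card (alternatingGroup (Fin n) ⊓ Z : Subgroup (Perm (Fin n))) :=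
    Nat.card_congr (Subgroup.subgroupOfEquivOfLe inf_le_right).toEquiv
  rw [h5, h6] at h4
  omega

/-- a transposition commuting with a given `3`-cycle, `n ≥ 5` -/
theorem exists_swap_comm {n : ℕ} (h5 : 5 ≤ n) (z : Perm (Fin n)) (hz : z.IsThreeCycle) :
    ∃ τ : Perm (Fin n), τ ∉ alternatingGroup (Fin n) ∧ τ * z = z * τ := by
  have hc : 1 < (z.supportᶜ).card := by
    rw [Finset.card_compl, hz.card_support, Fintype.card_fin]
    omega
  obtain ⟨x, hx, y, hy, hxy⟩ := Finset.one_lt_card.1 hc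
  rw [Finset.mem_compl, notMem_support] at hx hy
  refine ⟨swap x y, ?_, ?_⟩
  · rw [mem_alternatingGroup, sign_swap hxy]
    decide
  · have hd : Disjoint (swap x y) z := by
      intro w
      by_cases hw : z w = w
      · exact Or.inr hw
      · left
        have h1 : w ≠ x := fun h => hw (h ▸ hx)
        have h2 : w ≠ y := fun h => hw (h ▸ hy)
        exact swap_apply_of_ne_of_ne h1 h2
    exact hd.commute.eq

/-- Conjugacy in `A_n` of the extremal nilpotent subgroups (as subgroups of `S_n` inside `A_n`). -/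
theorem conj_alt {n e : ℕ} (h5 : 5 ≤ n) (hnd : ¬ 2 ^ e ∣ (n - 4)!)
    (he : (n - 3)!.factorization 2 = e + 1)
    (N₁ N₂ : Subgroup (Perm (Fin n))) (a₁ : N₁ ≤ alternatingGroup (Fin n))
    (a₂ : N₂ ≤ alternatingGroup (Fin n))
    (h₁ : Group.IsNilpotent N₁) (h₂ : Group.IsNilpotent N₂)
    (c₁ : Nat.card N₁ = 3 * 2 ^ e) (c₂ : Nat.card N₂ = 3 * 2 ^ e) :
    ∃ g ∈ alternatingGroup (Fin n), N₂ = N₁.map (MulAut.conj g).toMonoidHom := by
  have : Fact (Nat.Prime 2) := ⟨Nat.prime_two⟩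
  obtain ⟨z₁, Q₁, hz₁, hQ₁, hc₁, rfl⟩ := structure_gen hnd N₁ h₁ c₁
  obtain ⟨z₂, Q₂, hz₂, hQ₂, hc₂, rfl⟩ := structure_gen hnd N₂ h₂ c₂
  obtain ⟨τ, hτodd, hτ⟩ := exists_swap_comm h5 z₂ hz₂
  obtain ⟨g₀, hg₀A, hg₀⟩ : ∃ g₀ ∈ alternatingGroup (Fin n), g₀ * z₁ * g₀⁻¹ = z₂ := by
    obtain ⟨g, hg⟩ : ∃ g, g * z₁ * g⁻¹ = z₂ :=
      isConj_iff.1 (isConj_iff_cycleType_eq.2 (hz₁.cycleType.trans hz₂.cycleType.symm))
    by_cases hgA : g ∈ alternatingGroup (Fin n)
    · exact ⟨g, hgA, hg⟩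
    · refine ⟨τ * g, ?_, ?_⟩
      · rw [mem_alternatingGroup] at hgA hτodd ⊢
        rw [Perm.sign_mul]
        rcases Int.units_eq_one_or (sign g) with h | h
        · exact absurd h hgA
        · rcases Int.units_eq_one_or (sign τ) with h' | h'
          · exact absurd h' hτodd
          · rw [h, h']; decide
      · calc τ * g * z₁ * (τ * g)⁻¹ = τ * (g * z₁ * g⁻¹) * τ⁻¹ := by group
          _ = τ * z₂ * τ⁻¹ := by rw [hg]
          _ = z₂ := by rw [hτ]; group
  set C : Subgroup (Perm (Fin n)) := alternatingGroup (Fin n) ⊓ Subgroup.centralizer {z₂} with hC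
  have hcardZ : Nat.card (Subgroup.centralizer {z₂}) = (n - 3)! * 3 := by
    rw [nat_card_centralizer, hz₂.cycleType]
    simp
  have hcardC : 2 * Nat.card C = (n - 3)! * 3 := by
    rw [← hcardZ]
    refine two_mul_card_inf_alt _ τ ?_ hτodd
    rw [Subgroup.mem_centralizer_iff]
    intro y hy
    rw [Set.mem_singleton_iff] at hy
    subst hy
    exact hτ.symm
  have hfac : (Nat.card C).factorization 2 = e := by
    have hpos : Nat.card C ≠ 0 := Nat.card_pos.ne'
    have h1 : (2 * Nat.card C).factorization 2 = 1 + (Nat.card C).factorization 2 := by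
      rw [Nat.factorization_mul (by norm_num) hpos]
      simp [Nat.Prime.factorization_self Nat.prime_two]
    have h2 : ((n - 3)! * 3).factorization 2 = (n - 3)!.factorization 2 := by
      rw [Nat.factorization_mul (Nat.factorial_ne_zero _) (by norm_num)]
      simp [Nat.factorization_eq_zero_of_not_dvd]
    rw [hcardC, h2, he] at h1
    omega
  have hQ₁' : Q₁.map (MulAut.conj g₀).toMonoidHom ≤ C := by
    rintro _ ⟨x, hx, rfl⟩
    rw [hC, Subgroup.mem_inf]
    constructor
    · have hxA : x ∈ alternatingGroup (Fin n) := a₁ (le_sup_left (a := Q₁) hx)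
      simp only [MulEquiv.coe_toMonoidHom, MulAut.conj_apply]
      exact Subgroup.mul_mem _ (Subgroup.mul_mem _ hg₀A hxA) (Subgroup.inv_mem _ hg₀A)
    · rw [Subgroup.mem_centralizer_iff]
      intro y hy
      rw [Set.mem_singleton_iff] at hy
      subst hy
      have hxz := hc₁ hx
      rw [Subgroup.mem_centralizer_iff] at hxz
      have hxz' := hxz z₁ (Set.mem_singleton _)
      simp only [MulEquiv.coe_toMonoidHom, MulAut.conj_apply]
      rw [← hg₀]
      calc g₀ * z₁ * g₀⁻¹ * (g₀ * x * g₀⁻¹) = g₀ * (z₁ * x) * g₀⁻¹ := by group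
        _ = g₀ * (x * z₁) * g₀⁻¹ := by rw [hxz']
        _ = g₀ * x * g₀⁻¹ * (g₀ * z₁ * g₀⁻¹) := by group
  have hQ₂' : Q₂ ≤ C := by
    intro x hx
    rw [hC, Subgroup.mem_inf]
    exact ⟨a₂ (le_sup_left (a := Q₂) hx), hc₂ hx⟩
  have hcard' : Nat.card (Q₁.map (MulAut.conj g₀).toMonoidHom) = 2 ^ e := by
    rw [Subgroup.card_map_of_injective (MulAut.conj g₀).injective, hQ₁]
  obtain ⟨h, hhC, hB⟩ := exists_conj_of_card (p := 2) C
    (Q₁.map (MulAut.conj g₀).toMonoidHom) Q₂ hQ₁' hQ₂' (by rw [hcard', hfac]) (by rw [hQ₂, hfac])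
  rw [hC, Subgroup.mem_inf] at hhC
  refine ⟨h * g₀, Subgroup.mul_mem _ hhC.1 hg₀A, ?_⟩
  have hcomp : (MulAut.conj (h * g₀)).toMonoidHom =
      (MulAut.conj h).toMonoidHom.comp (MulAut.conj g₀).toMonoidHom := by
    ext x
    simp [mul_assoc]
  rw [Subgroup.map_sup, MonoidHom.map_zpowers, hcomp, ← Subgroup.map_map, ← hB]
  congr 2
  have hhZ := hhC.2
  rw [Subgroup.mem_centralizer_iff] at hhZ
  have hh := hhZ z₂ (Set.mem_singleton _)
  simp only [MonoidHom.comp_apply, MulEquiv.coe_toMonoidHom, MulAut.conj_apply]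
  rw [hg₀, ← hh]
  group

end Cfsg.Agent.Lib.Helper45.NilC3
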