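import Mathlib
import Cfsg.Agent.Lib.Helper45.NilC3c

set_option autoImplicit false

/-!
Extremal nilpotent subgroups of `A_n` (`n ≡ 3 (mod 4)`, `n ≥ 7`), stated for subgroups of
`alternatingGroup (Fin n)`: conjugacy and existence.
-/

namespace Cfsg.Agent.Lib.Helper45.NilC3

open Equiv Equiv.Perm
open scoped Pointwise Nat

/-- Existence statement with control of the ambient subgroup. -/
theorem exists_prod' {α β : Type*} [Fintype α] [DecidableEq α] [Fintype β] [DecidableEq β]
    (ι : α ↪ β) (P : Subgroup (Perm α)) (hP : Group.IsNilpotent P) (z : Perm β)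
    (hz : z.IsThreeCycle) (hdisj : ∀ x, z (ι x) = ι x) (K : Subgroup (Perm β))
    (hK : ∀ p ∈ P, viaEmbeddingHom ι p ∈ K) (hzK : z ∈ K) :
    ∃ M : Subgroup (Perm β), M ≤ K ∧ Group.IsNilpotent M ∧ Nat.card M = 3 * Nat.card P ∧
      Nonempty (M ≃* (↥P × Multiplicative (ZMod 3))) := by
  classical
  have hz3 : orderOf z = 3 := hz.orderOf
  let f : ↥P →* Perm β := (viaEmbeddingHom ι).comp P.subtype
  let g : Multiplicative (ZMod 3) →* Perm β := zmod3Hom z hz3
  have hfix : ∀ (p : ↥P) (x : β), z x ≠ x → f p x = x := by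
    intro p x hx
    have hx' : x ∉ Set.range ι := by
      rintro ⟨y, rfl⟩
      exact hx (hdisj y)
    change (viaEmbeddingHom ι (p : Perm α)) x = x
    rw [viaEmbeddingHom_apply, viaEmbedding_apply_of_notMem _ _ _ hx']
  have hcommz : ∀ p : ↥P, Commute (f p) z := by
    intro p
    apply Equiv.Perm.Disjoint.commute
    intro x
    by_cases hx : z x = x
    · exact Or.inr hx
    · exact Or.inl (hfix p x hx)
  have hcomm : ∀ (p : ↥P) (c : Multiplicative (ZMod 3)), Commute (f p) (g c) := by
    intro p c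
    change Commute (f p) (z ^ _)
    exact (hcommz p).pow_right _
  let F : ↥P × Multiplicative (ZMod 3) →* Perm β := MonoidHom.noncommCoprod f g hcomm
  have hF : Function.Injective F := by
    rw [injective_iff_map_eq_one]
    rintro ⟨p, c⟩ h
    have h1 : f p * g c = 1 := h
    obtain ⟨a, ha⟩ : ∃ a, z a ≠ a := by
      have := hz.card_support
      have hne : z.support.Nonempty := by
        rw [← Finset.card_pos, this]; norm_num
      obtain ⟨a, ha⟩ := hne
      exact ⟨a, mem_support.1 ha⟩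
    have h2 : g c = (f p)⁻¹ := eq_inv_of_mul_eq_one_right h1
    have h3 : (g c) a = a := by
      rw [h2]
      have := hfix p a ha
      rw [Perm.inv_eq_iff_eq]
      exact this.symm
    have h4 : z ^ (Multiplicative.toAdd c).val = 1 :=
      (hz.isCycle.pow_eq_one_iff' ha).2 h3
    have h5 : 3 ∣ (Multiplicative.toAdd c).val := by
      have h5' := orderOf_dvd_of_pow_eq_one h4
      rw [hz3] at h5'
      exact h5'
    have h6 : (Multiplicative.toAdd c).val < 3 := ZMod.val_lt _
    have h7 : (Multiplicative.toAdd c).val = 0 := by omega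
    have h8 : Multiplicative.toAdd c = 0 := (ZMod.val_eq_zero _).1 h7
    have h9 : c = 1 := by
      rw [← ofAdd_toAdd c, h8]; rfl
    subst h9
    rw [map_one, mul_one] at h1
    have h10 : (p : Perm α) = 1 := by
      apply viaEmbeddingHom_injective ι
      rw [map_one]
      exact h1
    have h11 : p = 1 := Subtype.ext h10
    rw [h11]
    rfl
  let e : (↥P × Multiplicative (ZMod 3)) ≃* F.range := MonoidHom.ofInjective hF
  refine ⟨F.range, ?_, ?_, ?_, ⟨e.symm⟩⟩
  · rintro _ ⟨⟨p, c⟩, rfl⟩
    have h1 : F (p, c) = f p * g c := rfl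
    rw [h1]
    refine K.mul_mem (hK _ p.2) ?_
    change z ^ _ ∈ K
    exact K.pow_mem hzK _
  · have := hP
    exact Group.nilpotent_of_mulEquiv e
  · rw [← Nat.card_congr e.toEquiv, Nat.card_prod]
    have : Nat.card (Multiplicative (ZMod 3)) = 3 := by
      rw [Nat.card_eq_fintype_card, Fintype.card_multiplicative, ZMod.card]
    rw [this, mul_comm]

theorem sign_viaEmbeddingHom {α β : Type*} [Fintype α] [DecidableEq α] [Fintype β]
    [DecidableEq β] (ι : α ↪ β) (p : Perm α) : sign (viaEmbeddingHom ι p) = sign p := by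
  classical
  rw [viaEmbeddingHom_apply]
  unfold viaEmbedding
  exact @sign_extendDomain _ _ _ _ _ _ p _ (fun a => Classical.propDecidable _)
    (ofInjective ι.1 ι.2)

/-- existence in `A_n` -/
theorem exists_alt {n : ℕ} (h3 : 3 ≤ n) (P : Subgroup (alternatingGroup (Fin (n - 3))))
    (hP : Group.IsNilpotent P) :
    ∃ M : Subgroup (alternatingGroup (Fin n)), Group.IsNilpotent M ∧
      Nat.card M = 3 * Nat.card P ∧ Nonempty (M ≃* (↥P × Multiplicative (ZMod 3))) := by
  let a : Fin n := ⟨n - 3, by omega⟩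
  let b : Fin n := ⟨n - 2, by omega⟩
  let c : Fin n := ⟨n - 1, by omega⟩
  have hab : a ≠ b := by
    intro h; have := congrArg Fin.val h; simp only [a, b] at this; omega
  have hac : a ≠ c := by
    intro h; have := congrArg Fin.val h; simp only [a, c] at this; omega
  have hbc : b ≠ c := by
    intro h; have := congrArg Fin.val h; simp only [b, c] at this; omega
  have hz := isThreeCycle_swap_mul_swap_same hab hac hbc
  let P₀ : Subgroup (Perm (Fin (n - 3))) := P.map (alternatingGroup (Fin (n - 3))).subtype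
  let e₀ : ↥P ≃* ↥P₀ := P.equivMapOfInjective _ (Subgroup.subtype_injective _)
  have hP₀ : Group.IsNilpotent P₀ := by
    have := hP
    exact Group.nilpotent_of_mulEquiv e₀
  obtain ⟨M', hM'le, hM'nil, hM'card, ⟨e'⟩⟩ := exists_prod' (Fin.castLEEmb (Nat.sub_le n 3)) P₀ hP₀
    (swap a b * swap a c) hz (by
      intro x
      have hx : ((Fin.castLEEmb (Nat.sub_le n 3)) x : Fin n).val < n - 3 := by
        simp
      have ha : (Fin.castLEEmb (Nat.sub_le n 3)) x ≠ a := by
        intro h; have := congrArg Fin.val h; simp only [a] at this; omega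
      have hb : (Fin.castLEEmb (Nat.sub_le n 3)) x ≠ b := by
        intro h; have := congrArg Fin.val h; simp only [b] at this; omega
      have hc : (Fin.castLEEmb (Nat.sub_le n 3)) x ≠ c := by
        intro h; have := congrArg Fin.val h; simp only [c] at this; omega
      rw [Perm.mul_apply, swap_apply_of_ne_of_ne ha hc, swap_apply_of_ne_of_ne ha hb])
    (alternatingGroup (Fin n)) (by
      rintro _ ⟨q, _, rfl⟩
      rw [mem_alternatingGroup, sign_viaEmbeddingHom]
      exact q.2) (by
      rw [mem_alternatingGroup]; exact hz.sign)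
  let e₁ : ↥(M'.subgroupOf (alternatingGroup (Fin n))) ≃* ↥M' := Subgroup.subgroupOfEquivOfLe hM'le
  refine ⟨M'.subgroupOf (alternatingGroup (Fin n)), ?_, ?_, ⟨?_⟩⟩
  · have := hM'nil
    exact Group.nilpotent_of_mulEquiv e₁.symm
  · rw [Nat.card_congr e₁.toEquiv, hM'card, Nat.card_congr e₀.toEquiv]
  · exact (e₁.trans e').trans (MulEquiv.prodCongr e₀.symm (MulEquiv.refl _))

/-- conjugacy in `A_n` -/
theorem conj_alt_sub {n e : ℕ} (h5 : 5 ≤ n) (hnd : ¬ 2 ^ e ∣ (n - 4)!)
    (he : (n - 3)!.factorization 2 = e + 1)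
    (N₁ N₂ : Subgroup (alternatingGroup (Fin n)))
    (h₁ : Group.IsNilpotent N₁) (h₂ : Group.IsNilpotent N₂)
    (c₁ : Nat.card N₁ = 3 * 2 ^ e) (c₂ : Nat.card N₂ = 3 * 2 ^ e) :
    ∃ g : alternatingGroup (Fin n), N₂ = N₁.map (MulAut.conj g).toMonoidHom := by
  have hinj := Subgroup.subtype_injective (alternatingGroup (Fin n))
  let e₁ := N₁.equivMapOfInjective _ hinj
  let e₂ := N₂.equivMapOfInjective _ hinj
  have n₁ : Group.IsNilpotent (N₁.map (alternatingGroup (Fin n)).subtype) := by
    have := h₁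
    exact Group.nilpotent_of_mulEquiv e₁
  have n₂ : Group.IsNilpotent (N₂.map (alternatingGroup (Fin n)).subtype) := by
    have := h₂
    exact Group.nilpotent_of_mulEquiv e₂
  obtain ⟨g, hgA, hg⟩ := conj_alt h5 hnd he _ _ (Subgroup.map_subtype_le _)
    (Subgroup.map_subtype_le _) n₁ n₂
    (by rw [← Nat.card_congr e₁.toEquiv, c₁]) (by rw [← Nat.card_congr e₂.toEquiv, c₂])
  refine ⟨⟨g, hgA⟩, ?_⟩
  ext x
  have hx : x ∈ N₂ ↔ (x : Perm (Fin n)) ∈ N₂.map (alternatingGroup (Fin n)).subtype :=
    (Subgroup.mem_map_iff_mem hinj (x := x) (K := N₂)).symm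
  rw [hx, hg]
  constructor
  · rintro ⟨_, ⟨y, hy, rfl⟩, hyx⟩
    refine ⟨y, hy, ?_⟩
    apply Subtype.ext
    simpa using hyx
  · rintro ⟨y, hy, rfl⟩
    refine ⟨(y : Perm (Fin n)), ⟨y, hy, rfl⟩, ?_⟩
    simp

end Cfsg.Agent.Lib.Helper45.NilC3
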