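import Mathlib

/-! Foundation of project S02 (= S2202, helper45): finite groups in which the centralizer of every
involution is commutative.  Definitions only (plus two normality instances).

* `HC G`    : centralizers of involutions are commutative.
* `Inv G`   : the set of involutions (`orderOf t = 2`).
* `Zc G`    : elements commuting with every involution (normal).
* `Lc G`    : the subgroup generated by the involutions (normal).
* `NP P`, `CP P` : normalizer / centralizer of a Sylow 2-subgroup `P`.
* `Hyp G`   : `HC G`, at least two Sylow 2-subgroups, no Sylow 2-subgroup cyclic.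
* `Facts G` : the basic consequences (Sylow 2-subgroups are commutative and TI, `C(t) = C(P)` is
  commutative for an involution `t ∈ P`, involutions of `N(P)` lie in `P`, products of involutions
  from different Sylow 2-subgroups have odd order, every Sylow 2-subgroup has two involutions).
* `Tp G`    : the target structure: `|Syl₂(G)| = |P| + 1` and `P` has exponent 2.
* `TIH G`   : distinct Sylow 2-subgroups have trivially intersecting centralizers.
The points of the permutation representation are the Sylow 2-subgroups, `g • P` = conjugation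
(`Sylow.smul_def`, `Sylow.coe_smul`, `Sylow.smul_eq_iff_mem_normalizer : g • P = P ↔ g ∈ normalizer P`).
-/

set_option autoImplicit false

namespace Cfsg.Agent.Lib.Helper45.S02

/-- centralizers of involutions are commutative -/
def HC (G : Type*) [Group G] : Prop :=
  ∀ t x y : G, orderOf t = 2 → Commute x t → Commute y t → Commute x y

/-- the set of involutions -/
def Inv (G : Type*) [Group G] : Set G := {t : G | orderOf t = 2}

/-- elements commuting with every involution -/
def Zc (G : Type*) [Group G] : Subgroup G := Subgroup.centralizer (Inv G)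

/-- the subgroup generated by the involutions -/
def Lc (G : Type*) [Group G] : Subgroup G := Subgroup.closure (Inv G)

theorem mem_Inv {G : Type*} [Group G] {t : G} : t ∈ Inv G ↔ orderOf t = 2 := Iff.rfl

theorem mem_Zc {G : Type*} [Group G] {z : G} :
    z ∈ Zc G ↔ ∀ t : G, orderOf t = 2 → t * z = z * t := by
  unfold Zc
  rw [Subgroup.mem_centralizer_iff]
  rfl

theorem orderOf_conj_eq {G : Type*} [Group G] (g t : G) : orderOf (g * t * g⁻¹) = orderOf t := by
  have := (MulAut.conj g).orderOf_eq t
  simpa [MulAut.conj_apply] using this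

instance Zc_normal (G : Type*) [Group G] : (Zc G).Normal := by
  refine ⟨fun z hz g => ?_⟩
  rw [mem_Zc] at hz ⊢
  intro t ht
  have h1 : orderOf (g⁻¹ * t * g) = 2 := by
    have := orderOf_conj_eq g⁻¹ t
    rw [inv_inv] at this
    rw [this, ht]
  have h2 := hz _ h1
  calc t * (g * z * g⁻¹) = g * ((g⁻¹ * t * g) * z) * g⁻¹ := by group
    _ = g * (z * (g⁻¹ * t * g)) * g⁻¹ := by rw [h2]
    _ = g * z * g⁻¹ * t := by group

instance Lc_normal (G : Type*) [Group G] : (Lc G).Normal := by
  unfold Lc
  refine ⟨fun x hx g => ?_⟩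
  have : Subgroup.closure (Inv G) ≤ (Subgroup.closure (Inv G)).comap (MulAut.conj g).toMonoidHom := by
    rw [Subgroup.closure_le]
    intro t ht
    rw [Subgroup.coe_comap, Set.mem_preimage]
    apply Subgroup.subset_closure
    show orderOf (g * t * g⁻¹) = 2
    rw [orderOf_conj_eq]
    exact ht
  exact this hx

/-- normalizer of a Sylow 2-subgroup -/
abbrev NP {G : Type*} [Group G] (P : Sylow 2 G) : Subgroup G :=
  Subgroup.normalizer ((P : Subgroup G) : Set G)

/-- centralizer of a Sylow 2-subgroup -/
abbrev CP {G : Type*} [Group G] (P : Sylow 2 G) : Subgroup G :=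
  Subgroup.centralizer ((P : Subgroup G) : Set G)

/-- The hypotheses of the main case. -/
structure Hyp (G : Type*) [Group G] : Prop where
  hc : HC G
  two : ∃ P Q : Sylow 2 G, P ≠ Q
  nc : ∀ P : Sylow 2 G, ¬ IsCyclic P

/-- Basic consequences of `Hyp`. -/
structure Facts (G : Type*) [Group G] : Prop where
  comm : ∀ (P : Sylow 2 G) (x y : G), x ∈ P → y ∈ P → Commute x y
  cent : ∀ (P : Sylow 2 G) (t x : G), t ∈ P → orderOf t = 2 → Commute x t → x ∈ CP P
  ccomm : ∀ (P : Sylow 2 G) (x y : G), x ∈ CP P → y ∈ CP P → Commute x y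
  ti : ∀ (P Q : Sylow 2 G) (x : G), x ∈ P → x ∈ Q → x ≠ 1 → P = Q
  invN : ∀ (P : Sylow 2 G) (t : G), orderOf t = 2 → t ∈ NP P → t ∈ P
  odd : ∀ (P Q : Sylow 2 G) (s t : G), P ≠ Q → s ∈ P → t ∈ Q → orderOf s = 2 → orderOf t = 2 →
    Odd (orderOf (s * t))
  three : ∀ P : Sylow 2 G, ∃ s t : G, s ∈ P ∧ t ∈ P ∧ orderOf s = 2 ∧ orderOf t = 2 ∧ s ≠ t

/-- The target structure. -/
def Tp (G : Type*) [Group G] : Prop :=
  (∀ P : Sylow 2 G, Nat.card (Sylow 2 G) = Nat.card P + 1) ∧ ∀ P : Sylow 2 G, ∀ x ∈ P, x ^ 2 = 1

/-- TI hypothesis on the centralizers of the Sylow 2-subgroups. -/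
def TIH (G : Type*) [Group G] : Prop :=
  ∀ P Q : Sylow 2 G, P ≠ Q → CP P ⊓ CP Q = ⊥

end Cfsg.Agent.Lib.Helper45.S02
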