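import Mathlib
import Cfsg.Agent.Lib.Helper45.S02A


/-! S2202 piece Arith (project S02 of helper45).
Filled by helper28 (job 4074). Original instructions: keep the theorem name and statement byte-identical and keep
the namespace; auxiliary lemmas go ABOVE the theorem and MUST start with the prefix `arith_`; you may add
imports (landed modules, or other `Cfsg.Agent.Lib.Helper45.S02*` piece files).
Definitions (`HC`, `Inv`, `Zc`, `Lc`, `NP`, `CP`, `Hyp`, `Facts`, `Tp`, `TIH`): Cfsg/Agent/Lib/Helper45/S02A.lean.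
Points = Sylow 2-subgroups, `g • P` = conjugate (`Sylow.smul_def`, `Sylow.coe_smul`,
`Sylow.smul_eq_iff_mem_normalizer : g • P = P ↔ g ∈ normalizer P`, `Subgroup.mem_centralizer_iff`).
"involution" = `orderOf t = 2`.  The paper proof is in the docstring. -/

set_option autoImplicit false

namespace Cfsg.Agent.Lib.Helper45.S02

variable {G : Type*} [Group G] [Finite G]

/-- TI case: arithmetic conclusion.
PROOF. `P ≤ CP P` (`hF.comm`); `|CP P| = |P| * m` with `m` odd (`P` is a Sylow 2-subgroup of `G`, hence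
the index of `P` in `CP P` is odd: `Sylow.not_dvd_index`-type, `|G : P|` odd and `|CP P : P|` divides it).
`Ω₁ := {x ∈ P | x^2 = 1}` is a subgroup of `P` (`hF.comm`) with `i + 1` elements, so `(i+1) ∣ q := |P|`.
If `m ≥ 3`: `3q - 1 ≤ 2i ≤ 2(q-1)`: impossible; so `m = 1`.  Then `q - 1 ≤ 2i`; if `i + 1 < q` then
`2(i+1) ≤ q` (proper divisor of a power of 2, or any proper divisor), `2i ≤ q - 2`: impossible.  So
`Ω₁ = P`. -/
theorem tp_of_bounds (hF : Facts G) (P : Sylow 2 G) (i : ℕ)
    (hi : i = Nat.card {t : G // t ∈ P ∧ orderOf t = 2})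
    (hM : Nat.card (CP P) - 1 ≤ 2 * i) :
    Nat.card (CP P) = Nat.card P ∧ ∀ x ∈ P, x ^ 2 = 1 := by
  classical
  have hPC : (P : Subgroup G) ≤ CP P := by
    intro x hx
    rw [Subgroup.mem_centralizer_iff]
    intro h hh
    exact (hF.comm P h x hh hx).eq
  let Ω : Subgroup G :=
    { carrier := {x | x ∈ P ∧ x ^ 2 = 1}
      mul_mem' := by
        rintro a b ⟨ha, ha2⟩ ⟨hb, hb2⟩
        refine ⟨mul_mem ha hb, ?_⟩
        rw [(hF.comm P a b ha hb).mul_pow, ha2, hb2, one_mul]
      one_mem' := ⟨one_mem _, one_pow _⟩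
      inv_mem' := by
        rintro a ⟨ha, ha2⟩
        exact ⟨inv_mem ha, by rw [inv_pow, ha2, inv_one]⟩ }
  have hΩP : Ω ≤ (P : Subgroup G) := fun x hx => hx.1
  have hΩcard : Nat.card Ω = i + 1 := by
    have h1 : (Ω : Set G) = insert 1 {t : G | t ∈ P ∧ orderOf t = 2} := by
      ext x
      constructor
      · rintro ⟨hx, hx2⟩
        by_cases hx1 : x = 1
        · left; exact hx1
        · right; exact ⟨hx, orderOf_eq_prime hx2 hx1⟩
      · rintro (rfl | ⟨hx, hx2⟩)
        · exact ⟨one_mem _, one_pow _⟩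
        · exact ⟨hx, by rw [← hx2, pow_orderOf_eq_one]⟩
    have h2 : (1 : G) ∉ {t : G | t ∈ P ∧ orderOf t = 2} := by
      rintro ⟨_, h⟩
      rw [orderOf_one] at h
      omega
    have h3 : Nat.card Ω = Set.ncard (Ω : Set G) := rfl
    rw [h3, h1, Set.ncard_insert_of_notMem h2 (Set.toFinite _), hi]
    rfl
  have hq_pos : 0 < Nat.card (P : Subgroup G) := Nat.card_pos
  have hdvd1 : i + 1 ∣ Nat.card (P : Subgroup G) := hΩcard ▸ Subgroup.card_dvd_of_le hΩP
  have hdvd2 : Nat.card (P : Subgroup G) ∣ Nat.card (CP P) := Subgroup.card_dvd_of_le hPC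
  obtain ⟨m, hm⟩ := hdvd2
  have hmodd : ¬ 2 ∣ m := by
    intro h2
    have h4 : Nat.card (CP P) ∣ Nat.card G := Subgroup.card_subgroup_dvd_card _
    have h5 : Nat.card (P : Subgroup G) * (P : Subgroup G).index = Nat.card G :=
      Subgroup.card_mul_index _
    rw [hm, ← h5] at h4
    have h6 : m ∣ (P : Subgroup G).index := Nat.dvd_of_mul_dvd_mul_left hq_pos h4
    exact P.not_dvd_index (h2.trans h6)
  have hc_pos : 0 < Nat.card (CP P) := Nat.card_pos
  have hm1 : m = 1 := by
    by_contra hne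
    have hm3 : 3 ≤ m := by
      rcases Nat.lt_or_ge m 3 with h | h
      · interval_cases m
        · rw [mul_zero] at hm; omega
        · exact absurd rfl hne
        · exact absurd (dvd_refl 2) hmodd
      · exact h
    have h7 : Nat.card (P : Subgroup G) * 3 ≤ Nat.card (CP P) := by
      rw [hm]; exact Nat.mul_le_mul_left _ hm3
    have h8 : i + 1 ≤ Nat.card (P : Subgroup G) := Nat.le_of_dvd hq_pos hdvd1
    omega
  rw [hm1, mul_one] at hm
  obtain ⟨k, hk⟩ := hdvd1
  have hk1 : k = 1 := by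
    by_contra hne
    have hk2 : 2 ≤ k := by
      rcases Nat.lt_or_ge k 2 with h | h
      · interval_cases k
        · rw [mul_zero] at hk; omega
        · exact absurd rfl hne
      · exact h
    have h9 : (i + 1) * 2 ≤ Nat.card (P : Subgroup G) := by
      rw [hk]; exact Nat.mul_le_mul_left _ hk2
    omega
  rw [hk1, mul_one] at hk
  refine ⟨hm, ?_⟩
  have hΩeq : Ω = (P : Subgroup G) :=
    Subgroup.eq_of_le_of_card_ge hΩP (by rw [hΩcard, hk])
  intro x hx
  have hxΩ : x ∈ Ω := hΩeq ▸ hx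
  exact hxΩ.2

end Cfsg.Agent.Lib.Helper45.S02
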