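import Mathlib
import Cfsg.Agent.Lib.Helper45.S02A


/-! S2202 piece CComm (project S02 of helper45).
Filled in place by helper34 (job 4042).
Definitions (`HC`, `Inv`, `Zc`, `Lc`, `NP`, `CP`, `Hyp`, `Facts`, `Tp`, `TIH`): Cfsg/Agent/Lib/Helper45/S02A.lean.
Points = Sylow 2-subgroups, `g • P` = conjugate (`Sylow.smul_def`, `Sylow.coe_smul`,
`Sylow.smul_eq_iff_mem_normalizer : g • P = P ↔ g ∈ normalizer P`, `Subgroup.mem_centralizer_iff`).
"involution" = `orderOf t = 2`.  The paper proof is in the docstring. -/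

set_option autoImplicit false

namespace Cfsg.Agent.Lib.Helper45.S02

variable {G : Type*} [Group G] [Finite G]

/-- `C(P)` is commutative.
PROOF. `P ≠ ⊥` (else cyclic), a 2-group, so it contains an element `t` of order 2 (Cauchy:
`exists_prime_orderOf_dvd_card'`, card of `P` is a power of 2 and `> 1`).  `x`, `y ∈ C(P)` commute
with `t`; apply `hc t x y`. -/
theorem cent_comm (hc : HC G) (P : Sylow 2 G) (hP : ¬ IsCyclic P) (x y : G) (hx : x ∈ CP P)
    (hy : y ∈ CP P) : Commute x y := by
  have h2 : 2 ∣ Nat.card (P : Subgroup G) := by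
    obtain ⟨n, hn⟩ := (P.isPGroup').exists_card_eq
    rw [hn]
    rcases Nat.eq_zero_or_pos n with h0 | hpos
    · exfalso
      apply hP
      rw [h0, pow_zero] at hn
      haveI : Subsingleton (P : Subgroup G) := (Nat.card_eq_one_iff_unique.mp hn).1
      exact isCyclic_of_subsingleton
    · exact dvd_pow_self 2 (by omega)
  haveI : Fact (Nat.Prime 2) := ⟨Nat.prime_two⟩
  obtain ⟨t, ht⟩ := exists_prime_orderOf_dvd_card' (G := (P : Subgroup G)) 2 h2
  have ht' : orderOf (t : G) = 2 := by rw [Subgroup.orderOf_coe]; exact ht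
  have hxt : Commute x (t : G) := ((Subgroup.mem_centralizer_iff.mp hx) (t : G) t.2).symm
  have hyt : Commute y (t : G) := ((Subgroup.mem_centralizer_iff.mp hy) (t : G) t.2).symm
  exact hc (t : G) x y ht' hxt hyt

end Cfsg.Agent.Lib.Helper45.S02
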