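import Mathlib
import Cfsg.Agent.Lib.Helper45.S02A


/-! S2202 piece Cent (project S02 of helper45).
Filled by helper31 (was a placeholder: keep the theorem name and statement byte-identical and keep
the namespace; auxiliary lemmas go ABOVE the theorem and MUST start with the prefix `cent_`; you may add
imports (landed modules, or other `Cfsg.Agent.Lib.Helper45.S02*` piece files).
Definitions (`HC`, `Inv`, `Zc`, `Lc`, `NP`, `CP`, `Hyp`, `Facts`, `Tp`, `TIH`): Cfsg/Agent/Lib/Helper45/S02A.lean.
Points = Sylow 2-subgroups, `g • P` = conjugate (`Sylow.smul_def`, `Sylow.coe_smul`,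
`Sylow.smul_eq_iff_mem_normalizer : g • P = P ↔ g ∈ normalizer P`, `Subgroup.mem_centralizer_iff`).
"involution" = `orderOf t = 2`.  The paper proof is in the docstring. -/

set_option autoImplicit false

namespace Cfsg.Agent.Lib.Helper45.S02

variable {G : Type*} [Group G] [Finite G]

/-- `C(t) ≤ C(P)` for an involution `t ∈ P`.
PROOF. For `y ∈ P`: `y` commutes with `t` (`hcomm`), `x` commutes with `t`; `hc t x y` gives
`Commute x y`.  `Subgroup.mem_centralizer_iff : g ∈ centralizer s ↔ ∀ h ∈ s, h * g = g * h`. -/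
theorem sylow_cent (hc : HC G) (hcomm : ∀ (P : Sylow 2 G) (x y : G), x ∈ P → y ∈ P → Commute x y)
    (P : Sylow 2 G) (t x : G) (ht : t ∈ P) (ht2 : orderOf t = 2) (hx : Commute x t) : x ∈ CP P := by
  unfold CP
  rw [Subgroup.mem_centralizer_iff]
  intro y hy
  exact (hc t x y ht2 hx (hcomm P y t hy ht)).symm.eq

end Cfsg.Agent.Lib.Helper45.S02
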