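import Mathlib
import Cfsg.Agent.Lib.Helper45.S02A


/-! S2202 piece Comm (project S02 of helper45).
PLACEHOLDER: replace the `sorry` in THIS file; keep the theorem name and statement byte-identical and keep
the namespace; auxiliary lemmas go ABOVE the theorem and MUST start with the prefix `comm_`; you may add
imports (landed modules, or other `Cfsg.Agent.Lib.Helper45.S02*` piece files).
Definitions (`HC`, `Inv`, `Zc`, `Lc`, `NP`, `CP`, `Hyp`, `Facts`, `Tp`, `TIH`): Cfsg/Agent/Lib/Helper45/S02A.lean.
Points = Sylow 2-subgroups, `g • P` = conjugate (`Sylow.smul_def`, `Sylow.coe_smul`,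
`Sylow.smul_eq_iff_mem_normalizer : g • P = P ↔ g ∈ normalizer P`, `Subgroup.mem_centralizer_iff`).
"involution" = `orderOf t = 2`.  The paper proof is in the docstring. -/

set_option autoImplicit false

namespace Cfsg.Agent.Lib.Helper45.S02

variable {G : Type*} [Group G] [Finite G]

/-- A non-cyclic Sylow 2-subgroup is commutative.
PROOF. `P` is a nontrivial 2-group (`P.isPGroup'`; `P = ⊥` would be cyclic), so its centre is nontrivial
(`IsPGroup.center_nontrivial`) and contains an element `t` of order 2 (a power of a nontrivial central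
element; `IsPGroup.iff_orderOf`, or Cauchy `exists_prime_orderOf_dvd_card'` in the centre).  Every
`x ∈ P` commutes with `t`; apply `hc t x y`. -/
theorem sylow_comm (hc : HC G) (P : Sylow 2 G) (hP : ¬ IsCyclic P) (x y : G) (hx : x ∈ P) (hy : y ∈ P) :
    Commute x y := by
  have hPp : IsPGroup 2 (P : Subgroup G) := P.isPGroup'
  haveI hnt : Nontrivial (P : Subgroup G) := by
    by_contra hnt
    rw [not_nontrivial_iff_subsingleton] at hnt
    exact hP isCyclic_of_subsingleton
  have hcn : Nontrivial (Subgroup.center (P : Subgroup G)) := hPp.center_nontrivial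
  have hcp : IsPGroup 2 (Subgroup.center (P : Subgroup G)) := hPp.to_subgroup _
  obtain ⟨k, hk0, hk⟩ := hcp.nontrivial_iff_card.mp hcn
  have hdz : 2 ∣ Nat.card (Subgroup.center (P : Subgroup G)) := hk ▸ dvd_pow_self _ hk0.ne'
  obtain ⟨z0, hz0⟩ := exists_prime_orderOf_dvd_card' 2 hdz
  obtain ⟨⟨z, hzP⟩, hzc0⟩ := z0
  have hzo : orderOf z = 2 := by
    rw [← hz0, Subgroup.orderOf_mk, Subgroup.orderOf_mk]
  have hzc : ∀ s ∈ (P : Subgroup G), s * z = z * s := by
    intro s hs
    have h1 := Subgroup.mem_center_iff.mp hzc0 ⟨s, hs⟩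
    exact congrArg Subtype.val h1
  exact hc z x y hzo (hzc x hx) (hzc y hy)

end Cfsg.Agent.Lib.Helper45.S02
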