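import Mathlib
import Cfsg.Agent.Lib.Helper45.S02A


/-! S2202 piece InvN (project S02 of helper45).
FILLED by helper21 (was a placeholder); keep the theorem name and statement byte-identical and keep
the namespace; auxiliary lemmas go ABOVE the theorem and MUST start with the prefix `invn_`; you may add
imports (landed modules, or other `Cfsg.Agent.Lib.Helper45.S02*` piece files).
Definitions (`HC`, `Inv`, `Zc`, `Lc`, `NP`, `CP`, `Hyp`, `Facts`, `Tp`, `TIH`): Cfsg/Agent/Lib/Helper45/S02A.lean.
Points = Sylow 2-subgroups, `g • P` = conjugate (`Sylow.smul_def`, `Sylow.coe_smul`,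
`Sylow.smul_eq_iff_mem_normalizer : g • P = P ↔ g ∈ normalizer P`, `Subgroup.mem_centralizer_iff`).
"involution" = `orderOf t = 2`.  The paper proof is in the docstring. -/

set_option autoImplicit false

namespace Cfsg.Agent.Lib.Helper45.S02

variable {G : Type*} [Group G] [Finite G]

/-- An involution normalizing a Sylow 2-subgroup lies in it.
PROOF. `Subgroup.zpowers t` is a 2-group contained in `normalizer P`, so `zpowers t ⊔ P` is a 2-group
(`IsPGroup.to_sup_of_normal_right'`) containing `P`; by `Sylow.is_maximal'` it equals `P`. -/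
theorem invol_mem_of_mem_normalizer (P : Sylow 2 G) (t : G) (ht : orderOf t = 2) (htN : t ∈ NP P) :
    t ∈ P := by
  have h1 : IsPGroup 2 (Subgroup.zpowers t) := by
    apply IsPGroup.of_card (n := 1)
    rw [Nat.card_zpowers, ht, pow_one]
  have h2 : Subgroup.zpowers t ≤ Subgroup.normalizer ((P : Subgroup G) : Set G) :=
    (Subgroup.zpowers_le).mpr htN
  have h3 : IsPGroup 2 (Subgroup.zpowers t ⊔ (P : Subgroup G) : Subgroup G) :=
    IsPGroup.to_sup_of_normal_right' h1 P.isPGroup' h2
  have h4 : Subgroup.zpowers t ⊔ (P : Subgroup G) = P := P.is_maximal' h3 le_sup_right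
  have h5 : Subgroup.zpowers t ≤ (P : Subgroup G) := by
    rw [← h4]; exact le_sup_left
  exact h5 (Subgroup.mem_zpowers t)

end Cfsg.Agent.Lib.Helper45.S02
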