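import Mathlib
import Cfsg.Agent.Lib.Helper45.S02A
import Cfsg.Agent.S0209

/-! S2202 piece Odd (project S02 of helper45).  Filled in by helper29 (statement unchanged).
Auxiliary lemmas go ABOVE the theorem and start with the prefix `odd_`.
Definitions (`HC`, `Inv`, `Zc`, `Lc`, `NP`, `CP`, `Hyp`, `Facts`, `Tp`, `TIH`): Cfsg/Agent/Lib/Helper45/S02A.lean.
Points = Sylow 2-subgroups, `g • P` = conjugate (`Sylow.smul_def`, `Sylow.coe_smul`,
`Sylow.smul_eq_iff_mem_normalizer : g • P = P ↔ g ∈ normalizer P`, `Subgroup.mem_centralizer_iff`).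
"involution" = `orderOf t = 2`.  The paper proof is in the docstring. -/

set_option autoImplicit false

namespace Cfsg.Agent.Lib.Helper45.S02

variable {G : Type*} [Group G] [Finite G]

/-- Involutions from different Sylow 2-subgroups have a product of odd order.
PROOF. Otherwise `Even (orderOf (s * t))` and the landed `Cfsg.Agent.S0209.result s t hs2 ht2 heven`
gives `z := (s*t)^(orderOf (s*t)/2)` with `orderOf z = 2`, `Commute z s`, `Commute z t`.  By `hcent`,
`z ∈ CP P ≤ NP P` (`Subgroup.centralizer_le_normalizer`), so `z ∈ P` by `hinvN`; likewise `z ∈ Q`;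
`z ≠ 1`, so `P = Q` by `hti`. -/
theorem odd_orderOf_mul
    (hcent : ∀ (P : Sylow 2 G) (t x : G), t ∈ P → orderOf t = 2 → Commute x t → x ∈ CP P)
    (hti : ∀ (P Q : Sylow 2 G) (x : G), x ∈ P → x ∈ Q → x ≠ 1 → P = Q)
    (hinvN : ∀ (P : Sylow 2 G) (t : G), orderOf t = 2 → t ∈ NP P → t ∈ P)
    (P Q : Sylow 2 G) (s t : G) (hPQ : P ≠ Q) (hs : s ∈ P) (ht : t ∈ Q) (hs2 : orderOf s = 2)
    (ht2 : orderOf t = 2) : Odd (orderOf (s * t)) := by
  by_contra hodd
  have heven : Even (orderOf (s * t)) := Nat.not_odd_iff_even.mp hodd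
  obtain ⟨hz2, hzs, hzt⟩ := Cfsg.Agent.S0209.result s t hs2 ht2 heven
  obtain ⟨z, hz⟩ : ∃ z : G, z = (s * t) ^ (orderOf (s * t) / 2) := ⟨_, rfl⟩
  rw [← hz] at hz2 hzs hzt
  have hzP : z ∈ P :=
    hinvN P z hz2 (Subgroup.centralizer_le_normalizer _ (hcent P s z hs hs2 hzs))
  have hzQ : z ∈ Q :=
    hinvN Q z hz2 (Subgroup.centralizer_le_normalizer _ (hcent Q t z ht ht2 hzt))
  have hz1 : z ≠ 1 := by
    intro h
    rw [h, orderOf_one] at hz2
    omega
  exact hPQ (hti P Q z hzP hzQ hz1)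

end Cfsg.Agent.Lib.Helper45.S02
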