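import Mathlib
import Cfsg.Agent.Lib.Helper45.S02A


/-! S2202 piece TI (project S02 of helper45).
Filled by helper40 (job 4043). Rules were: keep the theorem name and statement byte-identical and keep
the namespace; auxiliary lemmas go ABOVE the theorem and MUST start with the prefix `ti_`; you may add
imports (landed modules, or other `Cfsg.Agent.Lib.Helper45.S02*` piece files).
Definitions (`HC`, `Inv`, `Zc`, `Lc`, `NP`, `CP`, `Hyp`, `Facts`, `Tp`, `TIH`): Cfsg/Agent/Lib/Helper45/S02A.lean.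
Points = Sylow 2-subgroups, `g • P` = conjugate (`Sylow.smul_def`, `Sylow.coe_smul`,
`Sylow.smul_eq_iff_mem_normalizer : g • P = P ↔ g ∈ normalizer P`, `Subgroup.mem_centralizer_iff`).
"involution" = `orderOf t = 2`.  The paper proof is in the docstring. -/

set_option autoImplicit false

namespace Cfsg.Agent.Lib.Helper45.S02

variable {G : Type*} [Group G] [Finite G]

/-- Distinct Sylow 2-subgroups intersect trivially.
PROOF. `x ∈ P` has order `2^k`, `k ≥ 1`; `t := x ^ 2^(k-1)` is an involution in `P ⊓ Q`.  All elements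
of `P` and of `Q` commute with `t` (`hcomm`), hence with each other (`hc`).  So `Q ≤ normalizer P`
(even centralizer) and `P ⊔ Q` is a 2-group (`IsPGroup.to_sup_of_normal_right'` or directly:
`(p*q)^(2^n) = p^(2^n) * q^(2^n)`); by maximality of Sylow subgroups (`Sylow.is_maximal'`,
`Sylow.ext`) `P ⊔ Q = P`, so `Q ≤ P` and `P = Q`. -/
theorem sylow_ti (hc : HC G) (hcomm : ∀ (P : Sylow 2 G) (x y : G), x ∈ P → y ∈ P → Commute x y)
    (P Q : Sylow 2 G) (x : G) (hxP : x ∈ P) (hxQ : x ∈ Q) (hx1 : x ≠ 1) : P = Q := by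
  have : Fact (Nat.Prime 2) := ⟨Nat.prime_two⟩
  obtain ⟨k, hk⟩ := P.isPGroup' ⟨x, hxP⟩
  have hk' : x ^ 2 ^ k = 1 := by
    have := congrArg Subtype.val hk
    simpa using this
  obtain ⟨j, hjk, hj⟩ := (Nat.dvd_prime_pow Nat.prime_two).1 (orderOf_dvd_of_pow_eq_one hk')
  have hj0 : j ≠ 0 := by
    rintro rfl
    rw [pow_zero, orderOf_eq_one_iff] at hj
    exact hx1 hj
  obtain ⟨i, rfl⟩ : ∃ i, j = i + 1 := ⟨j - 1, by omega⟩
  have ht : orderOf (x ^ 2 ^ i) = 2 := by
    apply orderOf_eq_prime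
    · rw [← pow_mul, ← pow_succ, ← hj]
      exact pow_orderOf_eq_one x
    · intro h1
      have h2 := orderOf_dvd_of_pow_eq_one h1
      rw [hj] at h2
      have h3 := Nat.le_of_dvd (by positivity) h2
      have h4 : 2 ^ i < 2 ^ (i + 1) := Nat.pow_lt_pow_right (by norm_num) (by omega)
      omega
  have htP : x ^ 2 ^ i ∈ P := pow_mem hxP _
  have htQ : x ^ 2 ^ i ∈ Q := pow_mem hxQ _
  have hpq : ∀ p ∈ P, ∀ q ∈ Q, Commute p q := fun p hp q hq =>
    hc _ p q ht (hcomm P p _ hp htP) (hcomm Q q _ hq htQ)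
  have hQN : (Q : Subgroup G) ≤ Subgroup.normalizer ((P : Subgroup G) : Set G) := by
    intro q hq
    rw [Subgroup.mem_normalizer_iff]
    intro p
    constructor
    · intro hp
      have h1 : q * p * q⁻¹ = p := by
        rw [(hpq p hp q hq).eq.symm, mul_inv_cancel_right]
      rw [h1]
      exact hp
    · intro hp
      have h0 := hpq _ hp q hq
      have h1 : p = q * p * q⁻¹ := by
        have h2 : q * p * q⁻¹ * q = q * (q * p * q⁻¹) := h0.eq
        have h3 : q * p = q * (q * p * q⁻¹) := by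
          rw [← h2]
          group
        exact mul_left_cancel h3
      rw [h1]
      exact hp
  have h2grp : IsPGroup 2 ↥((Q : Subgroup G) ⊔ (P : Subgroup G)) :=
    IsPGroup.to_sup_of_normal_right' Q.isPGroup' P.isPGroup' hQN
  have h1 : (Q : Subgroup G) ⊔ (P : Subgroup G) = P := P.is_maximal' h2grp le_sup_right
  have hQP : (Q : Subgroup G) ≤ P := by
    rw [← h1]
    exact le_sup_left
  exact Sylow.ext (Q.is_maximal' P.isPGroup' hQP)

end Cfsg.Agent.Lib.Helper45.S02
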