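import Mathlib
import Cfsg.Agent.Lib.Helper45.S02A
import Cfsg.Agent.S0016

/-! S2202 piece Three (project S02 of helper45).  Filled in by helper29 (statement unchanged).
Auxiliary lemmas go ABOVE the theorem and start with the prefix `three_`.
Definitions (`HC`, `Inv`, `Zc`, `Lc`, `NP`, `CP`, `Hyp`, `Facts`, `Tp`, `TIH`): Cfsg/Agent/Lib/Helper45/S02A.lean.
Points = Sylow 2-subgroups, `g • P` = conjugate (`Sylow.smul_def`, `Sylow.coe_smul`,
`Sylow.smul_eq_iff_mem_normalizer : g • P = P ↔ g ∈ normalizer P`, `Subgroup.mem_centralizer_iff`).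
"involution" = `orderOf t = 2`.  The paper proof is in the docstring. -/

set_option autoImplicit false

namespace Cfsg.Agent.Lib.Helper45.S02

variable {G : Type*} [Group G] [Finite G]

/-- a subgroup of order 2 is generated by an involution -/
theorem three_zp {Γ : Type*} [Group Γ] [Finite Γ] (H : Subgroup Γ) (hH : Nat.card H = 2) :
    ∃ h : Γ, orderOf h = 2 ∧ H = Subgroup.zpowers h := by
  haveI : Fact (Nat.Prime 2) := ⟨Nat.prime_two⟩
  obtain ⟨h, hh⟩ := exists_prime_orderOf_dvd_card' (G := ↥H) 2 (by rw [hH])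
  refine ⟨(h : Γ), by rw [Subgroup.orderOf_coe]; exact hh, ?_⟩
  symm
  apply Subgroup.eq_of_le_of_card_ge
  · rw [Subgroup.zpowers_le]
    exact h.2
  · rw [Nat.card_zpowers, Subgroup.orderOf_coe, hh, hH]

/-- A non-cyclic commutative Sylow 2-subgroup contains two distinct involutions.
PROOF. A finite commutative 2-group with at most one involution is cyclic: e.g. by
`isCyclic_of_card_pow_eq_one_le` (for `n = 2^k * m`, `m` odd, the solutions of `a^n = 1` in the 2-group
are those of `a^(2^k) = 1`, a subgroup `Ω_k`; squaring maps `Ω_(k+1)` to `Ω_k` with kernel of size ≤ 2,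
so `|Ω_k| ≤ 2^k ≤ n`), or by `IsCyclic.iff_exponent_eq_card`/structure theory.  `P ≠ ⊥` has at least
one involution (Cauchy). -/
theorem exists_two_invol (hcomm : ∀ (P : Sylow 2 G) (x y : G), x ∈ P → y ∈ P → Commute x y) (P : Sylow 2 G) (hP : ¬ IsCyclic P) :
    ∃ s t : G, s ∈ P ∧ t ∈ P ∧ orderOf s = 2 ∧ orderOf t = 2 ∧ s ≠ t := by
  by_contra hcon
  apply hP
  have huni : ∀ s t : G, s ∈ P → t ∈ P → orderOf s = 2 → orderOf t = 2 → s = t := by
    intro s t hs ht hs2 ht2
    by_contra hne
    exact hcon ⟨s, t, hs, ht, hs2, ht2, hne⟩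
  haveI : Fact (Nat.Prime 2) := ⟨Nat.prime_two⟩
  have huniq : ∀ H K : Subgroup ↥P, Nat.card H = 2 → Nat.card K = 2 → H = K := by
    intro H K hH hK
    obtain ⟨h, hh2, rfl⟩ := three_zp H hH
    obtain ⟨k, hk2, rfl⟩ := three_zp K hK
    have hhk : h = k := Subtype.ext (huni (h : G) (k : G) h.2 k.2
      (by rw [Subgroup.orderOf_coe]; exact hh2) (by rw [Subgroup.orderOf_coe]; exact hk2))
    rw [hhk]
  rcases Cfsg.Agent.S0016.result (G := ↥P) 2 P.2 huniq with h | ⟨-, n, ⟨e⟩⟩
  · exact h
  · have hc : ∀ x y : QuaternionGroup (2 ^ n), x * y = y * x := by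
      intro x y
      have h1 := hcomm P (e.symm x : G) (e.symm y : G) (e.symm x).2 (e.symm y).2
      have h2 : e.symm x * e.symm y = e.symm y * e.symm x := Subtype.ext h1
      have h3 := congrArg e h2
      rw [map_mul, map_mul, MulEquiv.apply_symm_apply, MulEquiv.apply_symm_apply] at h3
      exact h3
    have h4 := hc (QuaternionGroup.a 1) (QuaternionGroup.xa 0)
    rw [QuaternionGroup.a_mul_xa, QuaternionGroup.xa_mul_a] at h4
    have h5 : (0 - 1 : ZMod (2 * 2 ^ n)) = 0 + 1 := QuaternionGroup.xa.inj h4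
    have hn0 : n = 0 := by
      by_contra hn
      have h6 : ((2 : ℕ) : ZMod (2 * 2 ^ n)) = 0 := by
        push_cast
        linear_combination -h5
      rw [ZMod.natCast_eq_zero_iff] at h6
      have h7 := Nat.le_of_dvd (by norm_num) h6
      have h8 : 2 ≤ 2 ^ n := by
        calc 2 = 2 ^ 1 := by norm_num
          _ ≤ 2 ^ n := Nat.pow_le_pow_right (by norm_num) (Nat.one_le_iff_ne_zero.mpr hn)
      omega
    subst hn0
    haveI : IsCyclic (QuaternionGroup (2 ^ 0)) := QuaternionGroup.quaternionGroup_one_isCyclic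
    exact isCyclic_of_surjective e.symm e.symm.surjective

end Cfsg.Agent.Lib.Helper45.S02
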