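import Mathlib
import Cfsg.Agent.Lib.Helper45.S02A
import Cfsg.Agent.Lib.Helper45.S02Comm
import Cfsg.Agent.Lib.Helper45.S02Cent
import Cfsg.Agent.Lib.Helper45.S02CComm
import Cfsg.Agent.Lib.Helper45.S02TI
import Cfsg.Agent.Lib.Helper45.S02InvN
import Cfsg.Agent.Lib.Helper45.S02Odd
import Cfsg.Agent.Lib.Helper45.S02Three

/-! S2202 piece AsmFacts (project S02 of helper45).
FILLED IN by helper88 (was a placeholder); keep the theorem name and statement byte-identical and keep
the namespace; auxiliary lemmas go ABOVE the theorem and MUST start with the prefix `asmfacts_`; you may add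
imports (landed modules, or other `Cfsg.Agent.Lib.Helper45.S02*` piece files).
Definitions (`HC`, `Inv`, `Zc`, `Lc`, `NP`, `CP`, `Hyp`, `Facts`, `Tp`, `TIH`): Cfsg/Agent/Lib/Helper45/S02A.lean.
Points = Sylow 2-subgroups, `g • P` = conjugate (`Sylow.smul_def`, `Sylow.coe_smul`,
`Sylow.smul_eq_iff_mem_normalizer : g • P = P ↔ g ∈ normalizer P`, `Subgroup.mem_centralizer_iff`).
"involution" = `orderOf t = 2`.  The paper proof is in the docstring. -/

set_option autoImplicit false

namespace Cfsg.Agent.Lib.Helper45.S02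

variable {G : Type*} [Group G] [Finite G]

/-- ASSEMBLY: `Hyp G → Facts G`.
PROOF. `comm := fun P x y => sylow_comm hH.hc P (hH.nc P) x y`, `cent := sylow_cent hH.hc comm`,
`ccomm := fun P => cent_comm hH.hc P (hH.nc P)`, `ti := sylow_ti hH.hc comm`,
`invN := invol_mem_of_mem_normalizer`, `odd := odd_orderOf_mul cent ti invN`,
`three := fun P => exists_two_invol comm P (hH.nc P)`. -/
theorem facts_of_hyp (hH : Hyp G) : Facts G := by
  have comm : ∀ (P : Sylow 2 G) (x y : G), x ∈ P → y ∈ P → Commute x y :=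
    fun P x y hx hy => sylow_comm hH.hc P (hH.nc P) x y hx hy
  have cent : ∀ (P : Sylow 2 G) (t x : G), t ∈ P → orderOf t = 2 → Commute x t → x ∈ CP P :=
    fun P t x ht ht2 hx => sylow_cent hH.hc comm P t x ht ht2 hx
  have ti : ∀ (P Q : Sylow 2 G) (x : G), x ∈ P → x ∈ Q → x ≠ 1 → P = Q :=
    fun P Q x hxP hxQ hx1 => sylow_ti hH.hc comm P Q x hxP hxQ hx1
  have invN : ∀ (P : Sylow 2 G) (t : G), orderOf t = 2 → t ∈ NP P → t ∈ P :=
    fun P t ht htN => invol_mem_of_mem_normalizer P t ht htN
  exact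
    { comm := comm
      cent := cent
      ccomm := fun P x y hx hy => cent_comm hH.hc P (hH.nc P) x y hx hy
      ti := ti
      invN := invN
      odd := fun P Q s t hPQ hs ht hs2 ht2 =>
        odd_orderOf_mul cent ti invN P Q s t hPQ hs ht hs2 ht2
      three := fun P => exists_two_invol comm P (hH.nc P) }

end Cfsg.Agent.Lib.Helper45.S02
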