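import Mathlib
import Cfsg.Agent.Lib.Helper45.S02A


/-! S2202 piece Cons (project S02 of helper45).
Filled in place by helper34 (job 4057).
Definitions (`HC`, `Inv`, `Zc`, `Lc`, `NP`, `CP`, `Hyp`, `Facts`, `Tp`, `TIH`): Cfsg/Agent/Lib/Helper45/S02A.lean.
Points = Sylow 2-subgroups, `g • P` = conjugate (`Sylow.smul_def`, `Sylow.coe_smul`,
`Sylow.smul_eq_iff_mem_normalizer : g • P = P ↔ g ∈ normalizer P`, `Subgroup.mem_centralizer_iff`).
"involution" = `orderOf t = 2`.  The paper proof is in the docstring. -/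

set_option autoImplicit false

namespace Cfsg.Agent.Lib.Helper45.S02

variable {G : Type*} [Group G] [Finite G]

omit [Finite G] in
/-- step (1): an element normalizing three Sylow 2-subgroups centralizes the third -/
theorem cons_step (hF : Facts G) (hT : Tp G)
    (hregS : ∀ R P Q : Sylow 2 G, P ≠ R → Q ≠ R →
      ∃ s : G, s ∈ R ∧ s • P = Q ∧ ∀ s' : G, s' ∈ R → s' • P = Q → s' = s)
    (g : G) (P Q R : Sylow 2 G) (hPQ : P ≠ Q) (hPR : P ≠ R) (hQR : Q ≠ R) (hP : g ∈ NP P)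
    (hQ : g ∈ NP Q) (hR : g ∈ NP R) : g ∈ CP R := by
  obtain ⟨s, hsR, hsPQ, huniq⟩ := hregS R P Q hPR hQR
  have hgP : g • P = P := Sylow.smul_eq_iff_mem_normalizer.mpr hP
  have hgQ : g • Q = Q := Sylow.smul_eq_iff_mem_normalizer.mpr hQ
  have hgP' : g⁻¹ • P = P := by
    conv_lhs => rw [← hgP]
    rw [inv_smul_smul]
  have h1 : g * s * g⁻¹ ∈ R := (Subgroup.mem_normalizer_iff.mp hR s).mp hsR
  have h2 : (g * s * g⁻¹) • P = Q := by
    rw [mul_smul, mul_smul, hgP', hsPQ, hgQ]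
  have h3 : g * s * g⁻¹ = s := huniq _ h1 h2
  have hs1 : s ≠ 1 := by
    rintro rfl
    rw [one_smul] at hsPQ
    exact hPQ hsPQ
  have hs2 : s ^ 2 = 1 := hT.2 R s hsR
  have hord : orderOf s = 2 := orderOf_eq_prime hs2 hs1
  have hcomm : Commute g s := by
    show g * s = s * g
    calc g * s = g * s * g⁻¹ * g := by group
      _ = s * g := by rw [h3]
  exact hF.cent R s g hsR hord hcomm

/-- Under `Tp`, an element normalizing three Sylow 2-subgroups commutes with every involution.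
PROOF. (1) `g ∈ CP R`: let `s₀ ∈ R` be the unique element with `s₀ • P = Q` (`hregS R P Q`).  Then
`g * s₀ * g⁻¹ ∈ R` and `(g s₀ g⁻¹) • P = g • s₀ • g⁻¹ • P = g • Q = Q`, so `g * s₀ * g⁻¹ = s₀`.
`s₀ ≠ 1` (as `P ≠ Q`) and `s₀^2 = 1` (`hT.2`), so `s₀` is an involution of `R` commuting with `g`:
`g ∈ CP R` by `hF.cent`.  By symmetry `g ∈ CP P` and `g ∈ CP Q`.
(2) `g` normalizes every Sylow `X`: if `X ≠ P`, `X = s • Q` with `s ∈ P` (`hregS P Q X`), `g` commutes
with `s`, so `g • X = s • g • Q = X`.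
(3) Let `t` be an involution, `X` a Sylow containing it (`IsPGroup.exists_le_sylow`).  If `X = P` or
`X = Q` then `g ∈ CP X` already; otherwise apply (1) to the triple `P, Q, X` (using (2)): `g ∈ CP X`.
So `g` commutes with `t`; `mem_Zc`. -/
theorem fix_three_mem_Zc (hF : Facts G) (hT : Tp G)
    (hregS : ∀ R P Q : Sylow 2 G, P ≠ R → Q ≠ R → ∃ s : G, s ∈ R ∧ s • P = Q ∧ ∀ s' : G, s' ∈ R → s' • P = Q → s' = s)
    (g : G) (P Q R : Sylow 2 G) (hPQ : P ≠ Q) (hPR : P ≠ R) (hQR : Q ≠ R) (hP : g ∈ NP P)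
    (hQ : g ∈ NP Q) (hR : g ∈ NP R) : g ∈ Zc G := by
  have hgR : g ∈ CP R := cons_step hF hT hregS g P Q R hPQ hPR hQR hP hQ hR
  have hgP : g ∈ CP P := cons_step hF hT hregS g Q R P hQR (Ne.symm hPQ) (Ne.symm hPR) hQ hR hP
  have hgQ : g ∈ CP Q := cons_step hF hT hregS g P R Q hPR hPQ (Ne.symm hQR) hP hR hQ
  have hall : ∀ X : Sylow 2 G, g ∈ NP X := by
    intro X
    by_cases hX : X = P
    · rw [hX]; exact hP
    · obtain ⟨s, hsP, hsQX, -⟩ := hregS P Q X (Ne.symm hPQ) hX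
      apply Sylow.smul_eq_iff_mem_normalizer.mp
      rw [← hsQX, ← mul_smul]
      have hcs : g * s = s * g := ((Subgroup.mem_centralizer_iff.mp hgP) s hsP).symm
      rw [hcs, mul_smul, Sylow.smul_eq_iff_mem_normalizer.mpr hQ]
  rw [mem_Zc]
  intro t ht
  have hpg : IsPGroup 2 (Subgroup.zpowers t) := by
    apply IsPGroup.of_card (n := 1)
    rw [Nat.card_zpowers, ht, pow_one]
  obtain ⟨X, hX⟩ := hpg.exists_le_sylow
  have htX : t ∈ X := hX (Subgroup.mem_zpowers t)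
  have hgX : g ∈ CP X := by
    by_cases h1 : X = P
    · rw [h1]; exact hgP
    · by_cases h2 : X = Q
      · rw [h2]; exact hgQ
      · exact cons_step hF hT hregS g P Q X hPQ (Ne.symm h1) (Ne.symm h2) hP hQ (hall X)
  exact (Subgroup.mem_centralizer_iff.mp hgX) t htX

end Cfsg.Agent.Lib.Helper45.S02
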