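import Mathlib
import Cfsg.Agent.Lib.Helper45.S02A
import Cfsg.Prelude.Def_Involutions
import Cfsg.Agent.S1225

/-! S2202 piece E (project S02 of helper45).
Filled by helper89 (job 4055); theorem name and statement byte-identical, same
namespace; auxiliary lemmas go ABOVE the theorem and MUST start with the prefix `e_`; you may add
imports (landed modules, or other `Cfsg.Agent.Lib.Helper45.S02*` piece files).
Definitions (`HC`, `Inv`, `Zc`, `Lc`, `NP`, `CP`, `Hyp`, `Facts`, `Tp`, `TIH`): Cfsg/Agent/Lib/Helper45/S02A.lean.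
Points = Sylow 2-subgroups, `g • P` = conjugate (`Sylow.smul_def`, `Sylow.coe_smul`,
`Sylow.smul_eq_iff_mem_normalizer : g • P = P ↔ g ∈ normalizer P`, `Subgroup.mem_centralizer_iff`).
"involution" = `orderOf t = 2`.  The paper proof is in the docstring. -/

set_option autoImplicit false

namespace Cfsg.Agent.Lib.Helper45.S02



/-- A strongly embedded subgroup `H` has an odd-order subgroup transitive on the involutions of `H`.
PROOF. There is an involution `u ∉ H`: take `g ∉ H` (`hH.1`) and an involution `w ∈ H` (Cauchy, `hH.2.1`);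
if `g * w * g⁻¹ ∈ H` then it is an involution of `H ⊓ H.map (conj g)`, which has odd order
(`hH.2.2 g`): impossible; so `u := g * w * g⁻¹`.  `E := (H ⊓ H.map (MulAut.conj u).toMonoidHom).subgroupOf H`
has odd order (`hH.2.2 u`; `Subgroup.subgroupOfEquivOfLe inf_le_left` for the card) and the landed
`Cfsg.Agent.S1225.result H hH u hu huH s t ..` gives the conjugating element. -/
theorem exists_odd_transitive {G : Type*} [Group G] [Finite G] (H : Subgroup G)
    (hH : Cfsg.IsStronglyEmbedded H) :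
    ∃ E : Subgroup ↥H, Odd (Nat.card E) ∧
      ∀ s t : ↥H, orderOf s = 2 → orderOf t = 2 → ∃ e ∈ E, e * s * e⁻¹ = t := by
  classical
  obtain ⟨hHtop, hHeven, hHodd⟩ := hH
  -- an element outside `H`
  obtain ⟨g, hg⟩ : ∃ g : G, g ∉ H := by
    by_contra hcon
    exact hHtop ((Subgroup.eq_top_iff' H).mpr (fun x => not_not.mp (fun hx => hcon ⟨x, hx⟩)))
  -- an involution of `H`
  have : Fact (Nat.Prime 2) := ⟨Nat.prime_two⟩
  obtain ⟨w, hw⟩ := exists_prime_orderOf_dvd_card' (G := ↥H) 2 hHeven.two_dvd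
  have hwG : orderOf (w : G) = 2 := by
    rw [Subgroup.orderOf_coe]
    exact hw
  -- the involution `u := g * w * g⁻¹` is outside `H`
  have hu : orderOf (g * (w : G) * g⁻¹) = 2 := by
    rw [orderOf_conj_eq]
    exact hwG
  have huH : g * (w : G) * g⁻¹ ∉ H := by
    intro hmem
    have hmem2 : g * (w : G) * g⁻¹ ∈ H ⊓ H.map (MulAut.conj g).toMonoidHom := by
      have hmap : g * (w : G) * g⁻¹ ∈ H.map (MulAut.conj g).toMonoidHom :=
        Subgroup.mem_map.mpr ⟨(w : G), w.2, rfl⟩
      exact Subgroup.mem_inf.mpr ⟨hmem, hmap⟩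
    have hodd := hHodd g hg
    have hdvd : orderOf (g * (w : G) * g⁻¹) ∣ Nat.card ↥(H ⊓ H.map (MulAut.conj g).toMonoidHom) := by
      have h1 := orderOf_dvd_natCard
        (⟨g * (w : G) * g⁻¹, hmem2⟩ : ↥(H ⊓ H.map (MulAut.conj g).toMonoidHom))
      rw [← Subgroup.orderOf_coe] at h1
      exact h1
    rw [hu] at hdvd
    exact (Nat.not_even_iff_odd.mpr hodd) (even_iff_two_dvd.mpr hdvd)
  obtain ⟨u, hudef⟩ : ∃ u : G, u = g * (w : G) * g⁻¹ := ⟨_, rfl⟩
  rw [← hudef] at hu huH
  refine ⟨(H ⊓ H.map (MulAut.conj u).toMonoidHom).subgroupOf H, ?_, ?_⟩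
  · have hcard : Nat.card ↥((H ⊓ H.map (MulAut.conj u).toMonoidHom).subgroupOf H)
        = Nat.card ↥(H ⊓ H.map (MulAut.conj u).toMonoidHom) :=
      Nat.card_congr (Subgroup.subgroupOfEquivOfLe inf_le_left).toEquiv
    rw [hcard]
    exact hHodd u huH
  · intro s t hs ht
    have hsG : orderOf (s : G) = 2 := by
      rw [Subgroup.orderOf_coe]
      exact hs
    have htG : orderOf (t : G) = 2 := by
      rw [Subgroup.orderOf_coe]
      exact ht
    obtain ⟨⟨d, hd, hdst⟩, -⟩ := Cfsg.Agent.S1225.result H ⟨hHtop, hHeven, hHodd⟩ u hu huH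
      (s : G) (t : G) hsG s.2 htG t.2
    refine ⟨⟨d, hd.1⟩, ?_, ?_⟩
    · rw [Subgroup.mem_subgroupOf]
      exact hd
    · apply Subtype.ext
      exact hdst

end Cfsg.Agent.Lib.Helper45.S02
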