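import Mathlib
import Cfsg.Agent.Lib.Helper45.S02A


/-! S2202 piece Dih (project S02 of helper45).
FILLED by helper21 (was a placeholder); keep the theorem name and statement byte-identical and keep
the namespace; auxiliary lemmas go ABOVE the theorem and MUST start with the prefix `dih_`; you may add
imports (landed modules, or other `Cfsg.Agent.Lib.Helper45.S02*` piece files).
Definitions (`HC`, `Inv`, `Zc`, `Lc`, `NP`, `CP`, `Hyp`, `Facts`, `Tp`, `TIH`): Cfsg/Agent/Lib/Helper45/S02A.lean.
Points = Sylow 2-subgroups, `g • P` = conjugate (`Sylow.smul_def`, `Sylow.coe_smul`,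
`Sylow.smul_eq_iff_mem_normalizer : g • P = P ↔ g ∈ normalizer P`, `Subgroup.mem_centralizer_iff`).
"involution" = `orderOf t = 2`.  The paper proof is in the docstring. -/

set_option autoImplicit false

namespace Cfsg.Agent.Lib.Helper45.S02



/-- Dihedral trick: two involutions with product of odd order are conjugate by an involution.
PROOF. `r := s * t`, `orderOf r = 2*j+1`, `v := r^j * s`.  `s * r * s⁻¹ = r⁻¹` (as `s*s = 1`, `t*t = 1`),
so `s * r^j * s⁻¹ = r^(-j)`.  `v * v = r^j * (s * r^j * s) = 1`; `v * s * v⁻¹ = r^j * s * r^(-j)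
= r^(2j) * s = r⁻¹ * s = t * s * s = t`.  `v ≠ 1`: else `r^j = s`, so `s` commutes with `r`,
`r = r⁻¹`, `r^2 = 1`, `r = 1` (odd order), `s = t`.  So `orderOf v = 2` (`orderOf_eq_prime`).
`v ∈ closure {s, t}` clearly. -/
theorem exists_invol_conj {G : Type*} [Group G] (s t : G) (hs : orderOf s = 2) (ht : orderOf t = 2)
    (hodd : Odd (orderOf (s * t))) (hne : s ≠ t) :
    ∃ v : G, orderOf v = 2 ∧ v * s * v⁻¹ = t ∧ v ∈ Subgroup.closure ({s, t} : Set G) := by
  have hs2 : s * s = 1 := by
    have := pow_orderOf_eq_one s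
    rwa [hs, pow_two] at this
  have ht2 : t * t = 1 := by
    have := pow_orderOf_eq_one t
    rwa [ht, pow_two] at this
  have hsi : s⁻¹ = s := inv_eq_of_mul_eq_one_left hs2
  have hti : t⁻¹ = t := inv_eq_of_mul_eq_one_left ht2
  obtain ⟨j, hj⟩ := hodd
  have hri : (s * t)⁻¹ = t * s := by rw [mul_inv_rev, hsi, hti]
  have hsr : s * (s * t) * s⁻¹ = (s * t)⁻¹ := by
    rw [hri, hsi]
    calc s * (s * t) * s = (s * s) * t * s := by group
      _ = t * s := by rw [hs2, one_mul]
  have hsrj : s * (s * t) ^ j * s⁻¹ = ((s * t)⁻¹) ^ j := by rw [← conj_pow, hsr]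
  have hr1 : (s * t) ^ (2 * j + 1) = 1 := by rw [← hj]; exact pow_orderOf_eq_one (s * t)
  have hv2 : ((s * t) ^ j * s) * ((s * t) ^ j * s) = 1 := by
    calc ((s * t) ^ j * s) * ((s * t) ^ j * s) = (s * t) ^ j * (s * (s * t) ^ j * s) := by
          simp only [mul_assoc]
      _ = (s * t) ^ j * (s * (s * t) ^ j * s⁻¹) := by rw [hsi]
      _ = (s * t) ^ j * ((s * t)⁻¹) ^ j := by rw [hsrj]
      _ = 1 := by rw [inv_pow, mul_inv_cancel]
  have hvi : ((s * t) ^ j * s)⁻¹ = (s * t) ^ j * s := inv_eq_of_mul_eq_one_left hv2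
  refine ⟨(s * t) ^ j * s, ?_, ?_, ?_⟩
  · have : Fact (Nat.Prime 2) := ⟨Nat.prime_two⟩
    apply orderOf_eq_prime
    · rw [pow_two]; exact hv2
    · intro h1
      have h2 : (s * t) ^ j = s := by
        have h := mul_eq_one_iff_eq_inv.mp h1
        rw [h, hsi]
      have h3 : s * (s * t) = (s * t) * s := by
        have e1 : (s * t) ^ j * (s * t) = (s * t) * (s * t) ^ j := by
          rw [← pow_succ, ← pow_succ']
        rw [h2] at e1
        exact e1
      have h4 : s * t = (s * t)⁻¹ := by
        rw [← hsr, h3, mul_assoc, hsi, hs2, mul_one]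
      have h5 : (s * t) ^ 2 = 1 := by
        rw [pow_two]
        nth_rewrite 1 [h4]
        exact inv_mul_cancel (s * t)
      have h6 : orderOf (s * t) ∣ 2 := orderOf_dvd_of_pow_eq_one h5
      have h7 : orderOf (s * t) = 1 := by
        rw [hj] at h6 ⊢
        have : 2 * j + 1 ≤ 2 := Nat.le_of_dvd (by norm_num) h6
        omega
      have h8 : s * t = 1 := orderOf_eq_one_iff.mp h7
      apply hne
      have h9 := mul_eq_one_iff_eq_inv.mp h8
      rw [h9, hti]
  · rw [hvi]
    calc (s * t) ^ j * s * s * ((s * t) ^ j * s) = (s * t) ^ j * (s * s) * (s * t) ^ j * s := by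
          simp only [mul_assoc]
      _ = (s * t) ^ (2 * j) * s := by rw [hs2, mul_one, ← pow_add, two_mul]
      _ = (s * t)⁻¹ * s := by
          congr 1
          apply eq_inv_of_mul_eq_one_left
          rw [← pow_succ]; exact hr1
      _ = t := by rw [hri, mul_assoc, hs2, mul_one]
  · have hsm : s ∈ Subgroup.closure ({s, t} : Set G) := Subgroup.subset_closure (by simp)
    have htm : t ∈ Subgroup.closure ({s, t} : Set G) := Subgroup.subset_closure (by simp)
    exact mul_mem (pow_mem (mul_mem hsm htm) j) hsm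

end Cfsg.Agent.Lib.Helper45.S02
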