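import Mathlib
import Cfsg.Agent.Lib.Helper45.S02A
import Cfsg.Agent.Lib.Helper45.S02Dih

/-! S2202 piece F5 (project S02 of helper45).
FILLED IN by helper88 (was a placeholder); keep the theorem name and statement byte-identical and keep
the namespace; auxiliary lemmas go ABOVE the theorem and MUST start with the prefix `f5_`; you may add
imports (landed modules, or other `Cfsg.Agent.Lib.Helper45.S02*` piece files).
Definitions (`HC`, `Inv`, `Zc`, `Lc`, `NP`, `CP`, `Hyp`, `Facts`, `Tp`, `TIH`): Cfsg/Agent/Lib/Helper45/S02A.lean.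
Points = Sylow 2-subgroups, `g • P` = conjugate (`Sylow.smul_def`, `Sylow.coe_smul`,
`Sylow.smul_eq_iff_mem_normalizer : g • P = P ↔ g ∈ normalizer P`, `Subgroup.mem_centralizer_iff`).
"involution" = `orderOf t = 2`.  The paper proof is in the docstring. -/

set_option autoImplicit false

namespace Cfsg.Agent.Lib.Helper45.S02

variable {G : Type*} [Group G] [Finite G]

theorem f5_mem_cent {G : Type*} [Group G] (b g : G) :
    g ∈ Subgroup.centralizer ({b} : Set G) ↔ b * g = g * b := by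
  rw [Subgroup.mem_centralizer_iff]
  constructor
  · intro h
    exact h b rfl
  · intro h y hy
    rw [Set.mem_singleton_iff] at hy
    rw [hy]
    exact h

/-- If `b` centralizes two Sylow 2-subgroups, then `C(b)` contains `N(R)` for every Sylow `R` centralized
by `b`.
PROOF. Let `R' ∈ {P, Q}` with `R' ≠ R`, and fix involutions `t₀ ∈ R`, `s ∈ R'` (`hF.three`); they commute
with `b`.  For `x ∈ NP R` put `t' := x * t₀ * x⁻¹ ∈ R`, an involution commuting with `b` (`b ∈ CP R`).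
`exists_invol_conj t₀ s` and `exists_invol_conj t' s` (odd products by `hF.odd`, distinct by `hF.ti`) give
`v ∈ closure {t₀, s}`, `v' ∈ closure {t', s}` with `v t₀ v⁻¹ = s = v' t' v'⁻¹`; both closures lie in
`centralizer {b}`.  `g := v'⁻¹ * v` satisfies `g t₀ g⁻¹ = t'`, `g ∈ centralizer {b}`.  Then `g⁻¹ * x`
commutes with `t₀`, so `g⁻¹ * x ∈ CP R` (`hF.cent`), and `CP R` commutes with `b` (`hF.ccomm`, `b ∈ CP R`).
Hence `x = g * (g⁻¹ * x) ∈ centralizer {b}`. -/
theorem normalizer_le_centralizer (hF : Facts G) (P Q : Sylow 2 G) (hPQ : P ≠ Q) (b : G)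
    (hbP : b ∈ CP P) (hbQ : b ∈ CP Q) (R : Sylow 2 G) (hbR : b ∈ CP R) :
    NP R ≤ Subgroup.centralizer ({b} : Set G) := by
  intro x hx
  obtain ⟨R', hR'ne, hbR'⟩ : ∃ R' : Sylow 2 G, R ≠ R' ∧ b ∈ CP R' := by
    by_cases hRP : R = P
    · exact ⟨Q, by rw [hRP]; exact hPQ, hbQ⟩
    · exact ⟨P, hRP, hbP⟩
  obtain ⟨t₀, -, ht₀R, -, ht₀o, -, -⟩ := hF.three R
  obtain ⟨s, -, hsR', -, hso, -, -⟩ := hF.three R'
  have hcR : ∀ y ∈ R, b * y = y * b := by
    intro y hy
    exact ((Subgroup.mem_centralizer_iff.mp hbR) y hy).symm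
  have hcR' : ∀ y ∈ R', b * y = y * b := by
    intro y hy
    exact ((Subgroup.mem_centralizer_iff.mp hbR') y hy).symm
  have ht'R : x * t₀ * x⁻¹ ∈ R := (Subgroup.mem_normalizer_iff.mp hx t₀).mp ht₀R
  have ht'o : orderOf (x * t₀ * x⁻¹) = 2 := by
    rw [orderOf_conj_eq]
    exact ht₀o
  have hne1 : ∀ t : G, t ∈ R → orderOf t = 2 → t ≠ s := by
    intro t htR hto hts
    apply hR'ne
    apply hF.ti R R' t htR (by rw [hts]; exact hsR')
    intro h1
    rw [h1, orderOf_one] at hto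
    omega
  obtain ⟨v, -, hv, hvc⟩ := exists_invol_conj t₀ s ht₀o hso
    (hF.odd R R' t₀ s hR'ne ht₀R hsR' ht₀o hso) (hne1 t₀ ht₀R ht₀o)
  obtain ⟨v', -, hv', hvc'⟩ := exists_invol_conj (x * t₀ * x⁻¹) s ht'o hso
    (hF.odd R R' _ s hR'ne ht'R hsR' ht'o hso) (hne1 _ ht'R ht'o)
  have hsb : s ∈ Subgroup.centralizer ({b} : Set G) := (f5_mem_cent b _).mpr (hcR' _ hsR')
  have hvb : v ∈ Subgroup.centralizer ({b} : Set G) := by
    have hle : Subgroup.closure ({t₀, s} : Set G) ≤ Subgroup.centralizer ({b} : Set G) := by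
      rw [Subgroup.closure_le]
      intro y hy
      rcases hy with hy | hy
      · rw [hy]
        exact (f5_mem_cent b _).mpr (hcR _ ht₀R)
      · rw [Set.mem_singleton_iff] at hy
        rw [hy]
        exact hsb
    exact hle hvc
  have hvb' : v' ∈ Subgroup.centralizer ({b} : Set G) := by
    have hle : Subgroup.closure ({x * t₀ * x⁻¹, s} : Set G) ≤
        Subgroup.centralizer ({b} : Set G) := by
      rw [Subgroup.closure_le]
      intro y hy
      rcases hy with hy | hy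
      · rw [hy]
        exact (f5_mem_cent b _).mpr (hcR _ ht'R)
      · rw [Set.mem_singleton_iff] at hy
        rw [hy]
        exact hsb
    exact hle hvc'
  obtain ⟨g, hgdef⟩ : ∃ g : G, g = v'⁻¹ * v := ⟨_, rfl⟩
  have hg : g ∈ Subgroup.centralizer ({b} : Set G) := by
    rw [hgdef]
    exact Subgroup.mul_mem _ (Subgroup.inv_mem _ hvb') hvb
  have hgt : g * t₀ * g⁻¹ = x * t₀ * x⁻¹ := by
    have h1 : g * t₀ * g⁻¹ = v'⁻¹ * (v * t₀ * v⁻¹) * v' := by
      rw [hgdef]
      group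
    rw [h1, hv, ← hv']
    group
  have hcomm : Commute (g⁻¹ * x) t₀ := by
    show g⁻¹ * x * t₀ = t₀ * (g⁻¹ * x)
    have h1 : x * t₀ = g * t₀ * g⁻¹ * x := by
      rw [hgt]
      group
    calc g⁻¹ * x * t₀ = g⁻¹ * (x * t₀) := by group
      _ = g⁻¹ * (g * t₀ * g⁻¹ * x) := by rw [h1]
      _ = t₀ * (g⁻¹ * x) := by group
  have hmem : g⁻¹ * x ∈ CP R := hF.cent R t₀ _ ht₀R ht₀o hcomm
  have hcb : Commute (g⁻¹ * x) b := hF.ccomm R _ b hmem hbR
  have hfin : g⁻¹ * x ∈ Subgroup.centralizer ({b} : Set G) :=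
    (f5_mem_cent b _).mpr hcb.eq.symm
  have hx2 : x = g * (g⁻¹ * x) := by group
  rw [hx2]
  exact Subgroup.mul_mem _ hg hfin

end Cfsg.Agent.Lib.Helper45.S02
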