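import Mathlib
import Cfsg.Agent.Lib.Helper45.S02A


/-! S2202 piece HSub (project S02 of helper45).
PLACEHOLDER: replace the `sorry` in THIS file; keep the theorem name and statement byte-identical and keep
the namespace; auxiliary lemmas go ABOVE the theorem and MUST start with the prefix `hsub_`; you may add
imports (landed modules, or other `Cfsg.Agent.Lib.Helper45.S02*` piece files).
Definitions (`HC`, `Inv`, `Zc`, `Lc`, `NP`, `CP`, `Hyp`, `Facts`, `Tp`, `TIH`): Cfsg/Agent/Lib/Helper45/S02A.lean.
Points = Sylow 2-subgroups, `g • P` = conjugate (`Sylow.smul_def`, `Sylow.coe_smul`,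
`Sylow.smul_eq_iff_mem_normalizer : g • P = P ↔ g ∈ normalizer P`, `Subgroup.mem_centralizer_iff`).
"involution" = `orderOf t = 2`.  The paper proof is in the docstring. -/

set_option autoImplicit false

namespace Cfsg.Agent.Lib.Helper45.S02

variable {G : Type*} [Group G] [Finite G]

/-- `Hyp` passes to `C(b)` when `b` centralizes two distinct Sylow 2-subgroups.
PROOF. `H := centralizer {b}`.  `hc`: inherited (`Subgroup.orderOf_coe`, commutation in `H` is commutation
in `G`).  `P ≤ H`, `Q ≤ H` (`b ∈ CP P` means `b` commutes with all of `P`), so `P.subtype _`,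
`Q.subtype _ : Sylow 2 ↥H` (`Sylow.subtype`), distinct because their images in `G` are `P ≠ Q`.
`nc`: every Sylow 2-subgroup of `H` is conjugate to `P.subtype _` (`MulAction.exists_smul_eq`), hence
isomorphic to it (`Sylow.equivSMul`) and to `P`; `P` is not cyclic (`hH.nc`). -/
theorem hyp_centralizer (hH : Hyp G) (P Q : Sylow 2 G) (hPQ : P ≠ Q) (b : G)
    (hbP : b ∈ CP P) (hbQ : b ∈ CP Q) : Hyp ↥(Subgroup.centralizer ({b} : Set G)) := by
  haveI : Fact (Nat.Prime 2) := ⟨Nat.prime_two⟩
  have hle : ∀ R : Sylow 2 G, b ∈ CP R →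
      (R : Subgroup G) ≤ Subgroup.centralizer ({b} : Set G) := by
    intro R hbR x hx
    rw [Subgroup.mem_centralizer_iff]
    intro h hh
    rw [Set.mem_singleton_iff] at hh
    rw [hh]
    exact ((Subgroup.mem_centralizer_iff.mp hbR) x hx).symm
  have hP := hle P hbP
  have hQ := hle Q hbQ
  refine ⟨?_, ?_, ?_⟩
  · intro t x y ht hxt hyt
    have ht' : orderOf (t : G) = 2 := by rw [Subgroup.orderOf_coe]; exact ht
    have hxt' : Commute (x : G) (t : G) := congrArg Subtype.val hxt
    have hyt' : Commute (y : G) (t : G) := congrArg Subtype.val hyt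
    exact Subtype.ext (hH.hc (t : G) (x : G) (y : G) ht' hxt' hyt')
  · refine ⟨P.subtype hP, Q.subtype hQ, fun h => hPQ (Sylow.subtype_injective h)⟩
  · intro S hS
    obtain ⟨g, hg⟩ := MulAction.exists_smul_eq ↥(Subgroup.centralizer ({b} : Set G)) S
      (P.subtype hP)
    have e1 : ↥(S : Subgroup ↥(Subgroup.centralizer ({b} : Set G))) ≃*
        ↥((g • S : Sylow 2 ↥(Subgroup.centralizer ({b} : Set G))) :
          Subgroup ↥(Subgroup.centralizer ({b} : Set G))) := Sylow.equivSMul S g
    have hsub : ((g • S : Sylow 2 ↥(Subgroup.centralizer ({b} : Set G))) :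
        Subgroup ↥(Subgroup.centralizer ({b} : Set G))) =
        (P : Subgroup G).subgroupOf (Subgroup.centralizer ({b} : Set G)) := by
      rw [hg]
      exact Sylow.coe_subtype P hP
    have e2 := MulEquiv.subgroupCongr hsub
    have e3 : ↥((P : Subgroup G).subgroupOf (Subgroup.centralizer ({b} : Set G))) ≃*
        ↥(P : Subgroup G) := Subgroup.subgroupOfEquivOfLe hP
    have hcyc : IsCyclic ↥(P : Subgroup G) := ((e1.trans e2).trans e3).isCyclic.mp hS
    exact hH.nc P hcyc

end Cfsg.Agent.Lib.Helper45.S02
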