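import Mathlib
import Cfsg.Agent.Lib.Helper45.S02A


/-! S2202 piece PairA (project S02 of helper45).
FILLED by helper5 (was a placeholder); the theorem name and statement are byte-identical, as is
the namespace; auxiliary lemmas go ABOVE the theorem and MUST start with the prefix `paira_`; you may add
imports (landed modules, or other `Cfsg.Agent.Lib.Helper45.S02*` piece files).
Definitions (`HC`, `Inv`, `Zc`, `Lc`, `NP`, `CP`, `Hyp`, `Facts`, `Tp`, `TIH`): Cfsg/Agent/Lib/Helper45/S02A.lean.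
Points = Sylow 2-subgroups, `g • P` = conjugate (`Sylow.smul_def`, `Sylow.coe_smul`,
`Sylow.smul_eq_iff_mem_normalizer : g • P = P ↔ g ∈ normalizer P`, `Subgroup.mem_centralizer_iff`).
"involution" = `orderOf t = 2`.  The paper proof is in the docstring. -/

set_option autoImplicit false

namespace Cfsg.Agent.Lib.Helper45.S02



/-- the same statement for a group all of whose elements fix `a` -/
theorem paira_main {G Ω : Type*} [Group G] [Finite G] [MulAction G Ω] [Finite Ω]
    (q : ℕ) (hq : 4 ≤ q) (hqe : Even q) (hΩ : Nat.card Ω = q + 1) (hodd : Odd (Nat.card G))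
    (a : Ω) (ha : ∀ g : G, g • a = a)
    (h3 : ∀ g : G, ∀ b c : Ω, b ≠ a → c ≠ a → b ≠ c → g • b = b → g • c = c →
      ∀ x : Ω, g • x = x)
    (hbig : (q - 1) * Nat.card {g : G // ∀ x : Ω, g • x = x} ≤ Nat.card G) :
    ∃ b : Ω, b ≠ a ∧ ∀ g : G, g • b = b := by
  classical
  by_contra hno
  push Not at hno
  haveI : Fintype G := Fintype.ofFinite G
  haveI : Fintype Ω := Fintype.ofFinite Ω
  let K : Subgroup G :=
    { carrier := {g | ∀ x : Ω, g • x = x}
      mul_mem' := by intro g h hg hh x; rw [mul_smul, hh x, hg x]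
      one_mem' := fun x => one_smul G x
      inv_mem' := by intro g hg x; rw [inv_smul_eq_iff, hg x] }
  have hwK : Nat.card {g : G // ∀ x : Ω, g • x = x} = Nat.card K := rfl
  rw [hwK] at hbig
  obtain ⟨w, hw⟩ : ∃ w, w = Nat.card K := ⟨_, rfl⟩
  obtain ⟨n, hn⟩ : ∃ n, n = Nat.card G := ⟨_, rfl⟩
  rw [← hw, ← hn] at hbig
  rw [← hn] at hodd
  have hwpos : 0 < w := by rw [hw]; exact Nat.card_pos
  have hnpos : 0 < n := by rw [hn]; exact Nat.card_pos
  have hstab : ∀ b : Ω, ∃ j : ℕ, Nat.card (MulAction.stabilizer G b) = w * j := by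
    intro b
    have hle : K ≤ MulAction.stabilizer G b :=
      fun g hg => MulAction.mem_stabilizer_iff.mpr (hg b)
    rw [hw]
    exact Subgroup.card_dvd_of_le hle
  have hos : ∀ b : Ω,
      (MulAction.orbit G b).ncard * Nat.card (MulAction.stabilizer G b) = n := by
    intro b
    rw [← MulAction.index_stabilizer, hn]
    exact (mul_comm _ _).trans (Subgroup.card_mul_index _)
  have hm2 : ∀ b : Ω, b ≠ a → 2 ≤ (MulAction.orbit G b).ncard := by
    intro b hb
    have hpos : 0 < (MulAction.orbit G b).ncard :=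
      (Set.ncard_pos (Set.toFinite _)).mpr ⟨b, MulAction.mem_orbit_self b⟩
    have hne1 : (MulAction.orbit G b).ncard ≠ 1 := by
      intro h1
      obtain ⟨c, hc⟩ := Set.ncard_eq_one.mp h1
      obtain ⟨g, hg⟩ := hno b hb
      have hbc : b = c := by
        have hmem : b ∈ MulAction.orbit G b := MulAction.mem_orbit_self b
        rw [hc] at hmem; exact hmem
      have hgc : g • b = c := by
        have hmem : g • b ∈ MulAction.orbit G b := MulAction.mem_orbit b g
        rw [hc] at hmem; exact hmem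
      exact hg (hgc.trans hbc.symm)
    omega
  have hmodd : ∀ b : Ω, Odd (MulAction.orbit G b).ncard := fun b =>
    Odd.of_dvd_nat hodd (Dvd.intro _ (hos b))
  have horb_ne : ∀ b : Ω, b ≠ a → ∀ x ∈ MulAction.orbit G b, x ≠ a := by
    intro b hb x hx hxa
    obtain ⟨g, hg⟩ := MulAction.mem_orbit_iff.mp hx
    apply hb
    have h1 : g • b = a := hg.trans hxa
    have h2 : g⁻¹ • (g • b) = g⁻¹ • a := by rw [h1]
    rw [inv_smul_smul, ha] at h2
    exact h2
  -- the counting inequality
  let Wf : Finset G := Finset.univ.filter (fun g => g ∈ K)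
  let S : Ω → Finset G := fun x => Finset.univ.filter (fun g => g ∈ MulAction.stabilizer G x)
  have hWf : Wf.card = w := by
    rw [hw, Nat.card_eq_fintype_card, Fintype.card_subtype]
  have hS : ∀ x, (S x).card = Nat.card (MulAction.stabilizer G x) := by
    intro x
    rw [Nat.card_eq_fintype_card, Fintype.card_subtype]
  have hWS : ∀ x, Wf ⊆ S x := by
    intro x g hg
    simp only [Wf, S, Finset.mem_filter, Finset.mem_univ, true_and] at hg ⊢
    exact MulAction.mem_stabilizer_iff.mpr (hg x)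
  have hcount : ∀ O : Finset Ω, (∀ x ∈ O, x ≠ a) →
      ∑ x ∈ O, (Nat.card (MulAction.stabilizer G x) - w) ≤ n - w := by
    intro O hO
    have hdisj : (O : Set Ω).PairwiseDisjoint (fun x => S x \ Wf) := by
      intro x hx y hy hxy
      show Disjoint (S x \ Wf) (S y \ Wf)
      rw [Finset.disjoint_left]
      intro g hgx hgy
      rw [Finset.mem_sdiff] at hgx hgy
      apply hgx.2
      have hgx1 := hgx.1
      have hgy1 := hgy.1
      simp only [Wf, S, Finset.mem_filter, Finset.mem_univ, true_and] at hgx1 hgy1 ⊢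
      exact h3 g x y (hO x (Finset.mem_coe.mp hx)) (hO y (Finset.mem_coe.mp hy)) hxy
        (MulAction.mem_stabilizer_iff.mp hgx1) (MulAction.mem_stabilizer_iff.mp hgy1)
    have h1 : (O.biUnion (fun x => S x \ Wf)).card = ∑ x ∈ O, (S x \ Wf).card :=
      Finset.card_biUnion hdisj
    have h2 : O.biUnion (fun x => S x \ Wf) ⊆ Finset.univ \ Wf := by
      intro g hg
      rw [Finset.mem_biUnion] at hg
      obtain ⟨x, _, hgx⟩ := hg
      rw [Finset.mem_sdiff] at hgx ⊢
      exact ⟨Finset.mem_univ g, hgx.2⟩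
    have h3' : (Finset.univ \ Wf : Finset G).card = n - w := by
      rw [Finset.card_sdiff_of_subset (Finset.subset_univ _), hWf, Finset.card_univ, hn,
        Nat.card_eq_fintype_card]
    have h4 : ∀ x ∈ O, (S x \ Wf).card = Nat.card (MulAction.stabilizer G x) - w := by
      intro x _
      rw [Finset.card_sdiff_of_subset (hWS x), hS, hWf]
    calc ∑ x ∈ O, (Nat.card (MulAction.stabilizer G x) - w)
        = ∑ x ∈ O, (S x \ Wf).card := (Finset.sum_congr rfl h4).symm
      _ = (O.biUnion (fun x => S x \ Wf)).card := h1.symm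
      _ ≤ (Finset.univ \ Wf : Finset G).card := Finset.card_le_card h2
      _ = n - w := h3'
  -- two orbits
  have hcardΩ : Fintype.card Ω = q + 1 := by rw [← Nat.card_eq_fintype_card]; exact hΩ
  obtain ⟨b₁, hb₁⟩ := Fintype.exists_ne_of_one_lt_card (by rw [hcardΩ]; omega) a
  have hX : (Finset.univ.erase a : Finset Ω).card = q := by
    rw [Finset.card_erase_of_mem (Finset.mem_univ a), Finset.card_univ, hcardΩ]
    rfl
  have hOa : ∀ b : Ω, b ≠ a → ∀ x ∈ (MulAction.orbit G b).toFinset, x ≠ a :=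
    fun b hb x hx => horb_ne b hb x (Set.mem_toFinset.mp hx)
  have hOcard : ∀ b : Ω, (MulAction.orbit G b).toFinset.card = (MulAction.orbit G b).ncard :=
    fun b => (Set.ncard_eq_toFinset_card' _).symm
  obtain ⟨b₂, hb₂, hb₂O⟩ : ∃ b₂ : Ω, b₂ ≠ a ∧ b₂ ∉ MulAction.orbit G b₁ := by
    by_contra hcon
    push Not at hcon
    have hEq : (MulAction.orbit G b₁).toFinset = Finset.univ.erase a := by
      ext x
      constructor
      · intro hx; exact Finset.mem_erase.mpr ⟨hOa b₁ hb₁ x hx, Finset.mem_univ x⟩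
      · intro hx; exact Set.mem_toFinset.mpr (hcon x (Finset.mem_erase.mp hx).1)
    have hmq : (MulAction.orbit G b₁).ncard = q := by rw [← hOcard, hEq, hX]
    have hoddq := hmodd b₁
    rw [hmq] at hoddq
    exact (Nat.not_odd_iff_even.mpr hqe) hoddq
  have hdisj12 : Disjoint (MulAction.orbit G b₁).toFinset (MulAction.orbit G b₂).toFinset := by
    rw [Finset.disjoint_left]
    intro x hx1 hx2
    have e1 := MulAction.orbit_eq_iff.mpr (Set.mem_toFinset.mp hx1)
    have e2 := MulAction.orbit_eq_iff.mpr (Set.mem_toFinset.mp hx2)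
    apply hb₂O
    rw [← e1, e2]
    exact MulAction.mem_orbit_self b₂
  obtain ⟨j₁, hj₁⟩ := hstab b₁
  obtain ⟨j₂, hj₂⟩ := hstab b₂
  have h1n := hos b₁
  have h2n := hos b₂
  rw [hj₁] at h1n
  rw [hj₂] at h2n
  have hm1 := hm2 b₁ hb₁
  have hm2' := hm2 b₂ hb₂
  have hconst : ∀ (b : Ω) (j : ℕ), 0 < (MulAction.orbit G b).ncard →
      (MulAction.orbit G b).ncard * (w * j) = n →
      ∀ x ∈ (MulAction.orbit G b).toFinset, Nat.card (MulAction.stabilizer G x) = w * j := by
    intro b j hpos hbn x hx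
    have e1 := MulAction.orbit_eq_iff.mpr (Set.mem_toFinset.mp hx)
    have h1 := hos x
    rw [e1] at h1
    exact Nat.eq_of_mul_eq_mul_left hpos (h1.trans hbn.symm)
  have hsumO : ∀ (b : Ω) (j : ℕ), 0 < (MulAction.orbit G b).ncard →
      (MulAction.orbit G b).ncard * (w * j) = n →
      ∑ x ∈ (MulAction.orbit G b).toFinset, (Nat.card (MulAction.stabilizer G x) - w) =
        (MulAction.orbit G b).ncard * (w * j - w) := by
    intro b j hpos hbn
    have hc := hconst b j hpos hbn
    rw [Finset.sum_congr rfl (fun x hx => by rw [hc x hx] :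
      ∀ x ∈ (MulAction.orbit G b).toFinset,
        Nat.card (MulAction.stabilizer G x) - w = w * j - w),
      Finset.sum_const, smul_eq_mul, hOcard]
  have hsum := hcount ((MulAction.orbit G b₁).toFinset ∪ (MulAction.orbit G b₂).toFinset)
    (by
      intro x hx
      rcases Finset.mem_union.mp hx with h | h
      · exact hOa b₁ hb₁ x h
      · exact hOa b₂ hb₂ x h)
  rw [Finset.sum_union hdisj12, hsumO b₁ j₁ (by omega) h1n, hsumO b₂ j₂ (by omega) h2n] at hsum
  have hle : (MulAction.orbit G b₁).ncard + (MulAction.orbit G b₂).ncard ≤ q := by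
    rw [← hOcard b₁, ← hOcard b₂, ← Finset.card_union_of_disjoint hdisj12, ← hX]
    apply Finset.card_le_card
    intro x hx
    rcases Finset.mem_union.mp hx with h | h
    · exact Finset.mem_erase.mpr ⟨hOa b₁ hb₁ x h, Finset.mem_univ x⟩
    · exact Finset.mem_erase.mpr ⟨hOa b₂ hb₂ x h, Finset.mem_univ x⟩
  generalize (MulAction.orbit G b₁).ncard = m₁ at *
  generalize (MulAction.orbit G b₂).ncard = m₂ at *
  -- arithmetic
  obtain ⟨q', rfl⟩ : ∃ q', q = q' + 1 := ⟨q - 1, by omega⟩
  rw [Nat.add_sub_cancel] at hbig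
  have hj1pos : 0 < j₁ := by
    rcases Nat.eq_zero_or_pos j₁ with h | h
    · rw [h, mul_zero, mul_zero] at h1n; omega
    · exact h
  have hj2pos : 0 < j₂ := by
    rcases Nat.eq_zero_or_pos j₂ with h | h
    · rw [h, mul_zero, mul_zero] at h2n; omega
    · exact h
  have hA : m₁ * (w * j₁ - w) = n - m₁ * w := by rw [Nat.mul_sub, h1n]
  have hB : m₂ * (w * j₂ - w) = n - m₂ * w := by rw [Nat.mul_sub, h2n]
  have hAle : m₁ * w ≤ n := by
    rw [← h1n]; exact Nat.mul_le_mul_left _ (Nat.le_mul_of_pos_right w hj1pos)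
  have hBle : m₂ * w ≤ n := by
    rw [← h2n]; exact Nat.mul_le_mul_left _ (Nat.le_mul_of_pos_right w hj2pos)
  have hwn : w ≤ n := by
    have : 1 * w ≤ m₁ * w := Nat.mul_le_mul_right w (by omega)
    omega
  rw [hA, hB] at hsum
  have hABle : m₁ * w + m₂ * w ≤ q' * w + w := by
    have h := Nat.mul_le_mul_right w hle
    rw [add_mul, add_mul, one_mul] at h
    exact h
  have hnq : n = q' * w := by omega
  have hmq : m₁ * w + m₂ * w = q' * w + w := by omega
  have hmsum : m₁ + m₂ = q' + 1 := by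
    apply Nat.eq_of_mul_eq_mul_right hwpos
    rw [add_mul, add_mul, one_mul]
    exact hmq
  have hd1 : m₁ ∣ q' := by
    refine Dvd.intro j₁ (Nat.eq_of_mul_eq_mul_right hwpos ?_)
    rw [← hnq, ← h1n]; ring
  have hd2 : m₂ ∣ q' := by
    refine Dvd.intro j₂ (Nat.eq_of_mul_eq_mul_right hwpos ?_)
    rw [← hnq, ← h2n]; ring
  have hd1' : m₁ ∣ m₂ - 1 := by
    have h : m₁ ∣ m₁ + (m₂ - 1) := by
      rw [show m₁ + (m₂ - 1) = q' by omega]; exact hd1
    exact (Nat.dvd_add_right (dvd_refl m₁)).mp h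
  have hd2' : m₂ ∣ m₁ - 1 := by
    have h : m₂ ∣ m₂ + (m₁ - 1) := by
      rw [show m₂ + (m₁ - 1) = q' by omega]; exact hd2
    exact (Nat.dvd_add_right (dvd_refl m₂)).mp h
  have hl1 := Nat.le_of_dvd (by omega) hd1'
  have hl2 := Nat.le_of_dvd (by omega) hd2'
  omega


/-- Pure permutation-group lemma: a point stabilizer fixes a second point.
PROOF. `W := {e | ∀ x, e • x = x}` (the kernel), `Ea := stabilizer E a ⊇ W`.  `Ea` acts on
`X := Ω \ {a}` (`q` points).  Burnside (`MulAction.sum_card_fixedBy_eq_card_orbits_mul_card_group`):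
`#orbits * |Ea| = ∑_(e ∈ Ea) fix_X(e)`.  `e ∈ W` has `q` fixed points; `e ∈ Ea \ W` has at most one fixed
point in `X` (two would give three fixed points in `Ω`, so `e ∈ W` by `h3`).  Hence
`#orbits * |Ea| ≤ q|W| + |Ea| - |W| = |Ea| + (q-1)|W| ≤ 2|Ea|` by `hbig`: at most 2 orbits.  `|Ea|` is odd,
so every orbit has odd size; `|X| = q` is even and positive, so the number of orbits is even: exactly 2,
and then equality holds: `|Ea| = (q-1)|W|`.  The two orbit sizes `m₁ + m₂ = q` divide `|Ea : W| = q-1`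
(`W` acts trivially), so `m₁ ∣ m₂ - 1` and `m₂ ∣ m₁ - 1`; if both were `≥ 2` then `m₁ ≤ m₂ - 1` and
`m₂ ≤ m₁ - 1`: impossible.  So some orbit is a single point `b ≠ a` fixed by `Ea`.
(Any other proof is fine, e.g. counting the pairwise trivially-intersecting-mod-`W` stabilizers.) -/
theorem exists_second_fixed {E Ω : Type*} [Group E] [Finite E] [MulAction E Ω] [Finite Ω]
    (q : ℕ) (hq : 4 ≤ q) (hqe : Even q)
    (hΩ : Nat.card Ω = q + 1) (hodd : Odd (Nat.card E))
    (h3 : ∀ e : E, ∀ a b c : Ω, a ≠ b → b ≠ c → a ≠ c → e • a = a → e • b = b → e • c = c →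
      ∀ x : Ω, e • x = x)
    (a : Ω)
    (hbig : (q - 1) * Nat.card {e : E // ∀ x : Ω, e • x = x} ≤ Nat.card (MulAction.stabilizer E a)) :
    ∃ b : Ω, b ≠ a ∧ ∀ e ∈ MulAction.stabilizer E a, e • b = b := by
  have hcard : Nat.card {g : ↥(MulAction.stabilizer E a) // ∀ x : Ω, g • x = x} =
      Nat.card {e : E // ∀ x : Ω, e • x = x} := by
    apply Nat.card_congr
    exact
      { toFun := fun g => ⟨(g.1 : E), g.2⟩
        invFun := fun e => ⟨⟨e.1, MulAction.mem_stabilizer_iff.mpr (e.2 a)⟩, e.2⟩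
        left_inv := fun _ => rfl
        right_inv := fun _ => rfl }
  obtain ⟨b, hb, hfix⟩ := paira_main (G := ↥(MulAction.stabilizer E a)) q hq hqe hΩ
    (Odd.of_dvd_nat hodd (Subgroup.card_subgroup_dvd_card _)) a (fun g => g.2)
    (fun g b c hb hc hbc hgb hgc x => h3 (g : E) a b c hb.symm hbc hc.symm g.2 hgb hgc x)
    (by rw [hcard]; exact hbig)
  exact ⟨b, hb, fun e he => hfix ⟨e, he⟩⟩

end Cfsg.Agent.Lib.Helper45.S02
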