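import Mathlib
import Cfsg.Agent.Lib.Helper45.S02A


/-! S2202 piece PairB (project S02 of helper45), filled by helper75: the pairing contradiction
(a pure permutation-group lemma).  The paper proof is in the docstring. -/

set_option autoImplicit false

namespace Cfsg.Agent.Lib.Helper45.S02



/-- Pure permutation-group lemma: the pairing contradiction.
PROOF. For each `a` the point `b ≠ a` fixed by `stabilizer E a` is unique: if `b ≠ b'` were two such,
every `e ∈ stabilizer E a` fixes three points, so lies in `W := {e | ∀ x, e • x = x}`, giving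
`|stabilizer E a| ≤ |W|`, against `hbig a` (`q - 1 ≥ 3`, `|W| ≥ 1`).  Let `f a` be this point.
`stabilizer E a ≤ stabilizer E (f a)` and all point stabilizers have the same order (transitivity:
`MulAction.stabilizer_smul_eq_stabilizer_map_conj`), so they are equal; hence `stabilizer E (f a)` fixes
`a ≠ f a`, and `f (f a) = a` by uniqueness.  `f` is an involution of `Ω` without fixed points, so
`Nat.card Ω` is even (`Equiv.Perm.card_fixedPoints_modEq` with `p = 2`, or pair up), but it is `q + 1`,
odd. -/
theorem odd_trans_false {E Ω : Type*} [Group E] [Finite E] [MulAction E Ω] [Finite Ω]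
    (q : ℕ) (hq : 4 ≤ q) (hqe : Even q)
    (hΩ : Nat.card Ω = q + 1) (hodd : Odd (Nat.card E))
    (h3 : ∀ e : E, ∀ a b c : Ω, a ≠ b → b ≠ c → a ≠ c → e • a = a → e • b = b → e • c = c →
      ∀ x : Ω, e • x = x)
    (htr : MulAction.IsPretransitive E Ω)
    (hbig : ∀ a : Ω, (q - 1) * Nat.card {e : E // ∀ x : Ω, e • x = x} ≤
      Nat.card (MulAction.stabilizer E a))
    (hfix : ∀ a : Ω, ∃ b : Ω, b ≠ a ∧ ∀ e ∈ MulAction.stabilizer E a, e • b = b) : False := by
  classical
  have hW1 : 1 ≤ Nat.card {e : E // ∀ x : Ω, e • x = x} := by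
    have : Nonempty {e : E // ∀ x : Ω, e • x = x} := ⟨⟨1, fun x => one_smul E x⟩⟩
    exact Nat.card_pos
  have huniq : ∀ a b b' : Ω, b ≠ a → b' ≠ a → (∀ e ∈ MulAction.stabilizer E a, e • b = b) →
      (∀ e ∈ MulAction.stabilizer E a, e • b' = b') → b = b' := by
    intro a b b' hb hb' h1 h2
    by_contra hne
    have hinj : Nat.card (MulAction.stabilizer E a) ≤
        Nat.card {e : E // ∀ x : Ω, e • x = x} := by
      apply Nat.card_le_card_of_injective (fun e : MulAction.stabilizer E a =>
        (⟨e.1, h3 e.1 a b b' (Ne.symm hb) hne (Ne.symm hb')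
          (MulAction.mem_stabilizer_iff.mp e.2) (h1 e.1 e.2) (h2 e.1 e.2)⟩ :
          {e : E // ∀ x : Ω, e • x = x}))
      intro e e' hee
      have h5 : e.1 = e'.1 :=
        congrArg (fun w : {e : E // ∀ x : Ω, e • x = x} => w.1) hee
      exact Subtype.ext h5
    have h6 := hbig a
    have h4 : 3 ≤ q - 1 := by omega
    have h7 := Nat.mul_le_mul_right (Nat.card {e : E // ∀ x : Ω, e • x = x}) h4
    linarith
  choose f hf using hfix
  have hstab : ∀ a, MulAction.stabilizer E a = MulAction.stabilizer E (f a) := by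
    intro a
    have hle : MulAction.stabilizer E a ≤ MulAction.stabilizer E (f a) :=
      fun e he => MulAction.mem_stabilizer_iff.mpr ((hf a).2 e he)
    obtain ⟨g, hg⟩ := MulAction.exists_smul_eq E a (f a)
    have hcard : Nat.card (MulAction.stabilizer E (f a)) =
        Nat.card (MulAction.stabilizer E a) := by
      rw [← hg, MulAction.stabilizer_smul_eq_stabilizer_map_conj]
      exact Subgroup.card_map_of_injective (MulAut.conj g).injective
    exact Subgroup.eq_of_le_of_card_ge hle hcard.le
  have hinv : ∀ a, f (f a) = a := by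
    intro a
    have h1 : ∀ e ∈ MulAction.stabilizer E (f a), e • a = a := by
      intro e he
      rw [← hstab a] at he
      exact MulAction.mem_stabilizer_iff.mp he
    exact (huniq (f a) a (f (f a)) (Ne.symm (hf a).1) (hf (f a)).1 h1 (hf (f a)).2).symm
  have := Fintype.ofFinite Ω
  obtain ⟨σ, hσ⟩ : ∃ σ : Equiv.Perm Ω, ∀ x, σ x = f x :=
    ⟨Function.Involutive.toPerm f hinv, fun x => rfl⟩
  have hσ2 : σ ^ 2 = 1 := by
    ext x
    rw [sq, Equiv.Perm.mul_apply, hσ, hσ, hinv, Equiv.Perm.one_apply]
  have hsupp : σ.support = Finset.univ := by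
    ext x
    simp only [Equiv.Perm.mem_support, Finset.mem_univ, iff_true]
    rw [hσ]
    exact (hf x).1
  have h2 : 2 ∣ Nat.card Ω := by
    have h8 := Equiv.Perm.two_dvd_card_support hσ2
    rw [hsupp, Finset.card_univ] at h8
    rwa [Nat.card_eq_fintype_card]
  rw [hΩ] at h2
  obtain ⟨k, hk⟩ := hqe
  omega

end Cfsg.Agent.Lib.Helper45.S02
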