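import Mathlib
import Cfsg.Agent.Lib.Helper45.S02A
import Cfsg.Agent.Lib.Helper45.S02PairA
import Cfsg.Agent.Lib.Helper45.S02PairB

/-! S2202 piece OddTr (project S02 of helper45), filled in by helper68.
Definitions (`HC`, `Inv`, `Zc`, `Lc`, `NP`, `CP`, `Hyp`, `Facts`, `Tp`, `TIH`): Cfsg/Agent/Lib/Helper45/S02A.lean.
Points = Sylow 2-subgroups, `g • P` = conjugate (`Sylow.smul_def`, `Sylow.coe_smul`,
`Sylow.smul_eq_iff_mem_normalizer : g • P = P ↔ g ∈ normalizer P`, `Subgroup.mem_centralizer_iff`).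
"involution" = `orderOf t = 2`.  The paper proof is in the docstring. -/

set_option autoImplicit false

namespace Cfsg.Agent.Lib.Helper45.S02

variable {G : Type*} [Group G] [Finite G]

omit [Finite G] in
/-- membership in a conjugate Sylow subgroup -/
theorem oddtr_mem_smul (g : G) (P : Sylow 2 G) (x : G) : x ∈ g • P ↔ g⁻¹ * x * g ∈ P := by
  show x ∈ ((g • P : Sylow 2 G) : Subgroup G) ↔ _
  rw [Sylow.smul_def, Sylow.pointwise_smul_def, Subgroup.mem_pointwise_smul_iff_inv_smul_mem]
  have : (MulAut.conj g)⁻¹ • x = g⁻¹ * x * g := by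
    rw [← map_inv, MulAut.smul_def, MulAut.conj_apply, inv_inv]
  rw [this]
  rfl

omit [Finite G] in
/-- an element of `Zc G` fixes every Sylow 2-subgroup -/
theorem oddtr_Zc_fix (hF : Facts G) {z : G} (hz : z ∈ Zc G) (X : Sylow 2 G) : z • X = X := by
  obtain ⟨s, t, hs, ht, hos, hot, hne⟩ := hF.three X
  have h1 : s ∈ z • X := by
    rw [oddtr_mem_smul]
    have h := (mem_Zc.1 hz) s hos
    have h2 : z⁻¹ * s * z = s := by
      rw [mul_assoc, h, ← mul_assoc, inv_mul_cancel, one_mul]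
    rw [h2]
    exact hs
  exact hF.ti (z • X) X s h1 hs (by rintro rfl; simp at hos)

/-- the order of a Sylow 2-subgroup is at least 4 and even -/
theorem oddtr_card (hH : Hyp G) (P : Sylow 2 G) : 4 ≤ Nat.card P ∧ Even (Nat.card P) := by
  obtain ⟨n, hn⟩ := IsPGroup.iff_card.mp P.isPGroup'
  rcases n with _ | _ | n
  · exfalso
    rw [pow_zero] at hn
    have : Subsingleton P := (Nat.card_eq_one_iff_unique.mp hn).1
    exact hH.nc P isCyclic_of_subsingleton
  · exfalso
    rw [zero_add, pow_one] at hn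
    exact hH.nc P (isCyclic_of_prime_card (p := 2) hn)
  · rw [hn]
    have h1 : (2 : ℕ) ^ (n + 1 + 1) = 4 * 2 ^ n := by ring
    rw [h1]
    refine ⟨?_, ⟨2 * 2 ^ n, by ring⟩⟩
    have : 1 ≤ 2 ^ n := Nat.one_le_two_pow
    omega

/-- Under `Tp` there is no odd-order subgroup transitive on the involutions.
PROOF. Let `↥E` act on `Ω := Sylow 2 G` (`e • P = (e : G) • P`, `Subgroup.smul_def`).  Fix a Sylow `P₀`,
`q := Nat.card P₀`: a power of 2, `≥ 4` (`hF.three` gives 4 elements `1, s, t, s*t`), even;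
`Nat.card Ω = q + 1` (`hT.1`).  Apply `exists_second_fixed` / `odd_trans_false`:
* transitive: for Sylows `P, Q` take involutions `s ∈ P`, `t ∈ Q`, `e ∈ E` with `e s e⁻¹ = t`; then
  `e • P = Q` (`hF.ti`).
* `h3`: `e` fixing three Sylows lies in `Zc G` (`hcons`); `z ∈ Zc G` normalizes every Sylow `X` (it
  commutes with an involution `t ∈ X`, so `t ∈ z • X`, and `hF.ti`).
* `hbig`: every `e` fixing all Sylows lies in `Zc G` (`hcons`, there are `q + 1 ≥ 3` Sylows), so commutes
  with all involutions.  `stabilizer E P` acts on the `q - 1` involutions of `P` (all non-identity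
  elements, `hT.2`) transitively (`htr` + `hF.ti`), and the kernel `W` fixes each; fix an involution
  `t₀ ∈ P`: `e ↦ e t₀ e⁻¹` is onto the involutions of `P` with fibres cosets of the stabilizer of `t₀`,
  which contains `W`: `|stabilizer E P| ≥ (q-1)|W|`. -/
theorem no_odd_transitive (hH : Hyp G) (hF : Facts G) (hT : Tp G)
    (hcons : ∀ (g : G) (P Q R : Sylow 2 G), P ≠ Q → P ≠ R → Q ≠ R → g ∈ NP P → g ∈ NP Q → g ∈ NP R → g ∈ Zc G)
    (E : Subgroup G) (hodd : Odd (Nat.card E))
    (htr : ∀ s t : G, orderOf s = 2 → orderOf t = 2 → ∃ e ∈ E, e * s * e⁻¹ = t) : False := by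
  obtain ⟨P₀, -, -⟩ := hH.two
  obtain ⟨hq, hqe⟩ := oddtr_card hH P₀
  obtain ⟨q, hqdef⟩ : ∃ q : ℕ, q = Nat.card P₀ := ⟨_, rfl⟩
  rw [← hqdef] at hq hqe
  have hΩ : Nat.card (Sylow 2 G) = q + 1 := by rw [hqdef]; exact hT.1 P₀
  have hcardP : ∀ P : Sylow 2 G, Nat.card P = q := fun P => by
    have := hT.1 P
    omega
  have hfixall : ∀ e : E, (e : G) ∈ Zc G → ∀ x : Sylow 2 G, e • x = x := fun e he x => by
    rw [Subgroup.smul_def]
    exact oddtr_Zc_fix hF he x
  have h3 : ∀ e : E, ∀ a b c : Sylow 2 G, a ≠ b → b ≠ c → a ≠ c → e • a = a → e • b = b →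
      e • c = c → ∀ x : Sylow 2 G, e • x = x := by
    intro e a b c hab hbc hac ha hb hc
    apply hfixall
    rw [Subgroup.smul_def, Sylow.smul_eq_iff_mem_normalizer] at ha hb hc
    exact hcons e a b c hab hac hbc ha hb hc
  have htr' : MulAction.IsPretransitive E (Sylow 2 G) := by
    refine ⟨fun P Q => ?_⟩
    obtain ⟨s, -, hs, -, hos, -, -⟩ := hF.three P
    obtain ⟨t, -, ht, -, hot, -, -⟩ := hF.three Q
    obtain ⟨e, he, het⟩ := htr s t hos hot
    refine ⟨⟨e, he⟩, ?_⟩
    rw [Subgroup.smul_def]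
    apply hF.ti _ _ t _ ht (by rintro rfl; simp at hot)
    show t ∈ e • P
    rw [oddtr_mem_smul, ← het]
    have : e⁻¹ * (e * s * e⁻¹) * e = s := by group
    rw [this]
    exact hs
  have hbig : ∀ a : Sylow 2 G, (q - 1) * Nat.card {e : E // ∀ x : Sylow 2 G, e • x = x} ≤
      Nat.card (MulAction.stabilizer E a) := by
    intro P
    have h3S : ∃ A B C : Sylow 2 G, A ≠ B ∧ A ≠ C ∧ B ≠ C := by
      cases nonempty_fintype (Sylow 2 G)
      rw [← Fintype.two_lt_card_iff, ← Nat.card_eq_fintype_card]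
      omega
    obtain ⟨A, B, C, hAB, hAC, hBC⟩ := h3S
    have hW : ∀ w : {e : E // ∀ x : Sylow 2 G, e • x = x}, ((w : E) : G) ∈ Zc G := by
      intro w
      have h := w.2
      apply hcons _ A B C hAB hAC hBC
      · have := h A
        rwa [Subgroup.smul_def, Sylow.smul_eq_iff_mem_normalizer] at this
      · have := h B
        rwa [Subgroup.smul_def, Sylow.smul_eq_iff_mem_normalizer] at this
      · have := h C
        rwa [Subgroup.smul_def, Sylow.smul_eq_iff_mem_normalizer] at this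
    obtain ⟨t₀, -, ht₀, -, hot₀, -, -⟩ := hF.three P
    have hch : ∀ t : {x : P // x ≠ 1}, ∃ e : E, (e : G) * t₀ * (e : G)⁻¹ = ((t : P) : G) := by
      intro t
      have hot : orderOf ((t : P) : G) = 2 :=
        orderOf_eq_prime (hT.2 P _ t.1.2) (by intro h; exact t.2 (Subtype.ext h))
      obtain ⟨e, he, h⟩ := htr t₀ _ hot₀ hot
      exact ⟨⟨e, he⟩, h⟩
    choose ef hef using hch
    have hefS : ∀ t, ef t ∈ MulAction.stabilizer E P := by
      intro t
      rw [MulAction.mem_stabilizer_iff, Subgroup.smul_def]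
      apply hF.ti _ _ ((t : P) : G) _ t.1.2 (by intro h; exact t.2 (Subtype.ext h))
      show ((t : P) : G) ∈ ((ef t : E) : G) • P
      rw [oddtr_mem_smul, ← hef t]
      have : ((ef t : E) : G)⁻¹ * (((ef t : E) : G) * t₀ * ((ef t : E) : G)⁻¹) * ((ef t : E) : G)
          = t₀ := by group
      rw [this]
      exact ht₀
    have hWS : ∀ w : {e : E // ∀ x : Sylow 2 G, e • x = x},
        (w : E) ∈ MulAction.stabilizer E P := fun w => by
      rw [MulAction.mem_stabilizer_iff]
      exact w.2 P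
    obtain ⟨f, hf⟩ : ∃ f : {x : P // x ≠ 1} × {e : E // ∀ x : Sylow 2 G, e • x = x} →
        MulAction.stabilizer E P, ∀ p, ((f p : MulAction.stabilizer E P) : E) = ef p.1 * (p.2 : E) :=
      ⟨fun p => ⟨ef p.1 * (p.2 : E), mul_mem (hefS p.1) (hWS p.2)⟩, fun p => rfl⟩
    have hconj : ∀ p, (((f p : MulAction.stabilizer E P) : E) : G) * t₀ *
        (((f p : MulAction.stabilizer E P) : E) : G)⁻¹ = ((p.1 : P) : G) := by
      intro p
      rw [hf p]
      have hw := (mem_Zc.1 (hW p.2)) t₀ hot₀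
      rw [Subgroup.coe_mul, mul_inv_rev]
      calc ((ef p.1 : E) : G) * ((p.2 : E) : G) * t₀ * (((p.2 : E) : G)⁻¹ * ((ef p.1 : E) : G)⁻¹)
          = ((ef p.1 : E) : G) * (((p.2 : E) : G) * t₀ * ((p.2 : E) : G)⁻¹) * ((ef p.1 : E) : G)⁻¹ := by
            group
        _ = ((ef p.1 : E) : G) * t₀ * ((ef p.1 : E) : G)⁻¹ := by rw [← hw, mul_inv_cancel_right]
        _ = _ := hef p.1
    have hinj : Function.Injective f := by
      intro p p' h
      have h1 : p.1 = p'.1 := by
        apply Subtype.ext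
        apply Subtype.ext
        rw [← hconj p, ← hconj p', h]
      have h2 : ef p.1 * (p.2 : E) = ef p'.1 * (p'.2 : E) := by
        rw [← hf p, ← hf p', h]
      rw [h1] at h2
      have h4 : (p.2 : E) = (p'.2 : E) := mul_left_cancel h2
      exact Prod.ext h1 (Subtype.ext h4)
    have hcard := Nat.card_le_card_of_injective f hinj
    rw [Nat.card_prod] at hcard
    have hP1 : Nat.card {x : P // x ≠ 1} = q - 1 := by
      classical
      have h5 := Nat.card_congr (Equiv.optionSubtypeNe (1 : P))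
      rw [Finite.card_option] at h5
      have h6 : Nat.card {x : P // x ≠ 1} + 1 = q := h5.trans (hcardP P)
      omega
    rw [hP1] at hcard
    exact hcard
  exact odd_trans_false q hq hqe hΩ hodd h3 htr' hbig
    (fun a => exists_second_fixed q hq hqe hΩ hodd h3 a (hbig a))

end Cfsg.Agent.Lib.Helper45.S02
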