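import Mathlib
import Cfsg.Agent.Lib.Helper45.S02A


/-! S2202 piece RegS (project S02 of helper45).
PLACEHOLDER: replace the `sorry` in THIS file; keep the theorem name and statement byte-identical and keep
the namespace; auxiliary lemmas go ABOVE the theorem and MUST start with the prefix `regs_`; you may add
imports (landed modules, or other `Cfsg.Agent.Lib.Helper45.S02*` piece files).
Definitions (`HC`, `Inv`, `Zc`, `Lc`, `NP`, `CP`, `Hyp`, `Facts`, `Tp`, `TIH`): Cfsg/Agent/Lib/Helper45/S02A.lean.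
Points = Sylow 2-subgroups, `g • P` = conjugate (`Sylow.smul_def`, `Sylow.coe_smul`,
`Sylow.smul_eq_iff_mem_normalizer : g • P = P ↔ g ∈ normalizer P`, `Subgroup.mem_centralizer_iff`).
"involution" = `orderOf t = 2`.  The paper proof is in the docstring. -/

set_option autoImplicit false

namespace Cfsg.Agent.Lib.Helper45.S02

variable {G : Type*} [Group G] [Finite G]

theorem regs_smul_self (R : Sylow 2 G) {s : G} (hs : s ∈ R) : s • R = R := by
  rw [Sylow.smul_eq_iff_mem_normalizer]
  exact Subgroup.le_normalizer hs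

theorem regs_inj (hF : Facts G) (hT : Tp G) (R P : Sylow 2 G) (hP : P ≠ R) {s s' : G}
    (hs : s ∈ R) (hs' : s' ∈ R) (h : s • P = s' • P) : s = s' := by
  by_contra hne
  have hxR : s'⁻¹ * s ∈ R := mul_mem (inv_mem hs') hs
  have hxP : (s'⁻¹ * s) • P = P := by rw [mul_smul, h, inv_smul_smul]
  have hx1 : s'⁻¹ * s ≠ 1 := by
    intro h1
    exact hne (inv_mul_eq_one.mp h1).symm
  have hx2 : (s'⁻¹ * s) ^ 2 = 1 := hT.2 R _ hxR
  have hord : orderOf (s'⁻¹ * s) = 2 := orderOf_eq_prime hx2 hx1
  have hxN : s'⁻¹ * s ∈ NP P := Sylow.smul_eq_iff_mem_normalizer.mp hxP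
  have hxinP : s'⁻¹ * s ∈ P := hF.invN P _ hord hxN
  exact hP (hF.ti P R _ hxinP hxR hx1)

theorem regs_card (R : Sylow 2 G) :
    Nat.card {X : Sylow 2 G // X ≠ R} = Nat.card (Sylow 2 G) - 1 := by
  have h3 : Nat.card {X : Sylow 2 G // X ≠ R} = ({R}ᶜ : Set (Sylow 2 G)).ncard := by
    rw [← Nat.card_coe_set_eq]
    exact Nat.card_congr (Equiv.subtypeEquivRight (fun X => by simp))
  rw [h3, Set.ncard_compl, Set.ncard_singleton]

/-- Under `Tp`, a Sylow 2-subgroup `R` is regular on the other Sylow 2-subgroups.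
PROOF. The map `R → {X : Sylow 2 G // X ≠ R}`, `s ↦ s • P`, is well defined (`s • P = R = s • R` would
give `P = R`) and injective: if `s • P = s' • P` then `x := s'⁻¹ * s ∈ R ⊓ NP P`; if `x ≠ 1`, a power of
`x` is an involution in `R ⊓ NP P`, which lies in `P` by `hF.invN`, so `P = R` by `hF.ti`.  Both sides
have `Nat.card R` elements (`hT.1 R`), so the map is bijective. -/
theorem sylow_regular (hF : Facts G) (hT : Tp G) (R P Q : Sylow 2 G) (hP : P ≠ R) (hQ : Q ≠ R) :
    ∃ s : G, s ∈ R ∧ s • P = Q ∧ ∀ s' : G, s' ∈ R → s' • P = Q → s' = s := by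
  classical
  let f : R → {X : Sylow 2 G // X ≠ R} := fun s => ⟨(s : G) • P, by
    intro h
    have h1 : (s : G) • R = R := regs_smul_self R s.2
    exact hP (smul_left_cancel (s : G) (h.trans h1.symm))⟩
  have hinj : Function.Injective f := by
    intro s s' h
    exact Subtype.ext (regs_inj hF hT R P hP s.2 s'.2 (congrArg Subtype.val h))
  have hcard : Nat.card {X : Sylow 2 G // X ≠ R} ≤ Nat.card R := by
    have h1 := hT.1 R
    have h2 := regs_card R
    omega
  have hbij := hinj.bijective_of_nat_card_le hcard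
  obtain ⟨s, hs⟩ := hbij.2 ⟨Q, hQ⟩
  refine ⟨s, s.2, congrArg Subtype.val hs, fun s' hs' h' => ?_⟩
  have h1 : f ⟨s', hs'⟩ = f s := Subtype.ext (h'.trans (congrArg Subtype.val hs).symm)
  exact congrArg Subtype.val (hinj h1)

end Cfsg.Agent.Lib.Helper45.S02
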