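import Mathlib
import Cfsg.Agent.Lib.Helper45.S02A
import Cfsg.Prelude.Def_Involutions

/-! S2202 piece SEH (project S02 of helper45).
PLACEHOLDER: replace the `sorry` in THIS file; keep the theorem name and statement byte-identical and keep
the namespace; auxiliary lemmas go ABOVE the theorem and MUST start with the prefix `seh_`; you may add
imports (landed modules, or other `Cfsg.Agent.Lib.Helper45.S02*` piece files).
Definitions (`HC`, `Inv`, `Zc`, `Lc`, `NP`, `CP`, `Hyp`, `Facts`, `Tp`, `TIH`): Cfsg/Agent/Lib/Helper45/S02A.lean.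
Points = Sylow 2-subgroups, `g • P` = conjugate (`Sylow.smul_def`, `Sylow.coe_smul`,
`Sylow.smul_eq_iff_mem_normalizer : g • P = P ↔ g ∈ normalizer P`, `Subgroup.mem_centralizer_iff`).
"involution" = `orderOf t = 2`.  The paper proof is in the docstring. -/

set_option autoImplicit false

namespace Cfsg.Agent.Lib.Helper45.S02

variable {G : Type*} [Group G] [Finite G]

theorem seh_le_of_mem_CP (P : Sylow 2 G) (b : G) (hb : b ∈ CP P) :
    (P : Subgroup G) ≤ Subgroup.centralizer ({b} : Set G) := by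
  intro x hx
  rw [Subgroup.mem_centralizer_iff]
  intro y hy
  rw [Set.mem_singleton_iff] at hy
  rw [hy]
  exact ((Subgroup.mem_centralizer_iff.mp hb) x hx).symm

/-- `C(b)` is strongly embedded when `b` centralizes two Sylow 2-subgroups and `C(b) ≠ ⊤`.
PROOF. `H := centralizer {b}`.  Even order: `P ≤ H`.  Let `g ∉ H` and suppose `H ⊓ H.map (conj g)` has
even order: Cauchy gives an involution `v = g * w * g⁻¹` with `v, w ∈ H`.  Take a Sylow `R ∋ w`
(`IsPGroup.exists_le_sylow` for `zpowers w`); `b ∈ CP R` and `b ∈ CP (g • R)` by `hF.cent` (`w ∈ R`,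
`v ∈ g • R` commute with `b`).  So `R ≤ H`, `g • R ≤ H`; `R.subtype _` and `(g • R).subtype _` are
Sylow 2-subgroups of `H`, conjugate by some `h : H` (`MulAction.exists_smul_eq`, `Sylow.smul_subtype`):
`(h : G) • R = g • R`.  Then `h⁻¹ * g ∈ NP R ≤ H` (`hF5 R`), so `g ∈ H`: contradiction. -/
theorem centralizer_stronglyEmbedded (hF : Facts G) (P Q : Sylow 2 G) (hPQ : P ≠ Q) (b : G)
    (hbP : b ∈ CP P) (hbQ : b ∈ CP Q)
    (hF5 : ∀ R : Sylow 2 G, b ∈ CP R → NP R ≤ Subgroup.centralizer ({b} : Set G))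
    (hne : Subgroup.centralizer ({b} : Set G) ≠ ⊤) :
    Cfsg.IsStronglyEmbedded (Subgroup.centralizer ({b} : Set G)) := by
  classical
  have hfact : Fact (Nat.Prime 2) := ⟨Nat.prime_two⟩
  refine ⟨hne, ?_, ?_⟩
  · have hPH : (P : Subgroup G) ≤ Subgroup.centralizer ({b} : Set G) := seh_le_of_mem_CP P b hbP
    obtain ⟨s, t, hs, ht, hs2, ht2, hst⟩ := hF.three P
    have h1 : orderOf s ∣ Nat.card (P : Subgroup G) := Subgroup.orderOf_dvd_natCard _ hs
    rw [hs2] at h1
    exact even_iff_two_dvd.mpr (h1.trans (Subgroup.card_dvd_of_le hPH))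
  · intro g hg
    by_contra hodd
    rw [Nat.not_odd_iff_even] at hodd
    obtain ⟨x, hx⟩ := exists_prime_orderOf_dvd_card' 2 (even_iff_two_dvd.mp hodd)
    have hv2ord : orderOf (x : G) = 2 := by
      rw [Subgroup.orderOf_coe]
      exact hx
    have hvH : (x : G) ∈ Subgroup.centralizer ({b} : Set G) := x.2.1
    have hv2 : (x : G) ∈ (Subgroup.centralizer ({b} : Set G)).map (MulAut.conj g).toMonoidHom :=
      x.2.2
    obtain ⟨w, hwH, hwv⟩ := Subgroup.mem_map.mp hv2
    have hwv' : g * w * g⁻¹ = (x : G) := hwv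
    have hw2 : orderOf w = 2 := by
      rw [← orderOf_conj_eq g w, hwv', hv2ord]
    have hwp : IsPGroup 2 (Subgroup.zpowers w) :=
      IsPGroup.of_card (n := 1) (by rw [Nat.card_zpowers, hw2, pow_one])
    obtain ⟨R, hR⟩ := hwp.exists_le_sylow
    have hwR : w ∈ R := hR (Subgroup.mem_zpowers w)
    have hcw : Commute b w := Subgroup.mem_centralizer_iff.mp hwH b (Set.mem_singleton b)
    have hcv : Commute b (x : G) := Subgroup.mem_centralizer_iff.mp hvH b (Set.mem_singleton b)
    have hbR : b ∈ CP R := hF.cent R w b hwR hw2 hcw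
    have hvgR : (x : G) ∈ ((g • R : Sylow 2 G) : Subgroup G) := by
      rw [Sylow.coe_subgroup_smul, ← hwv']
      exact Subgroup.smul_mem_pointwise_smul w (MulAut.conj g) R hwR
    have hbgR : b ∈ CP (g • R) := hF.cent (g • R) (x : G) b hvgR hv2ord hcv
    have hRH : (R : Subgroup G) ≤ Subgroup.centralizer ({b} : Set G) := seh_le_of_mem_CP R b hbR
    have hgRH : ((g • R : Sylow 2 G) : Subgroup G) ≤ Subgroup.centralizer ({b} : Set G) :=
      seh_le_of_mem_CP (g • R) b hbgR
    obtain ⟨h, hh⟩ := MulAction.exists_smul_eq (↥(Subgroup.centralizer ({b} : Set G)))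
      (R.subtype hRH) ((g • R).subtype hgRH)
    simp_rw [Sylow.smul_subtype, Subgroup.smul_def] at hh
    have hh' : (h : G) • R = g • R := Sylow.subtype_injective hh
    have hn : (h : G)⁻¹ * g ∈ NP R := by
      apply Sylow.smul_eq_iff_mem_normalizer.mp
      rw [mul_smul, ← hh', inv_smul_smul]
    have hn' := hF5 R hbR hn
    apply hg
    have h3 : g = (h : G) * ((h : G)⁻¹ * g) := by group
    rw [h3]
    exact Subgroup.mul_mem _ h.2 hn'

end Cfsg.Agent.Lib.Helper45.S02
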