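import Mathlib
import Cfsg.Agent.Lib.Helper45.S02A
import Cfsg.Agent.Lib.Helper45.S02AsmFacts
import Cfsg.Agent.Lib.Helper45.S02F5
import Cfsg.Agent.Lib.Helper45.S02HSub
import Cfsg.Agent.Lib.Helper45.S02SEH
import Cfsg.Agent.Lib.Helper45.S02E
import Cfsg.Agent.Lib.Helper45.S02RegS
import Cfsg.Agent.Lib.Helper45.S02Cons
import Cfsg.Agent.Lib.Helper45.S02OddTr
import Cfsg.Prelude.Def_Involutions

/-! S2202 piece AsmB1 (project S02 of helper45).
PLACEHOLDER: replace the `sorry` in THIS file; keep the theorem name and statement byte-identical and keep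
the namespace; auxiliary lemmas go ABOVE the theorem and MUST start with the prefix `asmb1_`; you may add
imports (landed modules, or other `Cfsg.Agent.Lib.Helper45.S02*` piece files).
Definitions (`HC`, `Inv`, `Zc`, `Lc`, `NP`, `CP`, `Hyp`, `Facts`, `Tp`, `TIH`): Cfsg/Agent/Lib/Helper45/S02A.lean.
Points = Sylow 2-subgroups, `g • P` = conjugate (`Sylow.smul_def`, `Sylow.coe_smul`,
`Sylow.smul_eq_iff_mem_normalizer : g • P = P ↔ g ∈ normalizer P`, `Subgroup.mem_centralizer_iff`).
"involution" = `orderOf t = 2`.  The paper proof is in the docstring. -/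

set_option autoImplicit false

namespace Cfsg.Agent.Lib.Helper45.S02

variable {G : Type*} [Group G] [Finite G]

/-- ASSEMBLY of the non-TI contradiction: if `Zc G = ⊥` and `Tp` holds for all proper subgroups satisfying
`Hyp`, then `TIH G`.
PROOF. Suppose `P ≠ Q` and `CP P ⊓ CP Q ≠ ⊥`: pick `b ≠ 1` in it (`Subgroup.ne_bot_iff_exists_ne_one` /
`Subgroup.eq_bot_iff_forall`).  `H := centralizer {b}`.  `H ≠ ⊤`: else `b` commutes with everything, so
`b ∈ Zc G = ⊥`.  `hF5 := normalizer_le_centralizer hF P Q hPQ b hbP hbQ`;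
`hSE := centralizer_stronglyEmbedded hF P Q hPQ b hbP hbQ hF5 hne`;
`hH' : Hyp ↥H := hyp_centralizer hH P Q hPQ b hbP hbQ`; `hT' : Tp ↥H := ih H hne hH'`;
`hF' : Facts ↥H := facts_of_hyp hH'`; `exists_odd_transitive H hSE` gives `E : Subgroup ↥H` of odd order,
transitive on the involutions of `↥H`; `hregS' := sylow_regular hF' hT'`,
`hcons' := fix_three_mem_Zc hF' hT' hregS'`; `no_odd_transitive hH' hF' hT' hcons' E ..` gives `False`. -/
theorem TIH_of_ih (hH : Hyp G) (hF : Facts G) (hZ : Zc G = ⊥)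
    (ih : ∀ H : Subgroup G, H ≠ ⊤ → Hyp ↥H → Tp ↥H) : TIH G := by
  intro P Q hPQ
  by_contra hne0
  obtain ⟨⟨b, hb⟩, hb1⟩ := (Subgroup.ne_bot_iff_exists_ne_one).1 hne0
  have hbP : b ∈ CP P := (Subgroup.mem_inf.1 hb).1
  have hbQ : b ∈ CP Q := (Subgroup.mem_inf.1 hb).2
  have hb1' : b ≠ 1 := fun h => hb1 (Subtype.ext h)
  have hne : Subgroup.centralizer ({b} : Set G) ≠ ⊤ := by
    intro htop
    apply hb1'
    have hbZ : b ∈ Zc G := by
      rw [mem_Zc]
      intro t _
      have ht : t ∈ Subgroup.centralizer ({b} : Set G) := by rw [htop]; exact Subgroup.mem_top t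
      exact ((f5_mem_cent b t).1 ht).symm
    rw [hZ] at hbZ
    exact Subgroup.mem_bot.1 hbZ
  have hF5 : ∀ R : Sylow 2 G, b ∈ CP R → NP R ≤ Subgroup.centralizer ({b} : Set G) :=
    fun R hbR => normalizer_le_centralizer hF P Q hPQ b hbP hbQ R hbR
  have hSE := centralizer_stronglyEmbedded hF P Q hPQ b hbP hbQ hF5 hne
  have hH' : Hyp ↥(Subgroup.centralizer ({b} : Set G)) := hyp_centralizer hH P Q hPQ b hbP hbQ
  have hT' : Tp ↥(Subgroup.centralizer ({b} : Set G)) := ih _ hne hH'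
  have hF' : Facts ↥(Subgroup.centralizer ({b} : Set G)) := facts_of_hyp hH'
  obtain ⟨E, hodd, htr⟩ := exists_odd_transitive (Subgroup.centralizer ({b} : Set G)) hSE
  have hregS' := sylow_regular hF' hT'
  have hcons' := fix_three_mem_Zc hF' hT' hregS'
  exact no_odd_transitive hH' hF' hT' hcons' E hodd htr

end Cfsg.Agent.Lib.Helper45.S02
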