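import Mathlib
import Cfsg.Agent.Lib.Helper45.S02A


/-! S2202 piece Ker (project S02 of helper45).
Filled by helper82 (job 4088); the theorem name and statement are byte-identical to the placeholder, same
namespace; auxiliary lemmas go ABOVE the theorem and MUST start with the prefix `ker_`; you may add
imports (landed modules, or other `Cfsg.Agent.Lib.Helper45.S02*` piece files).
Definitions (`HC`, `Inv`, `Zc`, `Lc`, `NP`, `CP`, `Hyp`, `Facts`, `Tp`, `TIH`): Cfsg/Agent/Lib/Helper45/S02A.lean.
Points = Sylow 2-subgroups, `g • P` = conjugate (`Sylow.smul_def`, `Sylow.coe_smul`,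
`Sylow.smul_eq_iff_mem_normalizer : g • P = P ↔ g ∈ normalizer P`, `Subgroup.mem_centralizer_iff`).
"involution" = `orderOf t = 2`.  The paper proof is in the docstring. -/

set_option autoImplicit false

namespace Cfsg.Agent.Lib.Helper45.S02

variable {G : Type*} [Group G] [Finite G]

/-- Under `Tp` the kernel of the action on Sylow 2-subgroups is `Zc G`.
PROOF. `⊇`: `z ∈ Zc G` commutes with an involution `t ∈ X` (`hF.three`), so `t ∈ z • X`, and `z • X = X`
by `hF.ti`.  `⊆`: `g` in the kernel normalizes all Sylows; there are `Nat.card P + 1 ≥ 3` of them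
(`hT.1`, `P` nontrivial), so `hcons` applies. -/
theorem toPermHom_ker (hF : Facts G) (hT : Tp G)
    (hcons : ∀ (g : G) (P Q R : Sylow 2 G), P ≠ Q → P ≠ R → Q ≠ R → g ∈ NP P → g ∈ NP Q → g ∈ NP R → g ∈ Zc G) :
    (MulAction.toPermHom G (Sylow 2 G)).ker = Zc G := by
  classical
  ext g
  rw [MonoidHom.mem_ker]
  constructor
  · intro hg
    have hfix : ∀ X : Sylow 2 G, g • X = X := by
      intro X
      have h1 := congrArg (fun σ : Equiv.Perm (Sylow 2 G) => σ X) hg
      simpa using h1
    have hN : ∀ X : Sylow 2 G, g ∈ NP X := fun X =>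
      Sylow.smul_eq_iff_mem_normalizer.mp (hfix X)
    haveI : Fintype (Sylow 2 G) := Fintype.ofFinite _
    have hcard : 2 < Fintype.card (Sylow 2 G) := by
      obtain ⟨P⟩ : Nonempty (Sylow 2 G) := inferInstance
      obtain ⟨s, t, hs, ht, hos, hot, hst⟩ := hF.three P
      have h2 : 2 ≤ Nat.card P := by
        have h4 : orderOf (⟨s, hs⟩ : (P : Subgroup G)) = 2 :=
          (Subgroup.orderOf_mk s hs).trans hos
        have hdvd := orderOf_dvd_natCard (⟨s, hs⟩ : (P : Subgroup G))
        rw [h4] at hdvd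
        exact Nat.le_of_dvd Nat.card_pos hdvd
      have h3 := hT.1 P
      rw [Nat.card_eq_fintype_card] at h3
      omega
    obtain ⟨P, Q, R, hPQ, hPR, hQR⟩ := Fintype.two_lt_card_iff.mp hcard
    exact hcons g P Q R hPQ hPR hQR (hN P) (hN Q) (hN R)
  · intro hz
    ext X : 1
    rw [MulAction.toPermHom_apply, MulAction.toPerm_apply, Equiv.Perm.one_apply]
    obtain ⟨s, t, hs, ht, hos, hot, hst⟩ := hF.three X
    have hc := (mem_Zc.mp hz) t hot
    have ht1 : t ≠ 1 := by
      rintro rfl
      rw [orderOf_one] at hot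
      omega
    apply hF.ti (g • X) X t ?_ ht ht1
    show t ∈ ((g • X : Sylow 2 G) : Subgroup G)
    rw [Sylow.smul_def, Sylow.pointwise_smul_def, Subgroup.mem_pointwise_smul_iff_inv_smul_mem,
      MulAut.smul_def, MulAut.conj_inv_apply]
    have h5 : g⁻¹ * t * g = t := by rw [mul_assoc, hc, inv_mul_cancel_left]
    rw [h5]
    exact ht

end Cfsg.Agent.Lib.Helper45.S02
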