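import Mathlib
import Cfsg.Agent.Lib.Helper45.S02A


/-! S2202 piece LZ (project S02 of helper45).
PLACEHOLDER: replace the `sorry` in THIS file; keep the theorem name and statement byte-identical and keep
the namespace; auxiliary lemmas go ABOVE the theorem and MUST start with the prefix `lz_`; you may add
imports (landed modules, or other `Cfsg.Agent.Lib.Helper45.S02*` piece files).
Definitions (`HC`, `Inv`, `Zc`, `Lc`, `NP`, `CP`, `Hyp`, `Facts`, `Tp`, `TIH`): Cfsg/Agent/Lib/Helper45/S02A.lean.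
Points = Sylow 2-subgroups, `g • P` = conjugate (`Sylow.smul_def`, `Sylow.coe_smul`,
`Sylow.smul_eq_iff_mem_normalizer : g • P = P ↔ g ∈ normalizer P`, `Subgroup.mem_centralizer_iff`).
"involution" = `orderOf t = 2`.  The paper proof is in the docstring. -/

set_option autoImplicit false

namespace Cfsg.Agent.Lib.Helper45.S02

variable {G : Type*} [Group G] [Finite G]

/-- Under `Tp`, `G = Lc G * Zc G`.
PROOF. Three distinct Sylows `P, Q, R` exist (`Nat.card (Sylow 2 G) = Nat.card P + 1 ≥ 3`).  Let `x` be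
the embedding `![P, Q, R]` and `y i := g • x i` (an embedding).  `h3T x y` gives `l ∈ Lc G` with
`l • x i = g • x i`; then `l⁻¹ * g` normalizes `P, Q, R`, so `l⁻¹ * g ∈ Zc G` by `hcons`. -/
theorem Lc_mul_Zc (hF : Facts G) (hT : Tp G)
    (hcons : ∀ (g : G) (P Q R : Sylow 2 G), P ≠ Q → P ≠ R → Q ≠ R → g ∈ NP P → g ∈ NP Q → g ∈ NP R → g ∈ Zc G)
    (h3T : ∀ x y : Fin 3 ↪ Sylow 2 G, ∃ l : G, l ∈ Lc G ∧ ∀ i, l • x i = y i)
    (g : G) : ∃ l : G, l ∈ Lc G ∧ l⁻¹ * g ∈ Zc G := by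
  classical
  -- three distinct Sylow 2-subgroups
  obtain ⟨P₀⟩ : Nonempty (Sylow 2 G) := inferInstance
  obtain ⟨s, t, hs, -, hs2, -, -⟩ := hF.three P₀
  have hs1 : s ≠ 1 := by
    intro h
    rw [h, orderOf_one] at hs2
    omega
  have hP2 : 2 ≤ Nat.card P₀ := by
    have h1 : Nontrivial (P₀ : Subgroup G) :=
      ⟨⟨⟨s, hs⟩, 1, fun h => hs1 (congrArg Subtype.val h)⟩⟩
    exact Finite.one_lt_card
  have h3 : 3 ≤ Nat.card (Sylow 2 G) := by
    rw [hT.1 P₀]
    omega
  have hfin : Fintype (Sylow 2 G) := Fintype.ofFinite _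
  have hcard : Fintype.card (Fin 3) ≤ Fintype.card (Sylow 2 G) := by
    rw [Fintype.card_fin, ← Nat.card_eq_fintype_card]
    exact h3
  obtain ⟨x⟩ := Function.Embedding.nonempty_of_card_le hcard
  obtain ⟨l, hl, hlx⟩ := h3T x ⟨fun i => g • x i, fun i j hij =>
    x.injective (MulAction.injective g hij)⟩
  refine ⟨l, hl, ?_⟩
  have hfix : ∀ i, (l⁻¹ * g) • x i = x i := by
    intro i
    have h1 : l • x i = g • x i := hlx i
    rw [mul_smul, ← h1, inv_smul_smul]
  have hN : ∀ i, l⁻¹ * g ∈ NP (x i) := fun i => Sylow.smul_eq_iff_mem_normalizer.mp (hfix i)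
  have h01 : x 0 ≠ x 1 := fun h => absurd (x.injective h) (by decide)
  have h02 : x 0 ≠ x 2 := fun h => absurd (x.injective h) (by decide)
  have h12 : x 1 ≠ x 2 := fun h => absurd (x.injective h) (by decide)
  exact hcons (l⁻¹ * g) (x 0) (x 1) (x 2) h01 h02 h12 (hN 0) (hN 1) (hN 2)

end Cfsg.Agent.Lib.Helper45.S02
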