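import Mathlib
import Cfsg.Agent.Lib.Helper45.S02A
import Cfsg.Agent.S0727

/-! S2202 piece PGL (project S02 of helper45).  Filled in by helper29 (statement unchanged).
Auxiliary lemmas go ABOVE the theorem and start with the prefix `pgl_`.
Definitions (`HC`, `Inv`, `Zc`, `Lc`, `NP`, `CP`, `Hyp`, `Facts`, `Tp`, `TIH`): Cfsg/Agent/Lib/Helper45/S02A.lean.
Points = Sylow 2-subgroups, `g • P` = conjugate (`Sylow.smul_def`, `Sylow.coe_smul`,
`Sylow.smul_eq_iff_mem_normalizer : g • P = P ↔ g ∈ normalizer P`, `Subgroup.mem_centralizer_iff`).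
"involution" = `orderOf t = 2`.  The paper proof is in the docstring. -/

set_option autoImplicit false

namespace Cfsg.Agent.Lib.Helper45.S02

variable {G : Type*} [Group G] [Finite G]

/-- Under `Tp`, `G ⧸ Zc G ≅ PGL₂(F)` for a field with `|P|` elements.
PROOF. Landed `Cfsg.Agent.S0727.result` (statement: Cfsg/Statements/S0727.lean) with `α := Sylow 2 G`
(`Fintype.ofFinite`, classical `DecidableEq`) and the subgroup `(MulAction.toPermHom G (Sylow 2 G)).range`.
`Nat.card P = 2^f` (`IsPGroup.iff_card`, `P.isPGroup'`), `f ≥ 1` (`P ≠ ⊥`), card `α = 2^f + 1` (`hT.1`).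
3-pretransitive: from `h3T` (`l • x = y` as embeddings; the element `toPerm l` of the range).  Sharp: an
element `toPerm g` of the range fixing `x 0, x 1, x 2` (distinct) has `g ∈ Zc G` (`hcons`) `= ker`, so it
is `1`.  Finally `G ⧸ Zc G ≃* G ⧸ ker ≃* range` (`QuotientGroup.quotientMulEquivOfEq hker.symm`,
`QuotientGroup.quotientKerEquivRange`).  (Alternative: helper19's landed
`Cfsg.Agent.Lib.Helper19.CTPERM.perm_to_PGL` for a faithful action.) -/
theorem exists_PGL (hF : Facts G) (hT : Tp G)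
    (hcons : ∀ (g : G) (P Q R : Sylow 2 G), P ≠ Q → P ≠ R → Q ≠ R → g ∈ NP P → g ∈ NP Q → g ∈ NP R → g ∈ Zc G)
    (h3T : ∀ x y : Fin 3 ↪ Sylow 2 G, ∃ l : G, l ∈ Lc G ∧ ∀ i, l • x i = y i)
    (hker : (MulAction.toPermHom G (Sylow 2 G)).ker = Zc G) :
    ∃ (F : Type) (_ : Field F) (_ : Fintype F) (f : ℕ), Fintype.card F = 2 ^ f ∧
      Nonempty (G ⧸ Zc G ≃* Matrix.ProjGenLinGroup (Fin 2) F) := by
  classical
  haveI : Fintype (Sylow 2 G) := Fintype.ofFinite _
  haveI : Fact (Nat.Prime 2) := ⟨Nat.prime_two⟩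
  obtain ⟨P⟩ : Nonempty (Sylow 2 G) := inferInstance
  obtain ⟨f, hf⟩ := (IsPGroup.iff_card).mp P.2
  have hf1 : 1 ≤ f := by
    by_contra h
    have h0 : f = 0 := by omega
    rw [h0, pow_zero] at hf
    obtain ⟨s, t, hs, ht, hs2, ht2, hne⟩ := hF.three P
    haveI : Subsingleton ↥P := (Nat.card_eq_one_iff_unique.mp hf).1
    have hst : (⟨s, hs⟩ : ↥P) = ⟨t, ht⟩ := Subsingleton.elim _ _
    exact hne (congrArg Subtype.val hst)
  have hcard : Fintype.card (Sylow 2 G) = 2 ^ f + 1 := by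
    rw [← Nat.card_eq_fintype_card, hT.1 P, hf]
  obtain ⟨φ, hφ⟩ : ∃ φ : G →* Equiv.Perm (Sylow 2 G), φ = MulAction.toPermHom G (Sylow 2 G) :=
    ⟨_, rfl⟩
  have hφapp : ∀ (g : G) (Q : Sylow 2 G), φ g Q = g • Q := by
    intro g Q
    rw [hφ]
    rfl
  rw [← hφ] at hker
  have h3 : MulAction.IsMultiplyPretransitive ↥φ.range (Sylow 2 G) 3 := by
    rw [MulAction.isMultiplyPretransitive_iff]
    intro x y
    obtain ⟨l, -, hl⟩ := h3T x y
    refine ⟨⟨φ l, ⟨l, rfl⟩⟩, ?_⟩
    apply Function.Embedding.ext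
    intro i
    rw [Function.Embedding.smul_apply]
    show φ l (x i) = y i
    rw [hφapp]
    exact hl i
  have hsharp : ∀ x : Fin 3 ↪ Sylow 2 G, MulAction.stabilizer ↥φ.range x = ⊥ := by
    intro x
    rw [eq_bot_iff]
    rintro ⟨r, g, rfl⟩ hr
    rw [Subgroup.mem_bot]
    rw [MulAction.mem_stabilizer_iff] at hr
    have hfix : ∀ i, g • x i = x i := by
      intro i
      have h1 := congrArg (fun e : Fin 3 ↪ Sylow 2 G => e i) hr
      have h2 : φ g (x i) = x i := h1
      rw [hφapp] at h2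
      exact h2
    have hN : ∀ i, g ∈ NP (x i) := fun i => Sylow.smul_eq_iff_mem_normalizer.mp (hfix i)
    have h01 : x 0 ≠ x 1 := fun h => absurd (x.injective h) (by decide)
    have h02 : x 0 ≠ x 2 := fun h => absurd (x.injective h) (by decide)
    have h12 : x 1 ≠ x 2 := fun h => absurd (x.injective h) (by decide)
    have hgZ : g ∈ Zc G := hcons g (x 0) (x 1) (x 2) h01 h02 h12 (hN 0) (hN 1) (hN 2)
    rw [← hker] at hgZ
    apply Subtype.ext
    exact MonoidHom.mem_ker.mp hgZ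
  obtain ⟨F, hFld, hFin, hFcard, ⟨e⟩⟩ := Cfsg.Agent.S0727.result hf1 hcard φ.range h3 hsharp
  refine ⟨F, hFld, hFin, f, hFcard, ⟨?_⟩⟩
  exact ((QuotientGroup.quotientMulEquivOfEq hker.symm).trans
    (QuotientGroup.quotientKerEquivRange φ)).trans e

end Cfsg.Agent.Lib.Helper45.S02
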