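import Mathlib
import Cfsg.Agent.Lib.Helper45.S02A


/-! S2202 piece Prod (project S02 of helper45).
Filled in place by helper34 (job 4103).
Definitions (`HC`, `Inv`, `Zc`, `Lc`, `NP`, `CP`, `Hyp`, `Facts`, `Tp`, `TIH`): Cfsg/Agent/Lib/Helper45/S02A.lean.
Points = Sylow 2-subgroups, `g • P` = conjugate (`Sylow.smul_def`, `Sylow.coe_smul`,
`Sylow.smul_eq_iff_mem_normalizer : g • P = P ↔ g ∈ normalizer P`, `Subgroup.mem_centralizer_iff`).
"involution" = `orderOf t = 2`.  The paper proof is in the docstring. -/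

set_option autoImplicit false

namespace Cfsg.Agent.Lib.Helper45.S02

variable {G : Type*} [Group G] [Finite G]

/-- transport of a finite commutative group to a group on a `Type`-0 carrier -/
theorem prod_transport {H : Type*} [Group H] [Finite H] (hcomm : ∀ x y : H, x * y = y * x) :
    ∃ (A : Type) (_ : CommGroup A) (_ : Finite A), Nat.card A = Nat.card H ∧ Nonempty (H ≃* A) := by
  let eqv : Fin (Nat.card H) ≃ H := (Finite.equivFin H).symm
  letI : CommGroup H := { (inferInstance : Group H) with mul_comm := hcomm }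
  refine ⟨Fin (Nat.card H), Equiv.commGroup eqv, inferInstance, ?_, ⟨?_⟩⟩
  · exact Nat.card_fin _
  · exact @MulEquiv.symm (Fin (Nat.card H)) H (Equiv.mul eqv) _ (Equiv.mulEquiv eqv)

/-- The direct product decomposition.
PROOF. `Z := Zc G`, `L := Lc G` (both normal; instances in S02A).  `Z` commutes elementwise with `L`
(`mem_Zc` + closure induction).  `φ : G →* (G ⧸ Z) × (G ⧸ L)`, `g ↦ (↑g, ↑g)` (`MonoidHom.prod`).
Injective: kernel `Z ⊓ L = ⊥`.  Surjective: given `(↑a, ↑b)`, write `a = l_a z_a`, `b = l_b z_b` (`hLZ`);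
`g := l_a * z_b` has `g ≡ l_a ≡ a mod Z` and `g = z_b * l_a ≡ z_b ≡ b mod L`.  `G ⧸ L` is commutative
(every class is `↑z`, `z ∈ Z`, and `Z` is commutative by `hZcomm`), finite, and `Nat.card (G ⧸ L)` is odd
(`z ↦ ↑z : Z → G ⧸ L` is a bijection; `hZodd`).  Build `CommGroup (G ⧸ L)` from the group instance and the
commutativity proof, transport to `A := Fin n` (`n = Nat.card (G ⧸ L)`) along `Finite.equivFin`
(`Equiv.commGroup`, `Equiv.mulEquiv`) to get `A : Type`.  Iso: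
`G ≃* (G ⧸ Z) × (G ⧸ L) ≃* SL₂(F) × A` (`MulEquiv.ofBijective`, `MulEquiv.prodCongr e _`). -/
theorem exists_prod_iso (hZodd : Odd (Nat.card (Zc G)))
    (hZcomm : ∀ x y : G, x ∈ Zc G → y ∈ Zc G → x * y = y * x)
    (hLZ : ∀ g : G, ∃ l : G, l ∈ Lc G ∧ l⁻¹ * g ∈ Zc G) (hbot : Lc G ⊓ Zc G = ⊥)
    (F : Type) [Field F] [Fintype F]
    (e : G ⧸ Zc G ≃* Matrix.SpecialLinearGroup (Fin 2) F) :
    ∃ (A : Type) (_ : CommGroup A) (_ : Finite A), Odd (Nat.card A) ∧
      Nonempty (G ≃* Matrix.SpecialLinearGroup (Fin 2) F × A) := by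
  have hsurjZ : ∀ x : G ⧸ Lc G, ∃ z : G, z ∈ Zc G ∧ (QuotientGroup.mk z : G ⧸ Lc G) = x := by
    intro x
    obtain ⟨g, rfl⟩ := QuotientGroup.mk_surjective x
    obtain ⟨l, hl, hz⟩ := hLZ g
    refine ⟨l⁻¹ * g, hz, ?_⟩
    rw [QuotientGroup.eq]
    have h1 : (l⁻¹ * g)⁻¹ * g = g⁻¹ * l * g⁻¹⁻¹ := by group
    rw [h1]
    exact (Lc_normal G).conj_mem l hl g⁻¹
  have hcomm : ∀ x y : G ⧸ Lc G, x * y = y * x := by
    intro x y
    obtain ⟨z₁, hz₁, rfl⟩ := hsurjZ x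
    obtain ⟨z₂, hz₂, rfl⟩ := hsurjZ y
    rw [← QuotientGroup.mk_mul, ← QuotientGroup.mk_mul, hZcomm z₁ z₂ hz₁ hz₂]
  have hbij : Function.Bijective (fun z : Zc G => (QuotientGroup.mk (z : G) : G ⧸ Lc G)) := by
    constructor
    · intro z₁ z₂ h
      have h1 : (z₁ : G)⁻¹ * (z₂ : G) ∈ Lc G := QuotientGroup.eq.mp h
      have h2 : (z₁ : G)⁻¹ * (z₂ : G) ∈ Zc G := (Zc G).mul_mem ((Zc G).inv_mem z₁.2) z₂.2
      have h3 : (z₁ : G)⁻¹ * (z₂ : G) ∈ Lc G ⊓ Zc G := ⟨h1, h2⟩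
      rw [hbot, Subgroup.mem_bot] at h3
      exact Subtype.ext (inv_mul_eq_one.mp h3)
    · intro x
      obtain ⟨z, hz, rfl⟩ := hsurjZ x
      exact ⟨⟨z, hz⟩, rfl⟩
  have hcard : Nat.card (G ⧸ Lc G) = Nat.card (Zc G) := (Nat.card_eq_of_bijective _ hbij).symm
  obtain ⟨A, instA, finA, hA, ⟨f⟩⟩ := prod_transport hcomm
  refine ⟨A, instA, finA, ?_, ⟨?_⟩⟩
  · rw [hA, hcard]
    exact hZodd
  · let φ : G →* (G ⧸ Zc G) × (G ⧸ Lc G) :=
      (QuotientGroup.mk' (Zc G)).prod (QuotientGroup.mk' (Lc G))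
    have hφ : Function.Bijective φ := by
      constructor
      · rw [injective_iff_map_eq_one]
        intro g hg
        have h1 : (QuotientGroup.mk g : G ⧸ Zc G) = 1 := congrArg Prod.fst hg
        have h2 : (QuotientGroup.mk g : G ⧸ Lc G) = 1 := congrArg Prod.snd hg
        rw [QuotientGroup.eq_one_iff] at h1 h2
        have h3 : g ∈ Lc G ⊓ Zc G := ⟨h2, h1⟩
        rw [hbot, Subgroup.mem_bot] at h3
        exact h3
      · rintro ⟨x, y⟩
        obtain ⟨a, rfl⟩ := QuotientGroup.mk_surjective x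
        obtain ⟨b, rfl⟩ := QuotientGroup.mk_surjective y
        obtain ⟨la, hla, hza⟩ := hLZ a
        obtain ⟨lb, hlb, hzb⟩ := hLZ b
        refine ⟨la * (lb⁻¹ * b), ?_⟩
        apply Prod.ext
        · show (QuotientGroup.mk (la * (lb⁻¹ * b)) : G ⧸ Zc G) = QuotientGroup.mk a
          rw [QuotientGroup.eq]
          have h1 : (la * (lb⁻¹ * b))⁻¹ * a = (lb⁻¹ * b)⁻¹ * (la⁻¹ * a) := by group
          rw [h1]
          exact (Zc G).mul_mem ((Zc G).inv_mem hzb) hza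
        · show (QuotientGroup.mk (la * (lb⁻¹ * b)) : G ⧸ Lc G) = QuotientGroup.mk b
          rw [QuotientGroup.eq]
          have h1 : (la * (lb⁻¹ * b))⁻¹ * b = b⁻¹ * (lb * la⁻¹) * b⁻¹⁻¹ := by group
          rw [h1]
          exact (Lc_normal G).conj_mem _ ((Lc G).mul_mem hlb ((Lc G).inv_mem hla)) b⁻¹
    exact (MulEquiv.ofBijective φ hφ).trans (MulEquiv.prodCongr e f)

end Cfsg.Agent.Lib.Helper45.S02
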