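import Mathlib
import Cfsg.Agent.Lib.Helper45.S02A
import Cfsg.Agent.Lib.Helper34.CTPGL
import Cfsg.Agent.Lib.Helper45.Sl2Even2

/-! S2202 piece SL (project S02 of helper45).  Filled in by helper29 (statement unchanged).
Auxiliary lemmas go ABOVE the theorem and start with the prefix `sl_`.
Definitions (`HC`, `Inv`, `Zc`, `Lc`, `NP`, `CP`, `Hyp`, `Facts`, `Tp`, `TIH`): Cfsg/Agent/Lib/Helper45/S02A.lean.
Points = Sylow 2-subgroups, `g • P` = conjugate (`Sylow.smul_def`, `Sylow.coe_smul`,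
`Sylow.smul_eq_iff_mem_normalizer : g • P = P ↔ g ∈ normalizer P`, `Subgroup.mem_centralizer_iff`).
"involution" = `orderOf t = 2`.  The paper proof is in the docstring. -/

set_option autoImplicit false

namespace Cfsg.Agent.Lib.Helper45.S02



/-- `PGL₂(F) ≅ SL₂(F)` and `CharP F 2` for `|F| = 2^f`.
PROOF. `f ≥ 1` (a field has ≥ 2 elements).  `CharP F 2`: `(2 : F)^f = (2^f : ℕ) = card F = 0` in `F`
(`Nat.cast_card_eq_zero`), so `(2 : F) = 0` (`pow_eq_zero_iff`), `CharP.ofCharZero`/`CharTwo`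
(`CharP.of... ` e.g. `charP_of_prime_pow_injective` or `(CharP.cast_eq_zero_iff ..)`; simplest:
`ringChar.of_eq`/`CharP.ofNat...` via `ringChar F ∣ 2`).  Landed
`Cfsg.Agent.Lib.Helper34.CTPGL.PGL_equiv_PSL F f hF : Nonempty (ProjGenLinGroup (Fin 2) F ≃* PSL)` and
`Cfsg.Agent.Lib.Helper45.Sl2Even.eqvP (h2 : (2 : F) = 0) : S2 F ≃* P2 F` (SL ≃* PSL in char 2; check the
abbreviations `S2`, `P2` there); compose. -/
theorem PGL_equiv_SL (F : Type) [Field F] [Fintype F] (f : ℕ) (hF : Fintype.card F = 2 ^ f) :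
    CharP F 2 ∧ Nonempty (Matrix.ProjGenLinGroup (Fin 2) F ≃* Matrix.SpecialLinearGroup (Fin 2) F) := by
  have h2 : (2 : F) = 0 := by
    have h1 : ((Fintype.card F : ℕ) : F) = 0 := Nat.cast_card_eq_zero F
    rw [hF] at h1
    push_cast at h1
    exact eq_zero_of_pow_eq_zero h1
  have hc : CharP F 2 := by
    have h3 : ringChar F ∣ 2 := ringChar.dvd (by exact_mod_cast h2)
    have h4 : ringChar F ≠ 1 := CharP.ringChar_ne_one
    have h5 : ringChar F = 2 := by
      rcases (Nat.dvd_prime Nat.prime_two).mp h3 with h | h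
      · exact absurd h h4
      · exact h
    have h6 := ringChar.charP F
    rwa [h5] at h6
  obtain ⟨e1⟩ := Cfsg.Agent.Lib.Helper34.CTPGL.PGL_equiv_PSL F f hF
  exact ⟨hc, ⟨e1.trans (Cfsg.Agent.Lib.Helper45.Sl2Even.eqvP h2).symm⟩⟩

end Cfsg.Agent.Lib.Helper45.S02
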