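import Mathlib
import Cfsg.Agent.Lib.Helper45.S02A
import Cfsg.Agent.Lib.Helper45.S02Dih

/-! S2202 piece SM3 (project S02 of helper45).
PLACEHOLDER: replace the `sorry` in THIS file; keep the theorem name and statement byte-identical and keep
the namespace; auxiliary lemmas go ABOVE the theorem and MUST start with the prefix `sm3_`; you may add
imports (landed modules, or other `Cfsg.Agent.Lib.Helper45.S02*` piece files).
Definitions (`HC`, `Inv`, `Zc`, `Lc`, `NP`, `CP`, `Hyp`, `Facts`, `Tp`, `TIH`): Cfsg/Agent/Lib/Helper45/S02A.lean.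
Points = Sylow 2-subgroups, `g • P` = conjugate (`Sylow.smul_def`, `Sylow.coe_smul`,
`Sylow.smul_eq_iff_mem_normalizer : g • P = P ↔ g ∈ normalizer P`, `Subgroup.mem_centralizer_iff`).
"involution" = `orderOf t = 2`.  The paper proof is in the docstring. -/

set_option autoImplicit false

namespace Cfsg.Agent.Lib.Helper45.S02

variable {G : Type*} [Group G] [Finite G]

theorem sm3_inv_eq {G : Type*} [Group G] {t : G} (ht : orderOf t = 2) : t⁻¹ = t := by
  have h : t ^ 2 = 1 := by rw [← ht]; exact pow_orderOf_eq_one t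
  rw [inv_eq_iff_mul_eq_one, ← sq]; exact h

theorem sm3_ne_one {G : Type*} [Group G] {t : G} (ht : orderOf t = 2) : t ≠ 1 := by
  rintro rfl
  simp at ht

theorem sm3_exists_sylow {G : Type*} [Group G] [Finite G] (t : G) (ht : orderOf t = 2) :
    ∃ P : Sylow 2 G, t ∈ P := by
  have h : IsPGroup 2 (Subgroup.zpowers t) := by
    apply IsPGroup.of_card (n := 1)
    rw [Nat.card_zpowers, ht]
    rfl
  obtain ⟨P, hP⟩ := h.exists_le_sylow
  exact ⟨P, hP (Subgroup.mem_zpowers t)⟩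

omit [Finite G] in
theorem sm3_diff (hF : Facts G) (P Q : Sylow 2 G) (hPQ : P ≠ Q) (s t : G) (hs : s ∈ P) (ht : t ∈ Q)
    (hos : orderOf s = 2) (hot : orderOf t = 2) : t * s⁻¹ ∈ ⁅Lc G, Lc G⁆ := by
  have hne : s ≠ t := by
    rintro rfl
    exact hPQ (hF.ti P Q s hs ht (sm3_ne_one hos))
  obtain ⟨v, hv, hconj, -⟩ := exists_invol_conj s t hos hot (hF.odd P Q s t hPQ hs ht hos hot) hne
  have hvL : v ∈ Lc G := Subgroup.subset_closure hv
  have hsL : s ∈ Lc G := Subgroup.subset_closure hos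
  have h := Subgroup.commutator_mem_commutator hvL hsL
  rw [commutatorElement_def, hconj] at h
  exact h

omit [Finite G] in
theorem sm3_same (hH : Hyp G) (hF : Facts G) (P : Sylow 2 G) (t t' : G) (ht : t ∈ P) (ht' : t' ∈ P)
    (hot : orderOf t = 2) (hot' : orderOf t' = 2) : t * t'⁻¹ ∈ ⁅Lc G, Lc G⁆ := by
  obtain ⟨Q, hQ⟩ : ∃ Q : Sylow 2 G, Q ≠ P := by
    obtain ⟨P0, Q0, h0⟩ := hH.two
    by_cases h : P0 = P
    · exact ⟨Q0, fun h' => h0 (h.trans h'.symm)⟩
    · exact ⟨P0, h⟩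
  obtain ⟨s, -, hs, -, hos, -, -⟩ := hF.three Q
  have h1 := sm3_diff hF Q P hQ s t hs ht hos hot
  have h2 := sm3_diff hF Q P hQ s t' hs ht' hos hot'
  have h3 := Subgroup.mul_mem _ h1 (Subgroup.inv_mem _ h2)
  have e : t * t'⁻¹ = t * s⁻¹ * (t' * s⁻¹)⁻¹ := by group
  rw [e]
  exact h3

/-- `Lc G` is perfect.
PROOF. `K := ⁅Lc G, Lc G⁆`.  (i) If `s ∈ P`, `t ∈ Q` are involutions in distinct Sylows, then
`exists_invol_conj s t` (`hF.odd`, `hF.ti`) gives `v ∈ closure {s,t} ≤ Lc G` with `v s v⁻¹ = t`, so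
`t * s⁻¹ = v * s * v⁻¹ * s⁻¹ ∈ K` (`Subgroup.commutator_mem_commutator`).  (ii) If `t, t'` are involutions
of the same Sylow `P`, take an involution `s` in another Sylow (`hH.two`, `hF.three`):
`t * t'⁻¹ = (t * s⁻¹) * (t' * s⁻¹)⁻¹ ∈ K`.  (iii) `hF.three P` gives involutions `a ≠ b` of `P`; `c := a * b`
is an involution of `P` (commute) and `c = a * b⁻¹ ∈ K` by (ii).  (iv) every involution `t` satisfies
`t * c⁻¹ ∈ K` by (i) or (ii), so `t ∈ K`.  `Subgroup.closure_le`. -/
theorem Lc_perfect (hH : Hyp G) (hF : Facts G) : Lc G ≤ ⁅Lc G, Lc G⁆ := by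
  have hall : ∀ a b : G, orderOf a = 2 → orderOf b = 2 → a * b⁻¹ ∈ ⁅Lc G, Lc G⁆ := by
    intro a b ha hb
    obtain ⟨P, hP⟩ := sm3_exists_sylow a ha
    obtain ⟨Q, hQ⟩ := sm3_exists_sylow b hb
    by_cases h : P = Q
    · subst h
      exact sm3_same hH hF P a b hP hQ ha hb
    · exact sm3_diff hF Q P (Ne.symm h) b a hQ hP hb ha
  obtain ⟨P, -, -⟩ := hH.two
  obtain ⟨a, b, haP, hbP, ha, hb, hab⟩ := hF.three P
  have hcomm : a * b = b * a := hF.comm P a b haP hbP
  have ha2 : a * a = 1 := by rw [← inv_eq_iff_mul_eq_one]; exact sm3_inv_eq ha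
  have hb2 : b * b = 1 := by rw [← inv_eq_iff_mul_eq_one]; exact sm3_inv_eq hb
  have hc : orderOf (a * b) = 2 := by
    refine orderOf_eq_prime ?_ ?_
    · rw [sq]
      calc a * b * (a * b) = a * (b * a) * b := by group
        _ = a * (a * b) * b := by rw [hcomm]
        _ = (a * a) * (b * b) := by group
        _ = 1 := by rw [ha2, hb2, one_mul]
    · intro h
      apply hab
      have h' : a = b⁻¹ := eq_inv_of_mul_eq_one_left h
      rw [h', sm3_inv_eq hb]
  have hcK : a * b ∈ ⁅Lc G, Lc G⁆ := by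
    have h := hall a b ha hb
    rwa [sm3_inv_eq hb] at h
  have hgoal : Subgroup.closure (Inv G) ≤ ⁅Lc G, Lc G⁆ := by
    rw [Subgroup.closure_le]
    intro t ht
    have h1 := hall t (a * b) ht hc
    have h2 := Subgroup.mul_mem _ h1 hcK
    have e : t * (a * b)⁻¹ * (a * b) = t := by group
    rw [e] at h2
    exact h2
  exact hgoal

end Cfsg.Agent.Lib.Helper45.S02
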