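import Mathlib
import Cfsg.Agent.Lib.Helper45.S02A
import Cfsg.Agent.Lib.Helper45.S02Dih

/-! S2202 piece ThreeP (project S02 of helper45).
Filled by helper36 (job 4084); statement byte-identical to the placeholder.
Definitions (`HC`, `Inv`, `Zc`, `Lc`, `NP`, `CP`, `Hyp`, `Facts`, `Tp`, `TIH`): Cfsg/Agent/Lib/Helper45/S02A.lean.
Points = Sylow 2-subgroups, `g • P` = conjugate (`Sylow.smul_def`, `Sylow.coe_smul`,
`Sylow.smul_eq_iff_mem_normalizer : g • P = P ↔ g ∈ normalizer P`, `Subgroup.mem_centralizer_iff`).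
"involution" = `orderOf t = 2`.  The paper proof is in the docstring. -/

set_option autoImplicit false

namespace Cfsg.Agent.Lib.Helper45.S02

variable {G : Type*} [Group G] [Finite G]

/-- conjugates of elements of a Sylow subgroup lie in the conjugate Sylow subgroup -/
theorem threep_mem_smul {G : Type*} [Group G] (d x : G) (R : Sylow 2 G) (hx : x ∈ R) :
    d * x * d⁻¹ ∈ d • R := by
  have h1 : d * x * d⁻¹ ∈ ((d • R : Sylow 2 G) : Subgroup G) := by
    rw [Sylow.coe_subgroup_smul]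
    have h2 := Subgroup.smul_mem_pointwise_smul x (MulAut.conj d) (R : Subgroup G) hx
    rwa [MulAut.smul_def, MulAut.conj_apply] at h2
  exact h1

/-- Under `Tp`, the stabilizer in `Lc G` of two Sylows is transitive on the others.
PROOF. If `R = R'` take `1`.  Else let `u ∈ R` with `u • P = Q` and `u' ∈ R'` with `u' • P = Q`
(`hregS`); `u, u' ≠ 1`, `u^2 = u'^2 = 1` (`hT.2`): involutions, so `u • Q = P`, `u' • Q = P`; `u ≠ u'`
(`hF.ti`), `Odd (orderOf (u * u'))` (`hF.odd R R'`).  `exists_invol_conj u u'`: `v ∈ closure {u, u'}` with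
`v * u * v⁻¹ = u'`.  Every `w ∈ closure {u, u'}` either fixes `P` and `Q` or swaps them
(`Subgroup.closure_induction`).  `d := v` if `v` fixes them, else `d := v * u`; in both cases `d • P = P`,
`d • Q = Q`, `d * u * d⁻¹ = u'`, `d ∈ Lc G`.  `u' ∈ d • R` and `u' ∈ R'`, so `d • R = R'` (`hF.ti`). -/
theorem Lc_third_point (hF : Facts G) (hT : Tp G)
    (hregS : ∀ R P Q : Sylow 2 G, P ≠ R → Q ≠ R → ∃ s : G, s ∈ R ∧ s • P = Q ∧ ∀ s' : G, s' ∈ R → s' • P = Q → s' = s)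
    (P Q R R' : Sylow 2 G) (hPQ : P ≠ Q) (hRP : R ≠ P) (hRQ : R ≠ Q) (hR'P : R' ≠ P) (hR'Q : R' ≠ Q) :
    ∃ d : G, d ∈ Lc G ∧ d • P = P ∧ d • Q = Q ∧ d • R = R' := by
  by_cases hRR' : R = R'
  · exact ⟨1, (Lc G).one_mem, one_smul _ _, one_smul _ _, by rw [one_smul]; exact hRR'⟩
  obtain ⟨u, huR, huP, -⟩ := hregS R P Q hRP.symm hRQ.symm
  obtain ⟨u', hu'R, hu'P, -⟩ := hregS R' P Q hR'P.symm hR'Q.symm
  have key : ∀ (S : Sylow 2 G) (x : G), x ∈ S → x • P = Q → orderOf x = 2 ∧ x • Q = P := by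
    intro S x hxS hxP
    have hx1 : x ≠ 1 := by
      rintro rfl
      rw [one_smul] at hxP
      exact hPQ hxP
    have hx2 : x ^ 2 = 1 := hT.2 S x hxS
    refine ⟨orderOf_eq_prime hx2 hx1, ?_⟩
    rw [← hxP, ← mul_smul, ← pow_two, hx2, one_smul]
  obtain ⟨hu2, huQ⟩ := key R u huR huP
  obtain ⟨hu'2, hu'Q⟩ := key R' u' hu'R hu'P
  have hu1 : u ≠ 1 := by
    intro h
    rw [h, orderOf_one] at hu2
    omega
  have hu'1 : u' ≠ 1 := by
    intro h
    rw [h, orderOf_one] at hu'2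
    omega
  have hne : u ≠ u' := by
    intro h
    rw [← h] at hu'R
    exact hRR' (hF.ti R R' u huR hu'R hu1)
  have hodd : Odd (orderOf (u * u')) := hF.odd R R' u u' hRR' huR hu'R hu2 hu'2
  obtain ⟨v, hv2, hvc, hvcl⟩ := exists_invol_conj u u' hu2 hu'2 hodd hne
  have hle : Subgroup.closure ({u, u'} : Set G) ≤ Lc G := by
    unfold Lc
    apply Subgroup.closure_mono
    intro x hx
    rcases hx with rfl | rfl
    · exact hu2
    · exact hu'2
  have hdich : ∀ w ∈ Subgroup.closure ({u, u'} : Set G),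
      (w • P = P ∧ w • Q = Q) ∨ (w • P = Q ∧ w • Q = P) := by
    intro w hw
    induction hw using Subgroup.closure_induction with
    | mem x hx =>
      rcases hx with rfl | rfl
      · exact Or.inr ⟨huP, huQ⟩
      · exact Or.inr ⟨hu'P, hu'Q⟩
    | one => exact Or.inl ⟨one_smul _ _, one_smul _ _⟩
    | mul x y _ _ hx hy =>
      rcases hx with ⟨hx1, hx2⟩ | ⟨hx1, hx2⟩ <;> rcases hy with ⟨hy1, hy2⟩ | ⟨hy1, hy2⟩
      · exact Or.inl ⟨by rw [mul_smul, hy1, hx1], by rw [mul_smul, hy2, hx2]⟩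
      · exact Or.inr ⟨by rw [mul_smul, hy1, hx2], by rw [mul_smul, hy2, hx1]⟩
      · exact Or.inr ⟨by rw [mul_smul, hy1, hx1], by rw [mul_smul, hy2, hx2]⟩
      · exact Or.inl ⟨by rw [mul_smul, hy1, hx2], by rw [mul_smul, hy2, hx1]⟩
    | inv x _ hx =>
      rcases hx with ⟨hx1, hx2⟩ | ⟨hx1, hx2⟩
      · exact Or.inl ⟨by rw [inv_smul_eq_iff, hx1], by rw [inv_smul_eq_iff, hx2]⟩
      · exact Or.inr ⟨by rw [inv_smul_eq_iff, hx2], by rw [inv_smul_eq_iff, hx1]⟩
  have hfin : ∀ d : G, d * u * d⁻¹ = u' → d • R = R' := by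
    intro d hd
    have h1 : u' ∈ d • R := hd ▸ threep_mem_smul d u R huR
    exact hF.ti (d • R) R' u' h1 hu'R hu'1
  rcases hdich v hvcl with ⟨h1, h2⟩ | ⟨h1, h2⟩
  · exact ⟨v, hle hvcl, h1, h2, hfin v hvc⟩
  · refine ⟨v * u, (Lc G).mul_mem (hle hvcl) (hle (Subgroup.subset_closure (by simp))),
      ?_, ?_, hfin (v * u) ?_⟩
    · rw [mul_smul, huP, h2]
    · rw [mul_smul, huQ, h1]
    · rw [← hvc]
      group

end Cfsg.Agent.Lib.Helper45.S02
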