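import Mathlib
import Cfsg.Agent.Lib.Helper45.S02A


/-! S2202 piece ThreeT (project S02 of helper45).
PLACEHOLDER: replace the `sorry` in THIS file; keep the theorem name and statement byte-identical and keep
the namespace; auxiliary lemmas go ABOVE the theorem and MUST start with the prefix `threet_`; you may add
imports (landed modules, or other `Cfsg.Agent.Lib.Helper45.S02*` piece files).
Definitions (`HC`, `Inv`, `Zc`, `Lc`, `NP`, `CP`, `Hyp`, `Facts`, `Tp`, `TIH`): Cfsg/Agent/Lib/Helper45/S02A.lean.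
Points = Sylow 2-subgroups, `g • P` = conjugate (`Sylow.smul_def`, `Sylow.coe_smul`,
`Sylow.smul_eq_iff_mem_normalizer : g • P = P ↔ g ∈ normalizer P`, `Subgroup.mem_centralizer_iff`).
"involution" = `orderOf t = 2`.  The paper proof is in the docstring. -/

set_option autoImplicit false

namespace Cfsg.Agent.Lib.Helper45.S02

variable {G : Type*} [Group G] [Finite G]

/-- `Lc G` is 3-transitive on the Sylow 2-subgroups.
PROOF. `l₁` from `h2 (x 0) (x 1) (y 0) (y 1)`; `R := l₁ • x 2` is different from `y 0`, `y 1` (injectivity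
of `x`), and so is `y 2`; `d` from `h3 (y 0) (y 1) R (y 2)`; `l := d * l₁`; `Fin 3` cases. -/
theorem Lc_three_transitive
    (h2 : ∀ P Q P' Q' : Sylow 2 G, P ≠ Q → P' ≠ Q' → ∃ l : G, l ∈ Lc G ∧ l • P = P' ∧ l • Q = Q')
    (h3 : ∀ P Q R R' : Sylow 2 G, P ≠ Q → R ≠ P → R ≠ Q → R' ≠ P → R' ≠ Q →
      ∃ d : G, d ∈ Lc G ∧ d • P = P ∧ d • Q = Q ∧ d • R = R')
    (x y : Fin 3 ↪ Sylow 2 G) : ∃ l : G, l ∈ Lc G ∧ ∀ i, l • x i = y i := by
  have hx01 : x 0 ≠ x 1 := fun h => absurd (x.injective h) (by decide)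
  have hy01 : y 0 ≠ y 1 := fun h => absurd (y.injective h) (by decide)
  obtain ⟨l₁, hl₁, h10, h11⟩ := h2 (x 0) (x 1) (y 0) (y 1) hx01 hy01
  have hR0 : l₁ • x 2 ≠ y 0 := by
    intro h
    rw [← h10] at h
    exact absurd (x.injective (MulAction.injective l₁ h)) (by decide)
  have hR1 : l₁ • x 2 ≠ y 1 := by
    intro h
    rw [← h11] at h
    exact absurd (x.injective (MulAction.injective l₁ h)) (by decide)
  have hy20 : y 2 ≠ y 0 := fun h => absurd (y.injective h) (by decide)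
  have hy21 : y 2 ≠ y 1 := fun h => absurd (y.injective h) (by decide)
  obtain ⟨d, hd, hd0, hd1, hd2⟩ :=
    h3 (y 0) (y 1) (l₁ • x 2) (y 2) hy01 hR0 hR1 hy20 hy21
  refine ⟨d * l₁, mul_mem hd hl₁, ?_⟩
  intro i
  fin_cases i
  · show (d * l₁) • x 0 = y 0
    rw [mul_smul, h10, hd0]
  · show (d * l₁) • x 1 = y 1
    rw [mul_smul, h11, hd1]
  · show (d * l₁) • x 2 = y 2
    rw [mul_smul, hd2]

end Cfsg.Agent.Lib.Helper45.S02
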