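import Mathlib
import Cfsg.Agent.Lib.Helper45.S02A


/-! S2202 piece TwoT (project S02 of helper45).
Proved by helper33. (Statement and namespace as in the placeholder; auxiliary lemmas go ABOVE the theorem and MUST start with the prefix `twot_`; you may add
imports (landed modules, or other `Cfsg.Agent.Lib.Helper45.S02*` piece files).)
Definitions (`HC`, `Inv`, `Zc`, `Lc`, `NP`, `CP`, `Hyp`, `Facts`, `Tp`, `TIH`): Cfsg/Agent/Lib/Helper45/S02A.lean.
Points = Sylow 2-subgroups, `g • P` = conjugate (`Sylow.smul_def`, `Sylow.coe_smul`,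
`Sylow.smul_eq_iff_mem_normalizer : g • P = P ↔ g ∈ normalizer P`, `Subgroup.mem_centralizer_iff`).
"involution" = `orderOf t = 2`.  The paper proof is in the docstring. -/

set_option autoImplicit false

namespace Cfsg.Agent.Lib.Helper45.S02

variable {G : Type*} [Group G] [Finite G]

omit [Finite G] in
theorem twot_mem_Lc (hT : Tp G) (R : Sylow 2 G) (x : G) (hx : x ∈ R) : x ∈ Lc G := by
  by_cases h1 : x = 1
  · rw [h1]
    exact Subgroup.one_mem _
  · apply Subgroup.subset_closure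
    show orderOf x = 2
    exact orderOf_eq_prime (hT.2 R x hx) h1

/-- Under `Tp`, `Lc G` is 2-transitive on the Sylow 2-subgroups.
PROOF. Every `x` in a Sylow lies in `Lc G` (`x = 1` or `x^2 = 1, x ≠ 1`: an involution).  There are
`Nat.card P + 1 ≥ 3` Sylows.  Step 1: `l₁ ∈ Lc G` with `l₁ • P = P'`: if `P = P'` take `1`; else pick a
Sylow `R ∉ {P, P'}` and `s ∈ R` with `s • P = P'` (`hregS R P P'`).  Step 2: `Q₁ := l₁ • Q ≠ P'`;
`s' ∈ P'` with `s' • Q₁ = Q'` (`hregS P' Q₁ Q'`), and `s' • P' = P'`.  `l := s' * l₁`. -/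
theorem Lc_two_transitive (hF : Facts G) (hT : Tp G)
    (hregS : ∀ R P Q : Sylow 2 G, P ≠ R → Q ≠ R → ∃ s : G, s ∈ R ∧ s • P = Q ∧ ∀ s' : G, s' ∈ R → s' • P = Q → s' = s)
    (P Q P' Q' : Sylow 2 G) (hPQ : P ≠ Q) (hPQ' : P' ≠ Q') :
    ∃ l : G, l ∈ Lc G ∧ l • P = P' ∧ l • Q = Q' := by
  classical
  obtain ⟨l₁, hl₁, hl₁P⟩ : ∃ l₁ : G, l₁ ∈ Lc G ∧ l₁ • P = P' := by
    by_cases hPP' : P = P'
    · exact ⟨1, Subgroup.one_mem _, by rw [one_smul]; exact hPP'⟩
    · obtain ⟨s, t, hsP, htP, hs2, ht2, hne⟩ := hF.three P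
      have hsP_fix : s⁻¹ • P = P :=
        Sylow.smul_eq_iff_mem_normalizer.mpr (Subgroup.le_normalizer (inv_mem hsP))
      have hR1 : P ≠ s • P' := by
        intro h
        apply hPP'
        have h3 : s⁻¹ • P = P' := by rw [h, inv_smul_smul]
        rw [← h3, hsP_fix]
      have hR2 : P' ≠ s • P' := by
        intro h
        have h1 : s ∈ NP P' := Sylow.smul_eq_iff_mem_normalizer.mp h.symm
        have h2 : s ∈ P' := hF.invN P' s hs2 h1
        have hs1 : s ≠ 1 := by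
          intro h0
          rw [h0, orderOf_one] at hs2
          omega
        exact hPP' (hF.ti P P' s hsP h2 hs1)
      obtain ⟨s₁, hs₁R, hs₁, -⟩ := hregS (s • P') P P' hR1 hR2
      exact ⟨s₁, twot_mem_Lc hT _ s₁ hs₁R, hs₁⟩
  have hQ₁ : l₁ • Q ≠ P' := by
    intro h
    rw [← hl₁P] at h
    exact hPQ (smul_left_cancel l₁ h).symm
  obtain ⟨s', hs'P', hs', -⟩ := hregS P' (l₁ • Q) Q' hQ₁ hPQ'.symm
  refine ⟨s' * l₁, Subgroup.mul_mem _ (twot_mem_Lc hT _ s' hs'P') hl₁, ?_, ?_⟩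
  · rw [mul_smul, hl₁P]
    exact Sylow.smul_eq_iff_mem_normalizer.mpr (Subgroup.le_normalizer hs'P')
  · rw [mul_smul]
    exact hs'

end Cfsg.Agent.Lib.Helper45.S02
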