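import Mathlib
import Cfsg.Agent.Lib.Helper45.S02A


/-! S2202 piece ZOdd (project S02 of helper45).
Filled by helper31 (was a placeholder: keep the theorem name and statement byte-identical and keep
the namespace; auxiliary lemmas go ABOVE the theorem and MUST start with the prefix `zodd_`; you may add
imports (landed modules, or other `Cfsg.Agent.Lib.Helper45.S02*` piece files).
Definitions (`HC`, `Inv`, `Zc`, `Lc`, `NP`, `CP`, `Hyp`, `Facts`, `Tp`, `TIH`): Cfsg/Agent/Lib/Helper45/S02A.lean.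
Points = Sylow 2-subgroups, `g • P` = conjugate (`Sylow.smul_def`, `Sylow.coe_smul`,
`Sylow.smul_eq_iff_mem_normalizer : g • P = P ↔ g ∈ normalizer P`, `Subgroup.mem_centralizer_iff`).
"involution" = `orderOf t = 2`.  The paper proof is in the docstring. -/

set_option autoImplicit false

namespace Cfsg.Agent.Lib.Helper45.S02

variable {G : Type*} [Group G] [Finite G]

/-- Basic properties of `Zc G`.
PROOF. `z ∈ Zc G` commutes with an involution `t ∈ P` (`hF.three`), so `z ∈ CP P` (`hF.cent`) `≤ NP P`.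
If `z ∈ Zc G` were an involution it would lie in every Sylow (`hF.invN`), so two distinct Sylows
(`hH.two`) would share `z ≠ 1`, against `hF.ti`.  No involution ⇒ odd order (Cauchy). -/
theorem Zc_facts (hH : Hyp G) (hF : Facts G) :
    (∀ z : G, z ∈ Zc G → orderOf z ≠ 2) ∧ (∀ P : Sylow 2 G, Zc G ≤ CP P) ∧ Odd (Nat.card (Zc G)) := by
  have hcp : ∀ P : Sylow 2 G, Zc G ≤ CP P := by
    intro P z hz
    obtain ⟨s, t, hs, ht, hs2, ht2, hne⟩ := hF.three P
    rw [mem_Zc] at hz
    exact hF.cent P s z hs hs2 (hz s hs2).symm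
  have hno : ∀ z : G, z ∈ Zc G → orderOf z ≠ 2 := by
    intro z hz hz2
    obtain ⟨Q₁, Q₂, hne⟩ := hH.two
    have h1 : z ∈ Q₁ := hF.invN Q₁ z hz2 (Subgroup.centralizer_le_normalizer _ (hcp Q₁ hz))
    have h2 : z ∈ Q₂ := hF.invN Q₂ z hz2 (Subgroup.centralizer_le_normalizer _ (hcp Q₂ hz))
    have hz1 : z ≠ 1 := by
      intro h
      rw [h, orderOf_one] at hz2
      omega
    exact hne (hF.ti Q₁ Q₂ z h1 h2 hz1)
  refine ⟨hno, hcp, ?_⟩
  by_contra hodd
  rw [Nat.not_odd_iff_even] at hodd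
  have hp2 : Fact (Nat.Prime 2) := ⟨Nat.prime_two⟩
  obtain ⟨w, hw⟩ := exists_prime_orderOf_dvd_card' 2 (even_iff_two_dvd.1 hodd)
  exact hno w w.2 (by rw [Subgroup.orderOf_coe]; exact hw)

end Cfsg.Agent.Lib.Helper45.S02
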