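import Mathlib
import Cfsg.Agent.Lib.Helper45.S02A
import Cfsg.Agent.Lib.Helper45.S02RegS
import Cfsg.Agent.Lib.Helper45.S02Cons
import Cfsg.Agent.Lib.Helper45.S02TwoT
import Cfsg.Agent.Lib.Helper45.S02ThreeP
import Cfsg.Agent.Lib.Helper45.S02ThreeT
import Cfsg.Agent.Lib.Helper45.S02Ker
import Cfsg.Agent.Lib.Helper45.S02PGL
import Cfsg.Agent.Lib.Helper45.S02SL
import Cfsg.Agent.Lib.Helper45.S02LZ
import Cfsg.Agent.Lib.Helper45.S02SM3
import Cfsg.Agent.Lib.Helper45.S02SM4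
import Cfsg.Agent.Lib.Helper45.S02Prod
import Cfsg.Agent.Lib.Helper45.S02ZOdd

/-! S2202 piece AsmFin (project S02 of helper45).
(Filled by helper3.)  Rules for this file: keep the theorem name and statement byte-identical and keep
the namespace; auxiliary lemmas go ABOVE the theorem and MUST start with the prefix `asmfin_`; you may add
imports (landed modules, or other `Cfsg.Agent.Lib.Helper45.S02*` piece files).
Definitions (`HC`, `Inv`, `Zc`, `Lc`, `NP`, `CP`, `Hyp`, `Facts`, `Tp`, `TIH`): Cfsg/Agent/Lib/Helper45/S02A.lean.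
Points = Sylow 2-subgroups, `g • P` = conjugate (`Sylow.smul_def`, `Sylow.coe_smul`,
`Sylow.smul_eq_iff_mem_normalizer : g • P = P ↔ g ∈ normalizer P`, `Subgroup.mem_centralizer_iff`).
"involution" = `orderOf t = 2`.  The paper proof is in the docstring. -/

set_option autoImplicit false

namespace Cfsg.Agent.Lib.Helper45.S02

variable {G : Type*} [Group G] [Finite G]

/-- ASSEMBLY of the final isomorphism from `Tp`.
PROOF. `hregS := sylow_regular hF hT`, `hcons := fix_three_mem_Zc hF hT hregS`,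
`h3T := Lc_three_transitive (Lc_two_transitive hF hT hregS) (Lc_third_point hF hT hregS)`,
`hker := toPermHom_ker hF hT hcons`.  `exists_PGL hF hT hcons h3T hker` gives `F`, `f`, `card F = 2^f` and
`e₁ : G ⧸ Zc G ≃* PGL₂(F)`; `PGL_equiv_SL F f hcard` gives `CharP F 2` and `e₂ : PGL₂(F) ≃* SL₂(F)`;
`e := e₁.trans e₂`.  `Zc_facts hH hF` gives no involution in `Zc G`, `Zc G ≤ CP P`, odd order; `Zc G` is
commutative (`hF.ccomm P`).  `hbot := Lc_inf_Zc (Lc_perfect hH hF) hZno F e`;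
`hLZ := Lc_mul_Zc hF hT hcons h3T`; `exists_prod_iso hZodd hZcomm hLZ hbot F e` gives `A`. -/
theorem final_of_tp (hH : Hyp G) (hF : Facts G) (hT : Tp G) :
    ∃ (F : Type) (_ : Field F) (_ : Fintype F) (A : Type) (_ : CommGroup A) (_ : Finite A),
      CharP F 2 ∧ Odd (Nat.card A) ∧ Nonempty (G ≃* Matrix.SpecialLinearGroup (Fin 2) F × A) := by
  have hregS := sylow_regular hF hT
  have hcons := fix_three_mem_Zc hF hT hregS
  have h3T := Lc_three_transitive (Lc_two_transitive hF hT hregS) (Lc_third_point hF hT hregS)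
  have hker := toPermHom_ker hF hT hcons
  obtain ⟨F, iF, iFt, f, hcard, ⟨e₁⟩⟩ := exists_PGL hF hT hcons h3T hker
  obtain ⟨hchar, ⟨e₂⟩⟩ := PGL_equiv_SL F f hcard
  obtain ⟨hZno, hZle, hZodd⟩ := Zc_facts hH hF
  obtain ⟨P, -⟩ := hH.two
  have hZcomm : ∀ x y : G, x ∈ Zc G → y ∈ Zc G → x * y = y * x :=
    fun x y hx hy => (hF.ccomm P x y (hZle P hx) (hZle P hy)).eq
  have hbot := Lc_inf_Zc (Lc_perfect hH hF) hZno F (e₁.trans e₂)
  have hLZ := Lc_mul_Zc hF hT hcons h3T
  obtain ⟨A, iA, iAf, hAodd, hiso⟩ := exists_prod_iso hZodd hZcomm hLZ hbot F (e₁.trans e₂)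
  exact ⟨F, iF, iFt, A, iA, iAf, hchar, hAodd, hiso⟩

end Cfsg.Agent.Lib.Helper45.S02
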