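import Mathlib
import Cfsg.Agent.Lib.Helper45.S02A


/-! S2202 piece CardS (project S02 of helper45).
PLACEHOLDER: replace the `sorry` in THIS file; keep the theorem name and statement byte-identical and keep
the namespace; auxiliary lemmas go ABOVE the theorem and MUST start with the prefix `cards_`; you may add
imports (landed modules, or other `Cfsg.Agent.Lib.Helper45.S02*` piece files).
Definitions (`HC`, `Inv`, `Zc`, `Lc`, `NP`, `CP`, `Hyp`, `Facts`, `Tp`, `TIH`): Cfsg/Agent/Lib/Helper45/S02A.lean.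
Points = Sylow 2-subgroups, `g • P` = conjugate (`Sylow.smul_def`, `Sylow.coe_smul`,
`Sylow.smul_eq_iff_mem_normalizer : g • P = P ↔ g ∈ normalizer P`, `Subgroup.mem_centralizer_iff`).
"involution" = `orderOf t = 2`.  The paper proof is in the docstring. -/

set_option autoImplicit false

namespace Cfsg.Agent.Lib.Helper45.S02

variable {G : Type*} [Group G] [Finite G]

/-- TI case: the number of Sylow 2-subgroups is `|C(P)| + 1`.
PROOF. Pick `Q ≠ P` (`hH.two`).  `CP P → {X : Sylow 2 G // X ≠ P}`, `m ↦ m • Q` is well defined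
(`m ∈ NP P`), injective (`m • Q = m' • Q` gives `m'⁻¹ m ∈ CP P ⊓ NP Q = ⊥`) and surjective (`htrans`). -/
theorem card_sylow_eq (hH : Hyp G) (hloc : ∀ P Q : Sylow 2 G, P ≠ Q → CP P ⊓ NP Q = ⊥)
    (htrans : ∀ P Q R : Sylow 2 G, Q ≠ P → R ≠ P → ∃ m : G, m ∈ CP P ∧ m • Q = R)
    (P : Sylow 2 G) : Nat.card (Sylow 2 G) = Nat.card (CP P) + 1 := by
  classical
  obtain ⟨Q, hQ⟩ : ∃ Q : Sylow 2 G, Q ≠ P := by
    obtain ⟨P', Q', h⟩ := hH.two
    by_cases h1 : P' = P
    · exact ⟨Q', fun h2 => h (h1.trans h2.symm)⟩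
    · exact ⟨P', h1⟩
  have hCN : ∀ m : G, m ∈ CP P → m • P = P := by
    intro m hm
    rw [Sylow.smul_eq_iff_mem_normalizer]
    exact Subgroup.centralizer_le_normalizer _ hm
  let f : CP P → {X : Sylow 2 G // X ≠ P} := fun m => ⟨(m : G) • Q, by
    intro h
    apply hQ
    have h1 : (m : G)⁻¹ • P = P := hCN _ (inv_mem m.2)
    calc Q = ((m : G)⁻¹ * (m : G)) • Q := by rw [inv_mul_cancel, one_smul]
      _ = (m : G)⁻¹ • ((m : G) • Q) := mul_smul _ _ _
      _ = (m : G)⁻¹ • P := by rw [h]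
      _ = P := h1⟩
  have hinj : Function.Injective f := by
    intro m m' h
    have h1 : (m : G) • Q = (m' : G) • Q := congrArg Subtype.val h
    have h2 : ((m' : G)⁻¹ * (m : G)) • Q = Q := by
      rw [mul_smul, h1, smul_smul, inv_mul_cancel, one_smul]
    have h3 : (m' : G)⁻¹ * (m : G) ∈ CP P ⊓ NP Q :=
      Subgroup.mem_inf.mpr ⟨mul_mem (inv_mem m'.2) m.2, Sylow.smul_eq_iff_mem_normalizer.mp h2⟩
    rw [hloc P Q hQ.symm, Subgroup.mem_bot] at h3
    apply Subtype.ext
    exact (inv_mul_eq_one.mp h3).symm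
  have hsurj : Function.Surjective f := by
    rintro ⟨X, hX⟩
    obtain ⟨m, hm, hmX⟩ := htrans P Q X hQ hX
    exact ⟨⟨m, hm⟩, Subtype.ext hmX⟩
  rw [← Nat.card_congr (Equiv.optionSubtypeNe P), Finite.card_option,
    Nat.card_congr (Equiv.ofBijective f ⟨hinj, hsurj⟩)]

end Cfsg.Agent.Lib.Helper45.S02
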