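import Mathlib
import Cfsg.Agent.Lib.Helper45.S02A


/-! S2202 piece Cover (project S02 of helper45).
Filled by helper40 (job 4066; surjectivity of m ↦ d⁻¹ m⁻¹ d m on C(P) instead of the counting).
Rules were: keep the theorem name and statement byte-identical and keep
the namespace; auxiliary lemmas go ABOVE the theorem and MUST start with the prefix `cover_`; you may add
imports (landed modules, or other `Cfsg.Agent.Lib.Helper45.S02*` piece files).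
Definitions (`HC`, `Inv`, `Zc`, `Lc`, `NP`, `CP`, `Hyp`, `Facts`, `Tp`, `TIH`): Cfsg/Agent/Lib/Helper45/S02A.lean.
Points = Sylow 2-subgroups, `g • P` = conjugate (`Sylow.smul_def`, `Sylow.coe_smul`,
`Sylow.smul_eq_iff_mem_normalizer : g • P = P ↔ g ∈ normalizer P`, `Subgroup.mem_centralizer_iff`).
"involution" = `orderOf t = 2`.  The paper proof is in the docstring. -/

set_option autoImplicit false

namespace Cfsg.Agent.Lib.Helper45.S02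

variable {G : Type*} [Group G] [Finite G]

/-- TI case: every element of `N(P) \ C(P)` normalizes some `m • Q`, `m ∈ C(P)`.
PROOF. `N := NP P`, `M := CP P` (normal in `N`), `D := NP P ⊓ NP Q`.  `D ⊓ M = ⊥` (`hloc P Q`).
`N = D * M`: for `y ∈ N` and an involution `t₀ ∈ P` (`hF.three`), `hreg` gives `d ∈ D` with
`d t₀ d⁻¹ = y t₀ y⁻¹`; then `d⁻¹ y` commutes with `t₀`, so `d⁻¹ y ∈ M` (`hF.cent`).  Hence `|N| = |D| |M|`.
`Ψ : M × (D \ {1}) → N \ M`, `(m, k) ↦ m k m⁻¹` (not in `M`: else `k ∈ D ⊓ M`).  Injective: if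
`m k m⁻¹ = m' k' m'⁻¹`, `c := m'⁻¹ m ∈ M` has `c k c⁻¹ = k' ∈ D`; `k⁻¹ (c k c⁻¹) = (k⁻¹ c k) c⁻¹ ∈ D ⊓ M = ⊥`,
so `c` commutes with `k ≠ 1`, `c ∈ NP Q` by `hfixC P Q k`, `c ∈ M ⊓ NP Q = ⊥`.  Cardinalities:
`|M| (|D| - 1) = |N| - |M|`, so `Ψ` is onto; `x = m k m⁻¹` with `k ∈ NP Q` gives `x ∈ NP (m • Q)`. -/
theorem cover (hF : Facts G) (hloc : ∀ P Q : Sylow 2 G, P ≠ Q → CP P ⊓ NP Q = ⊥)
    (hreg : ∀ P Q : Sylow 2 G, P ≠ Q → ∀ s t : G, s ∈ P → t ∈ P → orderOf s = 2 → orderOf t = 2 → ∃ d : G, d ∈ NP P ∧ d ∈ NP Q ∧ d * s * d⁻¹ = t)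
    (hfixC : ∀ P Q : Sylow 2 G, P ≠ Q → ∀ h : G, h ∈ NP P → h ∈ NP Q → h ≠ 1 → ∀ c : G, Commute c h → c ∈ NP P ∧ c ∈ NP Q)
    (P Q : Sylow 2 G) (hPQ : P ≠ Q) (x : G) (hx : x ∈ NP P) (hxM : x ∉ CP P) :
    ∃ m : G, m ∈ CP P ∧ x ∈ NP (m • Q) := by
  obtain ⟨t₀, _, ht₀P, _, ht₀, _, _⟩ := hF.three P
  have hxt : x * t₀ * x⁻¹ ∈ P := (Subgroup.mem_normalizer_iff.1 hx t₀).1 ht₀P
  have hxt2 : orderOf (x * t₀ * x⁻¹) = 2 := by
    rw [orderOf_conj_eq]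
    exact ht₀
  obtain ⟨d, hdP, hdQ, hd⟩ := hreg P Q hPQ t₀ (x * t₀ * x⁻¹) ht₀P hxt ht₀ hxt2
  have hm₀ : d⁻¹ * x ∈ CP P := by
    apply hF.cent P t₀ (d⁻¹ * x) ht₀P ht₀
    show d⁻¹ * x * t₀ = t₀ * (d⁻¹ * x)
    have h1 : x * t₀ = d * t₀ * d⁻¹ * x := by
      rw [hd]
      group
    calc d⁻¹ * x * t₀ = d⁻¹ * (x * t₀) := by group
      _ = d⁻¹ * (d * t₀ * d⁻¹ * x) := by rw [h1]
      _ = t₀ * (d⁻¹ * x) := by group
  have hd1 : d ≠ 1 := by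
    intro h1
    apply hxM
    rw [h1, inv_one, one_mul] at hm₀
    exact hm₀
  have hconj : ∀ m ∈ CP P, d⁻¹ * m⁻¹ * d * m ∈ CP P := by
    intro m hm
    refine mul_mem ?_ hm
    rw [Subgroup.mem_centralizer_iff]
    intro p hp
    have hp' : d * p * d⁻¹ ∈ P := (Subgroup.mem_normalizer_iff.1 hdP p).1 hp
    have h2 := (Subgroup.mem_centralizer_iff.1 (inv_mem hm)) (d * p * d⁻¹) hp'
    calc p * (d⁻¹ * m⁻¹ * d) = d⁻¹ * (d * p * d⁻¹ * m⁻¹) * d := by group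
      _ = d⁻¹ * (m⁻¹ * (d * p * d⁻¹)) * d := by rw [h2]
      _ = d⁻¹ * m⁻¹ * d * p := by group
  let f : ↥(CP P) → ↥(CP P) := fun m => ⟨d⁻¹ * (m : G)⁻¹ * d * (m : G), hconj m m.2⟩
  have hfinj : Function.Injective f := by
    intro m m' h
    have h1 : d⁻¹ * (m : G)⁻¹ * d * (m : G) = d⁻¹ * (m' : G)⁻¹ * d * (m' : G) :=
      congrArg Subtype.val h
    have h2 : (m : G)⁻¹ * d * (m : G) = (m' : G)⁻¹ * d * (m' : G) := by
      calc (m : G)⁻¹ * d * (m : G) = d * (d⁻¹ * (m : G)⁻¹ * d * (m : G)) := by group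
        _ = d * (d⁻¹ * (m' : G)⁻¹ * d * (m' : G)) := by rw [h1]
        _ = (m' : G)⁻¹ * d * (m' : G) := by group
    have hc : Commute ((m' : G) * (m : G)⁻¹) d := by
      show (m' : G) * (m : G)⁻¹ * d = d * ((m' : G) * (m : G)⁻¹)
      calc (m' : G) * (m : G)⁻¹ * d = (m' : G) * ((m : G)⁻¹ * d * (m : G)) * (m : G)⁻¹ := by group
        _ = (m' : G) * ((m' : G)⁻¹ * d * (m' : G)) * (m : G)⁻¹ := by rw [h2]
        _ = d * ((m' : G) * (m : G)⁻¹) := by group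
    have h3 := (hfixC P Q hPQ d hdP hdQ hd1 _ hc).2
    have h4 : (m' : G) * (m : G)⁻¹ ∈ CP P ⊓ NP Q :=
      Subgroup.mem_inf.2 ⟨(CP P).mul_mem m'.2 ((CP P).inv_mem m.2), h3⟩
    rw [hloc P Q hPQ, Subgroup.mem_bot] at h4
    apply Subtype.ext
    exact (mul_inv_eq_one.1 h4).symm
  have hfsurj := Finite.surjective_of_injective hfinj
  obtain ⟨m, hm⟩ := hfsurj ⟨(d⁻¹ * x)⁻¹, inv_mem hm₀⟩
  have hm' : d⁻¹ * (m : G)⁻¹ * d * (m : G) = (d⁻¹ * x)⁻¹ := congrArg Subtype.val hm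
  refine ⟨(m : G), m.2, ?_⟩
  have hcomm : (d⁻¹ * x) * (m : G) = (m : G) * (d⁻¹ * x) := (hF.ccomm P _ _ hm₀ m.2).eq
  have h5 : d⁻¹ * x = (m : G)⁻¹ * d⁻¹ * (m : G) * d := by
    rw [← inv_inv (d⁻¹ * x), ← hm']
    group
  have hxm : x * (m : G) = (m : G) * d := by
    calc x * (m : G) = d * ((d⁻¹ * x) * (m : G)) := by group
      _ = d * ((m : G) * (d⁻¹ * x)) := by rw [hcomm]
      _ = d * ((m : G) * ((m : G)⁻¹ * d⁻¹ * (m : G) * d)) := by rw [h5]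
      _ = (m : G) * d := by group
  apply Sylow.smul_eq_iff_mem_normalizer.1
  rw [← mul_smul, hxm, mul_smul, Sylow.smul_eq_iff_mem_normalizer.2 hdQ]

end Cfsg.Agent.Lib.Helper45.S02
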