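import Mathlib
import Cfsg.Agent.Lib.Helper45.S02A


/-! S2202 piece DCard (project S02 of helper45).
PLACEHOLDER: replace the `sorry` in THIS file; keep the theorem name and statement byte-identical and keep
the namespace; auxiliary lemmas go ABOVE the theorem and MUST start with the prefix `dcard_`; you may add
imports (landed modules, or other `Cfsg.Agent.Lib.Helper45.S02*` piece files).
Definitions (`HC`, `Inv`, `Zc`, `Lc`, `NP`, `CP`, `Hyp`, `Facts`, `Tp`, `TIH`): Cfsg/Agent/Lib/Helper45/S02A.lean.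
Points = Sylow 2-subgroups, `g • P` = conjugate (`Sylow.smul_def`, `Sylow.coe_smul`,
`Sylow.smul_eq_iff_mem_normalizer : g • P = P ↔ g ∈ normalizer P`, `Subgroup.mem_centralizer_iff`).
"involution" = `orderOf t = 2`.  The paper proof is in the docstring. -/

set_option autoImplicit false

namespace Cfsg.Agent.Lib.Helper45.S02

variable {G : Type*} [Group G] [Finite G]

/-- TI case: `|N(P) ⊓ N(Q)|` = number of involutions of `P`.
PROOF. Fix an involution `t₀ ∈ P`.  `D := NP P ⊓ NP Q → {t // t ∈ P ∧ orderOf t = 2}`,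
`d ↦ d t₀ d⁻¹` (in `P` as `d ∈ NP P`) is surjective (`hreg`) and injective: `d t₀ d⁻¹ = d' t₀ d'⁻¹` gives
`d'⁻¹ d` commuting with `t₀`, so `d'⁻¹ d ∈ CP P ⊓ NP Q = ⊥` (`hF.cent`, `hloc`). -/
theorem card_D_eq (hF : Facts G) (hloc : ∀ P Q : Sylow 2 G, P ≠ Q → CP P ⊓ NP Q = ⊥)
    (hreg : ∀ P Q : Sylow 2 G, P ≠ Q → ∀ s t : G, s ∈ P → t ∈ P → orderOf s = 2 → orderOf t = 2 → ∃ d : G, d ∈ NP P ∧ d ∈ NP Q ∧ d * s * d⁻¹ = t)
    (P Q : Sylow 2 G) (hPQ : P ≠ Q) :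
    Nat.card ↥(NP P ⊓ NP Q) = Nat.card {t : G // t ∈ P ∧ orderOf t = 2} := by
  obtain ⟨t₀, _, ht₀P, _, ht₀, _, _⟩ := hF.three P
  have hconj : ∀ d : G, d ∈ NP P → d * t₀ * d⁻¹ ∈ P := by
    intro d hd
    exact (Subgroup.mem_normalizer_iff.mp hd t₀).mp ht₀P
  let f : ↥(NP P ⊓ NP Q) → {t : G // t ∈ P ∧ orderOf t = 2} := fun d =>
    ⟨(d : G) * t₀ * (d : G)⁻¹, hconj d (Subgroup.mem_inf.mp d.2).1, by
      rw [orderOf_conj_eq]; exact ht₀⟩
  have hbij : Function.Bijective f := by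
    constructor
    · intro d d' hdd
      have h1 : (d : G) * t₀ * (d : G)⁻¹ = (d' : G) * t₀ * (d' : G)⁻¹ := congrArg Subtype.val hdd
      have h2 : Commute ((d' : G)⁻¹ * (d : G)) t₀ := by
        show (d' : G)⁻¹ * (d : G) * t₀ = t₀ * ((d' : G)⁻¹ * (d : G))
        have h7 : (d : G) * t₀ = (d' : G) * t₀ * (d' : G)⁻¹ * (d : G) := by
          rw [← h1]; group
        calc (d' : G)⁻¹ * (d : G) * t₀ = (d' : G)⁻¹ * ((d : G) * t₀) := by group
          _ = (d' : G)⁻¹ * ((d' : G) * t₀ * (d' : G)⁻¹ * (d : G)) := by rw [← h7]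
          _ = t₀ * ((d' : G)⁻¹ * (d : G)) := by group
      have h3 : (d' : G)⁻¹ * (d : G) ∈ CP P := hF.cent P t₀ _ ht₀P ht₀ h2
      have h4 : (d' : G)⁻¹ * (d : G) ∈ NP Q :=
        (NP Q).mul_mem ((NP Q).inv_mem (Subgroup.mem_inf.mp d'.2).2) (Subgroup.mem_inf.mp d.2).2
      have h5 : (d' : G)⁻¹ * (d : G) ∈ CP P ⊓ NP Q := Subgroup.mem_inf.mpr ⟨h3, h4⟩
      rw [hloc P Q hPQ, Subgroup.mem_bot] at h5
      apply Subtype.ext
      have h6 := congrArg (fun z => (d' : G) * z) h5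
      simpa using h6
    · rintro ⟨t, htP, ht⟩
      obtain ⟨d, hdP, hdQ, hd⟩ := hreg P Q hPQ t₀ t ht₀P htP ht₀ ht
      exact ⟨⟨d, Subgroup.mem_inf.mpr ⟨hdP, hdQ⟩⟩, Subtype.ext hd⟩
  exact Nat.card_congr (Equiv.ofBijective f hbij)

end Cfsg.Agent.Lib.Helper45.S02
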