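import Mathlib
import Cfsg.Agent.Lib.Helper45.S02A


/-! S2202 piece FixA (project S02 of helper45).
FILLED (helper37, job 4064); the theorem name and statement are byte-identical to the placeholder; keep
the namespace; auxiliary lemmas go ABOVE the theorem and MUST start with the prefix `fixa_`; you may add
imports (landed modules, or other `Cfsg.Agent.Lib.Helper45.S02*` piece files).
Definitions (`HC`, `Inv`, `Zc`, `Lc`, `NP`, `CP`, `Hyp`, `Facts`, `Tp`, `TIH`): Cfsg/Agent/Lib/Helper45/S02A.lean.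
Points = Sylow 2-subgroups, `g • P` = conjugate (`Sylow.smul_def`, `Sylow.coe_smul`,
`Sylow.smul_eq_iff_mem_normalizer : g • P = P ↔ g ∈ normalizer P`, `Subgroup.mem_centralizer_iff`).
"involution" = `orderOf t = 2`.  The paper proof is in the docstring. -/

set_option autoImplicit false

namespace Cfsg.Agent.Lib.Helper45.S02

variable {G : Type*} [Group G] [Finite G]

omit [Finite G] in
theorem fixa_glue {u v h : G} {A B R : Sylow 2 G} (e1 : u * h * u⁻¹ = h⁻¹)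
    (e2 : v * h * v⁻¹ = h⁻¹) (huBA : u • B = A) (hvAR : v • A = R) :
    ∃ c : G, Commute c h ∧ c • B = R := by
  refine ⟨v * u, ?_, ?_⟩
  · have e1' : u * h = h⁻¹ * u := by
      rw [← e1]
      group
    have e2a : v * h = h⁻¹ * v := by
      rw [← e2]
      group
    have e2' : v * h⁻¹ = h * v := by
      have h3 : h * (v * h) = v := by
        rw [e2a, mul_inv_cancel_left]
      calc v * h⁻¹ = (h * (v * h)) * h⁻¹ := by rw [h3]
        _ = h * v := by group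
    show v * u * h = h * (v * u)
    calc v * u * h = v * (u * h) := by rw [mul_assoc]
      _ = v * (h⁻¹ * u) := by rw [e1']
      _ = (v * h⁻¹) * u := by rw [mul_assoc]
      _ = (h * v) * u := by rw [e2']
      _ = h * (v * u) := by rw [mul_assoc]
  · rw [mul_smul, huBA, hvAR]

/-- TI case, fixed points of `1 ≠ h ∈ N(P) ⊓ N(Q)`, part A.
PROOF. (1) If an involution `s` commutes with `h`: let `R ∋ s` be a Sylow; `h ∈ CP R` (`hF.cent`); `R ≠ P`
or `R ≠ Q`; `hloc R P` or `hloc R Q` gives `h = 1`.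
(2) `R ≠ P`, `h ∈ NP R`: take `u` with `u • P = Q` (`hswap P Q`) and `v` with `v • P = R` (`hswap P R`);
by `hinv`, `u h u⁻¹ = h⁻¹ = v h v⁻¹`.  `c := v * u` commutes with `h` and `c • Q = v • u • Q = v • P = R`.
(3) symmetric: `u'` with `u' • Q = P` (and `u' • P = Q`), `v'` with `v' • Q = R`, `c := v' * u'`,
`c • P = v' • Q = R`; both invert `h` by `hinv Q P`, `hinv Q R`. -/
theorem fixA (hF : Facts G) (hloc : ∀ P Q : Sylow 2 G, P ≠ Q → CP P ⊓ NP Q = ⊥)
    (hswap : ∀ P Q : Sylow 2 G, P ≠ Q → ∃ u : G, orderOf u = 2 ∧ u • P = Q ∧ u • Q = P ∧ u ∈ Lc G)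
    (hinv : ∀ P Q : Sylow 2 G, P ≠ Q → ∀ u : G, orderOf u = 2 → u • P = Q → ∀ d : G, d ∈ NP P → d ∈ NP Q → u * d * u⁻¹ = d⁻¹)
    (P Q : Sylow 2 G) (hPQ : P ≠ Q) (h : G) (hP : h ∈ NP P) (hQ : h ∈ NP Q) (h1 : h ≠ 1) :
    (∀ s : G, orderOf s = 2 → ¬ Commute s h) ∧
    (∀ R : Sylow 2 G, h ∈ NP R → R ≠ P → ∃ c : G, Commute c h ∧ c • Q = R) ∧
    (∀ R : Sylow 2 G, h ∈ NP R → R ≠ Q → ∃ c : G, Commute c h ∧ c • P = R) := by
  refine ⟨?_, ?_, ?_⟩
  · intro s hs hc
    have hpg : IsPGroup 2 (Subgroup.zpowers s) := by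
      apply IsPGroup.of_card (n := 1)
      rw [Nat.card_zpowers, hs, pow_one]
    obtain ⟨R, hR⟩ := hpg.exists_le_sylow
    have hsR : s ∈ R := hR (Subgroup.mem_zpowers s)
    have hcent : h ∈ CP R := hF.cent R s h hsR hs hc.symm
    by_cases hRP : R = P
    · have hRQ : R ≠ Q := by
        rw [hRP]
        exact hPQ
      have hmem : h ∈ CP R ⊓ NP Q := ⟨hcent, hQ⟩
      rw [hloc R Q hRQ, Subgroup.mem_bot] at hmem
      exact h1 hmem
    · have hmem : h ∈ CP R ⊓ NP P := ⟨hcent, hP⟩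
      rw [hloc R P hRP, Subgroup.mem_bot] at hmem
      exact h1 hmem
  · intro R hR hRP
    obtain ⟨u, hu, huPQ, huQP, -⟩ := hswap P Q hPQ
    obtain ⟨v, hv, hvPR, -, -⟩ := hswap P R (Ne.symm hRP)
    have e1 : u * h * u⁻¹ = h⁻¹ := hinv P Q hPQ u hu huPQ h hP hQ
    have e2 : v * h * v⁻¹ = h⁻¹ := hinv P R (Ne.symm hRP) v hv hvPR h hP hR
    exact fixa_glue e1 e2 huQP hvPR
  · intro R hR hRQ
    obtain ⟨u, hu, huQP, huPQ, -⟩ := hswap Q P (Ne.symm hPQ)
    obtain ⟨v, hv, hvQR, -, -⟩ := hswap Q R (Ne.symm hRQ)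
    have e1 : u * h * u⁻¹ = h⁻¹ := hinv Q P (Ne.symm hPQ) u hu huQP h hQ hP
    have e2 : v * h * v⁻¹ = h⁻¹ := hinv Q R (Ne.symm hRQ) v hv hvQR h hQ hR
    exact fixa_glue e1 e2 huPQ hvQR

end Cfsg.Agent.Lib.Helper45.S02
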