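import Mathlib
import Cfsg.Agent.Lib.Helper45.S02A


/-! S2202 piece FixB (project S02 of helper45), filled by helper74.
Definitions (`HC`, `Inv`, `Zc`, `Lc`, `NP`, `CP`, `Hyp`, `Facts`, `Tp`, `TIH`): Cfsg/Agent/Lib/Helper45/S02A.lean.
Points = Sylow 2-subgroups, `g • P` = conjugate.  "involution" = `orderOf t = 2`.

Route (a variant of the orbit-parity argument that needs no counting): an element `w ∈ N(Q)` that
inverts `h` cannot exist (a suitable power of `w` is an involution which either commutes with `h`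
or lies in `Q` and inverts `h`, forcing `h ^ 2 ∈ Q`); if `c • Q = P` with `c ∈ C(h)` then `u * c`
is such an element. -/

set_option autoImplicit false

namespace Cfsg.Agent.Lib.Helper45.S02

variable {G : Type*} [Group G] [Finite G]

omit [Finite G] in
/-- no power `h ^ (2 ^ k)` is trivial when no involution commutes with `h ≠ 1`. -/
theorem fixb_not_two_pow (h : G) (h1 : h ≠ 1)
    (hA1 : ∀ s : G, orderOf s = 2 → ¬ Commute s h) (k : ℕ) : h ^ (2 ^ k) ≠ 1 := by
  intro hk
  have hdvd : orderOf h ∣ 2 ^ k := orderOf_dvd_of_pow_eq_one hk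
  obtain ⟨i, hi, hio⟩ := (Nat.dvd_prime_pow Nat.prime_two).mp hdvd
  rcases Nat.eq_zero_or_pos i with h0 | hpos
  · rw [h0, pow_zero] at hio
    exact h1 (orderOf_eq_one_iff.mp hio)
  · have hs : orderOf (h ^ (2 ^ (i - 1))) = 2 := by
      rw [orderOf_pow_of_dvd (by positivity)
        (by rw [hio]; exact pow_dvd_pow 2 (Nat.sub_le i 1)), hio]
      have h2 : 2 ^ i = 2 ^ (i - 1) * 2 := by
        rw [← pow_succ]; congr 1; omega
      rw [h2, Nat.mul_div_cancel_left _ (by positivity)]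
    exact hA1 _ hs ((Commute.refl h).pow_left _)

omit [Finite G] in
/-- an element of a Sylow 2-subgroup normalized by `h` cannot invert `h`. -/
theorem fixb_no_inv (R : Sylow 2 G) (h : G) (hR : h ∈ NP R) (h1 : h ≠ 1)
    (hA1 : ∀ s : G, orderOf s = 2 → ¬ Commute s h) (s : G) (hs : s ∈ R)
    (hsh : s * h * s⁻¹ = h⁻¹) : False := by
  have h2 : h * s * h⁻¹ ∈ (R : Subgroup G) := (Subgroup.mem_normalizer_iff.mp hR s).mp hs
  have h3 : h * s * h⁻¹ * s⁻¹ ∈ (R : Subgroup G) :=
    (R : Subgroup G).mul_mem h2 ((R : Subgroup G).inv_mem hs)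
  have h5 : s * h⁻¹ * s⁻¹ = h := by
    have h6 := congrArg (fun x => x⁻¹) hsh
    simpa [mul_assoc] using h6
  have h4 : h * s * h⁻¹ * s⁻¹ = h * h := by
    calc h * s * h⁻¹ * s⁻¹ = h * (s * h⁻¹ * s⁻¹) := by group
      _ = h * h := by rw [h5]
  rw [h4] at h3
  obtain ⟨k, hk⟩ := R.isPGroup' ⟨h * h, h3⟩
  have hk' : (h * h) ^ (2 ^ k) = 1 := by
    have h7 := congrArg Subtype.val hk
    simpa using h7
  apply fixb_not_two_pow h h1 hA1 (k + 1)
  rw [pow_succ', pow_mul, pow_two]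
  exact hk'

/-- no element of `N(Q)` inverts `h`. -/
theorem fixb_no_inverter (hF : Facts G) (Q : Sylow 2 G) (h : G) (hQ : h ∈ NP Q) (h1 : h ≠ 1)
    (hA1 : ∀ s : G, orderOf s = 2 → ¬ Commute s h) (w : G) (hw : w ∈ NP Q)
    (hwh : w * h * w⁻¹ = h⁻¹) : False := by
  have hwinv : w * h⁻¹ * w⁻¹ = h := by
    have h6 := congrArg (fun x => x⁻¹) hwh
    simpa [mul_assoc] using h6
  have hpow : ∀ k : ℕ, w ^ k * h * (w ^ k)⁻¹ = if Even k then h else h⁻¹ := by
    intro k
    induction k with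
    | zero => simp
    | succ k ih =>
      have e : w ^ (k + 1) * h * (w ^ (k + 1))⁻¹ = w * (w ^ k * h * (w ^ k)⁻¹) * w⁻¹ := by
        rw [pow_succ']; simp [mul_assoc]
      rw [e, ih]
      by_cases hk : Even k
      · have h7 : ¬ Even (k + 1) := by rw [Nat.even_add_one]; simpa using hk
        simp [hk, h7, hwh]
      · have h7 : Even (k + 1) := by rw [Nat.even_add_one]; exact hk
        simp [hk, h7, hwinv]
  have hn : orderOf w ≠ 0 := (orderOf_pos w).ne'
  obtain ⟨a, m, hm, hnm⟩ := Nat.exists_eq_two_pow_mul_odd hn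
  have hmne : ¬ Even m := Nat.not_even_iff_odd.mpr hm
  rcases Nat.eq_zero_or_pos a with ha | ha
  · -- `w` has odd order
    rw [ha, pow_zero, one_mul] at hnm
    have h2 := hpow m
    rw [← hnm, pow_orderOf_eq_one] at h2
    simp only [one_mul, inv_one, mul_one] at h2
    rw [hnm] at h2
    simp only [hmne, if_false] at h2
    apply fixb_not_two_pow h h1 hA1 1
    rw [pow_one, pow_two]
    calc h * h = h * h⁻¹ := by rw [← h2]
      _ = 1 := mul_inv_cancel h
  · obtain ⟨a', rfl⟩ : ∃ a', a = a' + 1 := ⟨a - 1, by omega⟩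
    set s := w ^ (2 ^ a' * m) with hs
    have hmpos : 0 < m := hm.pos
    have hs2 : s ^ 2 = 1 := by
      rw [hs, ← pow_mul]
      have h3 : 2 ^ a' * m * 2 = orderOf w := by rw [hnm, pow_succ]; ring
      rw [h3, pow_orderOf_eq_one]
    have hs1 : s ≠ 1 := by
      rw [hs]
      apply pow_ne_one_of_lt_orderOf (by positivity)
      rw [hnm, pow_succ]
      have h4 : 0 < 2 ^ a' * m := by positivity
      nlinarith
    have hso : orderOf s = 2 := orderOf_eq_prime hs2 hs1
    have hsN : s ∈ NP Q := by rw [hs]; exact (NP Q).pow_mem hw _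
    have hsh := hpow (2 ^ a' * m)
    rw [← hs] at hsh
    rcases Nat.eq_zero_or_pos a' with ha' | ha'
    · rw [ha', pow_zero, one_mul] at hsh
      simp only [hmne, if_false] at hsh
      exact fixb_no_inv Q h hQ h1 hA1 s (hF.invN Q s hso hsN) hsh
    · have hev : Even (2 ^ a' * m) := by
        apply Even.mul_right
        exact (Nat.even_pow.mpr ⟨even_two, by omega⟩)
      simp only [hev, if_true] at hsh
      apply hA1 s hso
      show s * h = h * s
      calc s * h = s * h * s⁻¹ * s := by group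
        _ = h * s := by rw [hsh]

/-- TI case, fixed points of `1 ≠ h ∈ N(P) ⊓ N(Q)`, part B (parity of orbits).
PROOF. `Fix := {R : Sylow 2 G | h ∈ NP R}` (finite, contains `P`, `Q`), `C := centralizer {h}`.
(a) `C` has odd order: no involution commutes with `h` (`hA1`), Cauchy.  In particular `orderOf h` is odd.
(b) `u` maps `Fix` to `Fix` (`h ∈ NP R → h⁻¹ = u h u⁻¹ ∈ NP (u • R)`) without fixed points: if `u • R = R`
then `u ∈ NP R`, `u ∈ R` (`hF.invN`), and `h * u * h⁻¹ * u⁻¹ ∈ R` equals `h * (u h⁻¹ u⁻¹) = h * h`; `h^2` has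
odd order and lies in the 2-group `R`, so `h^2 = 1`, `h = 1`.  Since `u • u • R = R`, `|Fix|` is even.
(c) `C` acts on `Fix` (`c • R`).  By `hA2`, every `R ∈ Fix`, `R ≠ P` lies in the `C`-orbit of `Q`.  If `P`
were in that orbit too, `Fix` = the orbit of `Q`, of odd size (it divides `|C|`:
`MulAction.card_orbit_mul_card_stabilizer_eq_card_group`): contradiction with (b).  So `P ∉ C • Q`.
(d) For `c ∈ C`: `c • P ∈ Fix`; if `c • P ≠ P` then `c • P = c' • Q`, `P = (c⁻¹ c') • Q`: contradiction.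
So `c ∈ NP P`.  For `R ∈ Fix`, `R ≠ Q`: `R = c • P = P` by `hA3`.  This is the first claim.  Finally
`c • Q ∈ Fix` is `P` or `Q`; `c • Q = P` gives `Q = c⁻¹ • P = P`; so `c ∈ NP Q`. -/
theorem fixB (hF : Facts G)
    (P Q : Sylow 2 G) (hPQ : P ≠ Q) (h : G) (hP : h ∈ NP P) (hQ : h ∈ NP Q) (h1 : h ≠ 1)
    (u : G) (hu : orderOf u = 2) (huP : u • P = Q) (huh : u * h * u⁻¹ = h⁻¹)
    (hA1 : ∀ s : G, orderOf s = 2 → ¬ Commute s h)
    (hA2 : ∀ R : Sylow 2 G, h ∈ NP R → R ≠ P → ∃ c : G, Commute c h ∧ c • Q = R)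
    (hA3 : ∀ R : Sylow 2 G, h ∈ NP R → R ≠ Q → ∃ c : G, Commute c h ∧ c • P = R) :
    (∀ R : Sylow 2 G, h ∈ NP R → R = P ∨ R = Q) ∧ (∀ c : G, Commute c h → c ∈ NP P ∧ c ∈ NP Q) := by
  have hmem : ∀ (g : G) (R : Sylow 2 G), g ∈ NP R ↔ g • R = R :=
    fun g R => Sylow.smul_eq_iff_mem_normalizer.symm
  have hfix : ∀ R : Sylow 2 G, h ∈ NP R ↔ h • R = R := fun R => hmem h R
  have hc' : ∀ c : G, Commute c h → c • Q ≠ P := by
    intro c hc hcQ
    apply fixb_no_inverter hF Q h hQ h1 hA1 (u * c)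
    · rw [hmem, mul_smul, hcQ, huP]
    · have h2 : c * h * c⁻¹ = h := by rw [hc.eq, mul_inv_cancel_right]
      calc u * c * h * (u * c)⁻¹ = u * (c * h * c⁻¹) * u⁻¹ := by group
        _ = u * h * u⁻¹ := by rw [h2]
        _ = h⁻¹ := huh
  have hCfix : ∀ c : G, Commute c h → ∀ R : Sylow 2 G, h ∈ NP R → h ∈ NP (c • R) := by
    intro c hc R hR
    rw [hfix] at hR ⊢
    rw [← mul_smul, ← hc.eq, mul_smul, hR]
  have hcP : ∀ c : G, Commute c h → c • P = P := by
    intro c hc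
    by_contra hne
    obtain ⟨c', hc'h, hc'Q⟩ := hA2 (c • P) (hCfix c hc P hP) hne
    apply hc' (c⁻¹ * c') (hc.inv_left.mul_left hc'h)
    rw [mul_smul, hc'Q, ← mul_smul, inv_mul_cancel, one_smul]
  have hfirst : ∀ R : Sylow 2 G, h ∈ NP R → R = P ∨ R = Q := by
    intro R hR
    by_cases hRQ : R = Q
    · exact Or.inr hRQ
    · obtain ⟨c, hc, hcR⟩ := hA3 R hR hRQ
      left
      rw [← hcR, hcP c hc]
  refine ⟨hfirst, fun c hc => ⟨?_, ?_⟩⟩
  · rw [hmem]
    exact hcP c hc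
  · rw [hmem]
    rcases hfirst (c • Q) (hCfix c hc Q hQ) with h' | h'
    · exact (hc' c hc h').elim
    · exact h'

end Cfsg.Agent.Lib.Helper45.S02
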