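import Mathlib
import Cfsg.Agent.Lib.Helper45.S02A


/-! S2202 piece Invert (project S02 of helper45).
FILLED by helper21 (was a placeholder); keep the theorem name and statement byte-identical and keep
the namespace; auxiliary lemmas go ABOVE the theorem and MUST start with the prefix `invert_`; you may add
imports (landed modules, or other `Cfsg.Agent.Lib.Helper45.S02*` piece files).
Definitions (`HC`, `Inv`, `Zc`, `Lc`, `NP`, `CP`, `Hyp`, `Facts`, `Tp`, `TIH`): Cfsg/Agent/Lib/Helper45/S02A.lean.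
Points = Sylow 2-subgroups, `g • P` = conjugate (`Sylow.smul_def`, `Sylow.coe_smul`,
`Sylow.smul_eq_iff_mem_normalizer : g • P = P ↔ g ∈ normalizer P`, `Subgroup.mem_centralizer_iff`).
"involution" = `orderOf t = 2`.  The paper proof is in the docstring. -/

set_option autoImplicit false

namespace Cfsg.Agent.Lib.Helper45.S02



/-- A fixed-point-free involutory automorphism inverts.
PROOF. `φ : D → D`, `k ↦ k⁻¹ * (u * k * u⁻¹)` is injective: `φ k = φ k'` gives
`k' * k⁻¹ = u * (k' * k⁻¹) * u⁻¹`, so `k' * k⁻¹ = 1` by `hfix`.  `D` finite, so `φ` is surjective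
(`Finite.injective_iff_surjective`).  For `d = φ k`: `u * d * u⁻¹ = (u k u⁻¹)⁻¹ * (u u k u⁻¹ u⁻¹)
= (u k u⁻¹)⁻¹ * k = d⁻¹` (use `u * u = 1`, `u⁻¹ = u`). -/
theorem inverts_of_fixed_point_free {G : Type*} [Group G] (D : Subgroup G) [Finite D] (u : G)
    (hu : u * u = 1) (hn : ∀ d ∈ D, u * d * u⁻¹ ∈ D) (hfix : ∀ d ∈ D, u * d * u⁻¹ = d → d = 1) :
    ∀ d ∈ D, u * d * u⁻¹ = d⁻¹ := by
  have hui : u⁻¹ = u := inv_eq_of_mul_eq_one_left hu
  let φ : D → D := fun k => ⟨(k : G)⁻¹ * (u * k * u⁻¹), D.mul_mem (D.inv_mem k.2) (hn k k.2)⟩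
  have hinj : Function.Injective φ := by
    intro k k' h
    have h1 : (k : G)⁻¹ * (u * k * u⁻¹) = (k' : G)⁻¹ * (u * k' * u⁻¹) := congrArg Subtype.val h
    have h3 : u * (k : G) * u⁻¹ = (k : G) * ((k' : G)⁻¹ * (u * k' * u⁻¹)) := by
      rw [← h1]; group
    have h2 : u * ((k' : G) * (k : G)⁻¹) * u⁻¹ = (k' : G) * (k : G)⁻¹ := by
      calc u * ((k' : G) * (k : G)⁻¹) * u⁻¹ = (u * k' * u⁻¹) * (u * k * u⁻¹)⁻¹ := by group
        _ = (k' : G) * (k : G)⁻¹ := by rw [h3]; group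
    have h4 := hfix _ (D.mul_mem k'.2 (D.inv_mem k.2)) h2
    have h5 : (k' : G) = k := mul_inv_eq_one.mp h4
    exact Subtype.ext h5.symm
  have hsurj : Function.Surjective φ := Finite.injective_iff_surjective.mp hinj
  intro d hd
  obtain ⟨k, hk⟩ := hsurj ⟨d, hd⟩
  have hk' : (k : G)⁻¹ * (u * k * u⁻¹) = d := congrArg Subtype.val hk
  rw [← hk', hui]
  calc u * ((k : G)⁻¹ * (u * k * u)) * u = u * (k : G)⁻¹ * u * k * (u * u) := by group
    _ = u * (k : G)⁻¹ * u * k := by rw [hu, mul_one]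
    _ = ((k : G)⁻¹ * (u * k * u))⁻¹ := by
        apply eq_inv_of_mul_eq_one_left
        calc u * (k : G)⁻¹ * u * k * ((k : G)⁻¹ * (u * k * u))
            = u * (k : G)⁻¹ * (u * u) * k * u := by group
          _ = 1 := by rw [hu, mul_one, inv_mul_cancel_right, hu]

end Cfsg.Agent.Lib.Helper45.S02
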