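import Mathlib
import Cfsg.Agent.Lib.Helper45.S02A


/-! S2202 piece Iso (project S02 of helper45).
PLACEHOLDER: replace the `sorry` in THIS file; keep the theorem name and statement byte-identical and keep
the namespace; auxiliary lemmas go ABOVE the theorem and MUST start with the prefix `iso_`; you may add
imports (landed modules, or other `Cfsg.Agent.Lib.Helper45.S02*` piece files).
Definitions (`HC`, `Inv`, `Zc`, `Lc`, `NP`, `CP`, `Hyp`, `Facts`, `Tp`, `TIH`): Cfsg/Agent/Lib/Helper45/S02A.lean.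
Points = Sylow 2-subgroups, `g • P` = conjugate (`Sylow.smul_def`, `Sylow.coe_smul`,
`Sylow.smul_eq_iff_mem_normalizer : g • P = P ↔ g ∈ normalizer P`, `Subgroup.mem_centralizer_iff`).
"involution" = `orderOf t = 2`.  The paper proof is in the docstring. -/

set_option autoImplicit false

namespace Cfsg.Agent.Lib.Helper45.S02

variable {G : Type*} [Group G] [Finite G]

open scoped Pointwise in
omit [Finite G] in
/-- An element of the conjugate `c • P` is a conjugate of an element of `P`. -/
theorem iso_mem_smul (P : Sylow 2 G) (c y : G) (hy : y ∈ ((c • P : Sylow 2 G) : Subgroup G)) :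
    c⁻¹ * y * c ∈ (P : Subgroup G) := by
  have h1 : y ∈ MulAut.conj c • (P : Subgroup G) := by
    rw [← Sylow.pointwise_smul_def]
    exact hy
  rw [Subgroup.mem_pointwise_smul_iff_inv_smul_mem] at h1
  simpa [MulAut.smul_def] using h1

/-- In the TI case `C(x) ≤ N(P)` for `1 ≠ x ∈ C(P)`.
PROOF. `P' := c • P`.  `x ∈ CP P'`: an element of `P'` is `c * y * c⁻¹` with `y ∈ P`; `x` commutes with
`c` and with `y`.  So `x ∈ CP P ⊓ CP P'`, `x ≠ 1`, hence `P = P'` (else `hTI P P'` gives `⊥`), i.e.
`c ∈ NP P` (`Sylow.smul_eq_iff_mem_normalizer`). -/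
theorem centralizer_le_normalizer_of_TIH (hTI : TIH G) (P : Sylow 2 G) (x : G) (hx : x ∈ CP P)
    (hx1 : x ≠ 1) (c : G) (hc : Commute c x) : c ∈ NP P := by
  refine (Sylow.smul_eq_iff_mem_normalizer (g := c) (P := P)).1 ?_
  by_contra hne
  have hx' : x ∈ CP (c • P) := by
    rw [Subgroup.mem_centralizer_iff]
    intro y hy
    have h2 : c⁻¹ * y * c ∈ (P : Subgroup G) := iso_mem_smul P c y hy
    have h3 : Commute (c⁻¹ * y * c) x := (Subgroup.mem_centralizer_iff.1 hx) _ h2
    have h4 : Commute (c * (c⁻¹ * y * c) * c⁻¹) x := (hc.mul_left h3).mul_left hc.inv_left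
    have h5 : c * (c⁻¹ * y * c) * c⁻¹ = y := by group
    rw [h5] at h4
    exact h4
  have h6 : x ∈ CP P ⊓ CP (c • P) := Subgroup.mem_inf.2 ⟨hx, hx'⟩
  rw [hTI P (c • P) (fun h => hne h.symm), Subgroup.mem_bot] at h6
  exact hx1 h6

end Cfsg.Agent.Lib.Helper45.S02
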