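import Mathlib
import Cfsg.Agent.Lib.Helper45.S02A
import Cfsg.Agent.Lib.Helper45.S02Dih

/-! S2202 piece Swap (project S02 of helper45).
Filled by helper28 (job 4049). Original instructions: keep the theorem name and statement byte-identical and keep
the namespace; auxiliary lemmas go ABOVE the theorem and MUST start with the prefix `swap_`; you may add
imports (landed modules, or other `Cfsg.Agent.Lib.Helper45.S02*` piece files).
Definitions (`HC`, `Inv`, `Zc`, `Lc`, `NP`, `CP`, `Hyp`, `Facts`, `Tp`, `TIH`): Cfsg/Agent/Lib/Helper45/S02A.lean.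
Points = Sylow 2-subgroups, `g • P` = conjugate (`Sylow.smul_def`, `Sylow.coe_smul`,
`Sylow.smul_eq_iff_mem_normalizer : g • P = P ↔ g ∈ normalizer P`, `Subgroup.mem_centralizer_iff`).
"involution" = `orderOf t = 2`.  The paper proof is in the docstring. -/

set_option autoImplicit false

namespace Cfsg.Agent.Lib.Helper45.S02

variable {G : Type*} [Group G] [Finite G]

/-- Two Sylow 2-subgroups are swapped by an involution (a product of involutions).
PROOF. Involutions `s ∈ P`, `t ∈ Q` (`hF.three`); `s ≠ t` (else `P = Q` by `hF.ti`);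
`Odd (orderOf (s*t))` (`hF.odd`); `exists_invol_conj s t` gives an involution `v ∈ closure {s,t} ≤ Lc G`
with `v * s * v⁻¹ = t`.  Then `t ∈ v • P` and `t ∈ Q`, `t ≠ 1`, so `v • P = Q` (`hF.ti`), and
`v • Q = v • v • P = (v*v) • P = P`. -/
theorem exists_invol_swap (hF : Facts G) (P Q : Sylow 2 G) (hPQ : P ≠ Q) :
    ∃ u : G, orderOf u = 2 ∧ u • P = Q ∧ u • Q = P ∧ u ∈ Lc G := by
  obtain ⟨s, _, hsP, _, hs, _, _⟩ := hF.three P
  obtain ⟨t, _, htQ, _, ht, _, _⟩ := hF.three Q
  have hs1 : s ≠ 1 := by
    intro h1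
    rw [h1, orderOf_one] at hs
    omega
  have ht1 : t ≠ 1 := by
    intro h1
    rw [h1, orderOf_one] at ht
    omega
  have hst : s ≠ t := by
    intro h
    exact hPQ (hF.ti P Q s hsP (h ▸ htQ) hs1)
  have hodd := hF.odd P Q s t hPQ hsP htQ hs ht
  obtain ⟨v, hv, hvst, hvcl⟩ := exists_invol_conj s t hs ht hodd hst
  have hvL : v ∈ Lc G := by
    have hle : Subgroup.closure ({s, t} : Set G) ≤ Lc G := by
      unfold Lc
      apply Subgroup.closure_mono
      intro x hx
      rcases hx with rfl | rfl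
      · exact hs
      · exact ht
    exact hle hvcl
  have hmem : t ∈ ((v • P : Sylow 2 G) : Subgroup G) := by
    rw [Sylow.coe_subgroup_smul, ← hvst]
    have h2 := Subgroup.smul_mem_pointwise_smul s (MulAut.conj v) (P : Subgroup G) hsP
    rw [MulAut.smul_def, MulAut.conj_apply] at h2
    exact h2
  have h1 : v • P = Q := hF.ti (v • P) Q t hmem htQ ht1
  refine ⟨v, hv, h1, ?_, hvL⟩
  have hvv : v * v = 1 := by rw [← sq, ← hv, pow_orderOf_eq_one]
  rw [← h1, smul_smul, hvv, one_smul]

end Cfsg.Agent.Lib.Helper45.S02
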