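import Mathlib
import Cfsg.Agent.Lib.Helper45.S02A
import Cfsg.Agent.Lib.Helper45.S02Swap
import Cfsg.Agent.Lib.Helper45.S02Iso

/-! S2202 piece Loc (project S02 of helper45); filled by helper51.
Definitions (`HC`, `Inv`, `Zc`, `Lc`, `NP`, `CP`, `Hyp`, `Facts`, `Tp`, `TIH`): Cfsg/Agent/Lib/Helper45/S02A.lean.
Points = Sylow 2-subgroups, `g • P` = conjugate (`Sylow.smul_def`, `Sylow.coe_smul`,
`Sylow.smul_eq_iff_mem_normalizer : g • P = P ↔ g ∈ normalizer P`, `Subgroup.mem_centralizer_iff`).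
"involution" = `orderOf t = 2`.  The paper proof is in the docstring. -/

set_option autoImplicit false

namespace Cfsg.Agent.Lib.Helper45.S02

variable {G : Type*} [Group G] [Finite G]

omit [Finite G] in
theorem loc_mem_smul (g : G) (P : Sylow 2 G) (y : G) : y ∈ g • P ↔ g⁻¹ * y * g ∈ P := by
  have h : y ∈ ((g • P : Sylow 2 G) : Subgroup G) ↔ g⁻¹ * y * g ∈ (P : Subgroup G) := by
    rw [Sylow.coe_subgroup_smul, Subgroup.mem_smul_pointwise_iff_exists]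
    constructor
    · rintro ⟨s, hs, rfl⟩
      rw [MulAut.smul_def, MulAut.conj_apply]
      have e : g⁻¹ * (g * s * g⁻¹) * g = s := by group
      rw [e]
      exact hs
    · intro h
      refine ⟨g⁻¹ * y * g, h, ?_⟩
      rw [MulAut.smul_def, MulAut.conj_apply]
      group
  exact h

omit [Finite G] in
theorem loc_conj_mem_CP (g x : G) (P : Sylow 2 G) (hx : x ∈ CP P) : g * x * g⁻¹ ∈ CP (g • P) := by
  rw [Subgroup.mem_centralizer_iff] at hx ⊢
  intro y hy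
  have hy' : g⁻¹ * y * g ∈ P := (loc_mem_smul g P y).mp hy
  have h := hx _ hy'
  calc y * (g * x * g⁻¹) = g * (g⁻¹ * y * g * x) * g⁻¹ := by group
    _ = g * (x * (g⁻¹ * y * g)) * g⁻¹ := by rw [h]
    _ = g * x * g⁻¹ * y := by group

omit [Finite G] in
theorem loc_conj_mem_NP (g x : G) (P : Sylow 2 G) (hx : x ∈ NP P) : g * x * g⁻¹ ∈ NP (g • P) := by
  have h1 : x • P = P := Sylow.smul_eq_iff_mem_normalizer.mpr hx
  apply Sylow.smul_eq_iff_mem_normalizer.mp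
  rw [← mul_smul, inv_mul_cancel_right, mul_smul, h1]

omit [Finite G] in
theorem loc_exists_invol_pow (R : Sylow 2 G) (y : G) (hy : y ∈ R) (hne : y ≠ 1) :
    ∃ n : ℕ, orderOf (y ^ n) = 2 := by
  obtain ⟨k, hk⟩ := R.isPGroup' ⟨y, hy⟩
  have hk' : y ^ 2 ^ k = 1 := by
    have h := congrArg Subtype.val hk
    simpa using h
  obtain ⟨m, -, hm⟩ := (Nat.dvd_prime_pow Nat.prime_two).mp (orderOf_dvd_of_pow_eq_one hk')
  have hm0 : m ≠ 0 := by
    rintro rfl
    rw [pow_zero, orderOf_eq_one_iff] at hm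
    exact hne hm
  obtain ⟨m', rfl⟩ := Nat.exists_eq_succ_of_ne_zero hm0
  refine ⟨2 ^ m', ?_⟩
  rw [orderOf_pow_of_dvd (pow_ne_zero _ two_ne_zero)
    (by rw [hm]; exact pow_dvd_pow 2 (Nat.le_succ m')), hm, Nat.pow_succ,
    Nat.mul_div_cancel_left _ (pow_pos two_pos m')]

omit [Finite G] in
theorem loc_exists_sylow_mem (u : G) (hu : orderOf u = 2) : ∃ R : Sylow 2 G, u ∈ R := by
  have hp : IsPGroup 2 (Subgroup.zpowers u) := by
    apply IsPGroup.of_card (n := 1)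
    rw [Nat.card_zpowers, hu, pow_one]
  obtain ⟨R, hR⟩ := hp.exists_le_sylow
  exact ⟨R, hR (Subgroup.mem_zpowers u)⟩

/-- In the TI case `C(P) ⊓ N(Q) = ⊥` for `P ≠ Q`.
PROOF. Let `x ∈ CP P ⊓ NP Q`; `u` an involution with `u • P = Q`, `u • Q = P` (`exists_invol_swap`).
`x' := u * x * u⁻¹ ∈ CP Q ⊓ NP P`.  `c := x' * x * x'⁻¹ * x⁻¹`: `x' ∈ NP P` normalizes `CP P`, so
`c ∈ CP P`; `x ∈ NP Q` normalizes `CP Q`, so `c ∈ CP Q`; `hTI`: `c = 1`, i.e. `x' * x = x * x'`.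
`w := x * x'`; `u * w * u⁻¹ = x' * x = w` (`u * x' * u⁻¹ = x` since `u*u = 1`).  Let `R` be a Sylow
containing `u`; `w ∈ CP R` (`hF.cent R u w`).
Case `w ≠ 1`: `x` commutes with `w`, so `x ∈ NP R` (`centralizer_le_normalizer_of_TIH`).  Then
`y := x * u * x⁻¹ * u⁻¹ ∈ R` and `y = x * x'⁻¹ ∈ NP P ⊓ NP Q` (`CP ≤ NP`).  If `y ≠ 1`, a power of `y`
(a 2-element) is an involution in `NP P ⊓ NP Q`, hence in `P ⊓ Q` (`hF.invN`), so `P = Q` (`hF.ti`).
So `y = 1`, `x = x' ∈ CP P ⊓ CP Q = ⊥`.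
Case `w = 1`: `x' = x⁻¹ ∈ CP P ⊓ CP Q = ⊥`, so `x = 1`. -/
theorem cent_inf_normalizer_eq_bot (hF : Facts G) (hTI : TIH G) (P Q : Sylow 2 G) (hPQ : P ≠ Q) :
    CP P ⊓ NP Q = ⊥ := by
  rw [eq_bot_iff]
  rintro x ⟨hxC, hxN⟩
  rw [Subgroup.mem_bot]
  obtain ⟨u, hu2, huP, huQ, -⟩ := exists_invol_swap hF P Q hPQ
  have huu : u * u = 1 := by rw [← sq, ← hu2, pow_orderOf_eq_one]
  have hui : u⁻¹ = u := inv_eq_of_mul_eq_one_left huu
  obtain ⟨x', hx'def⟩ : ∃ x', x' = u * x * u⁻¹ := ⟨_, rfl⟩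
  have hx'C : x' ∈ CP Q := by
    have h := loc_conj_mem_CP u x P hxC
    rwa [huP, ← hx'def] at h
  have hx'N : x' ∈ NP P := by
    have h := loc_conj_mem_NP u x Q hxN
    rwa [huQ, ← hx'def] at h
  -- the commutator of `x'` and `x` is trivial
  have hcP : x' * x * x'⁻¹ * x⁻¹ ∈ CP P := by
    have h1 : x' * x * x'⁻¹ ∈ CP P := by
      have h := loc_conj_mem_CP x' x P hxC
      rwa [Sylow.smul_eq_iff_mem_normalizer.mpr hx'N] at h
    exact (CP P).mul_mem h1 ((CP P).inv_mem hxC)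
  have hcQ : x' * x * x'⁻¹ * x⁻¹ ∈ CP Q := by
    have h1 : x * x'⁻¹ * x⁻¹ ∈ CP Q := by
      have h := loc_conj_mem_CP x x'⁻¹ Q ((CP Q).inv_mem hx'C)
      rwa [Sylow.smul_eq_iff_mem_normalizer.mpr hxN] at h
    have h2 := (CP Q).mul_mem hx'C h1
    have e : x' * (x * x'⁻¹ * x⁻¹) = x' * x * x'⁻¹ * x⁻¹ := by group
    rwa [e] at h2
  have hc1 : x' * x * x'⁻¹ * x⁻¹ = 1 := by
    have h : x' * x * x'⁻¹ * x⁻¹ ∈ CP P ⊓ CP Q := ⟨hcP, hcQ⟩
    rw [hTI P Q hPQ] at h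
    exact Subgroup.mem_bot.mp h
  have hcomm : x' * x = x * x' := by
    have h : x' * x = (x' * x * x'⁻¹ * x⁻¹) * (x * x') := by group
    rw [h, hc1, one_mul]
  have hux' : u * x' * u⁻¹ = x := by
    rw [hx'def, hui]
    calc u * (u * x * u) * u = (u * u) * x * (u * u) := by group
      _ = x := by rw [huu, one_mul, mul_one]
  have hwu : Commute (x * x') u := by
    have h1 : u * (x * x') * u⁻¹ = x * x' := by
      calc u * (x * x') * u⁻¹ = (u * x * u⁻¹) * (u * x' * u⁻¹) := by group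
        _ = x' * x := by rw [hux', ← hx'def]
        _ = x * x' := hcomm
    show x * x' * u = u * (x * x')
    calc x * x' * u = (u * (x * x') * u⁻¹) * u := by rw [h1]
      _ = u * (x * x') := by group
  obtain ⟨R, hR⟩ := loc_exists_sylow_mem u hu2
  have hwR : x * x' ∈ CP R := hF.cent R u (x * x') hR hu2 hwu
  by_cases hw1 : x * x' = 1
  · have hx'inv : x' = x⁻¹ := eq_inv_of_mul_eq_one_right hw1
    have h1 : x⁻¹ ∈ CP P ⊓ CP Q := ⟨(CP P).inv_mem hxC, by rw [← hx'inv]; exact hx'C⟩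
    rw [hTI P Q hPQ, Subgroup.mem_bot] at h1
    exact inv_eq_one.mp h1
  · have hxw : Commute x (x * x') := by
      show x * (x * x') = x * x' * x
      rw [mul_assoc x x' x, hcomm]
    have hxR : x ∈ NP R := centralizer_le_normalizer_of_TIH hTI R (x * x') hwR hw1 x hxw
    have hyR : x * u * x⁻¹ * u⁻¹ ∈ R := by
      have h1 : x * u * x⁻¹ ∈ R := by
        have h2 : x * u * x⁻¹ ∈ x • R := by
          rw [loc_mem_smul]
          have e : x⁻¹ * (x * u * x⁻¹) * x = u := by group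
          rw [e]
          exact hR
        rwa [Sylow.smul_eq_iff_mem_normalizer.mpr hxR] at h2
      exact (R : Subgroup G).mul_mem h1 ((R : Subgroup G).inv_mem hR)
    have hyeq : x * u * x⁻¹ * u⁻¹ = x * x'⁻¹ := by
      rw [hx'def]
      group
    have hyNP : x * x'⁻¹ ∈ NP P :=
      (NP P).mul_mem (Subgroup.centralizer_le_normalizer _ hxC) ((NP P).inv_mem hx'N)
    have hyNQ : x * x'⁻¹ ∈ NP Q :=
      (NP Q).mul_mem hxN ((NP Q).inv_mem (Subgroup.centralizer_le_normalizer _ hx'C))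
    have hy1 : x * x'⁻¹ = 1 := by
      by_contra hne
      obtain ⟨n, ht2⟩ := loc_exists_invol_pow R (x * x'⁻¹) (by rw [← hyeq]; exact hyR) hne
      have htP := hF.invN P _ ht2 ((NP P).pow_mem hyNP n)
      have htQ := hF.invN Q _ ht2 ((NP Q).pow_mem hyNQ n)
      have hne1 : (x * x'⁻¹) ^ n ≠ 1 := by
        intro h
        rw [h, orderOf_one] at ht2
        omega
      exact hPQ (hF.ti P Q _ htP htQ hne1)
    have hxx' : x = x' := mul_inv_eq_one.mp hy1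
    have h1 : x' ∈ CP P ⊓ CP Q := ⟨by rw [← hxx']; exact hxC, hx'C⟩
    rw [hTI P Q hPQ, Subgroup.mem_bot] at h1
    rw [hxx']
    exact h1

end Cfsg.Agent.Lib.Helper45.S02
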