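import Mathlib
import Cfsg.Agent.Lib.Helper45.S02A
import Cfsg.Agent.Lib.Helper45.S02Invert

/-! S2202 piece NoReg (project S02 of helper45).
PLACEHOLDER: replace the `sorry` in THIS file; keep the theorem name and statement byte-identical and keep
the namespace; auxiliary lemmas go ABOVE the theorem and MUST start with the prefix `noreg_`; you may add
imports (landed modules, or other `Cfsg.Agent.Lib.Helper45.S02*` piece files).
Definitions (`HC`, `Inv`, `Zc`, `Lc`, `NP`, `CP`, `Hyp`, `Facts`, `Tp`, `TIH`): Cfsg/Agent/Lib/Helper45/S02A.lean.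
Points = Sylow 2-subgroups, `g • P` = conjugate (`Sylow.smul_def`, `Sylow.coe_smul`,
`Sylow.smul_eq_iff_mem_normalizer : g • P = P ↔ g ∈ normalizer P`, `Subgroup.mem_centralizer_iff`).
"involution" = `orderOf t = 2`.  The paper proof is in the docstring. -/

set_option autoImplicit false

namespace Cfsg.Agent.Lib.Helper45.S02

variable {G : Type*} [Group G] [Finite G]

/-- No nontrivial normal subgroup meets all Sylow normalizers trivially.
PROOF. `K` contains no involution (an involution lies in a Sylow `R`, so in `K ⊓ NP R`).  Let `t` be an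
involution of a Sylow `P`.  `t` normalizes `K`; if `k ∈ K` and `t k t⁻¹ = k` then `k ∈ CP P ≤ NP P`
(`hF.cent`), so `k = 1`.  `inverts_of_fixed_point_free K t`: `t k t⁻¹ = k⁻¹` for all `k ∈ K`.  Take
involutions `s ≠ t` of `P` (`hF.three`); `s * t` is an involution of `P` (they commute, `hF.comm`).
Then `(s t) k (s t)⁻¹ = s k⁻¹ s⁻¹ = k` and also `= k⁻¹`; so `k^2 = 1`, and `k = 1` since `K` has no
involution.  Hence `K = ⊥`. -/
theorem no_regular_normal (hF : Facts G) (K : Subgroup G) (hK : K.Normal)
    (hKN : ∀ P : Sylow 2 G, K ⊓ NP P = ⊥) (hK1 : K ≠ ⊥) : False := by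
  obtain ⟨P⟩ : Nonempty (Sylow 2 G) := inferInstance
  -- elements of `K` centralizing an involution of `P` are trivial
  have hfp : ∀ u : G, u ∈ P → orderOf u = 2 → ∀ d ∈ K, Commute d u → d = 1 := by
    intro u huP hu2 d hd hc
    have h1 : d ∈ CP P := hF.cent P u d huP hu2 hc
    have h2 : d ∈ NP P := Subgroup.centralizer_le_normalizer _ h1
    have h3 : d ∈ K ⊓ NP P := ⟨hd, h2⟩
    rw [hKN P] at h3
    exact Subgroup.mem_bot.mp h3
  have hsq : ∀ u : G, orderOf u = 2 → u * u = 1 := by
    intro u hu2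
    have h1 := pow_orderOf_eq_one u
    rw [hu2, pow_two] at h1
    exact h1
  have hinv : ∀ u : G, u ∈ P → orderOf u = 2 → ∀ d ∈ K, u * d * u⁻¹ = d⁻¹ := by
    intro u huP hu2
    refine inverts_of_fixed_point_free K u (hsq u hu2) (fun d hd => hK.conj_mem d hd u) ?_
    intro d hd hfix
    apply hfp u huP hu2 d hd
    show d * u = u * d
    calc d * u = (u * d * u⁻¹) * u := by rw [hfix]
      _ = u * d := by group
  obtain ⟨s, t, hsP, htP, hs2, ht2, hst⟩ := hF.three P
  have hss : s * s = 1 := hsq s hs2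
  have htt : t * t = 1 := hsq t ht2
  have hcst : s * t = t * s := (hF.comm P s t hsP htP).eq
  have hst2 : orderOf (s * t) = 2 := by
    haveI : Fact (Nat.Prime 2) := ⟨Nat.prime_two⟩
    apply orderOf_eq_prime
    · rw [pow_two]
      calc s * t * (s * t) = s * (t * s) * t := by group
        _ = s * (s * t) * t := by rw [hcst]
        _ = (s * s) * (t * t) := by group
        _ = 1 := by rw [hss, htt, mul_one]
    · intro h1
      apply hst
      have h2 : s = t⁻¹ := eq_inv_of_mul_eq_one_left h1
      have h3 : t⁻¹ = t := inv_eq_of_mul_eq_one_right htt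
      rw [h2, h3]
  apply hK1
  rw [Subgroup.eq_bot_iff_forall]
  intro k hk
  apply hfp (s * t) (mul_mem hsP htP) hst2 k hk
  show k * (s * t) = s * t * k
  have h1 := hinv t htP ht2 k hk
  have h2 := hinv s hsP hs2 k⁻¹ (K.inv_mem hk)
  rw [inv_inv] at h2
  have h3 : s * t * k * (s * t)⁻¹ = k := by
    calc s * t * k * (s * t)⁻¹ = s * (t * k * t⁻¹) * s⁻¹ := by group
      _ = s * k⁻¹ * s⁻¹ := by rw [h1]
      _ = k := h2
  calc k * (s * t) = (s * t * k * (s * t)⁻¹) * (s * t) := by rw [h3]
    _ = s * t * k := by group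

end Cfsg.Agent.Lib.Helper45.S02
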