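import Mathlib
import Cfsg.Agent.Lib.Helper45.S02A
import Cfsg.Agent.Lib.Helper45.S02ZOdd

/-! S2202 piece QHyp (project S02 of helper45).
Proof by helper16; auxiliary lemmas have the prefix `qhyp_`.
Definitions (`HC`, `Inv`, `Zc`, `Lc`, `NP`, `CP`, `Hyp`, `Facts`, `Tp`, `TIH`): Cfsg/Agent/Lib/Helper45/S02A.lean.
Points = Sylow 2-subgroups, `g • P` = conjugate (`Sylow.smul_def`, `Sylow.coe_smul`,
`Sylow.smul_eq_iff_mem_normalizer : g • P = P ↔ g ∈ normalizer P`, `Subgroup.mem_centralizer_iff`).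
"involution" = `orderOf t = 2`.  The paper proof is in the docstring. -/

set_option autoImplicit false

namespace Cfsg.Agent.Lib.Helper45.S02

variable {G : Type*} [Group G] [Finite G]

/-- an element of a subgroup of odd order whose order is a power of 2 is trivial -/
theorem qhyp_odd_two (Z : Subgroup G) (hodd : Odd (Nat.card Z)) (z : G) (hz : z ∈ Z) (N : ℕ)
    (hzN : z ^ (2 ^ N) = 1) : z = 1 := by
  have h1 : z ^ Nat.card Z = 1 := by
    have h := pow_card_eq_one' (G := Z) (x := ⟨z, hz⟩)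
    exact congrArg Subtype.val h
  have hd1 : orderOf z ∣ 2 ^ N := orderOf_dvd_of_pow_eq_one hzN
  have hd2 : orderOf z ∣ Nat.card Z := orderOf_dvd_of_pow_eq_one h1
  have hcop : Nat.Coprime (2 ^ N) (Nat.card Z) :=
    Nat.Coprime.pow_left _ (Nat.coprime_two_left.mpr hodd)
  have h3 : orderOf z = 1 := Nat.eq_one_of_dvd_coprimes hcop hd1 hd2
  exact orderOf_eq_one_iff.mp h3

theorem qhyp_sq_one (hZ1 : ∀ z : G, z ∈ Zc G → orderOf z ≠ 2) (z : G) (hz : z ∈ Zc G)
    (h : z ^ 2 = 1) : z = 1 := by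
  by_contra hne
  exact hZ1 z hz (orderOf_eq_prime h hne)

/-- involutions of the quotient lift to involutions -/
theorem qhyp_lift_inv (hZ3 : Odd (Nat.card (Zc G))) (T : G ⧸ Zc G) (hT : orderOf T = 2) :
    ∃ t : G, orderOf t = 2 ∧ (QuotientGroup.mk t : G ⧸ Zc G) = T := by
  obtain ⟨t₀, rfl⟩ := QuotientGroup.mk_surjective T
  obtain ⟨k, hk⟩ := hZ3
  have hT2 : (QuotientGroup.mk t₀ : G ⧸ Zc G) ^ 2 = 1 := by
    rw [← hT]; exact pow_orderOf_eq_one _
  have hT1 : (QuotientGroup.mk t₀ : G ⧸ Zc G) ≠ 1 := by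
    intro h
    rw [h, orderOf_one] at hT
    omega
  have hmem : t₀ ^ 2 ∈ Zc G := by
    rw [← QuotientGroup.eq_one_iff, QuotientGroup.mk_pow]; exact hT2
  have hπ : (QuotientGroup.mk (t₀ ^ Nat.card (Zc G)) : G ⧸ Zc G) = QuotientGroup.mk t₀ := by
    rw [QuotientGroup.mk_pow, hk, pow_succ, pow_mul, hT2, one_pow, one_mul]
  refine ⟨t₀ ^ Nat.card (Zc G), ?_, hπ⟩
  apply orderOf_eq_prime
  · rw [← pow_mul, mul_comm, pow_mul]
    have h := pow_card_eq_one' (G := Zc G) (x := ⟨t₀ ^ 2, hmem⟩)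
    exact congrArg Subtype.val h
  · intro h
    rw [h] at hπ
    exact hT1 hπ.symm

/-- commutation with an involution lifts -/
theorem qhyp_lift_comm (hZ1 : ∀ z : G, z ∈ Zc G → orderOf z ≠ 2) (t x : G) (ht : orderOf t = 2)
    (h : Commute (QuotientGroup.mk x : G ⧸ Zc G) (QuotientGroup.mk t : G ⧸ Zc G)) :
    Commute x t := by
  have ht2 : t ^ 2 = 1 := by rw [← ht]; exact pow_orderOf_eq_one t
  have hmem : t⁻¹ * x⁻¹ * t * x ∈ Zc G := by
    rw [← QuotientGroup.eq_one_iff]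
    simp only [QuotientGroup.mk_mul, QuotientGroup.mk_inv]
    rw [mul_assoc, ← h.eq]
    group
  have hzt : t * (t⁻¹ * x⁻¹ * t * x) = (t⁻¹ * x⁻¹ * t * x) * t := (mem_Zc.mp hmem) t ht
  have hconj : orderOf (x⁻¹ * t * x) = 2 := by
    have h1 := orderOf_conj_eq x⁻¹ t
    rw [inv_inv] at h1
    rw [h1, ht]
  have htz : t * (t⁻¹ * x⁻¹ * t * x) = x⁻¹ * t * x := by group
  have hz2 : (t⁻¹ * x⁻¹ * t * x) ^ 2 = 1 := by
    have h1 : (t * (t⁻¹ * x⁻¹ * t * x)) ^ 2 = 1 := by
      rw [htz, ← hconj]; exact pow_orderOf_eq_one _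
    have h2 : (t * (t⁻¹ * x⁻¹ * t * x)) ^ 2 = t ^ 2 * (t⁻¹ * x⁻¹ * t * x) ^ 2 :=
      (show Commute t (t⁻¹ * x⁻¹ * t * x) from hzt).mul_pow 2
    rw [h2, ht2, one_mul] at h1
    exact h1
  have hz1 := qhyp_sq_one hZ1 _ hmem hz2
  have h5 : x⁻¹ * t * x = t := by rw [← htz, hz1, mul_one]
  show x * t = t * x
  calc x * t = x * (x⁻¹ * t * x) := by rw [h5]
    _ = t * x := by group

/-- a 2-element whose image lies in the image of a Sylow 2-subgroup `P` lies in `P` -/
theorem qhyp_mem_of_map (hZ2 : ∀ P : Sylow 2 G, Zc G ≤ CP P) (hZ3 : Odd (Nat.card (Zc G)))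
    (P : Sylow 2 G) (x : G) (k : ℕ) (hxk : x ^ (2 ^ k) = 1)
    (hx : (QuotientGroup.mk x : G ⧸ Zc G) ∈ (P : Subgroup G).map (QuotientGroup.mk' (Zc G))) :
    x ∈ P := by
  obtain ⟨p, hp, hpx⟩ := hx
  have hmem : p⁻¹ * x ∈ Zc G := QuotientGroup.eq.mp hpx
  have hcomm : Commute p (p⁻¹ * x) :=
    (Subgroup.mem_centralizer_iff.mp (hZ2 P hmem)) p hp
  obtain ⟨j, hj⟩ := P.isPGroup' ⟨p, hp⟩
  have hpj : p ^ (2 ^ j) = 1 := congrArg Subtype.val hj
  have hx' : x = p * (p⁻¹ * x) := by group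
  have h1 : (p * (p⁻¹ * x)) ^ (2 ^ (k + j)) = 1 := by
    rw [← hx', pow_add, pow_mul, hxk, one_pow]
  rw [hcomm.mul_pow] at h1
  have h2 : p ^ (2 ^ (k + j)) = 1 := by rw [add_comm, pow_add, pow_mul, hpj, one_pow]
  rw [h2, one_mul] at h1
  have hz1 := qhyp_odd_two (Zc G) hZ3 _ hmem (k + j) h1
  rw [hx', hz1, mul_one]
  exact hp

/-- `Hyp` passes to `G ⧸ Zc G`.
PROOF. `Z := Zc G` has odd order `m` and `Z ≤ CP P` for all `P` (`Zc_facts`).
`hc`: let `T` be an involution of `G ⧸ Z`, `T = ↑t₀`; `t := t₀^m` satisfies `↑t = T` (`T^m = T`, `m` odd)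
and `t^2 = (t₀^2)^m = 1` (`t₀^2 ∈ Z`), `t ≠ 1`: an involution of `G`.  If `↑x` commutes with `T` then
`z := t⁻¹ * x⁻¹ * t * x ∈ Z`, `x⁻¹ t x = t z` is an involution and `z` commutes with `t` (`mem_Zc`), so
`z^2 = 1`, `z = 1` (odd order): `x` commutes with `t`.  Same for `y`; `hH.hc t x y`.
`two`/`nc`: for `P : Sylow 2 G`, `P.mapSurjective (QuotientGroup.mk'_surjective Z)` (or `Sylow.ofCard`) is
a Sylow of the quotient whose subgroup is `P.map (mk' Z)`.  `P ≠ Q ⇒` images differ: else `Q ≤ P ⊔ Z`,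
where `P` is normal (`Z` centralizes `P`), so `P ⊔ Q` is a 2-group and `P = Q`.  Every Sylow of the
quotient is conjugate to such an image (Sylow transitivity), so contains the images of the two distinct
involutions `s, t` of some `P` and of `s*t`; these images are distinct involutions (`s * t⁻¹ ∉ Z` etc.,
as `Z` has no involution), and a cyclic group has at most one involution
(`IsCyclic.card_pow_eq_one_le` / `isCyclic...`): not cyclic. -/
theorem hyp_quotient (hH : Hyp G) (hF : Facts G) : Hyp (G ⧸ Zc G) := by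
  obtain ⟨hZ1, hZ2, hZ3⟩ := Zc_facts hH hF
  have hsurj : Function.Surjective (QuotientGroup.mk' (Zc G)) := QuotientGroup.mk'_surjective _
  refine ⟨?_, ?_, ?_⟩
  · intro T X Y hT hX hY
    obtain ⟨t, ht, rfl⟩ := qhyp_lift_inv hZ3 T hT
    obtain ⟨x, rfl⟩ := QuotientGroup.mk_surjective X
    obtain ⟨y, rfl⟩ := QuotientGroup.mk_surjective Y
    have hx := qhyp_lift_comm hZ1 t x ht hX
    have hy := qhyp_lift_comm hZ1 t y ht hY
    have hxy := hH.hc t x y ht hx hy
    show (QuotientGroup.mk x : G ⧸ Zc G) * QuotientGroup.mk y =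
      QuotientGroup.mk y * QuotientGroup.mk x
    rw [← QuotientGroup.mk_mul, ← QuotientGroup.mk_mul, hxy.eq]
  · obtain ⟨P, Q, hPQ⟩ := hH.two
    refine ⟨P.mapSurjective hsurj, Q.mapSurjective hsurj, ?_⟩
    intro h
    apply hPQ
    have hcoe : (P : Subgroup G).map (QuotientGroup.mk' (Zc G)) =
        (Q : Subgroup G).map (QuotientGroup.mk' (Zc G)) := by
      have h1 := congrArg (fun S : Sylow 2 (G ⧸ Zc G) => (S : Subgroup (G ⧸ Zc G))) h
      simpa using h1
    have hle : (Q : Subgroup G) ≤ P := by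
      intro x hx
      obtain ⟨k, hk⟩ := Q.isPGroup' ⟨x, hx⟩
      apply qhyp_mem_of_map hZ2 hZ3 P x k (congrArg Subtype.val hk)
      rw [hcoe]
      exact Subgroup.mem_map_of_mem _ hx
    exact Sylow.ext (Q.is_maximal' P.isPGroup' hle)
  · intro P' hcyc
    obtain ⟨P, rfl⟩ := Sylow.mapSurjective_surjective hsurj 2 P'
    obtain ⟨s, t, hs, ht, hos, hot, hst⟩ := hF.three P
    have hs2 : s ^ 2 = 1 := by rw [← hos]; exact pow_orderOf_eq_one s
    have ht2 : t ^ 2 = 1 := by rw [← hot]; exact pow_orderOf_eq_one t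
    obtain ⟨H, hHd⟩ : ∃ H : Subgroup (G ⧸ Zc G),
        H = (P.mapSurjective hsurj : Subgroup (G ⧸ Zc G)) := ⟨_, rfl⟩
    have hcyc' : IsCyclic H := by rw [hHd]; exact hcyc
    have hsm : (QuotientGroup.mk s : G ⧸ Zc G) ∈ H := by
      rw [hHd]
      exact Subgroup.mem_map_of_mem (QuotientGroup.mk' (Zc G)) hs
    have htm : (QuotientGroup.mk t : G ⧸ Zc G) ∈ H := by
      rw [hHd]
      exact Subgroup.mem_map_of_mem (QuotientGroup.mk' (Zc G)) ht
    have hS1 : (QuotientGroup.mk s : G ⧸ Zc G) ≠ 1 := by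
      intro h
      exact hZ1 s ((QuotientGroup.eq_one_iff s).mp h) hos
    have hT1 : (QuotientGroup.mk t : G ⧸ Zc G) ≠ 1 := by
      intro h
      exact hZ1 t ((QuotientGroup.eq_one_iff t).mp h) hot
    have hST : (QuotientGroup.mk s : G ⧸ Zc G) ≠ QuotientGroup.mk t := by
      intro h
      have hmem : s⁻¹ * t ∈ Zc G := QuotientGroup.eq.mp h
      have hcomm : Commute s⁻¹ t := (hF.comm P s t hs ht).inv_left
      have h2 : (s⁻¹ * t) ^ 2 = 1 := by
        rw [hcomm.mul_pow, ht2, inv_pow, hs2, inv_one, one_mul]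
      have h3 := qhyp_sq_one hZ1 _ hmem h2
      apply hst
      exact inv_mul_eq_one.mp h3
    have hS2 : (QuotientGroup.mk s : G ⧸ Zc G) ^ 2 = 1 := by
      rw [← QuotientGroup.mk_pow, hs2]; rfl
    have hT2 : (QuotientGroup.mk t : G ⧸ Zc G) ^ 2 = 1 := by
      rw [← QuotientGroup.mk_pow, ht2]; rfl
    classical
    haveI : Fintype H := Fintype.ofFinite _
    haveI := hcyc'
    have hle := IsCyclic.card_pow_eq_one_le (α := H) (n := 2) (by norm_num)
    obtain ⟨S, hS⟩ : ∃ S : H, S = ⟨_, hsm⟩ := ⟨_, rfl⟩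
    obtain ⟨T, hT⟩ : ∃ T : H, T = ⟨_, htm⟩ := ⟨_, rfl⟩
    have hS1' : S ≠ 1 := by
      intro h
      rw [hS] at h
      exact hS1 (congrArg Subtype.val h)
    have hT1' : T ≠ 1 := by
      intro h
      rw [hT] at h
      exact hT1 (congrArg Subtype.val h)
    have hST' : S ≠ T := by
      intro h
      rw [hS, hT] at h
      exact hST (congrArg Subtype.val h)
    have hS2' : S ^ 2 = 1 := by
      rw [hS]
      exact Subtype.ext hS2
    have hT2' : T ^ 2 = 1 := by
      rw [hT]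
      exact Subtype.ext hT2
    have hsub : ({1, S, T} : Finset H) ⊆
        Finset.univ.filter (fun a : H => a ^ 2 = 1) := by
      intro a ha
      simp only [Finset.mem_insert, Finset.mem_singleton] at ha
      rw [Finset.mem_filter]
      refine ⟨Finset.mem_univ _, ?_⟩
      rcases ha with rfl | rfl | rfl
      · exact one_pow 2
      · exact hS2'
      · exact hT2'
    have hc : ({1, S, T} : Finset H).card = 3 := by
      rw [Finset.card_insert_of_notMem, Finset.card_insert_of_notMem, Finset.card_singleton]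
      · rw [Finset.mem_singleton]; exact hST'
      · simp only [Finset.mem_insert, Finset.mem_singleton, not_or]
        exact ⟨hS1'.symm, hT1'.symm⟩
    have h3 := Finset.card_le_card hsub
    rw [hc] at h3
    have h4 : (Finset.univ.filter (fun a : H => a ^ 2 = 1)).card ≤ 2 := by
      convert hle
    omega

end Cfsg.Agent.Lib.Helper45.S02
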