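import Mathlib
import Cfsg.Agent.Lib.Helper45.S02A
import Cfsg.Agent.Lib.Helper45.S02ZOdd

/-! S2202 piece QT (project S02 of helper45), filled by helper39.
`Tp` lifts from `G ⧸ Zc G` to `G`.  The Sylow 2-subgroups of `G` and of `G ⧸ Zc G` correspond
bijectively under `Sylow.mapSurjective` (injectivity: a 2-element of `P ⊔ Zc G` lies in `P`, as `Zc G`
has odd order and centralizes `P`), and the quotient map is injective on each Sylow 2-subgroup.
Definitions (`HC`, `Inv`, `Zc`, `Lc`, `NP`, `CP`, `Hyp`, `Facts`, `Tp`, `TIH`): Cfsg/Agent/Lib/Helper45/S02A.lean. -/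

set_option autoImplicit false

namespace Cfsg.Agent.Lib.Helper45.S02

variable {G : Type*} [Group G] [Finite G]

/-- a Sylow 2-subgroup meets a subgroup of odd order trivially -/
theorem qt_disj (P : Sylow 2 G) (Z : Subgroup G) (hZ : Odd (Nat.card Z)) :
    (P : Subgroup G) ⊓ Z = ⊥ := by
  obtain ⟨n, hn⟩ := IsPGroup.iff_card.mp P.isPGroup'
  apply disjoint_iff.mp
  apply Subgroup.disjoint_of_coprime_natCard
  rw [hn]
  exact Nat.Coprime.pow_left n (Nat.coprime_two_left.mpr hZ)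

/-- a 2-element of `P ⊔ Z` lies in `P` when `Z` is a normal subgroup of odd order centralizing
`P` -/
theorem qt_key (P : Sylow 2 G) (Z : Subgroup G) [Z.Normal] (hZ : Odd (Nat.card Z))
    (hZC : Z ≤ CP P) (x : G) (hx : x ∈ (P : Subgroup G) ⊔ Z) (k : ℕ) (hk : x ^ 2 ^ k = 1) :
    x ∈ (P : Subgroup G) := by
  obtain ⟨p, hp, z, hz, rfl⟩ := Subgroup.mem_sup_of_normal_right.mp hx
  have hcomm : Commute p z := (Subgroup.mem_centralizer_iff.mp (hZC hz)) p hp
  have h1 : p ^ 2 ^ k * z ^ 2 ^ k = 1 := by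
    rw [← hcomm.mul_pow]
    exact hk
  have h2 : z ^ 2 ^ k ∈ (P : Subgroup G) ⊓ Z := by
    refine Subgroup.mem_inf.mpr ⟨?_, Z.pow_mem hz _⟩
    have h : z ^ 2 ^ k = (p ^ 2 ^ k)⁻¹ := eq_inv_of_mul_eq_one_right h1
    rw [h]
    exact inv_mem (pow_mem hp _)
  rw [qt_disj P Z hZ, Subgroup.mem_bot] at h2
  have h3 : orderOf z ∣ 2 ^ k := orderOf_dvd_of_pow_eq_one h2
  have h4 : orderOf z ∣ Nat.card Z := by
    have h := orderOf_dvd_natCard (⟨z, hz⟩ : Z)
    rwa [Subgroup.orderOf_mk] at h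
  have h5 : orderOf z = 1 := by
    have hcop : Nat.Coprime (2 ^ k) (Nat.card Z) :=
      Nat.Coprime.pow_left k (Nat.coprime_two_left.mpr hZ)
    have h := Nat.dvd_gcd h3 h4
    rw [hcop.gcd_eq_one] at h
    exact Nat.dvd_one.mp h
  rw [orderOf_eq_one_iff] at h5
  rw [h5, mul_one]
  exact hp

/-- `Tp` lifts from `G ⧸ Zc G` to `G`.
PROOF. `Z := Zc G`, odd order, `Z ≤ CP P ≤ NP P` (`Zc_facts`), `π := QuotientGroup.mk' Z`.  For
`P : Sylow 2 G` let `P' : Sylow 2 (G ⧸ Z)` have subgroup `P.map π` (`Sylow.mapSurjective`).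
`Nat.card P' = Nat.card P` (`π` injective on `P`: `P ⊓ Z = ⊥`, orders coprime).  `normalizer P' =
(NP P).map π`: if `π g` normalizes `P.map π` then `g` normalizes `P ⊔ Z`, whose unique Sylow 2-subgroup
is `P` (normal in `P ⊔ Z` as `Z` centralizes `P`), so `g ∈ NP P`.  Hence
`Nat.card (Sylow 2 (G ⧸ Z)) = (normalizer P').index = (NP P).index = Nat.card (Sylow 2 G)`
(`Sylow.card_eq_index_normalizer`, `Subgroup.index_map` with `ker π = Z ≤ NP P`).  So `hT.1 P'` gives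
`Nat.card (Sylow 2 G) = Nat.card P + 1`; and for `x ∈ P`: `(π x)^2 = 1` (`hT.2 P'`), so
`x^2 ∈ Z ⊓ P = ⊥`. -/
theorem tp_of_quotient (hH : Hyp G) (hF : Facts G) (hT : Tp (G ⧸ Zc G)) : Tp G := by
  obtain ⟨-, hZC, hZodd⟩ := Zc_facts hH hF
  have hπ : Function.Surjective (QuotientGroup.mk' (Zc G)) := QuotientGroup.mk'_surjective _
  have hker : (QuotientGroup.mk' (Zc G)).ker = Zc G := QuotientGroup.ker_mk' _
  have hinj : Function.Injective
      (Sylow.mapSurjective hπ : Sylow 2 G → Sylow 2 (G ⧸ Zc G)) := by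
    intro P Q hPQ
    have h1 : (P : Subgroup G).map (QuotientGroup.mk' (Zc G))
        = (Q : Subgroup G).map (QuotientGroup.mk' (Zc G)) := congrArg Sylow.toSubgroup hPQ
    have h2 : (P : Subgroup G) ⊔ Zc G = (Q : Subgroup G) ⊔ Zc G := by
      have h := congrArg (Subgroup.comap (QuotientGroup.mk' (Zc G))) h1
      rwa [Subgroup.comap_map_eq, Subgroup.comap_map_eq, hker] at h
    have h3 : (Q : Subgroup G) ≤ P := by
      intro x hx
      obtain ⟨k, hk⟩ := Q.isPGroup' ⟨x, hx⟩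
      have hk' : x ^ 2 ^ k = 1 := by
        have h := congrArg Subtype.val hk
        simpa using h
      have hx' : x ∈ (P : Subgroup G) ⊔ Zc G := by
        rw [h2]
        exact Subgroup.mem_sup_left hx
      exact qt_key P (Zc G) hZodd (hZC P) x hx' k hk'
    have h4 : (P : Subgroup G) = Q := Q.is_maximal' P.isPGroup' h3
    exact Sylow.ext h4
  have hbij : Function.Bijective
      (Sylow.mapSurjective hπ : Sylow 2 G → Sylow 2 (G ⧸ Zc G)) :=
    ⟨hinj, Sylow.mapSurjective_surjective hπ 2⟩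
  have hcardS : Nat.card (Sylow 2 G) = Nat.card (Sylow 2 (G ⧸ Zc G)) :=
    Nat.card_eq_of_bijective _ hbij
  have hcardP : ∀ P : Sylow 2 G, Nat.card (P.mapSurjective hπ) = Nat.card P := by
    intro P
    symm
    refine Nat.card_eq_of_bijective
      (fun x : P => (⟨QuotientGroup.mk' (Zc G) x.1, Subgroup.mem_map_of_mem _ x.2⟩ :
        P.mapSurjective hπ)) ⟨?_, ?_⟩
    · intro x y hxy
      have h1 : QuotientGroup.mk' (Zc G) x.1 = QuotientGroup.mk' (Zc G) y.1 :=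
        congrArg Subtype.val hxy
      have h2 : x.1⁻¹ * y.1 ∈ Zc G := by
        rw [← hker, MonoidHom.mem_ker, map_mul, map_inv, h1, inv_mul_cancel]
      have h3 : x.1⁻¹ * y.1 ∈ (P : Subgroup G) ⊓ Zc G :=
        Subgroup.mem_inf.mpr ⟨mul_mem (inv_mem x.2) y.2, h2⟩
      rw [qt_disj P (Zc G) hZodd, Subgroup.mem_bot] at h3
      exact Subtype.ext (inv_mul_eq_one.mp h3)
    · rintro ⟨y, hy⟩
      have hy' : y ∈ (P : Subgroup G).map (QuotientGroup.mk' (Zc G)) := hy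
      obtain ⟨x, hx, rfl⟩ := Subgroup.mem_map.mp hy'
      exact ⟨⟨x, hx⟩, rfl⟩
  refine ⟨fun P => ?_, fun P x hx => ?_⟩
  · rw [hcardS, hT.1 (P.mapSurjective hπ), hcardP P]
  · have hx' : QuotientGroup.mk' (Zc G) x ∈ P.mapSurjective hπ :=
      Subgroup.mem_map_of_mem (QuotientGroup.mk' (Zc G)) hx
    have h1 : (QuotientGroup.mk' (Zc G) x) ^ 2 = 1 := hT.2 (P.mapSurjective hπ) _ hx'
    have h2 : x ^ 2 ∈ Zc G := by
      rw [← hker, MonoidHom.mem_ker, map_pow, h1]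
    have h3 : x ^ 2 ∈ (P : Subgroup G) ⊓ Zc G := Subgroup.mem_inf.mpr ⟨pow_mem hx 2, h2⟩
    rw [qt_disj P (Zc G) hZodd, Subgroup.mem_bot] at h3
    exact h3

end Cfsg.Agent.Lib.Helper45.S02
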