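import Mathlib
import Cfsg.Agent.Lib.Helper45.S02A


/-! S2202 piece Red (project S02 of helper45).
(Filled by helper3.)  Rules for this file: keep the theorem name and statement byte-identical and keep
the namespace; auxiliary lemmas go ABOVE the theorem and MUST start with the prefix `red_`; you may add
imports (landed modules, or other `Cfsg.Agent.Lib.Helper45.S02*` piece files).
Definitions (`HC`, `Inv`, `Zc`, `Lc`, `NP`, `CP`, `Hyp`, `Facts`, `Tp`, `TIH`): Cfsg/Agent/Lib/Helper45/S02A.lean.
Points = Sylow 2-subgroups, `g • P` = conjugate (`Sylow.smul_def`, `Sylow.coe_smul`,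
`Sylow.smul_eq_iff_mem_normalizer : g • P = P ↔ g ∈ normalizer P`, `Subgroup.mem_centralizer_iff`).
"involution" = `orderOf t = 2`.  The paper proof is in the docstring. -/

set_option autoImplicit false

namespace Cfsg.Agent.Lib.Helper45.S02

variable {G : Type*} [Group G] [Finite G]

/-- Reduction of the statement of S2202 to `Hyp G`.
PROOF. `HC G`: for an involution `t`, `x, y` commuting with `t` are elements of `centralizer {t}`
(`Subgroup.mem_centralizer_singleton_iff`), which is commutative (`h t ht`; `IsMulCommutative` gives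
`mul_comm` on the subtype: `mul_comm'`/`IsMulCommutative.is_comm`).
All Sylow 2-subgroups are conjugate hence isomorphic (`Sylow.equivSMul`, `MulAction.exists_smul_eq`): if
one is cyclic all are (first alternative).  Otherwise none is cyclic.  If there is only one Sylow
2-subgroup it is normal (`Sylow.normal_of_subsingleton`/`Sylow.smul_eq_iff_mem_normalizer`: every `g`
fixes it) and so are all (second alternative).  Otherwise there are `P ≠ Q`: `Hyp G`. -/
theorem hyp_or_easy
    (h : ∀ t : G, orderOf t = 2 → IsMulCommutative ↥(Subgroup.centralizer ({t} : Set G))) :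
    (∀ P : Sylow 2 G, IsCyclic ↥P) ∨ (∀ P : Sylow 2 G, (P : Subgroup G).Normal) ∨ Hyp G := by
  have hp2 : Fact (Nat.Prime 2) := ⟨Nat.prime_two⟩
  have hc : HC G := by
    intro t x y ht hx hy
    have hx' : x ∈ Subgroup.centralizer ({t} : Set G) := by
      rw [Subgroup.mem_centralizer_iff]
      intro z hz
      rw [Set.mem_singleton_iff.mp hz]
      exact hx.eq.symm
    have hy' : y ∈ Subgroup.centralizer ({t} : Set G) := by
      rw [Subgroup.mem_centralizer_iff]
      intro z hz
      rw [Set.mem_singleton_iff.mp hz]
      exact hy.eq.symm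
    have h1 := (h t ht).is_comm.comm (⟨x, hx'⟩ : ↥(Subgroup.centralizer ({t} : Set G))) ⟨y, hy'⟩
    exact congrArg Subtype.val h1
  by_cases hcyc : ∃ P : Sylow 2 G, IsCyclic ↥P
  · left
    obtain ⟨P, hP⟩ := hcyc
    intro Q
    obtain ⟨g, rfl⟩ := MulAction.exists_smul_eq G P Q
    exact isCyclic_of_surjective (Sylow.equivSMul P g) (Sylow.equivSMul P g).surjective
  · right
    by_cases hone : ∃ P Q : Sylow 2 G, P ≠ Q
    · right
      exact ⟨hc, hone, fun P hP => hcyc ⟨P, hP⟩⟩
    · left
      intro P
      have hsub : Subsingleton (Sylow 2 G) := ⟨fun a b => by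
        by_contra hab
        exact hone ⟨a, b, hab⟩⟩
      exact Sylow.normal_of_subsingleton P

end Cfsg.Agent.Lib.Helper45.S02
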