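import Mathlib
import Cfsg.Agent.Lib.Helper45.S02A
import Cfsg.Prelude.Def_Involutions

/-! S2202 piece SE (project S02 of helper45).
Filled by helper31 (was a placeholder: keep the theorem name and statement byte-identical and keep
the namespace; auxiliary lemmas go ABOVE the theorem and MUST start with the prefix `se_`; you may add
imports (landed modules, or other `Cfsg.Agent.Lib.Helper45.S02*` piece files).
Definitions (`HC`, `Inv`, `Zc`, `Lc`, `NP`, `CP`, `Hyp`, `Facts`, `Tp`, `TIH`): Cfsg/Agent/Lib/Helper45/S02A.lean.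
Points = Sylow 2-subgroups, `g • P` = conjugate (`Sylow.smul_def`, `Sylow.coe_smul`,
`Sylow.smul_eq_iff_mem_normalizer : g • P = P ↔ g ∈ normalizer P`, `Subgroup.mem_centralizer_iff`).
"involution" = `orderOf t = 2`.  The paper proof is in the docstring. -/

set_option autoImplicit false

namespace Cfsg.Agent.Lib.Helper45.S02

variable {G : Type*} [Group G] [Finite G]

/-- `N(P)` is strongly embedded.
PROOF. `Cfsg.IsStronglyEmbedded H := H ≠ ⊤ ∧ Even (Nat.card H) ∧ ∀ g ∉ H, Odd (Nat.card ↥(H ⊓ H.map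
(MulAut.conj g).toMonoidHom))`.  `NP P ≠ ⊤`: by `hH.two` and transitivity on Sylow subgroups there is `g`
with `g • P ≠ P`, i.e. `g ∉ NP P`.  Even: `P ≤ NP P` and `2 ∣ |P|` (`hF.three` gives an involution in `P`).
Odd: if `g ∉ NP P` and the intersection had even order, Cauchy gives an involution `w = g * w' * g⁻¹`
with `w, w' ∈ NP P`; `w, w' ∈ P` by `hF.invN`; so `w ∈ P` and `w ∈ g • P`, hence `g • P = P` by `hF.ti`,
i.e. `g ∈ NP P`. -/
theorem normalizer_stronglyEmbedded (hH : Hyp G) (hF : Facts G) (P : Sylow 2 G) :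
    Cfsg.IsStronglyEmbedded (NP P) := by
  refine ⟨?_, ?_, ?_⟩
  · intro htop
    obtain ⟨Q₁, Q₂, hne⟩ := hH.two
    obtain ⟨g₁, hg₁⟩ := MulAction.exists_smul_eq G P Q₁
    obtain ⟨g₂, hg₂⟩ := MulAction.exists_smul_eq G P Q₂
    have hall : ∀ g : G, g ∈ NP P := fun g => by rw [htop]; trivial
    have h1 : g₁ • P = P := Sylow.smul_eq_iff_mem_normalizer.2 (hall g₁)
    have h2 : g₂ • P = P := Sylow.smul_eq_iff_mem_normalizer.2 (hall g₂)
    apply hne
    rw [← hg₁, ← hg₂, h1, h2]
  · obtain ⟨s, t, hs, ht, hs2, ht2, hne⟩ := hF.three P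
    have h2 : 2 ∣ Nat.card (NP P) := by
      have h := orderOf_dvd_natCard (⟨s, Subgroup.le_normalizer hs⟩ : NP P)
      rw [Subgroup.orderOf_mk, hs2] at h
      exact h
    exact even_iff_two_dvd.2 h2
  · intro g hg
    by_contra hodd
    rw [Nat.not_odd_iff_even] at hodd
    have h2 : 2 ∣ Nat.card ↥(NP P ⊓ (NP P).map (MulAut.conj g).toMonoidHom) :=
      even_iff_two_dvd.1 hodd
    have hp2 : Fact (Nat.Prime 2) := ⟨Nat.prime_two⟩
    obtain ⟨w, hw⟩ := exists_prime_orderOf_dvd_card' 2 h2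
    have hw2 : orderOf (w : G) = 2 := by rw [Subgroup.orderOf_coe]; exact hw
    obtain ⟨hw1, hw3⟩ := Subgroup.mem_inf.1 w.2
    obtain ⟨w', hw', hww'⟩ := Subgroup.mem_map.1 hw3
    have hww : g * w' * g⁻¹ = (w : G) := hww'
    have hwP : (w : G) ∈ P := hF.invN P w hw2 hw1
    have hw'2 : orderOf w' = 2 := by
      rw [← orderOf_conj_eq g w', hww, hw2]
    have hw'P : w' ∈ P := hF.invN P w' hw'2 hw'
    have hwgP : (w : G) ∈ g • P := by
      show (w : G) ∈ ((g • P : Sylow 2 G) : Subgroup G)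
      rw [Sylow.coe_subgroup_smul, ← hww]
      exact Subgroup.smul_mem_pointwise_smul w' (MulAut.conj g) (P : Subgroup G) hw'P
    have hne1 : (w : G) ≠ 1 := by
      intro h
      rw [h, orderOf_one] at hw2
      omega
    have h3 := hF.ti P (g • P) w hwP hwgP hne1
    exact hg (Sylow.smul_eq_iff_mem_normalizer.1 h3.symm)

end Cfsg.Agent.Lib.Helper45.S02
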