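import Mathlib
import Cfsg.Agent.Lib.Helper45.S02A
import Cfsg.Prelude.Def_Involutions
import Cfsg.Agent.Lib.Helper45.S02Swap
import Cfsg.Agent.Lib.Helper45.S02SE
import Cfsg.Agent.S1225

/-! S2202 piece Reg (project S02 of helper45).
FILLED by helper66 (theorem name and statement byte-identical to the placeholder; auxiliary lemmas, if
any, start with the prefix `reg_`).
Definitions (`HC`, `Inv`, `Zc`, `Lc`, `NP`, `CP`, `Hyp`, `Facts`, `Tp`, `TIH`): Cfsg/Agent/Lib/Helper45/S02A.lean.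
Points = Sylow 2-subgroups, `g • P` = conjugate (`Sylow.smul_def`, `Sylow.coe_smul`,
`Sylow.smul_eq_iff_mem_normalizer : g • P = P ↔ g ∈ normalizer P`, `Subgroup.mem_centralizer_iff`).
"involution" = `orderOf t = 2`.  The paper proof is in the docstring. -/

set_option autoImplicit false

namespace Cfsg.Agent.Lib.Helper45.S02

variable {G : Type*} [Group G] [Finite G]

/-- The two-point stabilizer `N(P) ⊓ N(Q)` is transitive on the involutions of `P`.
PROOF. `exists_invol_swap hF P Q hPQ` gives an involution `u` with `u • P = Q`; `u ∉ NP P`.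
`normalizer_stronglyEmbedded hH hF P` and the landed `Cfsg.Agent.S1225.result (NP P) _ u hu _ s t ..`
(involutions of `P` lie in `NP P`) give `d ∈ NP P ⊓ (NP P).map (MulAut.conj u).toMonoidHom` with
`d * s * d⁻¹ = t`; `(NP P).map (conj u) = NP (u • P) = NP Q`. -/
theorem exists_conj_in_two_normalizers (hH : Hyp G) (hF : Facts G) (P Q : Sylow 2 G) (hPQ : P ≠ Q)
    (s t : G) (hs : s ∈ P) (ht : t ∈ P) (hs2 : orderOf s = 2) (ht2 : orderOf t = 2) :
    ∃ d : G, d ∈ NP P ∧ d ∈ NP Q ∧ d * s * d⁻¹ = t := by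
  obtain ⟨u, hu2, huP, huQ, -⟩ := exists_invol_swap hF P Q hPQ
  have huN : u ∉ NP P := by
    intro h
    have h1 : u • P = P := Sylow.smul_eq_iff_mem_normalizer.mpr h
    exact hPQ (h1.symm.trans huP)
  have hSE := normalizer_stronglyEmbedded hH hF P
  have hle : (P : Subgroup G) ≤ NP P := Subgroup.le_normalizer
  obtain ⟨⟨d, hd, hdst⟩, -⟩ :=
    Cfsg.Agent.S1225.result (NP P) hSE u hu2 huN s t hs2 (hle hs) ht2 (hle ht)
  refine ⟨d, hd.1, ?_, hdst⟩
  obtain ⟨x, hx, rfl⟩ := hd.2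
  have hxP : x • P = P := Sylow.smul_eq_iff_mem_normalizer.mpr hx
  have h2 : (u * x * u⁻¹) • Q = Q := by
    rw [← huP, mul_smul, inv_smul_smul, mul_smul, hxP]
  exact Sylow.smul_eq_iff_mem_normalizer.mp h2

end Cfsg.Agent.Lib.Helper45.S02
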