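import Mathlib
import Cfsg.Agent.Lib.Helper45.S02A


/-! S2202 piece SM1 (project S02 of helper45).
PLACEHOLDER: replace the `sorry` in THIS file; keep the theorem name and statement byte-identical and keep
the namespace; auxiliary lemmas go ABOVE the theorem and MUST start with the prefix `sm1_`; you may add
imports (landed modules, or other `Cfsg.Agent.Lib.Helper45.S02*` piece files).
Definitions (`HC`, `Inv`, `Zc`, `Lc`, `NP`, `CP`, `Hyp`, `Facts`, `Tp`, `TIH`): Cfsg/Agent/Lib/Helper45/S02A.lean.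
Points = Sylow 2-subgroups, `g • P` = conjugate (`Sylow.smul_def`, `Sylow.coe_smul`,
`Sylow.smul_eq_iff_mem_normalizer : g • P = P ↔ g ∈ normalizer P`, `Subgroup.mem_centralizer_iff`).
"involution" = `orderOf t = 2`.  The paper proof is in the docstring. -/

set_option autoImplicit false

namespace Cfsg.Agent.Lib.Helper45.S02



theorem sm1_mulVec_zero {K : Type*} [CommRing K] (M : Matrix (Fin 2) (Fin 2) K) (v : Fin 2 → K) :
    (M.mulVec v) 0 = M 0 0 * v 0 + M 0 1 * v 1 := by
  simp [Matrix.mulVec, dotProduct, Fin.sum_univ_two]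

theorem sm1_mulVec_one {K : Type*} [CommRing K] (M : Matrix (Fin 2) (Fin 2) K) (v : Fin 2 → K) :
    (M.mulVec v) 1 = M 1 0 * v 0 + M 1 1 * v 1 := by
  simp [Matrix.mulVec, dotProduct, Fin.sum_univ_two]

theorem sm1_vec_ext {K : Type*} (v w : Fin 2 → K) (h0 : v 0 = w 0) (h1 : v 1 = w 1) : v = w := by
  funext i
  rcases Fin.exists_fin_two.mp ⟨i, rfl⟩ with h | h
  · rw [h]; exact h0
  · rw [h]; exact h1

theorem sm1_vec_ne {K : Type*} [Zero K] (v : Fin 2 → K) (hv : v ≠ 0) : v 0 ≠ 0 ∨ v 1 ≠ 0 := by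
  by_contra h
  rw [not_or, not_not, not_not] at h
  exact hv (sm1_vec_ext v 0 h.1 h.2)

theorem sm1_eq_one {K : Type*} [CommRing K] (g : Matrix.SpecialLinearGroup (Fin 2) K)
    (h00 : g.1 0 0 = 1) (h01 : g.1 0 1 = 0) (h10 : g.1 1 0 = 0) (h11 : g.1 1 1 = 1) : g = 1 := by
  apply Subtype.ext
  show g.1 = 1
  rw [Matrix.eta_fin_two g.1, h00, h01, h10, h11, Matrix.one_fin_two]

/-- An eigenvector over an algebraically closed field. -/
theorem sm1_exists_eigen {K : Type*} [Field K] [IsAlgClosed K] (M : Matrix (Fin 2) (Fin 2) K) :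
    ∃ (l : K) (v : Fin 2 → K), v ≠ 0 ∧ M.mulVec v = l • v := by
  obtain ⟨l, hl⟩ := Module.End.exists_eigenvalue (Matrix.toLin' M)
  obtain ⟨v, hv⟩ := hl.exists_hasEigenvector
  refine ⟨l, v, hv.2, ?_⟩
  have h := hv.apply_eq_smul
  rwa [Matrix.toLin'_apply] at h

/-- The eigenspace of a non-identity element of `SL₂` (characteristic 2) is a line. -/
theorem sm1_ker_line {K : Type*} [Field K] (h2 : (2 : K) = 0)
    (g : Matrix.SpecialLinearGroup (Fin 2) K) (hg : g ≠ 1) (l : K) (v w : Fin 2 → K) (hv : v ≠ 0)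
    (hgv : g.1.mulVec v = l • v) (hgw : g.1.mulVec w = l • w) : ∃ m : K, w = m • v := by
  have e1 : g.1 0 0 * v 0 + g.1 0 1 * v 1 = l * v 0 := by
    have h := congrFun hgv 0
    rwa [sm1_mulVec_zero, Pi.smul_apply, smul_eq_mul] at h
  have e2 : g.1 1 0 * v 0 + g.1 1 1 * v 1 = l * v 1 := by
    have h := congrFun hgv 1
    rwa [sm1_mulVec_one, Pi.smul_apply, smul_eq_mul] at h
  have f1 : g.1 0 0 * w 0 + g.1 0 1 * w 1 = l * w 0 := by
    have h := congrFun hgw 0
    rwa [sm1_mulVec_zero, Pi.smul_apply, smul_eq_mul] at h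
  have f2 : g.1 1 0 * w 0 + g.1 1 1 * w 1 = l * w 1 := by
    have h := congrFun hgw 1
    rwa [sm1_mulVec_one, Pi.smul_apply, smul_eq_mul] at h
  by_cases hD : v 0 * w 1 - v 1 * w 0 = 0
  · rcases sm1_vec_ne v hv with h0 | h1
    · refine ⟨w 0 / v 0, sm1_vec_ext _ _ ?_ ?_⟩
      · rw [Pi.smul_apply, smul_eq_mul, div_mul_cancel₀ _ h0]
      · rw [Pi.smul_apply, smul_eq_mul, div_mul_eq_mul_div, eq_div_iff h0]
        linear_combination hD
    · refine ⟨w 1 / v 1, sm1_vec_ext _ _ ?_ ?_⟩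
      · rw [Pi.smul_apply, smul_eq_mul, div_mul_eq_mul_div, eq_div_iff h1]
        linear_combination (-1 : K) * hD
      · rw [Pi.smul_apply, smul_eq_mul, div_mul_cancel₀ _ h1]
  · exfalso
    apply hg
    have ha : g.1 0 0 = l := by
      have h : (g.1 0 0 - l) * (v 0 * w 1 - v 1 * w 0) = 0 := by
        linear_combination w 1 * e1 - v 1 * f1
      exact sub_eq_zero.mp ((mul_eq_zero.mp h).resolve_right hD)
    have hb : g.1 0 1 = 0 := by
      have h : g.1 0 1 * (v 0 * w 1 - v 1 * w 0) = 0 := by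
        linear_combination v 0 * f1 - w 0 * e1
      exact (mul_eq_zero.mp h).resolve_right hD
    have hc : g.1 1 0 = 0 := by
      have h : g.1 1 0 * (v 0 * w 1 - v 1 * w 0) = 0 := by
        linear_combination w 1 * e2 - v 1 * f2
      exact (mul_eq_zero.mp h).resolve_right hD
    have hd : g.1 1 1 = l := by
      have h : (g.1 1 1 - l) * (v 0 * w 1 - v 1 * w 0) = 0 := by
        linear_combination v 0 * f2 - w 0 * e2
      exact sub_eq_zero.mp ((mul_eq_zero.mp h).resolve_right hD)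
    have hdet : g.1 0 0 * g.1 1 1 - g.1 0 1 * g.1 1 0 = 1 := by
      rw [← Matrix.det_fin_two]
      exact g.2
    have hl : l = 1 := by
      have h : (l - 1) * (l - 1) = 0 := by
        rw [ha, hb, hc, hd] at hdet
        linear_combination hdet - (l - 1) * h2
      exact sub_eq_zero.mp (mul_self_eq_zero.mp h)
    exact sm1_eq_one g (ha.trans hl) hb hc (hd.trans hl)

/-- An element of `SL₂` (characteristic 2) fixing a nonzero vector is an involution or trivial. -/
theorem sm1_sq_one {K : Type*} [Field K] (h2 : (2 : K) = 0)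
    (g : Matrix.SpecialLinearGroup (Fin 2) K) (v : Fin 2 → K) (hv : v ≠ 0)
    (hgv : g.1.mulVec v = v) : g * g = 1 := by
  have e1 : g.1 0 0 * v 0 + g.1 0 1 * v 1 = v 0 := by
    have h := congrFun hgv 0
    rwa [sm1_mulVec_zero] at h
  have e2 : g.1 1 0 * v 0 + g.1 1 1 * v 1 = v 1 := by
    have h := congrFun hgv 1
    rwa [sm1_mulVec_one] at h
  have hdet : g.1 0 0 * g.1 1 1 - g.1 0 1 * g.1 1 0 = 1 := by
    rw [← Matrix.det_fin_two]
    exact g.2
  have hT0 : ((g.1 0 0 - 1) * (g.1 1 1 - 1) - g.1 0 1 * g.1 1 0) * v 0 = 0 := by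
    linear_combination (g.1 1 1 - 1) * e1 - g.1 0 1 * e2
  have hT1 : ((g.1 0 0 - 1) * (g.1 1 1 - 1) - g.1 0 1 * g.1 1 0) * v 1 = 0 := by
    linear_combination (g.1 0 0 - 1) * e2 - g.1 1 0 * e1
  have hT : (g.1 0 0 - 1) * (g.1 1 1 - 1) - g.1 0 1 * g.1 1 0 = 0 := by
    rcases sm1_vec_ne v hv with h | h
    · exact (mul_eq_zero.mp hT0).resolve_right h
    · exact (mul_eq_zero.mp hT1).resolve_right h
  have htr : g.1 0 0 + g.1 1 1 = 0 := by
    linear_combination hdet - hT + h2
  apply sm1_eq_one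
  · show (g.1 * g.1) 0 0 = 1
    rw [Matrix.mul_apply, Fin.sum_univ_two]
    linear_combination (-1 : K) * hdet + g.1 0 0 * htr - h2
  · show (g.1 * g.1) 0 1 = 0
    rw [Matrix.mul_apply, Fin.sum_univ_two]
    linear_combination g.1 0 1 * htr
  · show (g.1 * g.1) 1 0 = 0
    rw [Matrix.mul_apply, Fin.sum_univ_two]
    linear_combination g.1 1 0 * htr
  · show (g.1 * g.1) 1 1 = 1
    rw [Matrix.mul_apply, Fin.sum_univ_two]
    linear_combination (-1 : K) * hdet + g.1 1 1 * htr - h2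

/-- `p`-subgroups of `SL₂(F)` (char 2, `p` odd) are cyclic.
PROOF. If `Q = ⊥` trivial.  Else pick `x ≠ 1` in the centre of `Q` (`IsPGroup.center_nontrivial`).  Let
`K := AlgebraicClosure F` and view matrices over `K` (`Matrix.map (algebraMap F K)`; injective ring hom).
`x` has an eigenvector `v ≠ 0`, `x v = λ v` (`Module.End.exists_eigenvalue`).  The eigenvalues of `x` are
`λ, λ⁻¹` (det 1).  `λ ≠ λ⁻¹`: else `λ^2 = 1`, `λ = 1` (char 2), `(x - 1)^2 = 0` (Cayley–Hamilton,
`x^2 - (tr x) x + 1 = 0` with `tr x = 2λ = 0`), so `x^2 = 1`; but `x` has odd order (`p`-element), so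
`x = 1`.  Hence `ker (x - λ) = K v` (1-dimensional).  Each `y ∈ Q` commutes with `x`, so `y v ∈ K v`:
`y v = μ(y) v`, `μ : Q →* Kˣ` (or `→* K`).  `μ` is injective: `μ(y) = 1` means `y` has eigenvalue 1, so
`tr y = 1 + 1 = 0`, `y^2 = 1` as above, `y = 1` (odd order).  A finite group with an injective hom into
the units of a field is cyclic (`isCyclic_of_subgroup_isDomain`).
(Any other proof is fine: e.g. all elements of `Q` lie in `{a • 1 + b • x}`, a commutative `F`-algebra of
dimension 2, and count solutions of `y^p = 1`.) -/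
theorem pgroup_SL2_cyclic (F : Type) [Field F] [Fintype F] [CharP F 2] (p : ℕ) [Fact p.Prime]
    (hp : p ≠ 2) (Q : Subgroup (Matrix.SpecialLinearGroup (Fin 2) F)) (hQ : IsPGroup p Q) :
    IsCyclic Q := by
  classical
  have : Finite (Matrix.SpecialLinearGroup (Fin 2) F) :=
    Finite.of_injective (fun g : Matrix.SpecialLinearGroup (Fin 2) F => fun i j => g.1 i j)
      (fun a b h => Subtype.ext h)
  rcases subsingleton_or_nontrivial Q with hs | hn
  · exact isCyclic_of_subsingleton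
  have hc : Nontrivial (Subgroup.center Q) := hQ.center_nontrivial
  obtain ⟨⟨x, hxc⟩, hx1⟩ := exists_ne (1 : Subgroup.center Q)
  have hx1' : x ≠ 1 := fun h => hx1 (Subtype.ext h)
  let Ψ : Matrix.SpecialLinearGroup (Fin 2) F →*
      Matrix.SpecialLinearGroup (Fin 2) (AlgebraicClosure F) :=
    Matrix.SpecialLinearGroup.map (algebraMap F (AlgebraicClosure F))
  have hΨ : Function.Injective Ψ := by
    intro g g' h
    apply Matrix.SpecialLinearGroup.ext
    intro i j
    have h1 : (Ψ g).1 i j = (Ψ g').1 i j := by rw [h]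
    exact (algebraMap F (AlgebraicClosure F)).injective h1
  have h2 : (2 : AlgebraicClosure F) = 0 := by
    have h : ((2 : ℕ) : F) = 0 := CharP.cast_eq_zero F 2
    have h' : algebraMap F (AlgebraicClosure F) ((2 : ℕ) : F) = 0 := by rw [h, map_zero]
    rw [map_natCast] at h'
    exact_mod_cast h'
  have hΨx : Ψ x.1 ≠ 1 := fun h => hx1' (Subtype.ext (hΨ (h.trans (map_one Ψ).symm)))
  obtain ⟨l, v, hv, hlv⟩ := sm1_exists_eigen (Ψ x.1).1
  have hex : ∀ y : Q, ∃ m : AlgebraicClosure F, (Ψ y.1).1.mulVec v = m • v := by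
    intro y
    apply sm1_ker_line h2 (Ψ x.1) hΨx l v _ hv hlv
    have hcomm : x.1 * y.1 = y.1 * x.1 :=
      (congrArg Subtype.val (Subgroup.mem_center_iff.mp hxc y)).symm
    have h3 : (Ψ x.1).1 * (Ψ y.1).1 = (Ψ y.1).1 * (Ψ x.1).1 := by
      have h4 : Ψ x.1 * Ψ y.1 = Ψ y.1 * Ψ x.1 := by rw [← map_mul, hcomm, map_mul]
      exact congrArg Subtype.val h4
    rw [Matrix.mulVec_mulVec, h3, ← Matrix.mulVec_mulVec, hlv, Matrix.mulVec_smul]
  have huniq : ∀ a b : AlgebraicClosure F, a • v = b • v → a = b := by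
    intro a b h
    have h' : (a - b) • v = 0 := by rw [sub_smul, h, sub_self]
    rcases smul_eq_zero.mp h' with h0 | h0
    · exact sub_eq_zero.mp h0
    · exact absurd h0 hv
  obtain ⟨μf, hμ⟩ : ∃ μf : Q → AlgebraicClosure F, ∀ y : Q, (Ψ y.1).1.mulVec v = μf y • v :=
    ⟨fun y => Classical.choose (hex y), fun y => Classical.choose_spec (hex y)⟩
  let μ : Q →* AlgebraicClosure F :=
    { toFun := μf
      map_one' := by
        apply huniq
        rw [← hμ 1, one_smul]
        show (Ψ 1).1.mulVec v = v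
        rw [map_one]
        exact Matrix.one_mulVec v
      map_mul' := by
        intro y y'
        apply huniq
        rw [← hμ (y * y')]
        show (Ψ (y.1 * y'.1)).1.mulVec v = _
        rw [map_mul]
        show ((Ψ y.1).1 * (Ψ y'.1).1).mulVec v = _
        rw [← Matrix.mulVec_mulVec, hμ y', Matrix.mulVec_smul, hμ y, smul_smul, mul_comm] }
  have hinj : Function.Injective μ := by
    rw [injective_iff_map_eq_one]
    intro y hy
    have hy' : μf y = 1 := hy
    have h1 : (Ψ y.1).1.mulVec v = v := by rw [hμ y, hy', one_smul]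
    have h3 : Ψ y.1 * Ψ y.1 = 1 := sm1_sq_one h2 (Ψ y.1) v hv h1
    have h4 : y.1 * y.1 = 1 := hΨ (by rw [map_mul, h3, map_one])
    have h5 : y * y = 1 := Subtype.ext h4
    obtain ⟨k, hk⟩ := hQ y
    have h6 : orderOf y ∣ 2 := orderOf_dvd_of_pow_eq_one (by rw [pow_two, h5])
    have h7 : orderOf y ∣ p ^ k := orderOf_dvd_of_pow_eq_one hk
    have hcop : Nat.Coprime (p ^ k) 2 :=
      Nat.Coprime.pow_left k ((Nat.coprime_primes Fact.out Nat.prime_two).mpr hp)
    have h8 : orderOf y ∣ 1 := by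
      have h9 := Nat.dvd_gcd h7 h6
      rwa [Nat.Coprime.gcd_eq_one hcop] at h9
    exact orderOf_eq_one_iff.mp (Nat.dvd_one.mp h8)
  exact isCyclic_of_injective_ringHom μ hinj

end Cfsg.Agent.Lib.Helper45.S02
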