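import Mathlib
import Cfsg.Agent.Lib.Helper45.S02A


/-! S2202 piece SM2 (project S02 of helper45).
PLACEHOLDER: replace the `sorry` in THIS file; keep the theorem name and statement byte-identical and keep
the namespace; auxiliary lemmas go ABOVE the theorem and MUST start with the prefix `sm2_`; you may add
imports (landed modules, or other `Cfsg.Agent.Lib.Helper45.S02*` piece files).
Definitions (`HC`, `Inv`, `Zc`, `Lc`, `NP`, `CP`, `Hyp`, `Facts`, `Tp`, `TIH`): Cfsg/Agent/Lib/Helper45/S02A.lean.
Points = Sylow 2-subgroups, `g • P` = conjugate (`Sylow.smul_def`, `Sylow.coe_smul`,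
`Sylow.smul_eq_iff_mem_normalizer : g • P = P ↔ g ∈ normalizer P`, `Subgroup.mem_centralizer_iff`).
"involution" = `orderOf t = 2`.  The paper proof is in the docstring. -/

set_option autoImplicit false

namespace Cfsg.Agent.Lib.Helper45.S02



/-- Transfer: a central element of an abelian Sylow `p`-subgroup lying in the commutator subgroup is 1.
PROOF. Make `↥S` a `CommGroup` (from `hS`).  `V := MonoidHom.transfer (MonoidHom.id S) : X →* S`
(`Mathlib/GroupTheory/Transfer.lean`; `S` has finite index).  `MonoidHom.transfer_eq_pow` with the key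
hypothesis trivially true for central `z` (`g₀⁻¹ * z^k * g₀ = z^k`) gives
`V z = ⟨z ^ (S : Subgroup X).index, _⟩`.  `V` kills the commutator subgroup (`Abelianization.commutator_subset_ker`
or `commutator_le_ker`-type: target commutative), so `z ^ S.index = 1`.  `z ∈ S` has order a power of `p`
and `p ∤ S.index` (`Sylow.not_dvd_index`), so `orderOf z ∣ gcd = 1`, `z = 1`. -/
theorem central_commutator_sylow {X : Type*} [Group X] [Finite X] (p : ℕ) [Fact p.Prime]
    (S : Sylow p X) (hS : ∀ x y : X, x ∈ S → y ∈ S → x * y = y * x) (z : X) (hzS : z ∈ S)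
    (hzc : z ∈ Subgroup.center X) (hzd : z ∈ commutator X) : z = 1 := by
  classical
  letI : CommGroup ↥(S : Subgroup X) :=
    { (inferInstance : Group ↥(S : Subgroup X)) with
      mul_comm := fun a b => Subtype.ext (hS a b a.2 b.2) }
  have key : ∀ (k : ℕ) (g₀ : X), g₀⁻¹ * z ^ k * g₀ ∈ (S : Subgroup X) →
      g₀⁻¹ * z ^ k * g₀ = z ^ k := by
    intro k g₀ _
    have hzk : z ^ k ∈ Subgroup.center X := Subgroup.pow_mem _ hzc k
    have h := Subgroup.mem_center_iff.1 hzk g₀
    rw [mul_assoc, ← h, ← mul_assoc, inv_mul_cancel, one_mul]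
  have h1 := MonoidHom.transfer_eq_pow (MonoidHom.id ↥(S : Subgroup X)) z key
  have h2 : MonoidHom.transfer (MonoidHom.id ↥(S : Subgroup X)) z = 1 :=
    MonoidHom.mem_ker.1 (Abelianization.commutator_subset_ker _ hzd)
  rw [h2] at h1
  have h3 : z ^ (S : Subgroup X).index = 1 := by
    have h4 := congrArg Subtype.val h1
    exact h4.symm
  have hp : IsPGroup p ↥(S : Subgroup X) := S.isPGroup'
  obtain ⟨k, hk⟩ := hp ⟨z, hzS⟩
  have hk' : z ^ (p ^ k) = 1 := congrArg Subtype.val hk
  have hcop : Nat.Coprime (p ^ k) (S : Subgroup X).index :=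
    Nat.Coprime.pow_left k ((Nat.Prime.coprime_iff_not_dvd Fact.out).2 S.not_dvd_index)
  have h5 : z ^ Nat.gcd (p ^ k) (S : Subgroup X).index = 1 := pow_gcd_eq_one.2 ⟨hk', h3⟩
  rw [hcop.gcd_eq_one, pow_one] at h5
  exact h5

end Cfsg.Agent.Lib.Helper45.S02
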