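import Mathlib
import Cfsg.Agent.Lib.Helper45.S02A
import Cfsg.Agent.Lib.Helper45.S02SM1
import Cfsg.Agent.Lib.Helper45.S02SM2

/-! S2202 piece SM4 (project S02 of helper45).
Filled by helper47 (job 4101); theorem name and statement unchanged; auxiliary lemmas go ABOVE the theorem and MUST start with the prefix `sm4_`; you may add
imports (landed modules, or other `Cfsg.Agent.Lib.Helper45.S02*` piece files).
Definitions (`HC`, `Inv`, `Zc`, `Lc`, `NP`, `CP`, `Hyp`, `Facts`, `Tp`, `TIH`): Cfsg/Agent/Lib/Helper45/S02A.lean.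
Points = Sylow 2-subgroups, `g • P` = conjugate (`Sylow.smul_def`, `Sylow.coe_smul`,
`Sylow.smul_eq_iff_mem_normalizer : g • P = P ↔ g ∈ normalizer P`, `Subgroup.mem_centralizer_iff`).
"involution" = `orderOf t = 2`.  The paper proof is in the docstring. -/

set_option autoImplicit false

namespace Cfsg.Agent.Lib.Helper45.S02

variable {G : Type*} [Group G] [Finite G]

/-- an element of `Zc G` commutes with every element of `Lc G` -/
theorem sm4_comm {G : Type*} [Group G] (z : G) (hz : z ∈ Zc G) (x : G) (hx : x ∈ Lc G) :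
    x * z = z * x := by
  have h : z ∈ Subgroup.centralizer ((Subgroup.closure (Inv G) : Subgroup G) : Set G) := by
    rw [Subgroup.centralizer_closure]
    exact hz
  exact (Subgroup.mem_centralizer_iff.mp h) x hx

/-- `Lc G ⊓ Zc G = ⊥` when `G ⧸ Zc G ≅ SL₂(F)`, char 2.
PROOF. Suppose `z ≠ 1` in the intersection; replacing `z` by a power, `orderOf z = p` prime; `p ≠ 2`
(`hZno`).  Work in `X := ↥(Lc G)`, `z' := ⟨z, _⟩`.  `z' ∈ center X`: `z ∈ Zc G` commutes with all
involutions, hence with `Lc G = closure (Inv G)` (`Subgroup.closure_induction` / `centralizer` of the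
closure).  `z' ∈ commutator X`: `commutator X = ⊤` from `hperf` (`⁅Lc, Lc⁆` is the image of
`commutator ↥(Lc G)` under the inclusion: `Subgroup.map_subtype_commutator`/`commutator_def`).
Let `S : Sylow p X` contain `z'` (`IsPGroup.exists_le_sylow` for `zpowers z'`).  `S` is commutative:
`ψ : X →* SL₂(F)`, `ψ := e ∘ mk' (Zc G) ∘ subtype`; `ψ` restricted to `S` has image a `p`-subgroup of
`SL₂(F)`, cyclic by `pgroup_SL2_cyclic`, and kernel `S ⊓ Zc` central in `S`;
`commutative_of_cyclic_center_quotient`.  `central_commutator_sylow p S _ z' ..` gives `z' = 1`. -/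
theorem Lc_inf_Zc (hperf : Lc G ≤ ⁅Lc G, Lc G⁆) (hZno : ∀ z : G, z ∈ Zc G → orderOf z ≠ 2)
    (F : Type) [Field F] [Fintype F] [CharP F 2]
    (e : G ⧸ Zc G ≃* Matrix.SpecialLinearGroup (Fin 2) F) : Lc G ⊓ Zc G = ⊥ := by
  rw [Subgroup.eq_bot_iff_forall]
  intro z hz
  by_contra hz1
  rw [Subgroup.mem_inf] at hz
  obtain ⟨hzL, hzZ⟩ := hz
  have hord : orderOf z ≠ 1 := fun h => hz1 (orderOf_eq_one_iff.mp h)
  have hord0 : orderOf z ≠ 0 := (orderOf_pos z).ne'
  obtain ⟨p, hp, hpd⟩ := Nat.exists_prime_and_dvd hord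
  haveI : Fact p.Prime := ⟨hp⟩
  obtain ⟨z', hz'def⟩ : ∃ z', z' = z ^ (orderOf z / p) := ⟨_, rfl⟩
  have hz'ord : orderOf z' = p := by
    rw [hz'def]
    exact orderOf_pow_orderOf_div hord0 hpd
  have hz'L : z' ∈ Lc G := by
    rw [hz'def]
    exact Subgroup.pow_mem _ hzL _
  have hz'Z : z' ∈ Zc G := by
    rw [hz'def]
    exact Subgroup.pow_mem _ hzZ _
  have hp2 : p ≠ 2 := by
    intro h
    exact hZno z' hz'Z (by rw [hz'ord, h])
  have hzc : (⟨z', hz'L⟩ : ↥(Lc G)) ∈ Subgroup.center ↥(Lc G) := by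
    rw [Subgroup.mem_center_iff]
    intro x
    apply Subtype.ext
    exact sm4_comm z' hz'Z x x.2
  have hzd : (⟨z', hz'L⟩ : ↥(Lc G)) ∈ commutator ↥(Lc G) := by
    have h1 : z' ∈ (commutator ↥(Lc G)).map (Lc G).subtype := by
      rw [Subgroup.map_subtype_commutator]
      exact hperf hz'L
    obtain ⟨y, hy, hyz⟩ := h1
    have hyeq : y = ⟨z', hz'L⟩ := Subtype.ext hyz
    rw [← hyeq]
    exact hy
  have hzp : IsPGroup p ↥(Subgroup.zpowers (⟨z', hz'L⟩ : ↥(Lc G))) := by
    apply IsPGroup.of_card (n := 1)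
    rw [Nat.card_zpowers, pow_one, Subgroup.orderOf_mk z' hz'L]
    exact hz'ord
  obtain ⟨S, hS⟩ := hzp.exists_le_sylow
  have hzS : (⟨z', hz'L⟩ : ↥(Lc G)) ∈ S := hS (Subgroup.mem_zpowers _)
  have hScomm : ∀ x y : ↥(Lc G), x ∈ S → y ∈ S → x * y = y * x := by
    let ψ : ↥(Lc G) →* Matrix.SpecialLinearGroup (Fin 2) F :=
      e.toMonoidHom.comp ((QuotientGroup.mk' (Zc G)).comp (Lc G).subtype)
    have hQ : IsPGroup p ↥((S : Subgroup ↥(Lc G)).map ψ) := S.isPGroup'.map ψ
    haveI : IsCyclic ↥((S : Subgroup ↥(Lc G)).map ψ) := pgroup_SL2_cyclic F p hp2 _ hQ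
    have hker : (ψ.subgroupMap (S : Subgroup ↥(Lc G))).ker ≤
        Subgroup.center ↥(S : Subgroup ↥(Lc G)) := by
      intro x hx
      rw [MonoidHom.mem_ker] at hx
      have h1 : ψ (x : ↥(Lc G)) = 1 := congrArg Subtype.val hx
      have h2 : ((x : ↥(Lc G)) : G) ∈ Zc G := by
        have h3 : ((((x : ↥(Lc G)) : G) : G ⧸ Zc G)) = 1 := by
          apply e.injective
          rw [map_one]
          exact h1
        exact (QuotientGroup.eq_one_iff _).mp h3
      rw [Subgroup.mem_center_iff]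
      intro y
      apply Subtype.ext
      apply Subtype.ext
      exact sm4_comm _ h2 _ (y : ↥(Lc G)).2
    intro x y hx hy
    have h := commutative_of_cyclic_center_quotient (ψ.subgroupMap (S : Subgroup ↥(Lc G))) hker
      ⟨x, hx⟩ ⟨y, hy⟩
    exact congrArg Subtype.val h
  have h1 := central_commutator_sylow p S hScomm _ hzS hzc hzd
  have h2 : z' = 1 := congrArg Subtype.val h1
  rw [h2, orderOf_one] at hz'ord
  exact hp.one_lt.ne hz'ord

end Cfsg.Agent.Lib.Helper45.S02
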