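import Mathlib
import Cfsg.Agent.Lib.Helper45.S02A
import Cfsg.Agent.Lib.Helper45.S02Invert

/-! S2202 piece TInv (project S02 of helper45).
FILLED by helper85 (job 4063). Keep the theorem name and statement byte-identical and keep
the namespace; auxiliary lemmas go ABOVE the theorem and MUST start with the prefix `tinv_`; you may add
imports (landed modules, or other `Cfsg.Agent.Lib.Helper45.S02*` piece files).
Definitions (`HC`, `Inv`, `Zc`, `Lc`, `NP`, `CP`, `Hyp`, `Facts`, `Tp`, `TIH`): Cfsg/Agent/Lib/Helper45/S02A.lean.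
Points = Sylow 2-subgroups, `g • P` = conjugate (`Sylow.smul_def`, `Sylow.coe_smul`,
`Sylow.smul_eq_iff_mem_normalizer : g • P = P ↔ g ∈ normalizer P`, `Subgroup.mem_centralizer_iff`).
"involution" = `orderOf t = 2`.  The paper proof is in the docstring. -/

set_option autoImplicit false

namespace Cfsg.Agent.Lib.Helper45.S02

variable {G : Type*} [Group G] [Finite G]

/-- In the TI case an involution swapping `P` and `Q` inverts `N(P) ⊓ N(Q)`.
PROOF. `D := NP P ⊓ NP Q`.  `u • Q = u • u • P = P`, so `u * d * u⁻¹ ∈ D` for `d ∈ D`.  If `d ∈ D` and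
`u * d * u⁻¹ = d` then `d` commutes with `u`; let `R` be a Sylow containing `u`
(`IsPGroup.exists_le_sylow`); `R ≠ P` (else `u ∈ P ≤ NP P` and `u • P = P ≠ Q`); `d ∈ CP R` (`hF.cent`),
so `d ∈ CP R ⊓ NP P = ⊥` (`hloc R P`).  Apply `inverts_of_fixed_point_free D u`. -/
theorem swap_inverts (hF : Facts G) (hloc : ∀ P Q : Sylow 2 G, P ≠ Q → CP P ⊓ NP Q = ⊥)
    (P Q : Sylow 2 G) (hPQ : P ≠ Q) (u : G) (hu : orderOf u = 2) (huP : u • P = Q) (d : G)
    (hdP : d ∈ NP P) (hdQ : d ∈ NP Q) : u * d * u⁻¹ = d⁻¹ := by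
  have huu : u * u = 1 := by
    have h0 := pow_orderOf_eq_one u
    rw [hu, pow_two] at h0
    exact h0
  have huinv : u⁻¹ = u := inv_eq_of_mul_eq_one_left huu
  have huQ : u • Q = P := by
    rw [← huP, smul_smul, huu, one_smul]
  have hn : ∀ d ∈ NP P ⊓ NP Q, u * d * u⁻¹ ∈ NP P ⊓ NP Q := by
    intro d hd
    have h1 : d • P = P := Sylow.smul_eq_iff_mem_normalizer.mpr hd.1
    have h2 : d • Q = Q := Sylow.smul_eq_iff_mem_normalizer.mpr hd.2
    constructor
    · apply Sylow.smul_eq_iff_mem_normalizer.mp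
      rw [huinv, mul_smul, mul_smul, huP, h2, huQ]
    · apply Sylow.smul_eq_iff_mem_normalizer.mp
      rw [huinv, mul_smul, mul_smul, huQ, h1, huP]
  have hfix : ∀ d ∈ NP P ⊓ NP Q, u * d * u⁻¹ = d → d = 1 := by
    intro d hd hfd
    have hcomm : Commute d u := by
      have h3 : u * d = d * u := by
        calc u * d = u * d * u⁻¹ * u := by group
          _ = d * u := by rw [hfd]
      exact h3.symm
    have hp : IsPGroup 2 (Subgroup.zpowers u) := by
      apply IsPGroup.of_card (n := 1)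
      rw [Nat.card_zpowers, hu, pow_one]
    obtain ⟨R, hR⟩ := hp.exists_le_sylow
    have huR : u ∈ R := hR (Subgroup.mem_zpowers u)
    have hRP : R ≠ P := by
      intro hRP'
      rw [hRP'] at huR
      have h4 : u • P = P := Sylow.smul_eq_iff_mem_normalizer.mpr (Subgroup.le_normalizer huR)
      exact hPQ (h4.symm.trans huP)
    have hdC : d ∈ CP R := hF.cent R u d huR hu hcomm
    have h5 : d ∈ CP R ⊓ NP P := ⟨hdC, hd.1⟩
    rw [hloc R P hRP] at h5
    exact Subgroup.mem_bot.mp h5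
  exact inverts_of_fixed_point_free (NP P ⊓ NP Q) u huu hn hfix d ⟨hdP, hdQ⟩

end Cfsg.Agent.Lib.Helper45.S02
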