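import Mathlib
import Cfsg.Agent.Lib.Helper45.S02A


/-! S2202 piece Trans (project S02 of helper45).
FILLED by helper41 (job 4067). Conventions of the board: keep the theorem name and statement byte-identical and keep
the namespace; auxiliary lemmas go ABOVE the theorem and MUST start with the prefix `trans_`; you may add
imports (landed modules, or other `Cfsg.Agent.Lib.Helper45.S02*` piece files).
Definitions (`HC`, `Inv`, `Zc`, `Lc`, `NP`, `CP`, `Hyp`, `Facts`, `Tp`, `TIH`): Cfsg/Agent/Lib/Helper45/S02A.lean.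
Points = Sylow 2-subgroups, `g • P` = conjugate (`Sylow.smul_def`, `Sylow.coe_smul`,
`Sylow.smul_eq_iff_mem_normalizer : g • P = P ↔ g ∈ normalizer P`, `Subgroup.mem_centralizer_iff`).
"involution" = `orderOf t = 2`.  The paper proof is in the docstring. -/

set_option autoImplicit false

namespace Cfsg.Agent.Lib.Helper45.S02

variable {G : Type*} [Group G] [Finite G]

/-- TI case: `C(P)` is transitive on the Sylow 2-subgroups other than `P`.
PROOF. `s ≠ t` involutions of `P` (`hF.three`); `hreg P R` gives `d ∈ NP P ⊓ NP R` with `d s d⁻¹ = t`, so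
`d ≠ 1`; `d ∉ CP P` (`hloc P R`).  `hcover P Q d`: `m ∈ CP P` with `d ∈ NP (m • Q)`.  `hfixR P R d`:
`m • Q = P` or `m • Q = R`; the first gives `Q = m⁻¹ • P = P` (`m ∈ CP P ≤ NP P`): impossible. -/
theorem cent_transitive (hF : Facts G) (hloc : ∀ P Q : Sylow 2 G, P ≠ Q → CP P ⊓ NP Q = ⊥)
    (hreg : ∀ P Q : Sylow 2 G, P ≠ Q → ∀ s t : G, s ∈ P → t ∈ P → orderOf s = 2 → orderOf t = 2 → ∃ d : G, d ∈ NP P ∧ d ∈ NP Q ∧ d * s * d⁻¹ = t)
    (hfixR : ∀ P Q : Sylow 2 G, P ≠ Q → ∀ h : G, h ∈ NP P → h ∈ NP Q → h ≠ 1 → ∀ R : Sylow 2 G, h ∈ NP R → R = P ∨ R = Q)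
    (hcover : ∀ P Q : Sylow 2 G, P ≠ Q → ∀ x : G, x ∈ NP P → x ∉ CP P → ∃ m : G, m ∈ CP P ∧ x ∈ NP (m • Q))
    (P Q R : Sylow 2 G) (hQ : Q ≠ P) (hR : R ≠ P) : ∃ m : G, m ∈ CP P ∧ m • Q = R := by
  obtain ⟨s, t, hs, ht, hos, hot, hst⟩ := hF.three P
  obtain ⟨d, hdP, hdR, hd⟩ := hreg P R hR.symm s t hs ht hos hot
  have hd1 : d ≠ 1 := by
    intro h1
    apply hst
    rw [← hd, h1]; group
  have hdC : d ∉ CP P := by
    intro hC
    apply hd1
    have h2 : d ∈ CP P ⊓ NP R := ⟨hC, hdR⟩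
    rw [hloc P R hR.symm] at h2
    exact Subgroup.mem_bot.mp h2
  obtain ⟨m, hmC, hdm⟩ := hcover P Q hQ.symm d hdP hdC
  refine ⟨m, hmC, ?_⟩
  rcases hfixR P R hR.symm d hdP hdR hd1 (m • Q) hdm with h | h
  · exfalso
    apply hQ
    have hmN : m ∈ NP P := Subgroup.centralizer_le_normalizer _ hmC
    have h3 : m • P = P := Sylow.smul_eq_iff_mem_normalizer.mpr hmN
    exact smul_left_cancel m (h.trans h3.symm)
  · exact h

end Cfsg.Agent.Lib.Helper45.S02
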