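import Mathlib
import Cfsg.Agent.Lib.Helper45.S02A
import Cfsg.Prelude.Def_LieExceptional

/-! S2202 piece Zas (project S02 of helper45).
PLACEHOLDER: replace the `sorry` in THIS file; keep the theorem name and statement byte-identical and keep
the namespace; auxiliary lemmas go ABOVE the theorem and MUST start with the prefix `zas_`; you may add
imports (landed modules, or other `Cfsg.Agent.Lib.Helper45.S02*` piece files).
Definitions (`HC`, `Inv`, `Zc`, `Lc`, `NP`, `CP`, `Hyp`, `Facts`, `Tp`, `TIH`): Cfsg/Agent/Lib/Helper45/S02A.lean.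
Points = Sylow 2-subgroups, `g • P` = conjugate (`Sylow.smul_def`, `Sylow.coe_smul`,
`Sylow.smul_eq_iff_mem_normalizer : g • P = P ↔ g ∈ normalizer P`, `Subgroup.mem_centralizer_iff`).
"involution" = `orderOf t = 2`.  The paper proof is in the docstring. -/

set_option autoImplicit false

namespace Cfsg.Agent.Lib.Helper45.S02

variable {G : Type*} [Group G] [Finite G]

/-- TI case: `G` is a Zassenhaus group on its Sylow 2-subgroups.
PROOF. `Cfsg.IsZassenhausGroup G Ω := FaithfulSMul G Ω ∧ IsMultiplyPretransitive G Ω 2 ∧ (three fixed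
points ⇒ g = 1) ∧ (∃ g ≠ 1 fixing two points) ∧ (no normal transitive subgroup with all stabilizers ⊥)`.
There are at least 3 Sylows (`hH.two`, and `card_sylow_modEq_one` makes the number odd).
* three fixed points: `hfixR` (`g • P = P ↔ g ∈ NP P`).  Faithful: follows.
* 2-pretransitive (`MulAction.is_two_pretransitive_iff`): move `a` to `c` by Sylow transitivity
  (`MulAction.exists_smul_eq`), then `htrans c (g₁ • b) d` gives `m ∈ CP c ≤ NP c` moving `g₁ • b` to `d`.
* `g ≠ 1` fixing two points: `hreg P Q s t` with `s ≠ t` (`hF.three`).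
* normal `N` transitive: if all stabilizers were `⊥` then `N ⊓ NP P = ⊥` for all `P`
  (`Sylow.stabilizer_eq_normalizer`), and `N ≠ ⊥` (transitive on ≥ 2 points): `hnoreg`. -/
theorem zassenhaus (hH : Hyp G) (hF : Facts G)
    (hfixR : ∀ P Q : Sylow 2 G, P ≠ Q → ∀ h : G, h ∈ NP P → h ∈ NP Q → h ≠ 1 → ∀ R : Sylow 2 G, h ∈ NP R → R = P ∨ R = Q)
    (htrans : ∀ P Q R : Sylow 2 G, Q ≠ P → R ≠ P → ∃ m : G, m ∈ CP P ∧ m • Q = R)
    (hnoreg : ∀ K : Subgroup G, K.Normal → (∀ P : Sylow 2 G, K ⊓ NP P = ⊥) → K ≠ ⊥ → False)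
    (hreg : ∀ P Q : Sylow 2 G, P ≠ Q → ∀ s t : G, s ∈ P → t ∈ P → orderOf s = 2 → orderOf t = 2 → ∃ d : G, d ∈ NP P ∧ d ∈ NP Q ∧ d * s * d⁻¹ = t) :
    Cfsg.IsZassenhausGroup G (Sylow 2 G) := by
  classical
  obtain ⟨P, Q, hPQ⟩ := hH.two
  have hfix : ∀ (g : G) (X : Sylow 2 G), g • X = X ↔ g ∈ NP X :=
    fun g X => Sylow.smul_eq_iff_mem_normalizer
  -- no non-identity element fixes three points
  have h3 : ∀ g : G, ∀ a b c : Sylow 2 G, a ≠ b → b ≠ c → a ≠ c → g • a = a → g • b = b →
      g • c = c → g = 1 := by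
    intro g a b c hab hbc hac ha hb hc
    by_contra hg
    rcases hfixR a b hab g ((hfix g a).mp ha) ((hfix g b).mp hb) hg c ((hfix g c).mp hc) with h | h
    · exact hac h.symm
    · exact hbc h.symm
  -- a third point
  obtain ⟨R, hRP, hRQ⟩ : ∃ R : Sylow 2 G, R ≠ P ∧ R ≠ Q := by
    by_contra hcon
    push Not at hcon
    have hfin : Fintype (Sylow 2 G) := Fintype.ofFinite _
    have huniv : (Finset.univ : Finset (Sylow 2 G)) = {P, Q} := by
      ext X
      simp only [Finset.mem_univ, Finset.mem_insert, Finset.mem_singleton, true_iff]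
      by_cases h : X = P
      · exact Or.inl h
      · exact Or.inr (hcon X h)
    have hcard : Nat.card (Sylow 2 G) = 2 := by
      rw [Nat.card_eq_fintype_card, ← Finset.card_univ, huniv, Finset.card_pair hPQ]
    have hmod := card_sylow_modEq_one 2 G
    rw [hcard] at hmod
    exact absurd hmod (by decide)
  refine ⟨?_, ?_, h3, ?_, ?_⟩
  · -- faithful
    refine ⟨fun {g1 g2} h => ?_⟩
    have hg : ∀ X : Sylow 2 G, (g2⁻¹ * g1) • X = X := by
      intro X
      rw [mul_smul, h X, smul_smul, inv_mul_cancel, one_smul]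
    have h4 := h3 (g2⁻¹ * g1) P Q R hPQ hRQ.symm hRP.symm (hg P) (hg Q) (hg R)
    exact (inv_mul_eq_one.mp h4).symm
  · -- doubly transitive
    rw [MulAction.is_two_pretransitive_iff]
    intro a b c d hab hcd
    obtain ⟨g₁, hg₁⟩ := MulAction.exists_smul_eq G a c
    have hne : g₁ • b ≠ c := by
      intro h
      rw [← hg₁] at h
      exact hab (MulAction.injective g₁ h).symm
    obtain ⟨m, hm, hmd⟩ := htrans c (g₁ • b) d hne hcd.symm
    refine ⟨m * g₁, ?_, ?_⟩
    · rw [mul_smul, hg₁]
      exact (hfix m c).mpr (Subgroup.centralizer_le_normalizer _ hm)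
    · rw [mul_smul]
      exact hmd
  · -- a non-identity element fixing two points
    obtain ⟨s, t, hs, ht, hs2, ht2, hst⟩ := hF.three P
    obtain ⟨d, hdP, hdQ, hd⟩ := hreg P Q hPQ s t hs ht hs2 ht2
    refine ⟨d, ?_, P, Q, hPQ, (hfix d P).mpr hdP, (hfix d Q).mpr hdQ⟩
    rintro rfl
    apply hst
    simpa using hd
  · -- no regular normal subgroup
    intro N hN hNt
    by_contra hcon
    push Not at hcon
    apply hnoreg N hN
    · intro X
      rw [eq_bot_iff]
      intro x hx
      obtain ⟨hxN, hxX⟩ := Subgroup.mem_inf.mp hx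
      have h1 : (⟨x, hxN⟩ : N) ∈ MulAction.stabilizer N X := by
        rw [MulAction.mem_stabilizer_iff, Subgroup.smul_def]
        exact (hfix x X).mpr hxX
      rw [hcon X, Subgroup.mem_bot] at h1
      rw [Subgroup.mem_bot]
      exact congrArg Subtype.val h1
    · intro hbot
      obtain ⟨n, hn⟩ := MulAction.exists_smul_eq N P Q
      have hn1 : (n : G) = 1 := by
        have h5 : (n : G) ∈ N := n.2
        have h6 : N ≤ ⊥ := le_of_eq hbot
        exact Subgroup.mem_bot.mp (h6 h5)
      apply hPQ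
      rw [← hn, Subgroup.smul_def, hn1, one_smul]

end Cfsg.Agent.Lib.Helper45.S02
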