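import Mathlib
import Cfsg.Agent.Lib.Helper45.S21A

/-! S2221 piece Mv (project of helper45): the `Mv` toolkit. -/

set_option autoImplicit false

namespace Cfsg.Agent.Lib.Helper45.S21

open Equiv Cfsg.Agent.Lib.Helper45

variable {X : Type} [Fintype X] [DecidableEq X]

theorem mv_one (σ : Perm X) : ¬ Mv (1 : Perm X) σ := by
  rintro ⟨y, _, hy⟩
  exact hy rfl

theorem mv_exists_moved (τ : Perm X) (hτ : τ.IsSwap) : ∃ x, τ x ≠ x := by
  obtain ⟨a, b, hab, rfl⟩ := hτ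
  exact ⟨a, by rw [swap_apply_left]; exact hab.symm⟩

/-- a swap of `T` moves exactly itself among the swaps of `T` -/
theorem mv_swap (T : Sylow 2 (Perm X)) (τ σ : Perm X) (hτ : τ ∈ swapsIn (T : Subgroup (Perm X))) (hσ : σ ∈ swapsIn (T : Subgroup (Perm X))) :
    Mv τ σ ↔ σ = τ := by
  constructor
  · rintro ⟨y, h1, h2⟩
    exact swaps_disj T σ τ hσ hτ y h1 h2
  · rintro rfl
    obtain ⟨x, hx⟩ := mv_exists_moved σ hσ.2
    exact ⟨x, hx, hx⟩

theorem cent_mul (T : Sylow 2 (Perm X)) (v w : Perm X)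
    (hv : ∀ σ ∈ swapsIn (T : Subgroup (Perm X)), v * σ * v⁻¹ = σ) (hw : ∀ σ ∈ swapsIn (T : Subgroup (Perm X)), w * σ * w⁻¹ = σ) :
    ∀ σ ∈ swapsIn (T : Subgroup (Perm X)), (v * w) * σ * (v * w)⁻¹ = σ := by
  intro σ hσ
  calc (v * w) * σ * (v * w)⁻¹ = v * (w * σ * w⁻¹) * v⁻¹ := by group
    _ = σ := by rw [hw σ hσ, hv σ hσ]

theorem cent_inv (T : Sylow 2 (Perm X)) (v : Perm X)
    (hv : ∀ σ ∈ swapsIn (T : Subgroup (Perm X)), v * σ * v⁻¹ = σ) :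
    ∀ σ ∈ swapsIn (T : Subgroup (Perm X)), v⁻¹ * σ * v⁻¹⁻¹ = σ := by
  intro σ hσ
  calc v⁻¹ * σ * v⁻¹⁻¹ = v⁻¹ * (v * σ * v⁻¹) * v := by rw [hv σ hσ, inv_inv]
    _ = σ := by group

/-- for elements centralizing all swaps, "moving the support of `σ`" is additive mod 2 -/
theorem mv_mul (T : Sylow 2 (Perm X)) (v w σ : Perm X) (hσ : σ ∈ swapsIn (T : Subgroup (Perm X)))
    (hv : ∀ σ ∈ swapsIn (T : Subgroup (Perm X)), v * σ * v⁻¹ = σ) (hw : ∀ σ ∈ swapsIn (T : Subgroup (Perm X)), w * σ * w⁻¹ = σ) :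
    Mv (v * w) σ ↔ ¬ (Mv v σ ↔ Mv w σ) := by
  obtain ⟨x, hx⟩ := mv_exists_moved σ hσ.2
  rw [mv_iff T (v * w) σ hσ (cent_mul T v w hv hw σ hσ) x hx, mv_iff T v σ hσ (hv σ hσ) x hx,
    mv_iff T w σ hσ (hw σ hσ) x hx, Perm.mul_apply]
  have hσσ : σ (σ x) = x := swap_invol hσ.2 x
  rcases fix_or_swap hσ.2 (hw σ hσ) hx with h1 | h1 <;>
    rcases fix_or_swap hσ.2 (hv σ hσ) hx with h2 | h2
  · rw [h1, h2]; simp
  · rw [h1, h2]; simp [hx]
  · have h3 : v (σ x) = σ (v x) := (comm_apply (hv σ hσ) x).symm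
    rw [h1, h3, h2]; simp [hx]
  · have h3 : v (σ x) = σ (v x) := (comm_apply (hv σ hσ) x).symm
    rw [h1, h3, h2, hσσ]; simp [hx]

theorem mv_inv (T : Sylow 2 (Perm X)) (v σ : Perm X) (hσ : σ ∈ swapsIn (T : Subgroup (Perm X)))
    (hv : ∀ σ ∈ swapsIn (T : Subgroup (Perm X)), v * σ * v⁻¹ = σ) : Mv v⁻¹ σ ↔ Mv v σ := by
  have h := mv_mul T v v⁻¹ σ hσ hv (cent_inv T v hv)
  rw [mul_inv_cancel] at h
  have h1 := mv_one (X := X) σ
  by_contra hcon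
  exact h1 (h.mpr (fun h' => hcon h'.symm))

/-- `h v h⁻¹` moves `σ` iff `v` moves `h⁻¹ σ h` -/
theorem mv_conj (h v σ : Perm X) : Mv (h * v * h⁻¹) σ ↔ Mv v (h⁻¹ * σ * h) := by
  have hA : ∀ y, h (h⁻¹ y) = y := fun y => by simp
  have hB : ∀ y, h⁻¹ (h y) = y := fun y => by simp
  constructor
  · rintro ⟨y, h1, h2⟩
    refine ⟨h⁻¹ y, ?_, ?_⟩
    · intro h'
      apply h1
      have h3 : (h⁻¹ * σ * h) (h⁻¹ y) = h⁻¹ (σ y) := by
        rw [Perm.mul_apply, Perm.mul_apply, hA]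
      rw [h3] at h'
      exact h⁻¹.injective h'
    · intro h'
      apply h2
      rw [Perm.mul_apply, Perm.mul_apply, h', hA]
  · rintro ⟨z, h1, h2⟩
    refine ⟨h z, ?_, ?_⟩
    · intro h'
      apply h1
      rw [Perm.mul_apply, Perm.mul_apply, h', hB]
    · intro h'
      apply h2
      rw [Perm.mul_apply, Perm.mul_apply, hB] at h'
      exact h.injective h'

/-- an element centralizing all swaps of `T` and moving none of them is trivial -/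
theorem eq_one_of_not_mv (T : Sylow 2 (Perm X)) (v : Perm X)
    (hv : ∀ σ ∈ swapsIn (T : Subgroup (Perm X)), v * σ * v⁻¹ = σ) (h : ∀ σ ∈ swapsIn (T : Subgroup (Perm X)), ¬ Mv v σ) : v = 1 := by
  apply same_moved T v 1 hv
  · intro τ _; group
  · intro τ hτ
    constructor
    · intro h'; exact absurd h' (h τ hτ)
    · intro h'; exact absurd h' (mv_one τ)

end Cfsg.Agent.Lib.Helper45.S21
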