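import Mathlib
import Cfsg.Agent.Lib.Helper45.S21Mv

/-! S2221 piece Bal (project of helper45; filled by helper64): balanced elements are products of
the double transpositions `τ * ρ τ`. -/

set_option autoImplicit false

namespace Cfsg.Agent.Lib.Helper45.S21

open Equiv Cfsg.Agent.Lib.Helper45

variable {X : Type} [Fintype X] [DecidableEq X]

/-- multiplying by a product of two distinct swaps toggles exactly these two swaps -/
theorem bl_mv_step (T : Sylow 2 (Perm X)) (v τ τ' σ : Perm X)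
    (hv : ∀ σ ∈ swapsIn (T : Subgroup (Perm X)), v * σ * v⁻¹ = σ)
    (hτ : τ ∈ swapsIn (T : Subgroup (Perm X))) (hτ' : τ' ∈ swapsIn (T : Subgroup (Perm X)))
    (hne : τ' ≠ τ) (hσ : σ ∈ swapsIn (T : Subgroup (Perm X))) :
    Mv (v * (τ * τ')) σ ↔ ¬ (Mv v σ ↔ (σ = τ ∨ σ = τ')) := by
  have hcτ : ∀ σ ∈ swapsIn (T : Subgroup (Perm X)), τ * σ * τ⁻¹ = σ :=
    fun σ hσ => swap_cent T τ σ hτ hσ
  have hcτ' : ∀ σ ∈ swapsIn (T : Subgroup (Perm X)), τ' * σ * τ'⁻¹ = σ :=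
    fun σ hσ => swap_cent T τ' σ hτ' hσ
  have h1 := mv_mul T v (τ * τ') σ hσ hv (cent_mul T τ τ' hcτ hcτ')
  have h2 := mv_mul T τ τ' σ hσ hcτ hcτ'
  have h3 := mv_swap T τ σ hτ hσ
  have h4 := mv_swap T τ' σ hτ' hσ
  rw [h1, h2, h3, h4]
  have h5 : ¬ (σ = τ ↔ σ = τ') ↔ (σ = τ ∨ σ = τ') := by
    constructor
    · intro h
      by_contra hcon
      rw [not_or] at hcon
      exact h ⟨fun h' => absurd h' hcon.1, fun h' => absurd h' hcon.2⟩
    · rintro (h | h) hiff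
      · exact hne ((hiff.1 h).symm.trans h)
      · exact hne (h.symm.trans (hiff.2 h))
  rw [h5]

theorem bl_aux (T : Sylow 2 (Perm X)) (ρ : Perm X → Perm X)
    (hρ1 : ∀ τ ∈ swapsIn (T : Subgroup (Perm X)), ρ τ ∈ swapsIn (T : Subgroup (Perm X)))
    (hρ2 : ∀ τ ∈ swapsIn (T : Subgroup (Perm X)), ρ (ρ τ) = τ) :
    ∀ n : ℕ, ∀ v : Perm X, (∀ σ ∈ swapsIn (T : Subgroup (Perm X)), v * σ * v⁻¹ = σ) →
      (∀ τ ∈ swapsIn (T : Subgroup (Perm X)), (Mv v τ ↔ Mv v (ρ τ))) →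
      (∀ τ ∈ swapsIn (T : Subgroup (Perm X)), ρ τ = τ → ¬ Mv v τ) →
      Set.ncard {σ : Perm X | σ ∈ swapsIn (T : Subgroup (Perm X)) ∧ Mv v σ} = n →
      v ∈ Subgroup.closure
        {u : Perm X | ∃ τ ∈ swapsIn (T : Subgroup (Perm X)), ρ τ ≠ τ ∧ u = τ * ρ τ} := by
  intro n
  induction n using Nat.strong_induction_on with
  | _ n ih =>
    intro v hv hbal hfix hn
    by_cases hex : ∃ τ ∈ swapsIn (T : Subgroup (Perm X)), Mv v τ
    · obtain ⟨τ, hτ, hm⟩ := hex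
      have hρτ : ρ τ ∈ swapsIn (T : Subgroup (Perm X)) := hρ1 τ hτ
      have hne : ρ τ ≠ τ := fun h => hfix τ hτ h hm
      have hm' : Mv v (ρ τ) := (hbal τ hτ).1 hm
      have hstep : ∀ σ ∈ swapsIn (T : Subgroup (Perm X)),
          (Mv (v * (τ * ρ τ)) σ ↔ ¬ (Mv v σ ↔ (σ = τ ∨ σ = ρ τ))) :=
        fun σ hσ => bl_mv_step T v τ (ρ τ) σ hv hτ hρτ hne hσ
      have hcu : ∀ σ ∈ swapsIn (T : Subgroup (Perm X)), (τ * ρ τ) * σ * (τ * ρ τ)⁻¹ = σ :=
        cent_mul T τ (ρ τ) (fun σ hσ => swap_cent T τ σ hτ hσ)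
          (fun σ hσ => swap_cent T (ρ τ) σ hρτ hσ)
      have hv' : ∀ σ ∈ swapsIn (T : Subgroup (Perm X)),
          (v * (τ * ρ τ)) * σ * (v * (τ * ρ τ))⁻¹ = σ := cent_mul T v (τ * ρ τ) hv hcu
      have hpair : ∀ σ ∈ swapsIn (T : Subgroup (Perm X)),
          ((σ = τ ∨ σ = ρ τ) ↔ (ρ σ = τ ∨ ρ σ = ρ τ)) := by
        intro σ hσ
        constructor
        · rintro (h | h)
          · right; rw [h]
          · left; rw [h, hρ2 τ hτ]
        · rintro (h | h)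
          · right; rw [← h, hρ2 σ hσ]
          · left
            have := congrArg ρ h
            rw [hρ2 σ hσ, hρ2 τ hτ] at this
            exact this
      have hbal' : ∀ σ ∈ swapsIn (T : Subgroup (Perm X)),
          (Mv (v * (τ * ρ τ)) σ ↔ Mv (v * (τ * ρ τ)) (ρ σ)) := by
        intro σ hσ
        rw [hstep σ hσ, hstep (ρ σ) (hρ1 σ hσ), hbal σ hσ, hpair σ hσ]
      have hfix' : ∀ σ ∈ swapsIn (T : Subgroup (Perm X)), ρ σ = σ → ¬ Mv (v * (τ * ρ τ)) σ := by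
        intro σ hσ hσfix
        rw [hstep σ hσ, not_not]
        constructor
        · intro h; exact absurd h (hfix σ hσ hσfix)
        · rintro (h | h)
          · exact absurd (h ▸ hσfix) hne
          · exfalso
            apply hne
            have h1 : ρ (ρ τ) = ρ τ := by rw [← h]; exact hσfix
            rw [hρ2 τ hτ] at h1
            exact h1.symm
      have hss : {σ : Perm X | σ ∈ swapsIn (T : Subgroup (Perm X)) ∧ Mv (v * (τ * ρ τ)) σ} ⊂
          {σ : Perm X | σ ∈ swapsIn (T : Subgroup (Perm X)) ∧ Mv v σ} := by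
        refine ⟨?_, ?_⟩
        · rintro σ ⟨hσ, hσm⟩
          refine ⟨hσ, ?_⟩
          by_contra hcon
          rw [hstep σ hσ] at hσm
          apply hσm
          constructor
          · intro h; exact absurd h hcon
          · rintro (h | h)
            · exact h ▸ hm
            · exact h ▸ hm'
        · intro hsub
          have h1 : τ ∈ {σ : Perm X | σ ∈ swapsIn (T : Subgroup (Perm X)) ∧ Mv (v * (τ * ρ τ)) σ} :=
            hsub ⟨hτ, hm⟩
          have h2 := h1.2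
          rw [hstep τ hτ] at h2
          exact h2 ⟨fun _ => Or.inl rfl, fun _ => hm⟩
      have hlt : Set.ncard
          {σ : Perm X | σ ∈ swapsIn (T : Subgroup (Perm X)) ∧ Mv (v * (τ * ρ τ)) σ} < n := by
        rw [← hn]
        exact Set.ncard_lt_ncard hss (Set.toFinite _)
      have hmem := ih _ hlt (v * (τ * ρ τ)) hv' hbal' hfix' rfl
      have hu : τ * ρ τ ∈ Subgroup.closure
          {u : Perm X | ∃ τ ∈ swapsIn (T : Subgroup (Perm X)), ρ τ ≠ τ ∧ u = τ * ρ τ} :=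
        Subgroup.subset_closure ⟨τ, hτ, hne, rfl⟩
      have hveq : v = (v * (τ * ρ τ)) * (τ * ρ τ)⁻¹ := by group
      rw [hveq]
      exact Subgroup.mul_mem _ hmem (Subgroup.inv_mem _ hu)
    · have h1 : v = 1 := eq_one_of_not_mv T v hv (fun σ hσ h => hex ⟨σ, hσ, h⟩)
      rw [h1]
      exact Subgroup.one_mem _

/-- an element centralizing all swaps, balanced on all `ρ`-pairs and not moving any `ρ`-fixed swap, is a
product of the double transpositions `τ * ρ τ` -/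
theorem balanced_mem (T : Sylow 2 (Perm X)) (ρ : Perm X → Perm X)
    (hρ1 : ∀ τ ∈ swapsIn (T : Subgroup (Perm X)), ρ τ ∈ swapsIn (T : Subgroup (Perm X))) (hρ2 : ∀ τ ∈ swapsIn (T : Subgroup (Perm X)), ρ (ρ τ) = τ)
    (v : Perm X) (hv : ∀ σ ∈ swapsIn (T : Subgroup (Perm X)), v * σ * v⁻¹ = σ)
    (hbal : ∀ τ ∈ swapsIn (T : Subgroup (Perm X)), (Mv v τ ↔ Mv v (ρ τ)))
    (hfix : ∀ τ ∈ swapsIn (T : Subgroup (Perm X)), ρ τ = τ → ¬ Mv v τ) :
    v ∈ Subgroup.closure {u : Perm X | ∃ τ ∈ swapsIn (T : Subgroup (Perm X)), ρ τ ≠ τ ∧ u = τ * ρ τ} := by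
  exact bl_aux T ρ hρ1 hρ2 _ v hv hbal hfix rfl

theorem sign_of_mem_closure (T : Sylow 2 (Perm X)) (ρ : Perm X → Perm X)
    (hρ1 : ∀ τ ∈ swapsIn (T : Subgroup (Perm X)), ρ τ ∈ swapsIn (T : Subgroup (Perm X))) (v : Perm X)
    (hv : v ∈ Subgroup.closure {u : Perm X | ∃ τ ∈ swapsIn (T : Subgroup (Perm X)), ρ τ ≠ τ ∧ u = τ * ρ τ}) :
    Perm.sign v = 1 := by
  have hle : Subgroup.closure
      {u : Perm X | ∃ τ ∈ swapsIn (T : Subgroup (Perm X)), ρ τ ≠ τ ∧ u = τ * ρ τ} ≤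
      alternatingGroup X := by
    rw [Subgroup.closure_le]
    rintro u ⟨τ, hτ, -, rfl⟩
    rw [SetLike.mem_coe, Perm.mem_alternatingGroup, map_mul, sign_swap' τ hτ.2,
      sign_swap' (ρ τ) (hρ1 τ hτ).2]
    rfl
  exact Perm.mem_alternatingGroup.1 (hle hv)

end Cfsg.Agent.Lib.Helper45.S21
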