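import Mathlib
import Cfsg.Agent.Lib.Helper45.S21Mv

/-! S2221 piece Cent (project of helper45).
Filled by helper37. -/

set_option autoImplicit false

namespace Cfsg.Agent.Lib.Helper45.S21

open Equiv Cfsg.Agent.Lib.Helper45

variable {X : Type} [Fintype X] [DecidableEq X]

theorem mul_swaps_mem (T : Sylow 2 (Perm X)) (τ τ' : Perm X) (hτ : τ ∈ swapsIn (T : Subgroup (Perm X))) (hτ' : τ' ∈ swapsIn (T : Subgroup (Perm X)))
    (hne : τ ≠ τ') : τ * τ' ∈ E0 (T : Subgroup (Perm X)) := by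
  rw [mem_E0]
  refine ⟨⟨(T : Subgroup (Perm X)).mul_mem hτ.1 hτ'.1, ?_⟩, ?_⟩
  · rw [map_mul, sign_swap' τ hτ.2, sign_swap' τ' hτ'.2]
    simp
  · exact cent_mul T τ τ' (fun σ hσ => swap_cent T τ σ hτ hσ)
      (fun σ hσ => swap_cent T τ' σ hτ' hσ)

theorem exists_third (T : Sylow 2 (Perm X)) (h6 : 6 ≤ Fintype.card X) (τ τ' : Perm X) :
    ∃ σ ∈ swapsIn (T : Subgroup (Perm X)), σ ≠ τ ∧ σ ≠ τ' := by
  by_contra hcon
  push Not at hcon
  have hsub : swapsIn (T : Subgroup (Perm X)) ⊆ ({τ, τ'} : Set (Perm X)) := by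
    intro σ hσ
    by_cases h : σ = τ
    · left; exact h
    · right; exact hcon σ hσ h
  have h1 := card_swaps T
  rw [Nat.card_coe_set_eq] at h1
  have h2 : (swapsIn (T : Subgroup (Perm X))).ncard ≤ ({τ, τ'} : Set (Perm X)).ncard :=
    Set.ncard_le_ncard hsub (Set.toFinite _)
  have h3 : ({τ, τ'} : Set (Perm X)).ncard ≤ 2 := by
    refine (Set.ncard_insert_le τ {τ'}).trans ?_
    rw [Set.ncard_singleton]
  omega

/-- `E0 T` is self-centralizing: an element commuting with all of `E0 T` centralizes every swap of `T` -/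
theorem cent_E0 (T : Sylow 2 (Perm X)) (h6 : 6 ≤ Fintype.card X) (g : Perm X)
    (hg : ∀ v ∈ E0 (T : Subgroup (Perm X)), g * v = v * g) :
    ∀ τ ∈ swapsIn (T : Subgroup (Perm X)), g * τ * g⁻¹ = τ := by
  intro τ hτ
  obtain ⟨σ, hσ, hστ, -⟩ := exists_third T h6 τ τ
  obtain ⟨σ', hσ', hσ'τ, hσ'σ⟩ := exists_third T h6 τ σ
  have hu := hg _ (mul_swaps_mem T τ σ hτ hσ (Ne.symm hστ))
  have hu' := hg _ (mul_swaps_mem T τ σ' hτ hσ' (Ne.symm hσ'τ))
  have key : ∀ x, τ x ≠ x → τ (g x) ≠ g x := by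
    intro x hx
    have h1 : ∀ ρ ∈ swapsIn (T : Subgroup (Perm X)), ρ ≠ τ → g * (τ * ρ) = (τ * ρ) * g →
        (τ (g x) ≠ g x ∨ ρ (g x) ≠ g x) := by
      intro ρ hρ hρτ hc
      have hρx : ρ x = x := by
        by_contra h
        exact hρτ (swaps_disj T ρ τ hρ hτ x h hx)
      have h2 : τ (ρ (g x)) = g (τ (ρ x)) := by
        have h3 := congrArg (fun f : Perm X => f x) hc
        simp only [Perm.mul_apply] at h3
        exact h3.symm
      by_contra hcon
      push Not at hcon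
      rw [hcon.2, hcon.1, hρx] at h2
      exact hx (g.injective h2).symm
    rcases h1 σ hσ hστ hu with h | h
    · exact h
    · rcases h1 σ' hσ' hσ'τ hu' with h' | h'
      · exact h'
      · exact absurd (swaps_disj T σ' σ hσ' hσ (g x) h' h) hσ'σ
  obtain ⟨a, b, hab, rfl⟩ := hτ.2
  rw [conj_swap]
  have ha : swap a b (g a) ≠ g a := key a (by rw [swap_apply_left]; exact hab.symm)
  have hb : swap a b (g b) ≠ g b := key b (by rw [swap_apply_right]; exact hab)
  rw [Equiv.swap_apply_ne_self_iff] at ha hb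
  rcases ha.2 with h1 | h1 <;> rcases hb.2 with h2 | h2
  · exact absurd (g.injective (h1.trans h2.symm)) hab
  · rw [h1, h2]
  · rw [h1, h2, swap_comm]
  · exact absurd (g.injective (h1.trans h2.symm)) hab

end Cfsg.Agent.Lib.Helper45.S21
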