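import Mathlib
import Cfsg.Agent.Lib.Helper45.S21Mv

/-! S2221 piece Comm (project of helper45).
Paper proofs: see the note (topic "S2221"). -/

set_option autoImplicit false

namespace Cfsg.Agent.Lib.Helper45.S21

open Equiv Cfsg.Agent.Lib.Helper45

variable {X : Type} [Fintype X] [DecidableEq X]

/-- elements centralizing all swaps of `T` commute -/
theorem E0_comm (T : Sylow 2 (Perm X)) (v w : Perm X)
    (hv : ∀ σ ∈ swapsIn (T : Subgroup (Perm X)), v * σ * v⁻¹ = σ) (hw : ∀ σ ∈ swapsIn (T : Subgroup (Perm X)), w * σ * w⁻¹ = σ) : v * w = w * v := by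
  apply same_moved T (v * w) (w * v) (cent_mul T v w hv hw) (cent_mul T w v hw hv)
  intro τ hτ
  rw [mv_mul T v w τ hτ hv hw, mv_mul T w v τ hτ hw hv]
  constructor
  · intro h h'
    exact h h'.symm
  · intro h h'
    exact h h'.symm

/-- `E0 T` is normalized by `T` -/
theorem E0_conj (T : Sylow 2 (Perm X)) (g v : Perm X) (hg : g ∈ (T : Subgroup (Perm X))) (hv : v ∈ E0 (T : Subgroup (Perm X))) :
    g * v * g⁻¹ ∈ E0 (T : Subgroup (Perm X)) := by
  rw [mem_E0] at hv ⊢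
  obtain ⟨⟨hvT, hvs⟩, hvc⟩ := hv
  refine ⟨⟨?_, ?_⟩, ?_⟩
  · exact (T : Subgroup (Perm X)).mul_mem ((T : Subgroup (Perm X)).mul_mem hg hvT)
      ((T : Subgroup (Perm X)).inv_mem hg)
  · rw [map_mul, map_mul, map_inv, hvs, mul_one, mul_inv_cancel]
  · intro τ hτ
    have h1 : g⁻¹ * τ * g⁻¹⁻¹ ∈ swapsIn (T : Subgroup (Perm X)) :=
      conj_swap_mem (T : Subgroup (Perm X)) g⁻¹ τ ((T : Subgroup (Perm X)).inv_mem hg) hτ
    have h2 := hvc _ h1
    calc g * v * g⁻¹ * τ * (g * v * g⁻¹)⁻¹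
        = g * (v * (g⁻¹ * τ * g⁻¹⁻¹) * v⁻¹) * g⁻¹ := by group
      _ = τ := by rw [h2]; group

end Cfsg.Agent.Lib.Helper45.S21
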