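import Mathlib
import Cfsg.Agent.Lib.Helper45.S21Mv

/-! S2221 piece Conj (project of helper45).
PLACEHOLDER: replace the `sorry`(s) in THIS file; keep theorem names and statements byte-identical;
keep the namespace; auxiliary lemmas go ABOVE the theorems and MUST start with the prefix `cj_`.
Paper proofs: see the note (topic "S2221"). -/

set_option autoImplicit false

namespace Cfsg.Agent.Lib.Helper45.S21

open Equiv Cfsg.Agent.Lib.Helper45

variable {X : Type} [Fintype X] [DecidableEq X]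

/-- if `h` interchanges the swaps `τ`, `τ'` of `T` and centralizes the other swaps, and `v` centralizes all
swaps, then `h v h⁻¹` is `v` or `v τ τ'` -/
theorem conj_eq (T : Sylow 2 (Perm X)) (τ τ' h v : Perm X) (hτ : τ ∈ swapsIn (T : Subgroup (Perm X))) (hτ' : τ' ∈ swapsIn (T : Subgroup (Perm X))) (hne : τ ≠ τ')
    (h1 : h * τ * h⁻¹ = τ') (h2 : h * τ' * h⁻¹ = τ)
    (h3 : ∀ σ ∈ swapsIn (T : Subgroup (Perm X)), σ ≠ τ → σ ≠ τ' → h * σ * h⁻¹ = σ)
    (hv : ∀ σ ∈ swapsIn (T : Subgroup (Perm X)), v * σ * v⁻¹ = σ) :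
    ((Mv v τ ↔ Mv v τ') → h * v * h⁻¹ = v) ∧
      (¬ (Mv v τ ↔ Mv v τ') → h * v * h⁻¹ = v * (τ * τ')) := by
  have e1 : h⁻¹ * τ * h = τ' := by
    rw [← h2]; group
  have e2 : h⁻¹ * τ' * h = τ := by
    rw [← h1]; group
  have e3 : ∀ σ ∈ swapsIn (T : Subgroup (Perm X)), σ ≠ τ → σ ≠ τ' → h⁻¹ * σ * h = σ := by
    intro σ hσ hn hn'
    have h4 := h3 σ hσ hn hn'
    calc h⁻¹ * σ * h = h⁻¹ * (h * σ * h⁻¹) * h := by rw [h4]
      _ = σ := by group
  have hmem : ∀ σ ∈ swapsIn (T : Subgroup (Perm X)),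
      h⁻¹ * σ * h ∈ swapsIn (T : Subgroup (Perm X)) := by
    intro σ hσ
    by_cases hn : σ = τ
    · rw [hn, e1]; exact hτ'
    · by_cases hn' : σ = τ'
      · rw [hn', e2]; exact hτ
      · rw [e3 σ hσ hn hn']; exact hσ
  have htc : ∀ σ ∈ swapsIn (T : Subgroup (Perm X)),
      (h * v * h⁻¹) * σ * (h * v * h⁻¹)⁻¹ = σ := by
    intro σ hσ
    have h4 := hv _ (hmem σ hσ)
    calc (h * v * h⁻¹) * σ * (h * v * h⁻¹)⁻¹ = h * (v * (h⁻¹ * σ * h) * v⁻¹) * h⁻¹ := by group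
      _ = σ := by rw [h4]; group
  have hmτ : Mv (h * v * h⁻¹) τ ↔ Mv v τ' := by rw [mv_conj, e1]
  have hmτ' : Mv (h * v * h⁻¹) τ' ↔ Mv v τ := by rw [mv_conj, e2]
  have hmσ : ∀ σ ∈ swapsIn (T : Subgroup (Perm X)), σ ≠ τ → σ ≠ τ' →
      (Mv (h * v * h⁻¹) σ ↔ Mv v σ) := by
    intro σ hσ hn hn'
    rw [mv_conj, e3 σ hσ hn hn']
  constructor
  · intro hiff
    apply same_moved T _ _ htc hv
    intro σ hσ
    by_cases hn : σ = τ
    · rw [hn, hmτ]; exact hiff.symm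
    · by_cases hn' : σ = τ'
      · rw [hn', hmτ']; exact hiff
      · exact hmσ σ hσ hn hn'
  · intro hniff
    have hcτ : ∀ σ ∈ swapsIn (T : Subgroup (Perm X)), τ * σ * τ⁻¹ = σ :=
      fun σ hσ => swap_cent T τ σ hτ hσ
    have hcτ' : ∀ σ ∈ swapsIn (T : Subgroup (Perm X)), τ' * σ * τ'⁻¹ = σ :=
      fun σ hσ => swap_cent T τ' σ hτ' hσ
    have hc2 := cent_mul T τ τ' hcτ hcτ'
    have hc3 := cent_mul T v (τ * τ') hv hc2
    apply same_moved T _ _ htc hc3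
    intro σ hσ
    rw [mv_mul T v (τ * τ') σ hσ hv hc2, mv_mul T τ τ' σ hσ hcτ hcτ', mv_swap T τ σ hτ hσ,
      mv_swap T τ' σ hτ' hσ]
    by_cases hn : σ = τ
    · rw [hn, hmτ]
      have hrefl : τ = τ := rfl
      tauto
    · by_cases hn' : σ = τ'
      · rw [hn', hmτ']
        have hrefl : τ' = τ' := rfl
        have hne' : ¬ (τ' = τ) := fun e => hne e.symm
        tauto
      · rw [hmσ σ hσ hn hn']
        tauto

end Cfsg.Agent.Lib.Helper45.S21
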