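import Mathlib
import Cfsg.Agent.Lib.Helper45.S21A

/-! S2221 piece Inv (project of helper45): invariance of the three kinds of points
(`OmA 𝒜`, `OmB t 𝒜`, the support of `t`) under `T`, and triviality of an even element of `T`
fixing `OmA 𝒜` and `OmB t 𝒜` pointwise.  Auxiliary lemmas carry the prefix `iv_`. -/

set_option autoImplicit false

namespace Cfsg.Agent.Lib.Helper45.S21

open Equiv Cfsg.Agent.Lib.Helper45

variable {X : Type} [Fintype X] [DecidableEq X]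

theorem iv_A_of (T : Sylow 2 (Perm X)) (t : Perm X) (𝒜 : Set (Perm X)) (hp : Parts T t 𝒜)
    (g : Perm X) (hg : g ∈ (T : Subgroup (Perm X))) (x : X) (hx : x ∈ OmA 𝒜) : g x ∈ OmA 𝒜 := by
  obtain ⟨τ, hτ, hτx⟩ := hx
  refine ⟨g * τ * g⁻¹, hp.inv g hg τ hτ, ?_⟩
  intro h
  apply hτx
  have h1 : (g * τ * g⁻¹) (g x) = g (τ x) := by
    simp [Perm.mul_apply]
  rw [h1] at h
  exact g.injective h

theorem inv_A (T : Sylow 2 (Perm X)) (t : Perm X) (𝒜 : Set (Perm X)) (hp : Parts T t 𝒜)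
    (g : Perm X) (hg : g ∈ (T : Subgroup (Perm X))) (x : X) : g x ∈ OmA 𝒜 ↔ x ∈ OmA 𝒜 := by
  constructor
  · intro h
    have h1 := iv_A_of T t 𝒜 hp g⁻¹ ((T : Subgroup (Perm X)).inv_mem hg) (g x) h
    simpa using h1
  · exact iv_A_of T t 𝒜 hp g hg x

theorem iv_comm (T : Sylow 2 (Perm X)) (t : Perm X) (𝒜 : Set (Perm X)) (hp : Parts T t 𝒜)
    (g : Perm X) (hg : g ∈ (T : Subgroup (Perm X))) (x : X) : g (t x) = t (g x) := by
  have h1 := hp.fix g hg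
  have h2 : g * t = t * g := by
    calc g * t = (g * t * g⁻¹) * g := by group
      _ = t * g := by rw [h1]
  exact congrArg (fun f : Perm X => f x) h2

theorem inv_C (T : Sylow 2 (Perm X)) (t : Perm X) (𝒜 : Set (Perm X)) (hp : Parts T t 𝒜)
    (g : Perm X) (hg : g ∈ (T : Subgroup (Perm X))) (x : X) : t (g x) = g x ↔ t x = x := by
  rw [← iv_comm T t 𝒜 hp g hg x]
  exact g.injective.eq_iff

theorem inv_B (T : Sylow 2 (Perm X)) (t : Perm X) (𝒜 : Set (Perm X)) (hp : Parts T t 𝒜)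
    (g : Perm X) (hg : g ∈ (T : Subgroup (Perm X))) (x : X) : g x ∈ OmB t 𝒜 ↔ x ∈ OmB t 𝒜 := by
  show (g x ∉ OmA 𝒜 ∧ t (g x) = g x) ↔ (x ∉ OmA 𝒜 ∧ t x = x)
  rw [inv_A T t 𝒜 hp g hg x, inv_C T t 𝒜 hp g hg x]

/-- `t` fixes `OmA 𝒜` pointwise -/
theorem t_fix_A (T : Sylow 2 (Perm X)) (t : Perm X) (𝒜 : Set (Perm X)) (hp : Parts T t 𝒜)
    (x : X) (hx : x ∈ OmA 𝒜) : t x = x := by
  obtain ⟨τ, hτ, hτx⟩ := hx
  by_contra htx
  have h1 : τ = t := swaps_disj T τ t (hp.sub hτ) hp.ht x hτx htx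
  exact hp.notMem (h1 ▸ hτ)

/-- an element of `T` maps a point moved by `t` to itself or to its `t`-image -/
theorem C_two (T : Sylow 2 (Perm X)) (t : Perm X) (𝒜 : Set (Perm X)) (hp : Parts T t 𝒜)
    (g : Perm X) (hg : g ∈ (T : Subgroup (Perm X))) (x : X) (hx : t x ≠ x) : g x = x ∨ g x = t x :=
  fix_or_swap hp.ht.2 (hp.fix g hg) hx

theorem t_comm (T : Sylow 2 (Perm X)) (t : Perm X) (𝒜 : Set (Perm X)) (hp : Parts T t 𝒜)
    (g : Perm X) (hg : g ∈ (T : Subgroup (Perm X))) (x : X) : g (t x) = t (g x) :=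
  iv_comm T t 𝒜 hp g hg x

/-- an even element of `T` fixing `OmA 𝒜` and `OmB t 𝒜` pointwise is trivial -/
theorem eq_one_of_fix (T : Sylow 2 (Perm X)) (t : Perm X) (𝒜 : Set (Perm X)) (hp : Parts T t 𝒜)
    (σ : Perm X) (hσ : σ ∈ PT (T : Subgroup (Perm X))) (hA : ∀ x ∈ OmA 𝒜, σ x = x)
    (hB : ∀ x ∈ OmB t 𝒜, σ x = x) : σ = 1 := by
  obtain ⟨hσT, hσs⟩ := (mem_PT _ σ).mp hσ
  have hfixall : ∀ x, t x = x → σ x = x := by
    intro x hx
    by_cases hxA : x ∈ OmA 𝒜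
    · exact hA x hxA
    · exact hB x ⟨hxA, hx⟩
  have hex : ∃ a, t a ≠ a := by
    obtain ⟨a, b, hab, ht⟩ := hp.ht.2
    exact ⟨a, by rw [ht, swap_apply_left]; exact hab.symm⟩
  obtain ⟨a, ha⟩ := hex
  rcases C_two T t 𝒜 hp σ hσT a ha with h1 | h1
  · ext x
    rw [Perm.one_apply]
    by_cases hx : t x = x
    · exact hfixall x hx
    · rcases moved_eq_or hp.ht.2 ha hx with rfl | rfl
      · exact h1
      · rw [iv_comm T t 𝒜 hp σ hσT a, h1]
  · exfalso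
    have hσt : σ = t := by
      ext x
      by_cases hx : t x = x
      · rw [hfixall x hx, hx]
      · rcases moved_eq_or hp.ht.2 ha hx with rfl | rfl
        · exact h1
        · rw [iv_comm T t 𝒜 hp σ hσT a, h1]
    rw [hσt, sign_swap' t hp.ht.2] at hσs
    exact absurd hσs (by decide)

end Cfsg.Agent.Lib.Helper45.S21
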