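import Mathlib
import Cfsg.Agent.Lib.Helper45.S21Inv

/-! S2221 piece DecA (project of helper45), filled by helper4.
Theorem names and statements are those of the placeholder; auxiliary lemmas have the prefix `da_`.
Paper proofs: see the note (topic "S2221"). -/

set_option autoImplicit false

namespace Cfsg.Agent.Lib.Helper45.S21

open Equiv Cfsg.Agent.Lib.Helper45

variable {X : Type} [Fintype X] [DecidableEq X]

/-- the product of two swaps of `T` is an even element of `T` -/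
theorem da_mul_mem_PT (T : Sylow 2 (Perm X)) (τ t : Perm X)
    (hτ : τ ∈ swapsIn (T : Subgroup (Perm X))) (ht : t ∈ swapsIn (T : Subgroup (Perm X))) :
    τ * t ∈ PT (T : Subgroup (Perm X)) := by
  rw [mem_PT]
  refine ⟨(T : Subgroup (Perm X)).mul_mem hτ.1 ht.1, ?_⟩
  rw [Perm.sign_mul, sign_swap' τ hτ.2, sign_swap' t ht.2]
  simp

/-- the product of two distinct swaps is not the identity -/
theorem da_mul_ne_one (τ t : Perm X) (ht : t.IsSwap) (hne : τ ≠ t) : τ * t ≠ 1 := by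
  intro h
  apply hne
  have h1 : τ = t⁻¹ := eq_inv_of_mul_eq_one_left h
  rw [h1, swap_inv' t ht]

theorem dec_comm (T : Sylow 2 (Perm X)) (t : Perm X) (𝒜 : Set (Perm X)) (hp : Parts T t 𝒜) :
    ∀ a ∈ fixSub (T : Subgroup (Perm X)) (OmB t 𝒜), ∀ b ∈ fixSub (T : Subgroup (Perm X)) (OmA 𝒜), a * b = b * a := by
  intro a ha b hb
  obtain ⟨haP, haB⟩ := ha
  obtain ⟨hbP, hbA⟩ := hb
  have haT : a ∈ (T : Subgroup (Perm X)) := ((mem_PT _ a).mp haP).1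
  have hbT : b ∈ (T : Subgroup (Perm X)) := ((mem_PT _ b).mp hbP).1
  ext x
  rw [Perm.mul_apply, Perm.mul_apply]
  by_cases hxA : x ∈ OmA 𝒜
  · have h1 : a x ∈ OmA 𝒜 := (inv_A T t 𝒜 hp a haT x).mpr hxA
    rw [hbA x hxA, hbA (a x) h1]
  · by_cases hxt : t x = x
    · have hxB : x ∈ OmB t 𝒜 := ⟨hxA, hxt⟩
      have h1 : b x ∈ OmB t 𝒜 := (inv_B T t 𝒜 hp b hbT x).mpr hxB
      rw [haB x hxB, haB (b x) h1]
    · have hta := t_comm T t 𝒜 hp a haT x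
      have htb := t_comm T t 𝒜 hp b hbT x
      rcases C_two T t 𝒜 hp a haT x hxt with h1 | h1 <;>
        rcases C_two T t 𝒜 hp b hbT x hxt with h2 | h2
      · rw [h2, h1, h2]
      · rw [h2, h1, hta, h1, h2]
      · rw [h2, h1, htb, h2]
      · rw [h2, h1, hta, htb, h1, h2]

theorem dec_inf (T : Sylow 2 (Perm X)) (t : Perm X) (𝒜 : Set (Perm X)) (hp : Parts T t 𝒜) :
    fixSub (T : Subgroup (Perm X)) (OmB t 𝒜) ⊓ fixSub (T : Subgroup (Perm X)) (OmA 𝒜) = ⊥ := by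
  rw [eq_bot_iff]
  intro σ hσ
  obtain ⟨⟨h1, h2⟩, ⟨-, h4⟩⟩ := Subgroup.mem_inf.mp hσ
  exact Subgroup.mem_bot.mpr (eq_one_of_fix T t 𝒜 hp σ h1 h4 h2)

theorem dec_ne₁ (T : Sylow 2 (Perm X)) (t : Perm X) (𝒜 : Set (Perm X)) (hp : Parts T t 𝒜) :
    fixSub (T : Subgroup (Perm X)) (OmB t 𝒜) ≠ ⊥ := by
  obtain ⟨τ, hτ⟩ := hp.ne
  have hτs := hp.sub hτ
  have hne : τ ≠ t := fun h => hp.notMem (h ▸ hτ)
  have hmem : τ * t ∈ fixSub (T : Subgroup (Perm X)) (OmB t 𝒜) := by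
    refine ⟨da_mul_mem_PT T τ t hτs hp.ht, fun x hx => ?_⟩
    obtain ⟨hxA, hxt⟩ := hx
    rw [Perm.mul_apply, hxt]
    by_contra hcon
    exact hxA ⟨τ, hτ, hcon⟩
  intro hbot
  rw [hbot, Subgroup.mem_bot] at hmem
  exact da_mul_ne_one τ t hp.ht.2 hne hmem

theorem dec_ne₂ (T : Sylow 2 (Perm X)) (t : Perm X) (𝒜 : Set (Perm X)) (hp : Parts T t 𝒜) :
    fixSub (T : Subgroup (Perm X)) (OmA 𝒜) ≠ ⊥ := by
  obtain ⟨τ', hτ's, hne, hτ'A⟩ := hp.ne'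
  have hmem : τ' * t ∈ fixSub (T : Subgroup (Perm X)) (OmA 𝒜) := by
    refine ⟨da_mul_mem_PT T τ' t hτ's hp.ht, fun x hx => ?_⟩
    rw [Perm.mul_apply, t_fix_A T t 𝒜 hp x hx]
    obtain ⟨τ, hτ, hτx⟩ := hx
    by_contra hcon
    have h1 : τ = τ' := swaps_disj T τ τ' (hp.sub hτ) hτ's x hτx hcon
    exact hτ'A (h1 ▸ hτ)
  intro hbot
  rw [hbot, Subgroup.mem_bot] at hmem
  exact da_mul_ne_one τ' t hp.ht.2 hne hmem

end Cfsg.Agent.Lib.Helper45.S21
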