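import Mathlib
import Cfsg.Agent.Lib.Helper45.S21A

/-! S2221 piece Res (project of helper45).
PLACEHOLDER: replace the `sorry`(s) in THIS file; keep theorem names and statements byte-identical;
keep the namespace; auxiliary lemmas go ABOVE the theorems and MUST start with the prefix `rs_`.
Paper proofs: see the note (topic "S2221"). -/

set_option autoImplicit false

namespace Cfsg.Agent.Lib.Helper45.S21

open Equiv Cfsg.Agent.Lib.Helper45

variable {X : Type} [Fintype X] [DecidableEq X]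

open Classical in
/-- the restriction homomorphism `g ↦ (g on Y, identity off Y)` -/
noncomputable def rs_hom (T : Subgroup (Perm X)) (Y : Set X)
    (hY : ∀ g ∈ T, ∀ x, g x ∈ Y ↔ x ∈ Y) : ↥T →* Perm X :=
  (Perm.ofSubtype (p := fun x => x ∈ Y)).comp
    { toFun := fun g => Perm.subtypePerm g.1 (hY g.1 g.2)
      map_one' := by ext x; rfl
      map_mul' := fun a b => by ext x; rfl }

theorem rs_hom_mem (T : Subgroup (Perm X)) (Y : Set X)
    (hY : ∀ g ∈ T, ∀ x, g x ∈ Y ↔ x ∈ Y) (g : ↥T) (x : X) (hx : x ∈ Y) :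
    rs_hom T Y hY g x = g.1 x := by
  classical
  unfold rs_hom
  simp only [MonoidHom.coe_comp, MonoidHom.coe_mk, OneHom.coe_mk, Function.comp_apply]
  rw [Perm.ofSubtype_apply_of_mem _ hx]
  rfl

theorem rs_hom_not_mem (T : Subgroup (Perm X)) (Y : Set X)
    (hY : ∀ g ∈ T, ∀ x, g x ∈ Y ↔ x ∈ Y) (g : ↥T) (x : X) (hx : x ∉ Y) :
    rs_hom T Y hY g x = x := by
  classical
  unfold rs_hom
  simp only [MonoidHom.coe_comp, MonoidHom.coe_mk, OneHom.coe_mk, Function.comp_apply]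
  exact Perm.ofSubtype_apply_of_not_mem _ hx

theorem rs_apply_inv (f : Perm X) (x : X) : f (f⁻¹ x) = x := by
  rw [← Perm.mul_apply, mul_inv_cancel, Perm.one_apply]

theorem rs_conj (T : Subgroup (Perm X)) (Y : Set X)
    (hY : ∀ g ∈ T, ∀ x, g x ∈ Y ↔ x ∈ Y) (t g : ↥T) :
    t.1 * rs_hom T Y hY g * t.1⁻¹ = rs_hom T Y hY (t * g * t⁻¹) := by
  ext x
  have hinv : (t.1⁻¹ x ∈ Y ↔ x ∈ Y) := by
    have := hY t.1 t.2 (t.1⁻¹ x)
    rw [rs_apply_inv] at this
    exact this.symm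
  by_cases hx : x ∈ Y
  · rw [rs_hom_mem T Y hY _ x hx, Perm.mul_apply, Perm.mul_apply,
      rs_hom_mem T Y hY _ _ (hinv.2 hx)]
    rfl
  · rw [rs_hom_not_mem T Y hY _ x hx, Perm.mul_apply, Perm.mul_apply,
      rs_hom_not_mem T Y hY _ _ (fun h => hx (hinv.1 h)), rs_apply_inv]

theorem rs_range_le (T : Sylow 2 (Perm X)) (Y : Set X)
    (hY : ∀ g ∈ (T : Subgroup (Perm X)), ∀ x, g x ∈ Y ↔ x ∈ Y) :
    (rs_hom (T : Subgroup (Perm X)) Y hY).range ≤ (T : Subgroup (Perm X)) := by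
  set R := (rs_hom (T : Subgroup (Perm X)) Y hY).range with hR
  have hRp : IsPGroup 2 R :=
    T.isPGroup'.of_surjective (rs_hom (T : Subgroup (Perm X)) Y hY).rangeRestrict
      (rs_hom (T : Subgroup (Perm X)) Y hY).rangeRestrict_surjective
  have hconj : ∀ t ∈ (T : Subgroup (Perm X)), ∀ r ∈ R, t * r * t⁻¹ ∈ R := by
    rintro t ht r ⟨g, rfl⟩
    exact ⟨(⟨t, ht⟩ : ↥(T : Subgroup (Perm X))) * g * (⟨t, ht⟩ : ↥(T : Subgroup (Perm X)))⁻¹,
      (rs_conj (T : Subgroup (Perm X)) Y hY ⟨t, ht⟩ g).symm⟩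
  have hnorm : (T : Subgroup (Perm X)) ≤ Subgroup.normalizer (R : Set (Perm X)) := by
    intro t ht
    rw [Subgroup.mem_normalizer_iff]
    intro r
    refine ⟨fun hr => hconj t ht r hr, fun hr => ?_⟩
    have := hconj t⁻¹ (inv_mem ht) _ hr
    simpa [mul_assoc] using this
  have hsup : IsPGroup 2 ((T : Subgroup (Perm X)) ⊔ R : Subgroup (Perm X)) :=
    IsPGroup.to_sup_of_normal_right' T.isPGroup' hRp hnorm
  have heq : (T : Subgroup (Perm X)) ⊔ R = (T : Subgroup (Perm X)) :=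
    T.is_maximal' hsup le_sup_left
  calc R ≤ (T : Subgroup (Perm X)) ⊔ R := le_sup_right
    _ = (T : Subgroup (Perm X)) := heq

/-- a Sylow 2-subgroup of `Perm X` is closed under restriction to an invariant set -/
theorem res_mem (T : Sylow 2 (Perm X)) (Y : Set X)
    (hY : ∀ g ∈ (T : Subgroup (Perm X)), ∀ x, g x ∈ Y ↔ x ∈ Y) (g : Perm X) (hg : g ∈ (T : Subgroup (Perm X))) :
    ∃ g' ∈ (T : Subgroup (Perm X)), (∀ x ∈ Y, g' x = g x) ∧ (∀ x, x ∉ Y → g' x = x) := by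
  refine ⟨rs_hom (T : Subgroup (Perm X)) Y hY ⟨g, hg⟩,
    rs_range_le T Y hY ⟨⟨g, hg⟩, rfl⟩, fun x hx => ?_, fun x hx => ?_⟩
  · exact rs_hom_mem (T : Subgroup (Perm X)) Y hY ⟨g, hg⟩ x hx
  · exact rs_hom_not_mem (T : Subgroup (Perm X)) Y hY ⟨g, hg⟩ x hx

end Cfsg.Agent.Lib.Helper45.S21
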