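import Mathlib
import Cfsg.Agent.Lib.Helper45.S21Inv
import Cfsg.Agent.Lib.Helper45.S21Res

/-! S2221 piece DecB (project of helper45; proof by helper21).
Auxiliary lemmas start with the prefix `db_`.
Paper proofs: see the note (topic "S2221"). -/

set_option autoImplicit false

namespace Cfsg.Agent.Lib.Helper45.S21

open Equiv Cfsg.Agent.Lib.Helper45

variable {X : Type} [Fintype X] [DecidableEq X]

/-- an element of `T`, possibly multiplied by the swap `t`, is even -/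
theorem db_even (T : Sylow 2 (Perm X)) (t : Perm X)
    (ht : t ∈ swapsIn (T : Subgroup (Perm X))) (h : Perm X)
    (hh : h ∈ (T : Subgroup (Perm X))) :
    ∃ a ∈ PT (T : Subgroup (Perm X)), ∀ x, t x = x → a x = h x := by
  rcases Int.units_eq_one_or (Perm.sign h) with hs | hs
  · exact ⟨h, (mem_PT _ _).2 ⟨hh, hs⟩, fun x _ => rfl⟩
  · refine ⟨h * t, (mem_PT _ _).2 ⟨Subgroup.mul_mem _ hh ht.1, ?_⟩, fun x hx => ?_⟩
    · rw [Perm.sign_mul, hs, sign_swap' t ht.2]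
      rfl
    · rw [Perm.mul_apply, hx]

theorem dec_sup (T : Sylow 2 (Perm X)) (t : Perm X) (𝒜 : Set (Perm X)) (hp : Parts T t 𝒜) :
    fixSub (T : Subgroup (Perm X)) (OmB t 𝒜) ⊔ fixSub (T : Subgroup (Perm X)) (OmA 𝒜) = PT (T : Subgroup (Perm X)) := by
  apply le_antisymm
  · apply sup_le
    · intro σ hσ
      exact hσ.1
    · intro σ hσ
      exact hσ.1
  · intro g hg
    have hgT : g ∈ (T : Subgroup (Perm X)) := ((mem_PT _ _).1 hg).1
    obtain ⟨gA, hgA, hgA1, hgA2⟩ := res_mem T (OmA 𝒜) (inv_A T t 𝒜 hp) g hgT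
    obtain ⟨gB, hgB, hgB1, hgB2⟩ := res_mem T (OmB t 𝒜) (inv_B T t 𝒜 hp) g hgT
    obtain ⟨a, haP, ha⟩ := db_even T t hp.ht gA hgA
    obtain ⟨b, hbP, hb⟩ := db_even T t hp.ht gB hgB
    have hOmB_t : ∀ x ∈ OmB t 𝒜, t x = x := fun x hx => hx.2
    have hOmB_notA : ∀ x ∈ OmB t 𝒜, x ∉ OmA 𝒜 := fun x hx => hx.1
    have hOmA_notB : ∀ x ∈ OmA 𝒜, x ∉ OmB t 𝒜 := fun x hx hx' => hx'.1 hx
    have hOmA_t : ∀ x ∈ OmA 𝒜, t x = x := fun x hx => t_fix_A T t 𝒜 hp x hx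
    have haA : ∀ x ∈ OmA 𝒜, a x = g x := fun x hx => by
      rw [ha x (hOmA_t x hx), hgA1 x hx]
    have haB : ∀ x ∈ OmB t 𝒜, a x = x := fun x hx => by
      rw [ha x (hOmB_t x hx), hgA2 x (hOmB_notA x hx)]
    have hbB : ∀ x ∈ OmB t 𝒜, b x = g x := fun x hx => by
      rw [hb x (hOmB_t x hx), hgB1 x hx]
    have hbA : ∀ x ∈ OmA 𝒜, b x = x := fun x hx => by
      rw [hb x (hOmA_t x hx), hgB2 x (hOmA_notB x hx)]
    have hamem : a ∈ fixSub (T : Subgroup (Perm X)) (OmB t 𝒜) := ⟨haP, haB⟩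
    have hbmem : b ∈ fixSub (T : Subgroup (Perm X)) (OmA 𝒜) := ⟨hbP, hbA⟩
    have hc : (a * b)⁻¹ * g = 1 := by
      apply eq_one_of_fix T t 𝒜 hp
      · exact Subgroup.mul_mem _ (Subgroup.inv_mem _ (Subgroup.mul_mem _ haP hbP)) hg
      · intro x hx
        rw [Perm.mul_apply, Perm.inv_eq_iff_eq, Perm.mul_apply, hbA x hx, haA x hx]
      · intro x hx
        have hgx : g x ∈ OmB t 𝒜 := (inv_B T t 𝒜 hp g hgT x).2 hx
        rw [Perm.mul_apply, Perm.inv_eq_iff_eq, Perm.mul_apply, hbB x hx, haB _ hgx]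
    rw [inv_mul_eq_one] at hc
    rw [← hc]
    exact Subgroup.mul_mem_sup hamem hbmem

end Cfsg.Agent.Lib.Helper45.S21
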