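import Mathlib
import Cfsg.Agent.Lib.Helper45.S21A

/-! S2221 piece Dp (project of helper45; filled by helper64): general lemmas on internal direct
products. -/

set_option autoImplicit false

namespace Cfsg.Agent.Lib.Helper45.S21

open Equiv Cfsg.Agent.Lib.Helper45

variable {X : Type} [Fintype X] [DecidableEq X]

/-- the set of products `a * b` (for elementwise commuting subgroups) as a subgroup -/
def dp_prod {G : Type*} [Group G] (S₁ S₂ : Subgroup G)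
    (hc : ∀ a ∈ S₁, ∀ b ∈ S₂, a * b = b * a) : Subgroup G where
  carrier := {g | ∃ a ∈ S₁, ∃ b ∈ S₂, g = a * b}
  mul_mem' := by
    rintro _ _ ⟨a, ha, b, hb, rfl⟩ ⟨a', ha', b', hb', rfl⟩
    refine ⟨a * a', S₁.mul_mem ha ha', b * b', S₂.mul_mem hb hb', ?_⟩
    have h := hc a' ha' b hb
    calc a * b * (a' * b') = a * (b * a') * b' := by group
      _ = a * (a' * b) * b' := by rw [h]
      _ = a * a' * (b * b') := by group
  one_mem' := ⟨1, S₁.one_mem, 1, S₂.one_mem, by simp⟩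
  inv_mem' := by
    rintro _ ⟨a, ha, b, hb, rfl⟩
    refine ⟨a⁻¹, S₁.inv_mem ha, b⁻¹, S₂.inv_mem hb, ?_⟩
    have h := hc a⁻¹ (S₁.inv_mem ha) b⁻¹ (S₂.inv_mem hb)
    rw [mul_inv_rev, h]

theorem dp_exists {G : Type*} [Group G] (S₁ S₂ P : Subgroup G)
    (h : Cfsg.IsInternalDirectProduct S₁ S₂ P) (g : G) (hg : g ∈ P) :
    ∃ a ∈ S₁, ∃ b ∈ S₂, g = a * b := by
  obtain ⟨-, -, hc, -, hsup⟩ := h
  have h1 : S₁ ≤ dp_prod S₁ S₂ hc := fun a ha => ⟨a, ha, 1, S₂.one_mem, by simp⟩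
  have h2 : S₂ ≤ dp_prod S₁ S₂ hc := fun b hb => ⟨1, S₁.one_mem, b, hb, by simp⟩
  have h3 : P ≤ dp_prod S₁ S₂ hc := hsup ▸ sup_le h1 h2
  exact h3 hg

theorem dp_unique {G : Type*} [Group G] (S₁ S₂ P : Subgroup G)
    (h : Cfsg.IsInternalDirectProduct S₁ S₂ P) (a a' b b' : G) (ha : a ∈ S₁) (ha' : a' ∈ S₁)
    (hb : b ∈ S₂) (hb' : b' ∈ S₂) (he : a * b = a' * b') : a = a' ∧ b = b' := by
  obtain ⟨-, -, -, hinf, -⟩ := h
  have h1 : a'⁻¹ * a = b' * b⁻¹ := by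
    calc a'⁻¹ * a = a'⁻¹ * (a * b) * b⁻¹ := by group
      _ = a'⁻¹ * (a' * b') * b⁻¹ := by rw [he]
      _ = b' * b⁻¹ := by group
  have h2 : a'⁻¹ * a ∈ S₁ ⊓ S₂ :=
    Subgroup.mem_inf.2 ⟨S₁.mul_mem (S₁.inv_mem ha') ha, h1 ▸ S₂.mul_mem hb' (S₂.inv_mem hb)⟩
  rw [hinf, Subgroup.mem_bot] at h2
  have h3 : a = a' := by
    calc a = a' * (a'⁻¹ * a) := by group
      _ = a' := by rw [h2, mul_one]
  refine ⟨h3, ?_⟩
  subst h3
  exact mul_left_cancel he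

theorem dp_normal {G : Type*} [Group G] (S₁ S₂ P : Subgroup G)
    (h : Cfsg.IsInternalDirectProduct S₁ S₂ P) (g x : G) (hg : g ∈ P) (hx : x ∈ S₁) :
    g * x * g⁻¹ ∈ S₁ := by
  obtain ⟨a, ha, b, hb, rfl⟩ := dp_exists S₁ S₂ P h g hg
  obtain ⟨-, -, hc, -, -⟩ := h
  have h1 := hc x hx b hb
  have h2 : a * b * x * (a * b)⁻¹ = a * x * a⁻¹ := by
    calc a * b * x * (a * b)⁻¹ = a * (b * x) * b⁻¹ * a⁻¹ := by group
      _ = a * (x * b) * b⁻¹ * a⁻¹ := by rw [h1]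
      _ = a * x * a⁻¹ := by group
  rw [h2]
  exact S₁.mul_mem (S₁.mul_mem ha hx) (S₁.inv_mem ha)

theorem dp_symm {G : Type*} [Group G] (S₁ S₂ P : Subgroup G)
    (h : Cfsg.IsInternalDirectProduct S₁ S₂ P) : Cfsg.IsInternalDirectProduct S₂ S₁ P := by
  obtain ⟨h1, h2, hc, hinf, hsup⟩ := h
  exact ⟨h2, h1, fun a ha b hb => (hc b hb a ha).symm, by rw [inf_comm]; exact hinf,
    by rw [sup_comm]; exact hsup⟩

theorem Dec.symm {T : Sylow 2 (Perm X)} {S₁ S₂ : Subgroup (Perm X)} (h : Dec T S₁ S₂) :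
    Dec T S₂ S₁ := by
  exact ⟨h.h6, dp_symm _ _ _ h.dp⟩

end Cfsg.Agent.Lib.Helper45.S21
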