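import Mathlib
import Cfsg.Agent.Lib.Helper45.S21Dp
import Cfsg.Agent.Lib.Helper45.S21Cent
import Cfsg.Agent.Lib.Helper45.S21Comm

/-! S2221 piece Split (project of helper45).
PLACEHOLDER: replace the `sorry`(s) in THIS file; keep theorem names and statements byte-identical;
keep the namespace; auxiliary lemmas go ABOVE the theorems and MUST start with the prefix `sp_`.
Paper proofs: see the note (topic "S2221"). -/

set_option autoImplicit false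

namespace Cfsg.Agent.Lib.Helper45.S21

open Equiv Cfsg.Agent.Lib.Helper45

variable {X : Type} [Fintype X] [DecidableEq X]

theorem sp_mem_PT_of_E0 (T : Subgroup (Perm X)) {v : Perm X} (hv : v ∈ E0 T) : v ∈ PT T := by
  rw [mem_E0] at hv
  rw [mem_PT]
  exact hv.1

theorem sp_mem_E0_of (T : Sylow 2 (Perm X)) (h6 : 6 ≤ Fintype.card X) {a : Perm X}
    (ha : a ∈ PT (T : Subgroup (Perm X)))
    (hc : ∀ v ∈ E0 (T : Subgroup (Perm X)), a * v = v * a) :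
    a ∈ E0 (T : Subgroup (Perm X)) := by
  rw [mem_E0]
  exact ⟨(mem_PT _ _).mp ha, cent_E0 T h6 a hc⟩

/-- `E0 T = (E0 T ⊓ S₁) × (E0 T ⊓ S₂)` -/
theorem E0_split (T : Sylow 2 (Perm X)) (S₁ S₂ : Subgroup (Perm X)) (hd : Dec T S₁ S₂)
    (e : Perm X) (he : e ∈ E0 (T : Subgroup (Perm X))) :
    ∃ a ∈ E0 (T : Subgroup (Perm X)) ⊓ S₁, ∃ b ∈ E0 (T : Subgroup (Perm X)) ⊓ S₂, e = a * b := by
  obtain ⟨h6, dp⟩ := hd
  have hdp := dp
  obtain ⟨h1, h2, hcomm, hinf, hsup⟩ := dp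
  have heP : e ∈ PT (T : Subgroup (Perm X)) := sp_mem_PT_of_E0 _ he
  obtain ⟨a, ha, b, hb, hab⟩ := dp_exists S₁ S₂ _ hdp e heP
  have hecent := ((mem_E0 _ _).mp he).2
  have key : ∀ f ∈ E0 (T : Subgroup (Perm X)), a * f = f * a ∧ b * f = f * b := by
    intro f hf
    have hfP := sp_mem_PT_of_E0 _ hf
    obtain ⟨f₁, hf₁, f₂, hf₂, hff⟩ := dp_exists S₁ S₂ _ hdp f hfP
    have hef : e * f = f * e := E0_comm T e f hecent ((mem_E0 _ _).mp hf).2
    have h3 : (a * f₁) * (b * f₂) = (f₁ * a) * (f₂ * b) := by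
      have e1 : (a * f₁) * (b * f₂) = e * f := by
        rw [hab, hff]
        have hc1 := hcomm f₁ hf₁ b hb
        calc a * f₁ * (b * f₂) = a * (f₁ * b) * f₂ := by group
          _ = a * (b * f₁) * f₂ := by rw [hc1]
          _ = a * b * (f₁ * f₂) := by group
      have e2 : (f₁ * a) * (f₂ * b) = f * e := by
        rw [hab, hff]
        have hc2 := hcomm a ha f₂ hf₂
        calc f₁ * a * (f₂ * b) = f₁ * (a * f₂) * b := by group
          _ = f₁ * (f₂ * a) * b := by rw [hc2]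
          _ = f₁ * f₂ * (a * b) := by group
      rw [e1, e2, hef]
    obtain ⟨h4, h5⟩ := dp_unique S₁ S₂ _ hdp (a * f₁) (f₁ * a) (b * f₂) (f₂ * b)
      (S₁.mul_mem ha hf₁) (S₁.mul_mem hf₁ ha) (S₂.mul_mem hb hf₂) (S₂.mul_mem hf₂ hb) h3
    constructor
    · rw [hff]
      have hc2 := hcomm a ha f₂ hf₂
      calc a * (f₁ * f₂) = (a * f₁) * f₂ := by group
        _ = (f₁ * a) * f₂ := by rw [h4]
        _ = f₁ * (a * f₂) := by group
        _ = f₁ * (f₂ * a) := by rw [hc2]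
        _ = f₁ * f₂ * a := by group
    · rw [hff]
      have hc1 := hcomm f₁ hf₁ b hb
      calc b * (f₁ * f₂) = (b * f₁) * f₂ := by group
        _ = (f₁ * b) * f₂ := by rw [hc1]
        _ = f₁ * (b * f₂) := by group
        _ = f₁ * (f₂ * b) := by rw [h5]
        _ = f₁ * f₂ * b := by group
  exact ⟨a, Subgroup.mem_inf.mpr ⟨sp_mem_E0_of T h6 (h1 ha) (fun v hv => (key v hv).1), ha⟩, b,
    Subgroup.mem_inf.mpr ⟨sp_mem_E0_of T h6 (h2 hb) (fun v hv => (key v hv).2), hb⟩, hab⟩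

theorem A_ne_bot (T : Sylow 2 (Perm X)) (S₁ S₂ : Subgroup (Perm X)) (hd : Dec T S₁ S₂)
    (h1 : S₁ ≠ ⊥) : E0 (T : Subgroup (Perm X)) ⊓ S₁ ≠ ⊥ := by
  intro hbot
  obtain ⟨h6, dp⟩ := hd
  have hdp := dp
  obtain ⟨h1', h2, hcomm, hinf, hsup⟩ := dp
  apply h1
  rw [eq_bot_iff]
  intro s hs
  have hsP : s ∈ PT (T : Subgroup (Perm X)) := h1' hs
  have hsT : s ∈ (T : Subgroup (Perm X)) := ((mem_PT _ _).mp hsP).1
  have hc : ∀ v ∈ E0 (T : Subgroup (Perm X)), s * v = v * s := by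
    intro v hv
    have hvP := sp_mem_PT_of_E0 _ hv
    have hm1 : s * (v * s⁻¹ * v⁻¹) ∈ S₁ :=
      S₁.mul_mem hs (dp_normal S₁ S₂ _ hdp v s⁻¹ hvP (S₁.inv_mem hs))
    have hm2 : (s * v * s⁻¹) * v⁻¹ ∈ E0 (T : Subgroup (Perm X)) :=
      (E0 _).mul_mem (E0_conj T s v hsT hv) ((E0 _).inv_mem hv)
    have hm : s * v * s⁻¹ * v⁻¹ ∈ E0 (T : Subgroup (Perm X)) ⊓ S₁ := by
      refine Subgroup.mem_inf.mpr ⟨hm2, ?_⟩
      have e1 : s * v * s⁻¹ * v⁻¹ = s * (v * s⁻¹ * v⁻¹) := by group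
      rw [e1]
      exact hm1
    rw [hbot, Subgroup.mem_bot] at hm
    calc s * v = (s * v * s⁻¹ * v⁻¹) * (v * s) := by group
      _ = v * s := by rw [hm, one_mul]
  have hsE : s ∈ E0 (T : Subgroup (Perm X)) := sp_mem_E0_of T h6 hsP hc
  have hs2 : s ∈ E0 (T : Subgroup (Perm X)) ⊓ S₁ := Subgroup.mem_inf.mpr ⟨hsE, hs⟩
  rw [hbot] at hs2
  exact hs2

end Cfsg.Agent.Lib.Helper45.S21
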