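import Mathlib
import Cfsg.Agent.Lib.Helper45.S21Split
import Cfsg.Agent.Lib.Helper45.S21Conj

/-! S2221 piece Dich (project of helper45).
PLACEHOLDER: replace the `sorry`(s) in THIS file; keep theorem names and statements byte-identical;
keep the namespace; auxiliary lemmas go ABOVE the theorems and MUST start with the prefix `di_`.
Paper proofs: see the note (topic "S2221"). -/

set_option autoImplicit false

namespace Cfsg.Agent.Lib.Helper45.S21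

open Equiv Cfsg.Agent.Lib.Helper45

variable {X : Type} [Fintype X] [DecidableEq X]

/-- `τ * ρ τ ≠ 1` for a non-fixed swap -/
theorem di_u_ne_one (T : Sylow 2 (Perm X)) (ρ : Perm X → Perm X)
    (τ : Perm X) (hτ : τ ∈ swapsIn (T : Subgroup (Perm X))) (hne : ρ τ ≠ τ) :
    τ * ρ τ ≠ 1 := by
  intro h
  apply hne
  have h1 : ρ τ = τ⁻¹ := by
    rw [eq_inv_iff_mul_eq_one, ← h]
    have : τ * (τ * ρ τ) = ρ τ := by
      rw [← mul_assoc, swap_sq τ hτ.2, one_mul]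
    rw [h, mul_one] at this
    rw [h, ← this, swap_sq τ hτ.2]
  rw [h1, swap_inv' τ hτ.2]

/-- an even conjugator for a `ρ`-pair -/
theorem exists_even_conj (T : Sylow 2 (Perm X)) (ρ : Perm X → Perm X) (hρ : Pairing T ρ)
    (τ : Perm X) (hτ : τ ∈ swapsIn (T : Subgroup (Perm X))) (hne : ρ τ ≠ τ) :
    ∃ h ∈ PT (T : Subgroup (Perm X)), h * τ * h⁻¹ = ρ τ ∧ h * ρ τ * h⁻¹ = τ ∧
      ∀ σ ∈ swapsIn (T : Subgroup (Perm X)), σ ≠ τ → σ ≠ ρ τ → h * σ * h⁻¹ = σ := by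
  obtain ⟨h, hT, h1, h2, h3⟩ := hρ.conj τ hτ hne
  rcases Int.units_eq_one_or (Perm.sign h) with hs | hs
  · exact ⟨h, (mem_PT _ h).mpr ⟨hT, hs⟩, h1, h2, h3⟩
  · have hρτ : ρ τ ∈ swapsIn (T : Subgroup (Perm X)) := hρ.mem τ hτ
    refine ⟨h * τ, (mem_PT _ _).mpr ⟨(T : Subgroup (Perm X)).mul_mem hT hτ.1, ?_⟩, ?_, ?_, ?_⟩
    · rw [Perm.sign_mul, hs, sign_swap' τ hτ.2]; rfl
    · have : h * τ * τ * (h * τ)⁻¹ = h * (τ * τ * τ⁻¹) * h⁻¹ := by group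
      rw [this, swap_cent T τ τ hτ hτ, h1]
    · have : h * τ * ρ τ * (h * τ)⁻¹ = h * (τ * ρ τ * τ⁻¹) * h⁻¹ := by group
      rw [this, swap_cent T τ (ρ τ) hτ hρτ, h2]
    · intro σ hσ hσ1 hσ2
      have : h * τ * σ * (h * τ)⁻¹ = h * (τ * σ * τ⁻¹) * h⁻¹ := by group
      rw [this, swap_cent T τ σ hτ hσ, h3 σ hσ hσ1 hσ2]

/-- the conjugate of an element of `E0 T ⊓ S₂` not balanced on the pair gives `τ * ρ τ ∈ S₂` -/
theorem di_mem_of_unbal (T : Sylow 2 (Perm X)) (ρ : Perm X → Perm X) (hρ : Pairing T ρ)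
    (S₁ S₂ : Subgroup (Perm X)) (hd : Dec T S₁ S₂) (τ : Perm X) (hτ : τ ∈ swapsIn (T : Subgroup (Perm X))) (hne : ρ τ ≠ τ)
    (v : Perm X) (hv : v ∈ E0 (T : Subgroup (Perm X)) ⊓ S₁)
    (hunb : ¬ (Mv v τ ↔ Mv v (ρ τ))) :
    τ * ρ τ ∈ E0 (T : Subgroup (Perm X)) ⊓ S₁ := by
  obtain ⟨h, hPT, h1, h2, h3⟩ := exists_even_conj T ρ hρ τ hτ hne
  have hρτ : ρ τ ∈ swapsIn (T : Subgroup (Perm X)) := hρ.mem τ hτ
  have hvE : v ∈ E0 (T : Subgroup (Perm X)) := (Subgroup.mem_inf.mp hv).1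
  have hvS : v ∈ S₁ := (Subgroup.mem_inf.mp hv).2
  have hvc := ((mem_E0 _ v).mp hvE).2
  have hhT : h ∈ (T : Subgroup (Perm X)) := ((mem_PT _ h).mp hPT).1
  have hce := (conj_eq T τ (ρ τ) h v hτ hρτ (Ne.symm hne) h1 h2 h3 hvc).2 hunb
  have hE : h * v * h⁻¹ ∈ E0 (T : Subgroup (Perm X)) := E0_conj T h v hhT hvE
  have hS : h * v * h⁻¹ ∈ S₁ := dp_normal S₁ S₂ _ hd.dp h v hPT hvS
  have hu : τ * ρ τ = v⁻¹ * (h * v * h⁻¹) := by rw [hce]; group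
  rw [hu]
  exact Subgroup.mem_inf.mpr ⟨Subgroup.mul_mem _ (Subgroup.inv_mem _ hvE) hE,
    Subgroup.mul_mem _ (Subgroup.inv_mem _ hvS) hS⟩

/-- every double transposition `τ * ρ τ` lies in `E0 T ⊓ S₁` or in `E0 T ⊓ S₂` -/
theorem block_dich (T : Sylow 2 (Perm X)) (ρ : Perm X → Perm X) (hρ : Pairing T ρ)
    (S₁ S₂ : Subgroup (Perm X)) (hd : Dec T S₁ S₂) (τ : Perm X) (hτ : τ ∈ swapsIn (T : Subgroup (Perm X))) (hne : ρ τ ≠ τ) :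
    τ * ρ τ ∈ E0 (T : Subgroup (Perm X)) ⊓ S₁ ∨ τ * ρ τ ∈ E0 (T : Subgroup (Perm X)) ⊓ S₂ := by
  by_contra hcon
  rw [not_or] at hcon
  obtain ⟨hc1, hc2⟩ := hcon
  have hρτ : ρ τ ∈ swapsIn (T : Subgroup (Perm X)) := hρ.mem τ hτ
  obtain ⟨h, hPT, h1, h2, h3⟩ := exists_even_conj T ρ hρ τ hτ hne
  -- elements of `E0 ⊓ Sᵢ` are balanced
  have hb1 : ∀ v ∈ E0 (T : Subgroup (Perm X)) ⊓ S₁, (Mv v τ ↔ Mv v (ρ τ)) := by
    intro v hv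
    by_contra hunb
    exact hc1 (di_mem_of_unbal T ρ hρ S₁ S₂ hd τ hτ hne v hv hunb)
  have hb2 : ∀ v ∈ E0 (T : Subgroup (Perm X)) ⊓ S₂, (Mv v τ ↔ Mv v (ρ τ)) := by
    intro v hv
    by_contra hunb
    exact hc2 (di_mem_of_unbal T ρ hρ S₂ S₁ hd.symm τ hτ hne v hv hunb)
  -- a third swap
  obtain ⟨σ, hσ, hσ1, hσ2⟩ := exists_third T hd.h6 τ (ρ τ)
  have hvE : τ * σ ∈ E0 (T : Subgroup (Perm X)) := mul_swaps_mem T τ σ hτ hσ (Ne.symm hσ1)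
  obtain ⟨a, ha, b, hb, hab⟩ := E0_split T S₁ S₂ hd (τ * σ) hvE
  have hac := ((mem_E0 _ a).mp (Subgroup.mem_inf.mp ha).1).2
  have hbc := ((mem_E0 _ b).mp (Subgroup.mem_inf.mp hb).1).2
  have hτc : ∀ σ' ∈ swapsIn (T : Subgroup (Perm X)), τ * σ' * τ⁻¹ = σ' :=
    fun σ' hσ' => swap_cent T τ σ' hτ hσ'
  have hσc : ∀ σ' ∈ swapsIn (T : Subgroup (Perm X)), σ * σ' * σ⁻¹ = σ' :=
    fun σ' hσ' => swap_cent T σ σ' hσ hσ'
  -- `τ * σ` moves `τ` but not `ρ τ`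
  have hm1 : Mv (τ * σ) τ := by
    rw [mv_mul T τ σ τ hτ hτc hσc, mv_swap T τ τ hτ hτ, mv_swap T σ τ hσ hτ]
    intro hiff
    exact hσ1 (hiff.mp rfl).symm
  have hm2 : ¬ Mv (τ * σ) (ρ τ) := by
    rw [mv_mul T τ σ (ρ τ) hρτ hτc hσc, mv_swap T τ (ρ τ) hτ hρτ, mv_swap T σ (ρ τ) hσ hρτ]
    intro hiff
    apply hiff
    constructor
    · intro h'; exact absurd h' hne
    · intro h'; exact absurd h'.symm hσ2
  -- but `a * b` is balanced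
  have hm3 : Mv (a * b) τ ↔ Mv (a * b) (ρ τ) := by
    rw [mv_mul T a b τ hτ hac hbc, mv_mul T a b (ρ τ) hρτ hac hbc, hb1 a ha, hb2 b hb]
  rw [hab] at hm1 hm2
  exact hm2 (hm3.mp hm1)

/-- if `τ * ρ τ ∈ S₁` then the elements of `E0 T ⊓ S₂` are balanced on the pair `τ, ρ τ` -/
theorem bal_of_mem (T : Sylow 2 (Perm X)) (ρ : Perm X → Perm X) (hρ : Pairing T ρ)
    (S₁ S₂ : Subgroup (Perm X)) (hd : Dec T S₁ S₂) (τ : Perm X) (hτ : τ ∈ swapsIn (T : Subgroup (Perm X))) (hne : ρ τ ≠ τ)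
    (hu : τ * ρ τ ∈ E0 (T : Subgroup (Perm X)) ⊓ S₁) (v : Perm X) (hv : v ∈ E0 (T : Subgroup (Perm X)) ⊓ S₂) :
    (Mv v τ ↔ Mv v (ρ τ)) := by
  by_contra hunb
  have h2 := di_mem_of_unbal T ρ hρ S₂ S₁ hd.symm τ hτ hne v hv hunb
  have h3 : τ * ρ τ ∈ S₁ ⊓ S₂ :=
    Subgroup.mem_inf.mpr ⟨(Subgroup.mem_inf.mp hu).2, (Subgroup.mem_inf.mp h2).2⟩
  rw [hd.dp.2.2.2.1, Subgroup.mem_bot] at h3
  exact di_u_ne_one T ρ τ hτ hne h3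

end Cfsg.Agent.Lib.Helper45.S21
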