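import Mathlib
import Cfsg.Agent.Lib.Helper45.S21Dich
import Cfsg.Agent.Lib.Helper45.S21Bal

/-! S2221 piece Final (project of helper45; filled by helper85).
Paper proofs: see the note (topic "S2221"). -/

set_option autoImplicit false

namespace Cfsg.Agent.Lib.Helper45.S21

open Equiv Cfsg.Agent.Lib.Helper45

variable {X : Type} [Fintype X] [DecidableEq X]

/-- if all double transpositions `τ * ρ τ` lie in `S₁` then `E0 T ⊓ S₂` is trivial -/
theorem final_step (T : Sylow 2 (Perm X)) (ρ : Perm X → Perm X) (hρ : Pairing T ρ)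
    (S₁ S₂ : Subgroup (Perm X)) (hd : Dec T S₁ S₂)
    (hall : ∀ τ ∈ swapsIn (T : Subgroup (Perm X)), ρ τ ≠ τ → τ * ρ τ ∈ E0 (T : Subgroup (Perm X)) ⊓ S₁) :
    E0 (T : Subgroup (Perm X)) ⊓ S₂ = ⊥ := by
  classical
  rw [eq_bot_iff]
  intro f hf
  rw [Subgroup.mem_bot]
  have hfE : f ∈ E0 (T : Subgroup (Perm X)) := hf.1
  have hfS2 : f ∈ S₂ := hf.2
  obtain ⟨⟨hfT, hfsign⟩, hfc⟩ := (mem_E0 _ f).1 hfE
  have hbalf : ∀ τ ∈ swapsIn (T : Subgroup (Perm X)), (Mv f τ ↔ Mv f (ρ τ)) := by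
    intro τ hτ
    by_cases hne : ρ τ = τ
    · rw [hne]
    · exact bal_of_mem T ρ hρ S₁ S₂ hd τ hτ hne (hall τ hτ hne) f hf
  have hcl : Subgroup.closure {u : Perm X | ∃ τ ∈ swapsIn (T : Subgroup (Perm X)),
      ρ τ ≠ τ ∧ u = τ * ρ τ} ≤ E0 (T : Subgroup (Perm X)) ⊓ S₁ := by
    rw [Subgroup.closure_le]
    rintro u ⟨τ, hτ, hne, rfl⟩
    exact hall τ hτ hne
  obtain ⟨-, -, -, hinf, -⟩ := hd.dp
  by_cases hcase : ∀ τ ∈ swapsIn (T : Subgroup (Perm X)), ρ τ = τ → ¬ Mv f τ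
  · have hmem := balanced_mem T ρ hρ.mem hρ.invol f hfc hbalf hcase
    have hf1 : f ∈ S₁ := (hcl hmem).2
    have h12 : f ∈ S₁ ⊓ S₂ := ⟨hf1, hfS2⟩
    rw [hinf] at h12
    exact Subgroup.mem_bot.1 h12
  · exfalso
    have hcase' : ∃ t ∈ swapsIn (T : Subgroup (Perm X)), ρ t = t ∧ Mv f t := by
      by_contra h
      apply hcase
      intro τ hτ hfix hmv
      exact h ⟨τ, hτ, hfix, hmv⟩
    obtain ⟨t, ht, hρt, hmvt⟩ := hcase'
    have htc : ∀ σ ∈ swapsIn (T : Subgroup (Perm X)), t * σ * t⁻¹ = σ :=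
      fun σ hσ => swap_cent T t σ ht hσ
    have hf'c := cent_mul T f t hfc htc
    have hmv' : ∀ σ ∈ swapsIn (T : Subgroup (Perm X)), (Mv (f * t) σ ↔ ¬ (Mv f σ ↔ σ = t)) := by
      intro σ hσ
      rw [mv_mul T f t σ hσ hfc htc, mv_swap T t σ ht hσ]
    have hbal' : ∀ τ ∈ swapsIn (T : Subgroup (Perm X)), (Mv (f * t) τ ↔ Mv (f * t) (ρ τ)) := by
      intro τ hτ
      by_cases hne : ρ τ = τ
      · rw [hne]
      · have h1 : τ ≠ t := by
          rintro rfl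
          exact hne hρt
        have h2 : ρ τ ≠ t := by
          intro h
          have h3 := hρ.invol τ hτ
          rw [h, hρt] at h3
          exact h1 h3.symm
        rw [hmv' τ hτ, hmv' (ρ τ) (hρ.mem τ hτ)]
        have h4 := hbalf τ hτ
        tauto
    have hfix' : ∀ τ ∈ swapsIn (T : Subgroup (Perm X)), ρ τ = τ → ¬ Mv (f * t) τ := by
      intro τ hτ hfix
      have h5 : τ = t := hρ.fix_unique τ hτ t ht hfix hρt
      rw [hmv' τ hτ, h5]
      intro h6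
      exact h6 ⟨fun _ => rfl, fun _ => hmvt⟩
    have hmem := balanced_mem T ρ hρ.mem hρ.invol (f * t) hf'c hbal' hfix'
    have hs := sign_of_mem_closure T ρ hρ.mem (f * t) hmem
    rw [map_mul, hfsign, sign_swap' t ht.2] at hs
    exact absurd hs (by decide)

end Cfsg.Agent.Lib.Helper45.S21
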