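import Mathlib
import Cfsg.Agent.Lib.Helper45.S21Dich
import Cfsg.Agent.Lib.Helper45.S21Bal

/-! S2221 piece OneSide (project of helper45): all double transpositions `τ * ρ τ` lie on the same side. -/

set_option autoImplicit false

namespace Cfsg.Agent.Lib.Helper45.S21

open Equiv Cfsg.Agent.Lib.Helper45

variable {X : Type} [Fintype X] [DecidableEq X]

theorem os_logic1 {p1 p2 q1 q2 B B' A A' W W' : Prop} (w1 : W ↔ ¬ (A ↔ p2))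
    (w2 : W' ↔ ¬ (A' ↔ q2)) (a1 : A ↔ ¬ (¬ (p1 ↔ p2) ↔ B)) (a2 : A' ↔ ¬ (¬ (q1 ↔ q2) ↔ B'))
    (hB : B ↔ B') (n1 : ¬ p1) (n2 : ¬ q1) : W ↔ W' := by
  rw [w1, w2, a1, a2, ← hB]
  by_cases h2 : p2 <;> by_cases h3 : q2 <;> by_cases h4 : B <;> simp [h2, h3, h4, n1, n2]

theorem os_logic2 {p2 q2 A A' W W' : Prop} (w1 : W ↔ ¬ (A ↔ p2)) (w2 : W' ↔ ¬ (A' ↔ q2))
    (hA : A ↔ A') (n1 : ¬ p2) (n2 : ¬ q2) : W ↔ W' := by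
  rw [w1, w2, ← hA]
  simp [n1, n2]

theorem os_pair (T : Sylow 2 (Perm X)) (ρ : Perm X → Perm X) (hρ : Pairing T ρ) (σ τ : Perm X)
    (hσ : σ ∈ swapsIn (T : Subgroup (Perm X))) (hτ : τ ∈ swapsIn (T : Subgroup (Perm X)))
    (h : σ = τ ∨ ρ σ = τ) : σ * ρ σ = τ * ρ τ := by
  rcases h with rfl | h
  · rfl
  · have h1 : ρ τ = σ := by rw [← h, hρ.invol σ hσ]
    rw [h1, h]
    exact swaps_comm T σ τ hσ hτ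

theorem os_odd (T : Sylow 2 (Perm X)) (ρ : Perm X → Perm X) (hρ : Pairing T ρ)
    (S₁ S₂ : Subgroup (Perm X)) (hd : Dec T S₁ S₂) (j : ℕ) (hj : 1 ≤ j)
    (hc : Fintype.card X / 2 = 2 ^ j + 1) (τ₁ τ₂ : Perm X)
    (hτ₁ : τ₁ ∈ swapsIn (T : Subgroup (Perm X))) (hτ₂ : τ₂ ∈ swapsIn (T : Subgroup (Perm X)))
    (hne₁ : ρ τ₁ ≠ τ₁) (hne₂ : ρ τ₂ ≠ τ₂)
    (hu₂ : τ₂ * ρ τ₂ ∈ E0 (T : Subgroup (Perm X)) ⊓ S₁) :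
    τ₁ * ρ τ₁ ∈ E0 (T : Subgroup (Perm X)) ⊓ S₁ := by
  obtain ⟨g, hgT, hg⟩ := hρ.trans j hj hc τ₂ hτ₂ τ₁ hτ₁ hne₂ hne₁
  have hρτ₂ := hρ.mem τ₂ hτ₂
  have heq : g * (τ₂ * ρ τ₂) * g⁻¹ = τ₁ * ρ τ₁ := by
    have h1 : g * (τ₂ * ρ τ₂) * g⁻¹ = (g * τ₂ * g⁻¹) * (g * ρ τ₂ * g⁻¹) := by group
    rw [h1, ← hρ.equiv g hgT τ₂ hτ₂, hg]
  have hE : τ₁ * ρ τ₁ ∈ E0 (T : Subgroup (Perm X)) := by
    rw [← heq]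
    exact E0_conj T g _ hgT hu₂.1
  refine ⟨hE, ?_⟩
  have key : ∀ g' ∈ PT (T : Subgroup (Perm X)), g' * (τ₂ * ρ τ₂) * g'⁻¹ ∈ S₁ :=
    fun g' hg' => dp_normal S₁ S₂ _ hd.dp g' _ hg' hu₂.2
  rcases Int.units_eq_one_or (Perm.sign g) with hs | hs
  · rw [← heq]
    exact key g ((mem_PT _ g).2 ⟨hgT, hs⟩)
  · have hmem : g * τ₂ ∈ PT (T : Subgroup (Perm X)) := by
      rw [mem_PT]
      refine ⟨Subgroup.mul_mem _ hgT hτ₂.1, ?_⟩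
      rw [Perm.sign_mul, hs, sign_swap' τ₂ hτ₂.2]
      rfl
    have h2 := key (g * τ₂) hmem
    have h3 : (g * τ₂) * (τ₂ * ρ τ₂) * (g * τ₂)⁻¹ = g * (τ₂ * ρ τ₂) * g⁻¹ := by
      have h4 : τ₂ * (τ₂ * ρ τ₂) * τ₂⁻¹ = τ₂ * ρ τ₂ := by
        have h5 := swap_cent T τ₂ (ρ τ₂) hτ₂ hρτ₂
        calc τ₂ * (τ₂ * ρ τ₂) * τ₂⁻¹ = τ₂ * (τ₂ * ρ τ₂ * τ₂⁻¹) := by group
          _ = τ₂ * ρ τ₂ := by rw [h5]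
      calc (g * τ₂) * (τ₂ * ρ τ₂) * (g * τ₂)⁻¹ = g * (τ₂ * (τ₂ * ρ τ₂) * τ₂⁻¹) * g⁻¹ := by group
        _ = g * (τ₂ * ρ τ₂) * g⁻¹ := by rw [h4]
    rw [h3, heq] at h2
    exact h2

theorem os_even (T : Sylow 2 (Perm X)) (ρ : Perm X → Perm X) (hρ : Pairing T ρ)
    (S₁ S₂ : Subgroup (Perm X)) (hd : Dec T S₁ S₂) (hev : Even (Fintype.card X / 2)) (τ₁ τ₂ : Perm X)
    (hτ₁ : τ₁ ∈ swapsIn (T : Subgroup (Perm X))) (hτ₂ : τ₂ ∈ swapsIn (T : Subgroup (Perm X)))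
    (hu₁ : τ₁ * ρ τ₁ ∉ E0 (T : Subgroup (Perm X)) ⊓ S₁)
    (hu₂ : τ₂ * ρ τ₂ ∉ E0 (T : Subgroup (Perm X)) ⊓ S₂) : False := by
  have hnofix := hρ.even hev
  have hu₂' : τ₂ * ρ τ₂ ∈ E0 (T : Subgroup (Perm X)) ⊓ S₁ :=
    (block_dich T ρ hρ S₁ S₂ hd τ₂ hτ₂ (hnofix τ₂ hτ₂)).resolve_right hu₂
  have hne : τ₁ ≠ τ₂ := by
    rintro rfl
    exact hu₁ hu₂'
  have hvE : τ₁ * τ₂ ∈ E0 (T : Subgroup (Perm X)) := mul_swaps_mem T τ₁ τ₂ hτ₁ hτ₂ hne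
  obtain ⟨a, ha, b, hb, hv⟩ := E0_split T S₁ S₂ hd (τ₁ * τ₂) hvE
  have haE := (mem_E0 _ a).1 ha.1
  have hbE := (mem_E0 _ b).1 hb.1
  have hca := haE.2
  have hcb := hbE.2
  have hcb' := cent_inv T b hcb
  have hcτ₁ : ∀ σ ∈ swapsIn (T : Subgroup (Perm X)), τ₁ * σ * τ₁⁻¹ = σ :=
    fun σ hσ => swap_cent T τ₁ σ hτ₁ hσ
  have hcτ₂ : ∀ σ ∈ swapsIn (T : Subgroup (Perm X)), τ₂ * σ * τ₂⁻¹ = σ :=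
    fun σ hσ => swap_cent T τ₂ σ hτ₂ hσ
  have hcv := cent_mul T τ₁ τ₂ hcτ₁ hcτ₂
  have ha_eq : a = (τ₁ * τ₂) * b⁻¹ := by rw [hv]; group
  have hcw := cent_mul T a τ₂ hca hcτ₂
  -- the `Mv` bookkeeping for a single swap
  have hw : ∀ σ ∈ swapsIn (T : Subgroup (Perm X)), (Mv (a * τ₂) σ ↔ ¬ (Mv a σ ↔ σ = τ₂)) := by
    intro σ hσ
    rw [mv_mul T a τ₂ σ hσ hca hcτ₂, mv_swap T τ₂ σ hτ₂ hσ]
  have hA : ∀ σ ∈ swapsIn (T : Subgroup (Perm X)),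
      (Mv a σ ↔ ¬ (¬ (σ = τ₁ ↔ σ = τ₂) ↔ Mv b σ)) := by
    intro σ hσ
    have h1 := mv_mul T (τ₁ * τ₂) b⁻¹ σ hσ hcv hcb'
    rw [← ha_eq, mv_inv T b σ hσ hcb, mv_mul T τ₁ τ₂ σ hσ hcτ₁ hcτ₂, mv_swap T τ₁ σ hτ₁ hσ,
      mv_swap T τ₂ σ hτ₂ hσ] at h1
    exact h1
  have hbal : ∀ σ ∈ swapsIn (T : Subgroup (Perm X)), (Mv (a * τ₂) σ ↔ Mv (a * τ₂) (ρ σ)) := by
    intro σ hσ
    have hρσ := hρ.mem σ hσ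
    have hneσ := hnofix σ hσ
    have w1 := hw σ hσ
    have w2 := hw (ρ σ) hρσ
    rcases block_dich T ρ hρ S₁ S₂ hd σ hσ hneσ with h1 | h2
    · have hB := bal_of_mem T ρ hρ S₁ S₂ hd σ hσ hneσ h1 b hb
      have n1 : σ ≠ τ₁ := by
        intro h
        exact hu₁ (by rw [← os_pair T ρ hρ σ τ₁ hσ hτ₁ (Or.inl h)]; exact h1)
      have n2 : ρ σ ≠ τ₁ := by
        intro h
        exact hu₁ (by rw [← os_pair T ρ hρ σ τ₁ hσ hτ₁ (Or.inr h)]; exact h1)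
      exact os_logic1 w1 w2 (hA σ hσ) (hA (ρ σ) hρσ) hB n1 n2
    · have hAb := bal_of_mem T ρ hρ S₂ S₁ hd.symm σ hσ hneσ h2 a ha
      have n1 : σ ≠ τ₂ := by
        intro h
        exact hu₂ (by rw [← os_pair T ρ hρ σ τ₂ hσ hτ₂ (Or.inl h)]; exact h2)
      have n2 : ρ σ ≠ τ₂ := by
        intro h
        exact hu₂ (by rw [← os_pair T ρ hρ σ τ₂ hσ hτ₂ (Or.inr h)]; exact h2)
      exact os_logic2 w1 w2 hAb n1 n2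
  have hcl := balanced_mem T ρ hρ.mem hρ.invol (a * τ₂) hcw hbal
    (fun τ hτ hfix => absurd hfix (hnofix τ hτ))
  have hs := sign_of_mem_closure T ρ hρ.mem (a * τ₂) hcl
  rw [Perm.sign_mul, haE.1.2, sign_swap' τ₂ hτ₂.2] at hs
  exact absurd hs (by decide)

/-- all double transpositions `τ * ρ τ` lie on the same side -/
theorem one_side (T : Sylow 2 (Perm X)) (ρ : Perm X → Perm X) (hρ : Pairing T ρ)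
    (S₁ S₂ : Subgroup (Perm X)) (hd : Dec T S₁ S₂)
    (hcase : Even (Fintype.card X / 2) ∨ ∃ j : ℕ, 1 ≤ j ∧ Fintype.card X / 2 = 2 ^ j + 1) :
    (∀ τ ∈ swapsIn (T : Subgroup (Perm X)), ρ τ ≠ τ → τ * ρ τ ∈ E0 (T : Subgroup (Perm X)) ⊓ S₁) ∨
      (∀ τ ∈ swapsIn (T : Subgroup (Perm X)), ρ τ ≠ τ → τ * ρ τ ∈ E0 (T : Subgroup (Perm X)) ⊓ S₂) := by
  by_contra hcon
  push Not at hcon
  obtain ⟨⟨τ₁, hτ₁, hne₁, hu₁⟩, ⟨τ₂, hτ₂, hne₂, hu₂⟩⟩ := hcon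
  rcases hcase with hev | ⟨j, hj, hc⟩
  · exact os_even T ρ hρ S₁ S₂ hd hev τ₁ τ₂ hτ₁ hτ₂ hu₁ hu₂
  · have hu₂' : τ₂ * ρ τ₂ ∈ E0 (T : Subgroup (Perm X)) ⊓ S₁ :=
      (block_dich T ρ hρ S₁ S₂ hd τ₂ hτ₂ hne₂).resolve_right hu₂
    exact hu₁ (os_odd T ρ hρ S₁ S₂ hd j hj hc τ₁ τ₂ hτ₁ hτ₂ hne₁ hne₂ hu₂')

end Cfsg.Agent.Lib.Helper45.S21
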