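import Mathlib
import Cfsg.Agent.Lib.Helper45.S21A

/-! S2221 piece PairGen (project of helper45).
PLACEHOLDER: replace the `sorry`(s) in THIS file; keep theorem names and statements byte-identical;
keep the namespace; auxiliary lemmas go ABOVE the theorems and MUST start with the prefix `pg_`.
Paper proofs: see the note (topic "S2221"). -/

set_option autoImplicit false

namespace Cfsg.Agent.Lib.Helper45.S21

open Equiv Cfsg.Agent.Lib.Helper45

variable {X : Type} [Fintype X] [DecidableEq X]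

open Classical in
/-- the partner of `y` under the swap of `Q` moving `y` (or `y` itself if there is none) -/
noncomputable def pg_rho {Y : Type} [Fintype Y] [DecidableEq Y] (Q : Sylow 2 (Perm Y)) (y : Y) : Y :=
  if h : ∃ τ ∈ swapsIn (Q : Subgroup (Perm Y)), τ y ≠ y then h.choose y else y

theorem pg_rho_of_moved {Y : Type} [Fintype Y] [DecidableEq Y] (Q : Sylow 2 (Perm Y)) (τ : Perm Y)
    (hτ : τ ∈ swapsIn (Q : Subgroup (Perm Y))) (y : Y) (hy : τ y ≠ y) : pg_rho Q y = τ y := by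
  have h : ∃ τ ∈ swapsIn (Q : Subgroup (Perm Y)), τ y ≠ y := ⟨τ, hτ, hy⟩
  unfold pg_rho
  rw [dif_pos h]
  have h2 := swaps_disj Q h.choose τ h.choose_spec.1 hτ y h.choose_spec.2 hy
  rw [h2]

theorem pg_rho_of_fixed {Y : Type} [Fintype Y] [DecidableEq Y] (Q : Sylow 2 (Perm Y)) (y : Y)
    (hy : ∀ τ ∈ swapsIn (Q : Subgroup (Perm Y)), τ y = y) : pg_rho Q y = y := by
  unfold pg_rho
  rw [dif_neg]
  rintro ⟨τ, hτ, h⟩
  exact h (hy τ hτ)

theorem pg_cases {Y : Type} [Fintype Y] [DecidableEq Y] (Q : Sylow 2 (Perm Y)) (y : Y) :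
    (∃ τ ∈ swapsIn (Q : Subgroup (Perm Y)), τ y ≠ y) ∨
      (∀ τ ∈ swapsIn (Q : Subgroup (Perm Y)), τ y = y) := by
  by_cases h : ∃ τ ∈ swapsIn (Q : Subgroup (Perm Y)), τ y ≠ y
  · exact Or.inl h
  · right
    intro τ hτ
    by_contra hne
    exact h ⟨τ, hτ, hne⟩

theorem pg_swap_eq {Y : Type} [Fintype Y] [DecidableEq Y] (τ : Perm Y) (hτ : τ.IsSwap) (y : Y)
    (hy : τ y ≠ y) : swap y (τ y) = τ := by
  obtain ⟨a, b, hab, rfl⟩ := hτ
  have hya : y = a ∨ y = b := by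
    by_contra h
    push Not at h
    exact hy (swap_apply_of_ne_of_ne h.1 h.2)
  rcases hya with rfl | rfl
  · rw [swap_apply_left]
  · rw [swap_apply_right, swap_comm]

/-- the swaps of a Sylow 2-subgroup `Q` of `Perm Y` define a `Q`-equivariant involution of `Y` with at most
one fixed point -/
theorem pair_gen {Y : Type} [Fintype Y] [DecidableEq Y] (Q : Sylow 2 (Perm Y)) :
    ∃ ρ : Y → Y, (∀ y, ρ (ρ y) = y) ∧ (∀ y y', ρ y = y → ρ y' = y' → y = y') ∧
      (Even (Fintype.card Y) → ∀ y, ρ y ≠ y) ∧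
      (∀ q ∈ (Q : Subgroup (Perm Y)), ∀ y, ρ (q y) = q (ρ y)) ∧
      (∀ y, ρ y ≠ y → swap y (ρ y) ∈ (Q : Subgroup (Perm Y))) := by
  refine ⟨pg_rho Q, ?_, ?_, ?_, ?_, ?_⟩
  · intro y
    rcases pg_cases Q y with ⟨τ, hτ, hy⟩ | hfix
    · rw [pg_rho_of_moved Q τ hτ y hy]
      have h2 : τ (τ y) = y := swap_invol hτ.2 y
      rw [pg_rho_of_moved Q τ hτ (τ y) (by rw [h2]; exact fun h => hy h.symm), h2]
    · rw [pg_rho_of_fixed Q y hfix, pg_rho_of_fixed Q y hfix]
  · intro y y' hy hy'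
    have key : ∀ z, pg_rho Q z = z → ∀ τ ∈ swapsIn (Q : Subgroup (Perm Y)), τ z = z := by
      intro z hz τ hτ
      by_contra hne
      rw [pg_rho_of_moved Q τ hτ z hne] at hz
      exact hne hz
    exact uncov Q y y' (key y hy) (key y' hy')
  · intro hev y
    obtain ⟨e, hM⟩ := swaps_structure (Fintype.card Y) rfl Q
    obtain ⟨k, rfl⟩ := e.surjective y
    have hk := k.2
    have hlt : (k : ℕ) / 2 < Fintype.card Y / 2 := by
      obtain ⟨m, hm⟩ := hev
      omega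
    have hmem : sw e ⟨(k : ℕ) / 2, hlt⟩ ∈ swapsIn (Q : Subgroup (Perm Y)) := (hM _).mpr ⟨_, rfl⟩
    have hmv : sw e ⟨(k : ℕ) / 2, hlt⟩ (e k) ≠ e k := (sw_apply_ne_iff e _ k).mpr rfl
    rw [pg_rho_of_moved Q _ hmem (e k) hmv]
    exact hmv
  · intro q hq y
    rcases pg_cases Q y with ⟨τ, hτ, hy⟩ | hfix
    · have hτ' := conj_swap_mem (Q : Subgroup (Perm Y)) q τ hq hτ
      have hval : (q * τ * q⁻¹) (q y) = q (τ y) := by simp [Perm.mul_apply]
      have hmv : (q * τ * q⁻¹) (q y) ≠ q y := by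
        rw [hval]
        exact fun h => hy (q.injective h)
      rw [pg_rho_of_moved Q _ hτ' (q y) hmv, hval, pg_rho_of_moved Q τ hτ y hy]
    · have hfix' : ∀ τ ∈ swapsIn (Q : Subgroup (Perm Y)), τ (q y) = q y := by
        intro τ hτ
        have hτ' := conj_swap_mem (Q : Subgroup (Perm Y)) q⁻¹ τ
          ((Q : Subgroup (Perm Y)).inv_mem hq) hτ
        have h3 := hfix _ hτ'
        have h4 : (q⁻¹ * τ * q⁻¹⁻¹) y = q⁻¹ (τ (q y)) := by simp [Perm.mul_apply]
        rw [h4, Perm.inv_eq_iff_eq] at h3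
        exact h3
      rw [pg_rho_of_fixed Q (q y) hfix', pg_rho_of_fixed Q y hfix]
  · intro y hy
    rcases pg_cases Q y with ⟨τ, hτ, hy'⟩ | hfix
    · rw [pg_rho_of_moved Q τ hτ y hy', pg_swap_eq τ hτ.2 y hy']
      exact hτ.1
    · exact absurd (pg_rho_of_fixed Q y hfix) hy

end Cfsg.Agent.Lib.Helper45.S21
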