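import Mathlib
import Cfsg.Agent.Lib.Helper45.S21A

/-! S2221 piece TransGen (project of helper45; filled by helper17).
Transport of `SylMax.fix_trans` from `Perm (Fin n)` to `Perm Y`. -/

set_option autoImplicit false

namespace Cfsg.Agent.Lib.Helper45.S21

open Equiv Cfsg.Agent.Lib.Helper45

variable {X : Type} [Fintype X] [DecidableEq X]

/-- `fix_trans` for an arbitrary finite type of cardinality `2 ^ j + 1` -/
theorem trans_gen {Y : Type} [Fintype Y] [DecidableEq Y] (Q : Sylow 2 (Perm Y)) (j : ℕ) (hj : 1 ≤ j)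
    (hcard : Fintype.card Y = 2 ^ j + 1) :
    ∃ y₀ : Y, (∀ q ∈ (Q : Subgroup (Perm Y)), q y₀ = y₀) ∧
      ∀ y y', y ≠ y₀ → y' ≠ y₀ → ∃ q ∈ (Q : Subgroup (Perm Y)), q y = y' := by
  classical
  let e : Y ≃ Fin (2 ^ j + 1) := Fintype.equivFinOfCardEq hcard
  let φ : Perm Y ≃* Perm (Fin (2 ^ j + 1)) := e.permCongrHom
  have hφ : ∀ (q : Perm Y) (x : Fin (2 ^ j + 1)), φ q x = e (q (e.symm x)) := fun q x => rfl
  have hφs : ∀ (t : Perm (Fin (2 ^ j + 1))) (y : Y), φ.symm t y = e.symm (t (e y)) := fun t y => rfl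
  let T : Sylow 2 (Perm (Fin (2 ^ j + 1))) :=
    Q.comapOfInjective (φ.symm : Perm (Fin (2 ^ j + 1)) →* Perm Y) φ.symm.injective (by
      intro x _
      exact ⟨φ x, by simp⟩)
  have hT : ∀ t : Perm (Fin (2 ^ j + 1)), t ∈ (T : Subgroup (Perm (Fin (2 ^ j + 1)))) ↔
      φ.symm t ∈ (Q : Subgroup (Perm Y)) := by
    intro t
    exact Iff.rfl
  obtain ⟨α, hα, htr⟩ := SylMax.fix_trans j hj rfl T
  refine ⟨e.symm α, ?_, ?_⟩
  · intro q hq
    have h1 : φ q ∈ (T : Subgroup (Perm (Fin (2 ^ j + 1)))) := by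
      rw [hT]
      simpa using hq
    have h2 := hα (φ q) h1
    rw [hφ] at h2
    have h3 := congrArg e.symm h2
    simpa using h3
  · intro y y' hy hy'
    have h1 : e y ≠ α := by
      intro h
      apply hy
      rw [← h]
      simp
    have h2 : e y' ≠ α := by
      intro h
      apply hy'
      rw [← h]
      simp
    obtain ⟨t, ht, hty⟩ := htr (e y) (e y') h1 h2
    refine ⟨φ.symm t, (hT t).mp ht, ?_⟩
    rw [hφs, hty]
    simp

end Cfsg.Agent.Lib.Helper45.S21
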