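import Mathlib
import Cfsg.Agent.Lib.Helper45.S21PairGen
import Cfsg.Agent.Lib.Helper45.S21TransGen

/-! S2221 piece Pairing (project of helper45), filled in by helper54: the pairing of the swaps of a
Sylow 2-subgroup `T` of `Perm X`, from `pair_gen` and `trans_gen` applied to the image of `T` on its
swaps. -/

set_option autoImplicit false

namespace Cfsg.Agent.Lib.Helper45.S21

open Equiv Cfsg.Agent.Lib.Helper45

variable {X : Type} [Fintype X] [DecidableEq X]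

theorem exists_pairing (T : Sylow 2 (Perm X)) : ∃ ρ : Perm X → Perm X, Pairing T ρ := by
  classical
  have hfin : Fintype ↥(swapsIn (T : Subgroup (Perm X))) := Fintype.ofFinite _
  obtain ⟨Q, hQ⟩ := image_sylow T
  obtain ⟨ρ', h1, h2, h3, h4, h5⟩ := pair_gen Q
  have hTN := le_normalizer_swapsIn' (T : Subgroup (Perm X))
  -- the elements of `Q` are the conjugations by elements of `T`
  have hQmem : ∀ g ∈ (T : Subgroup (Perm X)),
      ∃ q ∈ (Q : Subgroup (Perm ↥(swapsIn (T : Subgroup (Perm X))))),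
        ∀ y : ↥(swapsIn (T : Subgroup (Perm X))),
          ((q y : ↥(swapsIn (T : Subgroup (Perm X)))) : Perm X) = g * y * g⁻¹ := by
    intro g hg
    refine ⟨conjAct (swapsIn (T : Subgroup (Perm X))) ⟨g, hTN hg⟩, ?_, fun y => rfl⟩
    rw [hQ]
    exact Subgroup.mem_map_of_mem _ (Subgroup.mem_subgroupOf.mpr hg)
  have hQelim : ∀ q ∈ (Q : Subgroup (Perm ↥(swapsIn (T : Subgroup (Perm X))))),
      ∃ g ∈ (T : Subgroup (Perm X)), ∀ y : ↥(swapsIn (T : Subgroup (Perm X))),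
        ((q y : ↥(swapsIn (T : Subgroup (Perm X)))) : Perm X) = g * y * g⁻¹ := by
    intro q hq
    rw [hQ] at hq
    obtain ⟨h', hh', rfl⟩ := Subgroup.mem_map.mp hq
    exact ⟨(h' : Perm X), Subgroup.mem_subgroupOf.mp hh', fun y => rfl⟩
  obtain ⟨ρ, hρdef⟩ : ∃ ρ : Perm X → Perm X, ρ = fun τ =>
      if h : τ ∈ swapsIn (T : Subgroup (Perm X)) then
        ((ρ' ⟨τ, h⟩ : ↥(swapsIn (T : Subgroup (Perm X)))) : Perm X) else τ := ⟨_, rfl⟩
  have hρ : ∀ (τ : Perm X) (h : τ ∈ swapsIn (T : Subgroup (Perm X))),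
      ρ τ = ((ρ' ⟨τ, h⟩ : ↥(swapsIn (T : Subgroup (Perm X)))) : Perm X) := by
    intro τ h
    rw [hρdef]
    exact dif_pos h
  have hρ' : ∀ y : ↥(swapsIn (T : Subgroup (Perm X))),
      ρ (y : Perm X) = ((ρ' y : ↥(swapsIn (T : Subgroup (Perm X)))) : Perm X) :=
    fun y => hρ y.1 y.2
  have hcardY : Fintype.card ↥(swapsIn (T : Subgroup (Perm X))) = Fintype.card X / 2 := by
    rw [← Nat.card_eq_fintype_card]
    exact card_swaps T
  refine ⟨ρ, ?_⟩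
  constructor
  · intro τ hτ
    rw [hρ τ hτ]
    exact (ρ' ⟨τ, hτ⟩).2
  · intro τ hτ
    rw [hρ τ hτ, hρ', h1]
  · intro τ hτ τ' hτ' e e'
    rw [hρ τ hτ] at e
    rw [hρ τ' hτ'] at e'
    have h6 := h2 ⟨τ, hτ⟩ ⟨τ', hτ'⟩ (Subtype.ext e) (Subtype.ext e')
    exact congrArg Subtype.val h6
  · intro hev τ hτ e
    rw [hρ τ hτ] at e
    exact h3 (by rw [hcardY]; exact hev) ⟨τ, hτ⟩ (Subtype.ext e)
  · intro g hg τ hτ
    obtain ⟨q, hq, hqy⟩ := hQmem g hg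
    have e1 := h4 q hq ⟨τ, hτ⟩
    have e2 : g * τ * g⁻¹ = ((q ⟨τ, hτ⟩ : ↥(swapsIn (T : Subgroup (Perm X)))) : Perm X) :=
      (hqy ⟨τ, hτ⟩).symm
    rw [e2, hρ', e1, hqy, hρ τ hτ]
  · intro τ hτ hne
    have hne' : ρ' ⟨τ, hτ⟩ ≠ ⟨τ, hτ⟩ := by
      intro e
      apply hne
      rw [hρ τ hτ, e]
    obtain ⟨g, hg, hgy⟩ := hQelim _ (h5 ⟨τ, hτ⟩ hne')
    refine ⟨g, hg, ?_, ?_, ?_⟩
    · have h6 := hgy ⟨τ, hτ⟩
      rw [swap_apply_left] at h6
      rw [hρ τ hτ]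
      exact h6.symm
    · have h6 := hgy (ρ' ⟨τ, hτ⟩)
      rw [swap_apply_right] at h6
      rw [hρ τ hτ]
      exact h6.symm
    · intro σ hσ hσ1 hσ2
      have h6 := hgy ⟨σ, hσ⟩
      rw [swap_apply_of_ne_of_ne] at h6
      · exact h6.symm
      · intro e
        exact hσ1 (congrArg Subtype.val e)
      · intro e
        apply hσ2
        rw [hρ τ hτ]
        exact congrArg Subtype.val e
  · intro j hj hcard τ hτ τ' hτ' hne hne'
    have hc : Fintype.card ↥(swapsIn (T : Subgroup (Perm X))) = 2 ^ j + 1 := by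
      rw [hcardY, hcard]
    obtain ⟨y₀, hfix, htr⟩ := trans_gen Q j hj hc
    have key : ∀ (σ : Perm X) (hσ : σ ∈ swapsIn (T : Subgroup (Perm X))), ρ σ ≠ σ →
        (⟨σ, hσ⟩ : ↥(swapsIn (T : Subgroup (Perm X)))) ≠ y₀ := by
      intro σ hσ hn e
      have hn' : ρ' ⟨σ, hσ⟩ ≠ ⟨σ, hσ⟩ := by
        intro e'
        apply hn
        rw [hρ σ hσ, e']
      have h6 := hfix _ (h5 ⟨σ, hσ⟩ hn')
      rw [← e, swap_apply_left] at h6
      exact hn' h6
    obtain ⟨q, hq, hqy⟩ := htr ⟨τ, hτ⟩ ⟨τ', hτ'⟩ (key τ hτ hne) (key τ' hτ' hne')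
    obtain ⟨g, hg, hgy⟩ := hQelim q hq
    refine ⟨g, hg, ?_⟩
    have h6 := hgy ⟨τ, hτ⟩
    rw [hqy] at h6
    exact h6.symm

end Cfsg.Agent.Lib.Helper45.S21
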