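import Mathlib
import Cfsg.Agent.Lib.Helper45.S21A

/-! S2221 piece Parts (project of helper45).
Auxiliary lemmas start with the prefix `pa_`. -/

set_option autoImplicit false

namespace Cfsg.Agent.Lib.Helper45.S21

open Equiv Cfsg.Agent.Lib.Helper45

variable {X : Type} [Fintype X] [DecidableEq X]

theorem exists_parts (T : Sylow 2 (Perm X)) (h3 : 3 ≤ Fintype.card X / 2)
    (hodd : Odd (Fintype.card X / 2)) (hpow : ∀ r : ℕ, Fintype.card X / 2 - 1 ≠ 2 ^ r) :
    ∃ (t : Perm X) (𝒜 : Set (Perm X)), Parts T t 𝒜 := by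
  classical
  have : Fact (Nat.Prime 2) := ⟨Nat.prime_two⟩
  set SW := swapsIn (T : Subgroup (Perm X)) with hSW
  let φ : ↥(T : Subgroup (Perm X)) →* Perm ↥SW :=
    (conjAct SW).comp (Subgroup.inclusion (le_normalizer_swapsIn' (T : Subgroup (Perm X))))
  letI : MulAction ↥(T : Subgroup (Perm X)) ↥SW := MulAction.compHom ↥SW φ
  have hsmul : ∀ (g : ↥(T : Subgroup (Perm X))) (τ : ↥SW),
      ((g • τ : ↥SW) : Perm X) = (g : Perm X) * τ * (g : Perm X)⁻¹ := fun g τ => rfl
  have hcard : Nat.card ↥SW = Fintype.card X / 2 := card_swaps T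
  have hP : IsPGroup 2 ↥(T : Subgroup (Perm X)) := T.isPGroup'
  have hnd : ¬ 2 ∣ Nat.card ↥SW := by
    rw [hcard]; exact hodd.not_two_dvd_nat
  obtain ⟨t, ht⟩ := IsPGroup.nonempty_fixed_point_of_prime_not_dvd_card hP ↥SW hnd
  have hnt : Nontrivial ↥SW := by
    rw [← Finite.one_lt_card_iff_nontrivial, hcard]; omega
  obtain ⟨τ₀, hτ₀⟩ := exists_ne t
  set O : Set ↥SW := MulAction.orbit ↥(T : Subgroup (Perm X)) τ₀ with hO
  have htO : t ∉ O := by
    intro h
    obtain ⟨g, hg⟩ := h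
    have h1 : g⁻¹ • t = τ₀ := by
      rw [← hg]
      simp
    rw [ht g⁻¹] at h1
    exact hτ₀ h1.symm
  refine ⟨(t : Perm X), Subtype.val '' O, ?_, ?_, ?_, ?_, ?_, ?_, ?_⟩
  · exact t.2
  · rintro _ ⟨x, -, rfl⟩
    exact x.2
  · rintro ⟨x, hx, hxt⟩
    have : x = t := Subtype.ext hxt
    rw [this] at hx
    exact htO hx
  · intro g hg
    have := ht ⟨g, hg⟩
    have h2 := hsmul ⟨g, hg⟩ t
    rw [this] at h2
    exact h2.symm
  · rintro g hg _ ⟨x, hx, rfl⟩
    refine ⟨(⟨g, hg⟩ : ↥(T : Subgroup (Perm X))) • x, ?_, hsmul ⟨g, hg⟩ x⟩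
    exact MulAction.mem_orbit_of_mem_orbit _ hx
  · exact ⟨(τ₀ : Perm X), τ₀, MulAction.mem_orbit_self τ₀, rfl⟩
  · by_contra hcon
    push_neg at hcon
    have hOeq : O = {t}ᶜ := by
      ext x
      simp only [Set.mem_compl_iff, Set.mem_singleton_iff]
      constructor
      · intro hx hxt
        rw [hxt] at hx
        exact htO hx
      · intro hxt
        have h1 : (x : Perm X) ≠ (t : Perm X) := fun h => hxt (Subtype.ext h)
        obtain ⟨y, hy, hyx⟩ := hcon (x : Perm X) x.2 h1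
        have : y = x := Subtype.ext hyx
        rw [← this]; exact hy
    obtain ⟨n, hn⟩ := IsPGroup.card_orbit hP τ₀
    have h4 : Nat.card ↥O = Fintype.card X / 2 - 1 := by
      rw [Nat.card_coe_set_eq, hOeq, Set.ncard_compl, hcard, Set.ncard_singleton]
    rw [← hO, h4] at hn
    exact hpow n hn

end Cfsg.Agent.Lib.Helper45.S21
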