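import Mathlib
import Cfsg.Agent.Lib.Helper45.S21A

/-! S2221 piece Small (project of helper45; filled by helper17).
For `n = 4, 5` the even part of a Sylow 2-subgroup of `S_n` is a Klein four-group. -/

set_option autoImplicit false

namespace Cfsg.Agent.Lib.Helper45.S21

open Equiv Cfsg.Agent.Lib.Helper45

variable {X : Type} [Fintype X] [DecidableEq X]

set_option maxRecDepth 100000 in
theorem sm_even4 : ∀ σ : Perm (Fin 4), Perm.sign σ = 1 → σ ^ 4 = 1 → σ ^ 2 = 1 := by decide

set_option maxRecDepth 1000000 in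
set_option maxHeartbeats 4000000 in
theorem sm_even5 : ∀ σ : Perm (Fin 5), Perm.sign σ = 1 → σ ^ 4 = 1 → σ ^ 2 = 1 := by decide

theorem sm_fact24 : (24 : ℕ).factorization 2 = 3 := by
  have h : (24 : ℕ) = 2 ^ 3 * 3 := by norm_num
  rw [h, Nat.factorization_mul (by norm_num) (by norm_num),
    Nat.Prime.factorization_pow Nat.prime_two]
  simp [Nat.factorization_eq_zero_of_not_dvd]

theorem sm_fact120 : (120 : ℕ).factorization 2 = 3 := by
  have h : (120 : ℕ) = 2 ^ 3 * 15 := by norm_num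
  rw [h, Nat.factorization_mul (by norm_num) (by norm_num),
    Nat.Prime.factorization_pow Nat.prime_two]
  simp [Nat.factorization_eq_zero_of_not_dvd]

theorem sm_zpow_two {G : Type*} [Group G] (b : G) (hb : b ^ 2 = 1) (i : ℤ) :
    b ^ i = 1 ∨ b ^ i = b := by
  rcases Int.even_or_odd' i with ⟨k, rfl | rfl⟩
  · left
    rw [zpow_mul, zpow_ofNat, hb, one_zpow]
  · right
    rw [zpow_add, zpow_mul, zpow_ofNat, hb, one_zpow, one_mul, zpow_one]

theorem sm_klein {G : Type*} [Group G] [Finite G] (K : Subgroup G) (h4 : Nat.card K = 4)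
    (h2 : ∀ x ∈ K, x ^ 2 = 1) :
    ∃ S₁ S₂ : Subgroup G, S₁ ≠ ⊥ ∧ S₂ ≠ ⊥ ∧ Cfsg.IsInternalDirectProduct S₁ S₂ K := by
  have hKne : K ≠ ⊥ := by
    intro h
    rw [h, Subgroup.card_bot] at h4
    omega
  obtain ⟨a, haK, ha1⟩ := (Subgroup.ne_bot_iff_exists_ne_one.mp hKne |> fun ⟨x, hx⟩ =>
    (⟨x.1, x.2, fun h => hx (Subtype.ext h)⟩ : ∃ a : G, a ∈ K ∧ a ≠ 1))
  have hoa : orderOf a = 2 := orderOf_eq_prime (h2 a haK) ha1
  have hS1K : Subgroup.zpowers a ≤ K := Subgroup.zpowers_le.mpr haK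
  have hS1card : Nat.card (Subgroup.zpowers a) = 2 := by rw [Nat.card_zpowers, hoa]
  obtain ⟨b, hbK, hbS⟩ : ∃ b ∈ K, b ∉ Subgroup.zpowers a := by
    by_contra hcon
    push Not at hcon
    have hle : K ≤ Subgroup.zpowers a := hcon
    have := Subgroup.card_le_of_le hle
    omega
  have hb1 : b ≠ 1 := by
    rintro rfl
    exact hbS (Subgroup.one_mem _)
  have hob : orderOf b = 2 := orderOf_eq_prime (h2 b hbK) hb1
  have hS2K : Subgroup.zpowers b ≤ K := Subgroup.zpowers_le.mpr hbK
  have hcomm : ∀ x ∈ K, ∀ y ∈ K, x * y = y * x := by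
    intro x hx y hy
    have e1 := h2 x hx
    have e2 := h2 y hy
    have e3 := h2 (x * y) (K.mul_mem hx hy)
    rw [pow_two] at e1 e2 e3
    have e4 : x⁻¹ = x := inv_eq_of_mul_eq_one_left e1
    have e5 : y⁻¹ = y := inv_eq_of_mul_eq_one_left e2
    have e6 : (x * y)⁻¹ = x * y := inv_eq_of_mul_eq_one_left e3
    rw [mul_inv_rev, e4, e5] at e6
    exact e6.symm
  refine ⟨Subgroup.zpowers a, Subgroup.zpowers b, ?_, ?_, hS1K, hS2K, ?_, ?_, ?_⟩
  · intro h
    apply ha1
    have : a ∈ (⊥ : Subgroup G) := by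
      rw [← h]
      exact Subgroup.mem_zpowers a
    exact Subgroup.mem_bot.mp this
  · intro h
    apply hb1
    have : b ∈ (⊥ : Subgroup G) := by
      rw [← h]
      exact Subgroup.mem_zpowers b
    exact Subgroup.mem_bot.mp this
  · intro x hx y hy
    exact hcomm x (hS1K hx) y (hS2K hy)
  · rw [eq_bot_iff]
    rintro z ⟨hz1, hz2⟩
    obtain ⟨i, rfl⟩ := Subgroup.mem_zpowers_iff.mp hz2
    rcases sm_zpow_two b (h2 b hbK) i with h | h
    · rw [h]
      exact Subgroup.one_mem _
    · rw [h] at hz1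
      exact absurd hz1 hbS
  · have hle : Subgroup.zpowers a ⊔ Subgroup.zpowers b ≤ K := sup_le hS1K hS2K
    apply Subgroup.eq_of_le_of_card_ge hle
    have hd1 : Nat.card (Subgroup.zpowers a ⊔ Subgroup.zpowers b : Subgroup G) ∣ 4 := by
      rw [← h4]
      exact Subgroup.card_dvd_of_le hle
    have hd2 : 2 ∣ Nat.card (Subgroup.zpowers a ⊔ Subgroup.zpowers b : Subgroup G) := by
      rw [← hS1card]
      exact Subgroup.card_dvd_of_le le_sup_left
    have hne2 : Nat.card (Subgroup.zpowers a ⊔ Subgroup.zpowers b : Subgroup G) ≠ 2 := by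
      intro h
      have heq : Subgroup.zpowers a = Subgroup.zpowers a ⊔ Subgroup.zpowers b :=
        Subgroup.eq_of_le_of_card_ge le_sup_left (by rw [h, hS1card])
      apply hbS
      rw [heq]
      exact (le_sup_right : Subgroup.zpowers b ≤ _) (Subgroup.mem_zpowers b)
    have hle4 : Nat.card (Subgroup.zpowers a ⊔ Subgroup.zpowers b : Subgroup G) ≤ 4 :=
      Nat.le_of_dvd (by norm_num) hd1
    rw [h4]
    obtain ⟨k, hk⟩ := hd2
    have hk2 : k ≤ 2 := by omega
    interval_cases k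
    · rw [hk] at hd1
      omega
    · omega
    · omega

/-- for `n = 4, 5` the even part of a Sylow 2-subgroup of `S_n` is a Klein four-group -/
theorem small (n : ℕ) (hn : n = 4 ∨ n = 5) (T : Sylow 2 (Perm (Fin n))) :
    ∃ S₁ S₂ : Subgroup (Perm (Fin n)), S₁ ≠ ⊥ ∧ S₂ ≠ ⊥ ∧
      Cfsg.IsInternalDirectProduct S₁ S₂ (PT (T : Subgroup (Perm (Fin n)))) := by
  have hcardT : Nat.card (T : Subgroup (Perm (Fin n))) = 8 := by
    rw [Sylow.card_eq_multiplicity, Nat.card_perm, Nat.card_eq_fintype_card, Fintype.card_fin]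
    rcases hn with rfl | rfl
    · rw [show Nat.factorial 4 = 24 from rfl, sm_fact24]
      norm_num
    · rw [show Nat.factorial 5 = 120 from rfl, sm_fact120]
      norm_num
  have hn2 : 2 ≤ n := by
    rcases hn with rfl | rfl <;> norm_num
  obtain ⟨a, b, hab, hswap⟩ := SylMax.exists_swap_mem hn2 T
  have hnt : Nontrivial (Fin n) := ⟨⟨a, b, hab⟩⟩
  have hidx : (alternatingGroup (Fin n)).relIndex (T : Subgroup (Perm (Fin n))) = 2 := by
    have h1 : (alternatingGroup (Fin n)).relIndex (T : Subgroup (Perm (Fin n))) ∣ 2 := by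
      have h0 := Subgroup.relIndex_dvd_index_of_normal (alternatingGroup (Fin n))
        (T : Subgroup (Perm (Fin n)))
      rwa [alternatingGroup.index_eq_two] at h0
    have h2 : (alternatingGroup (Fin n)).relIndex (T : Subgroup (Perm (Fin n))) ≠ 1 := by
      rw [Ne, Subgroup.relIndex_eq_one]
      intro hle
      have h3 := hle hswap
      rw [Perm.mem_alternatingGroup, Perm.sign_swap hab] at h3
      exact absurd h3 (by decide)
    rcases (Nat.dvd_prime Nat.prime_two).mp h1 with h | h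
    · exact absurd h h2
    · exact h
  have hcardPT : Nat.card (PT (T : Subgroup (Perm (Fin n)))) = 4 := by
    have h3 := Subgroup.relIndex_mul_relIndex ⊥ (PT (T : Subgroup (Perm (Fin n))))
      (T : Subgroup (Perm (Fin n))) bot_le inf_le_left
    rw [Subgroup.relIndex_bot_left, Subgroup.relIndex_bot_left] at h3
    have h4 : (PT (T : Subgroup (Perm (Fin n)))).relIndex (T : Subgroup (Perm (Fin n))) = 2 := by
      unfold PT
      rw [inf_comm, Subgroup.inf_relIndex_right]
      exact hidx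
    rw [h4, hcardT] at h3
    omega
  have hexp : ∀ x ∈ PT (T : Subgroup (Perm (Fin n))), x ^ 2 = 1 := by
    intro x hx
    have h5 : x ^ 4 = 1 := by
      have h7 : (⟨x, hx⟩ : PT (T : Subgroup (Perm (Fin n)))) ^
          Nat.card (PT (T : Subgroup (Perm (Fin n)))) = 1 := pow_card_eq_one'
      rw [hcardPT] at h7
      simpa using congrArg Subtype.val h7
    have h6 : Perm.sign x = 1 := ((mem_PT _ x).mp hx).2
    rcases hn with rfl | rfl
    · exact sm_even4 x h6 h5
    · exact sm_even5 x h6 h5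
  exact sm_klein _ hcardPT hexp

end Cfsg.Agent.Lib.Helper45.S21
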