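import Mathlib
import Cfsg.Agent.Lib.Helper45.S21Final
import Cfsg.Agent.Lib.Helper45.S21OneSide
import Cfsg.Agent.Lib.Helper45.S21Pairing
import Cfsg.Agent.Lib.Helper45.S21DecA
import Cfsg.Agent.Lib.Helper45.S21DecB
import Cfsg.Agent.Lib.Helper45.S21Parts
import Cfsg.Agent.Lib.Helper45.S21Transfer
import Cfsg.Agent.Lib.Helper45.S21Small

/-! S2221 assembly: indecomposability / decomposability of the even part of a Sylow 2-subgroup of `Perm X`,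
and the statement for `A_n`. -/

set_option autoImplicit false

namespace Cfsg.Agent.Lib.Helper45.S21

open Equiv Cfsg.Agent.Lib.Helper45

variable {X : Type} [Fintype X] [DecidableEq X]

theorem indec (T : Sylow 2 (Perm X)) (h6 : 6 ≤ Fintype.card X)
    (hcase : Even (Fintype.card X / 2) ∨ ∃ j : ℕ, 1 ≤ j ∧ Fintype.card X / 2 = 2 ^ j + 1)
    (S₁ S₂ : Subgroup (Perm X)) (h1 : S₁ ≠ ⊥) (h2 : S₂ ≠ ⊥)
    (dp : Cfsg.IsInternalDirectProduct S₁ S₂ (PT (T : Subgroup (Perm X)))) : False := by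
  obtain ⟨ρ, hρ⟩ := exists_pairing T
  have hd : Dec T S₁ S₂ := ⟨h6, dp⟩
  rcases one_side T ρ hρ S₁ S₂ hd hcase with h | h
  · exact A_ne_bot T S₂ S₁ hd.symm h2 (final_step T ρ hρ S₁ S₂ hd h)
  · exact A_ne_bot T S₁ S₂ hd h1 (final_step T ρ hρ S₂ S₁ hd.symm h)

theorem decomp (T : Sylow 2 (Perm X)) (h3 : 3 ≤ Fintype.card X / 2)
    (hodd : Odd (Fintype.card X / 2)) (hpow : ∀ r : ℕ, Fintype.card X / 2 - 1 ≠ 2 ^ r) :
    ∃ S₁ S₂ : Subgroup (Perm X), S₁ ≠ ⊥ ∧ S₂ ≠ ⊥ ∧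
      Cfsg.IsInternalDirectProduct S₁ S₂ (PT (T : Subgroup (Perm X))) := by
  obtain ⟨t, 𝒜, hp⟩ := exists_parts T h3 hodd hpow
  refine ⟨fixSub T (OmB t 𝒜), fixSub T (OmA 𝒜), dec_ne₁ T t 𝒜 hp, dec_ne₂ T t 𝒜 hp, ?_, ?_,
    dec_comm T t 𝒜 hp, dec_inf T t 𝒜 hp, dec_sup T t 𝒜 hp⟩
  · intro σ hσ; exact hσ.1
  · intro σ hσ; exact hσ.1

theorem main (n : ℕ) (hn : 4 ≤ n) (P : Sylow 2 (alternatingGroup (Fin n))) :
    (∃ S₁ S₂ : Subgroup (alternatingGroup (Fin n)), S₁ ≠ ⊥ ∧ S₂ ≠ ⊥ ∧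
        Cfsg.IsInternalDirectProduct S₁ S₂ (P : Subgroup (alternatingGroup (Fin n)))) ↔
      (n = 4 ∨ n = 5 ∨ ((n % 4 = 2 ∨ n % 4 = 3) ∧ ∀ r : ℕ, 4 * (n / 4) ≠ 2 ^ r)) := by
  obtain ⟨T, hT⟩ := SylMax.exists_sylow_perm P
  rw [transfer n P T hT]
  have hcard : Fintype.card (Fin n) = n := Fintype.card_fin n
  constructor
  · rintro ⟨S₁, S₂, h1, h2, dp⟩
    by_contra hR
    push Not at hR
    obtain ⟨h4, h5, hR⟩ := hR
    apply indec T (by rw [hcard]; omega) ?_ S₁ S₂ h1 h2 dp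
    rw [hcard]
    by_cases hmod : n % 4 = 2 ∨ n % 4 = 3
    · right
      obtain ⟨r, hr⟩ := hR hmod
      have hr2 : 2 ≤ r := by
        by_contra hlt
        push Not at hlt
        interval_cases r <;> omega
      refine ⟨r - 1, by omega, ?_⟩
      have h2r : 2 ^ r = 2 * 2 ^ (r - 1) := by
        rw [← pow_succ']; congr 1; omega
      omega
    · left
      rw [Nat.even_iff]
      omega
  · rintro (rfl | rfl | ⟨hmod, hpow⟩)
    · exact small 4 (Or.inl rfl) T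
    · exact small 5 (Or.inr rfl) T
    · apply decomp T
      · rw [hcard]; omega
      · rw [hcard, Nat.odd_iff]; omega
      · rw [hcard]
        intro r hr
        apply hpow (r + 1)
        rw [pow_succ]
        omega

end Cfsg.Agent.Lib.Helper45.S21
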