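import Mathlib
import Cfsg.Agent.Lib.Helper45.S21A

set_option autoImplicit false

/-!
Foundation for S2928 (project of helper45): a subgroup `H` of `S_n` (`n ≥ 8`) containing a Sylow
2-subgroup of `A_n` and with quasisimple generalized Fitting subgroup `K` has `K ≅ A_m`,
`n - 3 ≤ m ≤ n`.

* `Hyp G K`: the properties of `K = F*(G)` used (normal, perfect, nontrivial, proper normal subgroups
  central, self-centralizing).
* `QuadSet G A`: `A` is a 4-set all of whose double transpositions lie in `G`.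
* `Bad G`: no two quad sets meet in exactly 1 or 3 points.
* `Cfg G K 𝒮`: the configuration on the support of `K` (`𝒮` = the transpositions of a Sylow 2-subgroup).
* `TSet G`: the elements of `G` mapping every quad set to itself or to its complement.
* `suppK K`: the set of points moved by `K`;  `ext K`: extension by the identity from `suppK K`.
-/

namespace Cfsg.Agent.Lib.Helper45.S28

open Equiv

/-- the properties of a quasisimple generalized Fitting subgroup `K` of `G` that are used -/
structure Hyp {M : Type*} [Group M] (G K : Subgroup M) : Prop where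
  le : K ≤ G
  norm : ∀ g ∈ G, ∀ k ∈ K, g * k * g⁻¹ ∈ K
  perf : ⁅K, K⁆ = K
  ne_bot : K ≠ ⊥
  qs : ∀ N : Subgroup M, N ≤ K → (∀ k ∈ K, ∀ x ∈ N, k * x * k⁻¹ ∈ N) →
    N = K ∨ ∀ x ∈ N, ∀ k ∈ K, x * k = k * x
  cent : ∀ g ∈ G, (∀ k ∈ K, g * k = k * g) → g ∈ K

section alpha

variable {α : Type*} [DecidableEq α]

/-- `A` is a 4-set all of whose double transpositions lie in `G` -/
def QuadSet (G : Subgroup (Perm α)) (A : Finset α) : Prop :=
  A.card = 4 ∧ ∀ x ∈ A, ∀ y ∈ A, ∀ z ∈ A, ∀ w ∈ A,
    x ≠ y → x ≠ z → x ≠ w → y ≠ z → y ≠ w → z ≠ w → swap x y * swap z w ∈ G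

/-- no two quad sets meet in exactly one or exactly three points -/
def Bad (G : Subgroup (Perm α)) : Prop :=
  ∀ A A' : Finset α, QuadSet G A → QuadSet G A' → (A ∩ A').card ≠ 1 ∧ (A ∩ A').card ≠ 3

/-- the configuration on the support of `K`: `𝒮` is a set of pairwise disjoint transpositions covering
all points but at most one, products of two of them lie in `G`, and there are two disjoint 4-sets
on which `G` contains the Klein four-group of double transpositions -/
structure Cfg (G K : Subgroup (Perm α)) (𝒮 : Set (Perm α)) : Prop where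
  hyp : Hyp G K
  moved : ∀ x : α, ∃ k ∈ K, k x ≠ x
  isSwap : ∀ σ ∈ 𝒮, σ.IsSwap
  disj : ∀ σ ∈ 𝒮, ∀ σ' ∈ 𝒮, ∀ x : α, σ x ≠ x → σ' x ≠ x → σ = σ'
  uncov : ∀ x y : α, (∀ σ ∈ 𝒮, σ x = x) → (∀ σ ∈ 𝒮, σ y = y) → x = y
  prod : ∀ σ ∈ 𝒮, ∀ σ' ∈ 𝒮, σ ≠ σ' → σ * σ' ∈ G
  quads : ∃ a b c d a' b' c' d' : α, [a, b, c, d, a', b', c', d'].Nodup ∧
    swap a b * swap c d ∈ G ∧ swap a c * swap b d ∈ G ∧
    swap a' b' * swap c' d' ∈ G ∧ swap a' c' * swap b' d' ∈ G

/-- the elements of `G` mapping every quad set to itself or to its complement -/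
def TSet [Fintype α] (G : Subgroup (Perm α)) : Set (Perm α) :=
  {g | g ∈ G ∧ ∀ A : Finset α, QuadSet G A → A.image ⇑g = A ∨ A.image ⇑g = Aᶜ}

end alpha

section X

variable {X : Type} [Fintype X] [DecidableEq X]

/-- the set of points moved by `K` -/
def suppK (K : Subgroup (Perm X)) : Set X := {x | ∃ k ∈ K, k x ≠ x}

open Classical in
/-- extension by the identity of a permutation of `suppK K` -/
noncomputable def ext (K : Subgroup (Perm X)) : Perm ↥(suppK K) →* Perm X := Perm.ofSubtype

end X

end Cfsg.Agent.Lib.Helper45.S28
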