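import Mathlib
import Cfsg.Agent.Lib.Helper45.S28A


/-! S2928 piece Alt (project of helper45).
Filled in by helper95 (statement unchanged).
Definitions (`Hyp`, `QuadSet`, `Bad`, `Cfg`, `TSet`, `suppK`, `ext`): Cfsg/Agent/Lib/Helper45/S28A.lean.
The paper proof is in the docstring of each theorem. -/

set_option autoImplicit false

namespace Cfsg.Agent.Lib.Helper45.S28

open Equiv Cfsg.Agent.Lib.Helper45 Cfsg.Agent.Lib.Helper45.S21

variable {α : Type*} [Fintype α] [DecidableEq α]

/-- PROOF. `K ≤ alternatingGroup α`: `K = ⁅K, K⁆` and commutators are even (`Subgroup.commutator_le`,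
`Equiv.Perm.mem_alternatingGroup`, `sign` is a hom to a commutative group).
`alternatingGroup α ≤ K`: `alternatingGroup α` is simple (`alternatingGroup.isSimpleGroup
(hα : 5 ≤ Nat.card α)`); `N = K.subgroupOf (alternatingGroup α)` is normal in it (`h.norm` and `hle`), so
`N = ⊥` or `N = ⊤`.  `N = ⊤` gives the claim.  `N = ⊥` gives `K = ⊥` (as `K ≤ alternatingGroup α`),
contradicting `h.ne_bot`. -/
theorem K_eq_alt (G K : Subgroup (Perm α)) (h : Hyp G K) (hle : alternatingGroup α ≤ G)
    (h5 : 5 ≤ Fintype.card α) : K = alternatingGroup α := by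
  have hK : K ≤ alternatingGroup α := by
    have h1 : ⁅K, K⁆ ≤ alternatingGroup α := by
      rw [Subgroup.commutator_le]
      intro a _ b _
      rw [Equiv.Perm.mem_alternatingGroup, map_commutatorElement]
      exact commutatorElement_eq_one_iff_commute.mpr (Commute.all _ _)
    rwa [h.perf] at h1
  haveI hsimple : IsSimpleGroup (alternatingGroup α) :=
    alternatingGroup.isSimpleGroup (by rw [Nat.card_eq_fintype_card]; exact h5)
  have hN : (K.subgroupOf (alternatingGroup α)).Normal := by
    refine ⟨fun n hn g => ?_⟩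
    rw [Subgroup.mem_subgroupOf] at hn ⊢
    have := h.norm (g : Perm α) (hle g.2) (n : Perm α) hn
    simpa using this
  rcases hN.eq_bot_or_eq_top with h0 | h1
  · exfalso
    rw [Subgroup.subgroupOf_eq_bot, disjoint_iff, inf_eq_left.mpr hK] at h0
    exact h.ne_bot h0
  · exact le_antisymm hK (Subgroup.subgroupOf_eq_top.mp h1)

end Cfsg.Agent.Lib.Helper45.S28
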