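import Mathlib
import Cfsg.Agent.Lib.Helper45.S28A


/-! S2928 piece QConj (project of helper45).
PLACEHOLDER: replace the `sorry`(s) in THIS file; keep theorem names and statements byte-identical;
keep the namespace; auxiliary lemmas go ABOVE the theorems and MUST start with the prefix `qconj_`.
Definitions (`Hyp`, `QuadSet`, `Bad`, `Cfg`, `TSet`, `suppK`, `ext`): Cfsg/Agent/Lib/Helper45/S28A.lean.
The paper proof is in the docstring of each theorem. -/

set_option autoImplicit false

namespace Cfsg.Agent.Lib.Helper45.S28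

open Equiv Cfsg.Agent.Lib.Helper45 Cfsg.Agent.Lib.Helper45.S21

variable {α : Type*} [Fintype α] [DecidableEq α]

/-- PROOF. card: `Finset.card_image_of_injective`.  For `x y z w` in the image, pairwise distinct, take
preimages `g⁻¹ x, …` (in `A`, pairwise distinct); `swap (g⁻¹ x) (g⁻¹ y) * swap (g⁻¹ z) (g⁻¹ w) ∈ G`,
and conjugating by `g ∈ G` gives `swap x y * swap z w`
(`Equiv.swap_apply_apply : swap (f x) (f y) = f * swap x y * f⁻¹`). -/
theorem quadSet_image (G : Subgroup (Perm α)) (g : Perm α) (hg : g ∈ G) (A : Finset α)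
    (hA : QuadSet G A) : QuadSet G (A.image ⇑g) := by
  obtain ⟨hcard, hq⟩ := hA
  refine ⟨?_, ?_⟩
  · rw [Finset.card_image_of_injective _ g.injective, hcard]
  · intro x hx y hy z hz w hw hxy hxz hxw hyz hyw hzw
    obtain ⟨x', hx', rfl⟩ := Finset.mem_image.1 hx
    obtain ⟨y', hy', rfl⟩ := Finset.mem_image.1 hy
    obtain ⟨z', hz', rfl⟩ := Finset.mem_image.1 hz
    obtain ⟨w', hw', rfl⟩ := Finset.mem_image.1 hw
    have h := hq x' hx' y' hy' z' hz' w' hw' (fun h => hxy (by rw [h])) (fun h => hxz (by rw [h]))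
      (fun h => hxw (by rw [h])) (fun h => hyz (by rw [h])) (fun h => hyw (by rw [h]))
      (fun h => hzw (by rw [h]))
    have h2 : swap (g x') (g y') * swap (g z') (g w') = g * (swap x' y' * swap z' w') * g⁻¹ := by
      rw [Equiv.swap_apply_apply, Equiv.swap_apply_apply]
      group
    rw [h2]
    exact G.mul_mem (G.mul_mem hg h) (G.inv_mem hg)

end Cfsg.Agent.Lib.Helper45.S28
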