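import Mathlib
import Cfsg.Agent.Lib.Helper45.S28A


/-! S2928 piece QInit (project of helper45).
PLACEHOLDER: replace the `sorry`(s) in THIS file; keep theorem names and statements byte-identical;
keep the namespace; auxiliary lemmas go ABOVE the theorems and MUST start with the prefix `qinit_`.
Definitions (`Hyp`, `QuadSet`, `Bad`, `Cfg`, `TSet`, `suppK`, `ext`): Cfsg/Agent/Lib/Helper45/S28A.lean.
The paper proof is in the docstring of each theorem. -/

set_option autoImplicit false
set_option linter.unusedSimpArgs false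
set_option linter.unusedSectionVars false

namespace Cfsg.Agent.Lib.Helper45.S28

open Equiv Cfsg.Agent.Lib.Helper45 Cfsg.Agent.Lib.Helper45.S21

variable {α : Type*} [Fintype α] [DecidableEq α]

/-- the eight ways of writing a double transposition -/
theorem qinit_forms (G : Subgroup (Perm α)) {p q r s : α} (hnd : [p, q, r, s].Nodup)
    (h : swap p q * swap r s ∈ G) :
    swap q p * swap r s ∈ G ∧ swap p q * swap s r ∈ G ∧ swap q p * swap s r ∈ G ∧
    swap r s * swap p q ∈ G ∧ swap s r * swap p q ∈ G ∧ swap r s * swap q p ∈ G ∧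
    swap s r * swap q p ∈ G := by
  have hc : swap r s * swap p q = swap p q * swap r s :=
    ((Equiv.Perm.disjoint_swap_swap hnd).commute.eq).symm
  rw [swap_comm q p, swap_comm s r, hc]
  exact ⟨h, h, h, h, h, h, h⟩

/-- the third double transposition of a 4-set is the product of the other two -/
theorem qinit_third (a b c d : α) (hab : a ≠ b) (hac : a ≠ c) (had : a ≠ d) (hbc : b ≠ c)
    (hbd : b ≠ d) (hcd : c ≠ d) :
    swap a d * swap b c = (swap a b * swap c d) * (swap a c * swap b d) := by
  ext x
  simp only [Perm.mul_apply]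
  rcases eq_or_ne x a with rfl | hxa
  · simp [Equiv.swap_apply_def, hab, hac, had, hbc, hbd, hcd, hab.symm, hac.symm, had.symm,
      hbc.symm, hbd.symm, hcd.symm]
  rcases eq_or_ne x b with rfl | hxb
  · simp [Equiv.swap_apply_def, hab, hac, had, hbc, hbd, hcd, hab.symm, hac.symm, had.symm,
      hbc.symm, hbd.symm, hcd.symm]
  rcases eq_or_ne x c with rfl | hxc
  · simp [Equiv.swap_apply_def, hab, hac, had, hbc, hbd, hcd, hab.symm, hac.symm, had.symm,
      hbc.symm, hbd.symm, hcd.symm]
  rcases eq_or_ne x d with rfl | hxd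
  · simp [Equiv.swap_apply_def, hab, hac, had, hbc, hbd, hcd, hab.symm, hac.symm, had.symm,
      hbc.symm, hbd.symm, hcd.symm]
  simp [Equiv.swap_apply_def, hxa, hxb, hxc, hxd]

/-- PROOF. `{a,b,c,d}` has card 4 by `hnd`.  The third double transposition is the product of the two
given ones: `swap a d * swap b c = (swap a b * swap c d) * (swap a c * swap b d)` (check pointwise on
`a, b, c, d` and on the other points).  For `x y z w ∈ {a,b,c,d}` pairwise distinct,
`swap x y * swap z w` is one of these three (use `Equiv.swap_comm` and the fact that disjoint swaps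
commute): 24 cases. -/
theorem quadSet_of (G : Subgroup (Perm α)) (a b c d : α) (hnd : [a, b, c, d].Nodup)
    (h1 : swap a b * swap c d ∈ G) (h2 : swap a c * swap b d ∈ G) : QuadSet G {a, b, c, d} := by
  have hnd' := hnd
  simp only [List.nodup_cons, List.mem_cons, List.not_mem_nil, or_false, not_or,
    List.nodup_nil, and_true, not_false_eq_true] at hnd'
  obtain ⟨⟨hab', hac', had'⟩, ⟨hbc', hbd'⟩, hcd'⟩ := hnd'
  have hab : a ≠ b := hab'
  have hac : a ≠ c := hac'
  have had : a ≠ d := had'
  have hbc : b ≠ c := hbc'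
  have hbd : b ≠ d := hbd'
  have hcd : c ≠ d := hcd'
  clear hab' hac' had' hbc' hbd' hcd'
  have h3 : swap a d * swap b c ∈ G := by
    rw [qinit_third a b c d hab hac had hbc hbd hcd]
    exact G.mul_mem h1 h2
  have n1 : [a, b, c, d].Nodup := hnd
  have n2 : [a, c, b, d].Nodup := by
    simp [hab, hac, had, hbc, hbd, hcd, hbc.symm]
  have n3 : [a, d, b, c].Nodup := by
    simp [hab, hac, had, hbc, hbd, hcd, hbd.symm, hcd.symm]
  obtain ⟨f11, f12, f13, f14, f15, f16, f17⟩ := qinit_forms G n1 h1
  obtain ⟨f21, f22, f23, f24, f25, f26, f27⟩ := qinit_forms G n2 h2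
  obtain ⟨f31, f32, f33, f34, f35, f36, f37⟩ := qinit_forms G n3 h3
  refine ⟨?_, ?_⟩
  · rw [Finset.card_insert_of_notMem, Finset.card_insert_of_notMem,
      Finset.card_insert_of_notMem, Finset.card_singleton]
    · simpa using hcd
    · simp [hbc, hbd]
    · simp [hab, hac, had]
  · intro x hx y hy z hz w hw hxy hxz hxw hyz hyw hzw
    simp only [Finset.mem_insert, Finset.mem_singleton] at hx hy hz hw
    rcases hx with rfl | rfl | rfl | rfl <;> rcases hy with rfl | rfl | rfl | rfl <;>
      (try contradiction) <;> rcases hz with rfl | rfl | rfl | rfl <;>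
      (try contradiction) <;> rcases hw with rfl | rfl | rfl | rfl <;>
      first | contradiction | assumption

/-- PROOF. `h.quads` and `quadSet_of` twice; the two 4-sets are disjoint by the `Nodup`. -/
theorem exists_quadSets (G K : Subgroup (Perm α)) (𝒮 : Set (Perm α)) (h : Cfg G K 𝒮) :
    ∃ A A' : Finset α, QuadSet G A ∧ QuadSet G A' ∧ Disjoint A A' := by
  obtain ⟨a, b, c, d, a', b', c', d', hnd, h1, h2, h1', h2'⟩ := h.quads
  have e : [a, b, c, d, a', b', c', d'] = [a, b, c, d] ++ [a', b', c', d'] := rfl
  rw [e, List.nodup_append] at hnd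
  obtain ⟨hn1, hn2, hdisj⟩ := hnd
  refine ⟨{a, b, c, d}, {a', b', c', d'}, quadSet_of G a b c d hn1 h1 h2,
    quadSet_of G a' b' c' d' hn2 h1' h2', ?_⟩
  rw [Finset.disjoint_left]
  intro x hx hx'
  simp only [Finset.mem_insert, Finset.mem_singleton] at hx hx'
  exact hdisj x (by simpa using hx) x (by simpa using hx') rfl

end Cfsg.Agent.Lib.Helper45.S28
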