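import Mathlib
import Cfsg.Agent.Lib.Helper45.S28A
import Cfsg.Agent.Lib.Helper45.S28QInit
import Cfsg.Agent.Lib.Helper45.S28QConj

/-! S2928 piece BadClosed (project of helper45).
Filled by helper45 (backup for the job-board piece);
keep the namespace; auxiliary lemmas go ABOVE the theorems and MUST start with the prefix `badclosed_`.
Definitions (`Hyp`, `QuadSet`, `Bad`, `Cfg`, `TSet`, `suppK`, `ext`): Cfsg/Agent/Lib/Helper45/S28A.lean.
The paper proof is in the docstring of each theorem. -/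

set_option autoImplicit false

namespace Cfsg.Agent.Lib.Helper45.S28

open Equiv Cfsg.Agent.Lib.Helper45 Cfsg.Agent.Lib.Helper45.S21

variable {α : Type*} [Fintype α] [DecidableEq α]

/-- Not all quad sets are closed under the swaps of `𝒮`.
PROOF. Take a quad set `A₀` (`exists_quadSets`), `a ∈ A₀`, `σ ∈ 𝒮` moving `a` (`hcov`), `y = σ a ∈ A₀`
(`hcl`), `y ≠ a`.  Take `y' ∉ A₀` (`h.quads` gives 8 distinct points, `A₀` has 4), so `y' ≠ a`.
By `h2` there is `g ∈ G` with `g a = a`, `g y = y'`.  `A₁ = A₀.image g⁻¹` is a quad set (`quadSet_image`)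
containing `a`, so by `hcl` it contains `σ a = y`, i.e. `y = g⁻¹ p` with `p ∈ A₀`, so `p = g y = y' ∈ A₀`:
contradiction. -/
theorem bad_closed (G K : Subgroup (Perm α)) (𝒮 : Set (Perm α)) (h : Cfg G K 𝒮)
    (h2 : ∀ x y x' y' : α, x ≠ y → x' ≠ y' → ∃ g ∈ G, g x = x' ∧ g y = y')
    (hcov : ∀ x : α, ∃ σ ∈ 𝒮, σ x ≠ x)
    (hcl : ∀ A : Finset α, QuadSet G A → ∀ σ ∈ 𝒮, ∀ x ∈ A, σ x ∈ A) : False := by
  obtain ⟨A0, A0', hA0, hA0', hd⟩ := exists_quadSets G K 𝒮 h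
  have hne : A0.Nonempty := by
    rw [← Finset.card_pos, hA0.1]; norm_num
  obtain ⟨a, ha⟩ := hne
  obtain ⟨σ, hσ, hσa⟩ := hcov a
  have hy : σ a ∈ A0 := hcl A0 hA0 σ hσ a ha
  have hne' : A0'.Nonempty := by
    rw [← Finset.card_pos, hA0'.1]; norm_num
  obtain ⟨y', hy'⟩ := hne'
  have hy'A : y' ∉ A0 := fun hin => Finset.disjoint_left.mp hd hin hy'
  have hy'a : a ≠ y' := fun e => hy'A (e ▸ ha)
  obtain ⟨g, hg, hga, hgy⟩ := h2 a (σ a) a y' (Ne.symm hσa) hy'a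
  have hA1 := quadSet_image G g⁻¹ (G.inv_mem hg) A0 hA0
  have ha1 : a ∈ A0.image ⇑g⁻¹ := by
    rw [Finset.mem_image]
    refine ⟨a, ha, ?_⟩
    rw [Perm.inv_eq_iff_eq]
    exact hga.symm
  have hy1 := hcl _ hA1 σ hσ a ha1
  rw [Finset.mem_image] at hy1
  obtain ⟨p, hp, hpe⟩ := hy1
  rw [Perm.inv_eq_iff_eq] at hpe
  rw [hgy] at hpe
  exact hy'A (hpe ▸ hp)

end Cfsg.Agent.Lib.Helper45.S28
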