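import Mathlib
import Cfsg.Agent.Lib.Helper45.S28A
import Cfsg.Agent.Lib.Helper45.S28QConj

/-! S2928 piece BadT1 (project of helper45; filled by helper85).
Definitions (`Hyp`, `QuadSet`, `Bad`, `Cfg`, `TSet`, `suppK`, `ext`): Cfsg/Agent/Lib/Helper45/S28A.lean.
The paper proof is in the docstring of each theorem. -/

set_option autoImplicit false

namespace Cfsg.Agent.Lib.Helper45.S28

open Equiv Cfsg.Agent.Lib.Helper45 Cfsg.Agent.Lib.Helper45.S21

variable {α : Type*} [Fintype α] [DecidableEq α]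

theorem badt1_image_compl (g : Perm α) (A : Finset α) : (Aᶜ).image ⇑g = (A.image ⇑g)ᶜ := by
  ext x
  simp only [Finset.mem_image, Finset.mem_compl]
  constructor
  · rintro ⟨a, ha, rfl⟩ ⟨b, hb, hab⟩
    exact ha (g.injective hab ▸ hb)
  · intro h
    exact ⟨g⁻¹ x, fun hx => h ⟨g⁻¹ x, hx, by simp⟩, by simp⟩

omit [Fintype α] in
theorem badt1_image_inv (g : Perm α) (B : Finset α) : (B.image ⇑g).image ⇑g⁻¹ = B := by
  rw [Finset.image_image, ← Perm.coe_mul, inv_mul_cancel, Perm.coe_one, Finset.image_id]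

omit [Fintype α] in
theorem badt1_image_inv' (g : Perm α) (B : Finset α) : (B.image ⇑g⁻¹).image ⇑g = B := by
  rw [Finset.image_image, ← Perm.coe_mul, mul_inv_cancel, Perm.coe_one, Finset.image_id]

theorem tset_one (G : Subgroup (Perm α)) : (1 : Perm α) ∈ TSet G := by
  refine ⟨G.one_mem, fun A _ => Or.inl ?_⟩
  rw [Perm.coe_one, Finset.image_id]

/-- PROOF. `A.image (g * g') = (A.image g').image g`.  If `A.image g' = A` use `hg` at `A`.  If
`A.image g' = Aᶜ`: `(Aᶜ).image g = (A.image g)ᶜ` (`g` is a bijection), which is `Aᶜ` or `Aᶜᶜ = A`. -/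
theorem tset_mul (G : Subgroup (Perm α)) (g g' : Perm α) (hg : g ∈ TSet G) (hg' : g' ∈ TSet G) :
    g * g' ∈ TSet G := by
  refine ⟨G.mul_mem hg.1 hg'.1, fun A hA => ?_⟩
  have e : A.image ⇑(g * g') = (A.image ⇑g').image ⇑g := by
    rw [Finset.image_image, Perm.coe_mul]
  rw [e]
  rcases hg'.2 A hA with h | h
  · rw [h]
    exact hg.2 A hA
  · rw [h, badt1_image_compl]
    rcases hg.2 A hA with h2 | h2
    · right
      rw [h2]
    · left
      rw [h2, compl_compl]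

/-- PROOF. If `A.image g = A` then `A.image g⁻¹ = A`.  If `A.image g = Aᶜ` then `(Aᶜ).image g⁻¹ = A`,
so `A.image g⁻¹ = ((Aᶜ).image g⁻¹)ᶜ = Aᶜ`. -/
theorem tset_inv (G : Subgroup (Perm α)) (g : Perm α) (hg : g ∈ TSet G) : g⁻¹ ∈ TSet G := by
  refine ⟨G.inv_mem hg.1, fun A hA => ?_⟩
  rcases hg.2 A hA with h | h
  · left
    have h1 := badt1_image_inv g A
    rw [h] at h1
    exact h1
  · right
    have h1 := badt1_image_inv g A
    rw [h] at h1
    have h2 := badt1_image_compl g⁻¹ Aᶜ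
    rw [compl_compl, h1] at h2
    exact h2

/-- PROOF. `A₂ = A.image k⁻¹` is a quad set (`quadSet_image`, `k⁻¹ ∈ G`); `A₂.image g` is `A₂` or `A₂ᶜ`;
applying `k`: `A₂.image k = A` and `(A₂ᶜ).image k = Aᶜ`. -/
theorem tset_conj (G : Subgroup (Perm α)) (k g : Perm α) (hk : k ∈ G) (hg : g ∈ TSet G) :
    k * g * k⁻¹ ∈ TSet G := by
  refine ⟨G.mul_mem (G.mul_mem hk hg.1) (G.inv_mem hk), fun A hA => ?_⟩
  have hA2 := quadSet_image G k⁻¹ (G.inv_mem hk) A hA
  have e : A.image ⇑(k * g * k⁻¹) = ((A.image ⇑k⁻¹).image ⇑g).image ⇑k := by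
    rw [Finset.image_image, Finset.image_image, Perm.coe_mul, Perm.coe_mul]
  rw [e]
  rcases hg.2 _ hA2 with h | h
  · left
    rw [h, badt1_image_inv']
  · right
    rw [h, badt1_image_compl, badt1_image_inv']

/-- PROOF. `x = y`: `t = 1`.  Otherwise `z a ≠ a` for some `a`; by `h2` take `g ∈ G` with `g a = x`,
`g (z a) = y`; `t = g * z * g⁻¹ ∈ TSet G` (`tset_conj`) and `t x = y`. -/
theorem tset_trans (G : Subgroup (Perm α))
    (h2 : ∀ x y x' y' : α, x ≠ y → x' ≠ y' → ∃ g ∈ G, g x = x' ∧ g y = y')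
    (z : Perm α) (hz : z ∈ TSet G) (hz1 : z ≠ 1) : ∀ x y : α, ∃ t ∈ TSet G, t x = y := by
  intro x y
  by_cases hxy : x = y
  · exact ⟨1, tset_one G, by rw [hxy]; rfl⟩
  · have hex : ∃ a, z a ≠ a := by
      by_contra hcon
      apply hz1
      ext a
      by_contra h
      exact hcon ⟨a, h⟩
    obtain ⟨a, ha⟩ := hex
    obtain ⟨g, hg, hga, hgz⟩ := h2 a (z a) x y (fun h => ha h.symm) hxy
    refine ⟨g * z * g⁻¹, tset_conj G g z hg hz, ?_⟩
    have h3 : g⁻¹ x = a := by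
      rw [← hga]
      simp
    rw [Perm.mul_apply, Perm.mul_apply, h3, hgz]

end Cfsg.Agent.Lib.Helper45.S28
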