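import Mathlib
import Cfsg.Agent.Lib.Helper45.S28A
import Cfsg.Agent.Lib.Helper45.S28QConj

/-! S2928 piece BadT2 (project of helper45).
PLACEHOLDER: replace the `sorry`(s) in THIS file; keep theorem names and statements byte-identical;
keep the namespace; auxiliary lemmas go ABOVE the theorems and MUST start with the prefix `badt2_`.
Definitions (`Hyp`, `QuadSet`, `Bad`, `Cfg`, `TSet`, `suppK`, `ext`): Cfsg/Agent/Lib/Helper45/S28A.lean.
The paper proof is in the docstring of each theorem. -/

set_option autoImplicit false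

namespace Cfsg.Agent.Lib.Helper45.S28

open Equiv Cfsg.Agent.Lib.Helper45 Cfsg.Agent.Lib.Helper45.S21

variable {α : Type*} [Fintype α] [DecidableEq α]

/-- image under a product of permutations -/
theorem badt2_image_mul (A : Finset α) (f f' : Perm α) :
    A.image ⇑(f * f') = (A.image ⇑f').image ⇑f := by
  rw [Finset.image_image, Equiv.Perm.coe_mul]

/-- image of the complement under a permutation -/
theorem badt2_image_compl (A : Finset α) (f : Perm α) : (Aᶜ).image ⇑f = (A.image ⇑f)ᶜ := by
  ext y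
  simp only [Finset.mem_image, Finset.mem_compl]
  constructor
  · rintro ⟨x, hx, rfl⟩ ⟨x', hx', h⟩
    exact hx (f.injective h ▸ hx')
  · intro h
    exact ⟨f⁻¹ y, fun hx => h ⟨f⁻¹ y, hx, by simp⟩, by simp⟩

/-- a permutation fixing every quad set is the identity -/
theorem badt2_eq_one (G : Subgroup (Perm α))
    (h2 : ∀ x y x' y' : α, x ≠ y → x' ≠ y' → ∃ g ∈ G, g x = x' ∧ g y = y')
    (A0 : Finset α) (hA0 : QuadSet G A0) (h5 : 5 ≤ Fintype.card α) (e : Perm α)
    (he : ∀ A : Finset α, QuadSet G A → A.image ⇑e = A) : e = 1 := by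
  by_contra hne
  obtain ⟨x, hx⟩ : ∃ x, e x ≠ x := by
    by_contra hall
    push Not at hall
    exact hne (Equiv.ext hall)
  obtain ⟨a, ha⟩ : ∃ a, a ∈ A0 := by
    apply Finset.card_pos.1
    rw [hA0.1]
    norm_num
  obtain ⟨a', ha'⟩ : ∃ a', a' ∉ A0 := by
    by_contra hall
    push Not at hall
    have h3 : A0 = Finset.univ := Finset.eq_univ_iff_forall.2 hall
    have h4 := hA0.1
    rw [h3, Finset.card_univ] at h4
    omega
  have haa' : a ≠ a' := fun h => ha' (h ▸ ha)
  obtain ⟨k, hk, hka, hka'⟩ := h2 a a' x (e x) haa' (Ne.symm hx)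
  have hB := quadSet_image G k hk A0 hA0
  have hxB : x ∈ A0.image ⇑k := Finset.mem_image.2 ⟨a, ha, hka⟩
  have hx'B : e x ∉ A0.image ⇑k := by
    intro h
    obtain ⟨b, hb, hkb⟩ := Finset.mem_image.1 h
    rw [← hka'] at hkb
    exact ha' (k.injective hkb ▸ hb)
  apply hx'B
  have h6 := Finset.mem_image_of_mem (⇑e) hxB
  rw [he _ hB] at h6
  exact h6

/-- `TSet G` is commutative.
PROOF. (a) If `e : Perm α` satisfies `A.image e = A` for every quad set `A`, then `e = 1`: if
`e x = x' ≠ x`, take `a ∈ A0`, `a' ∉ A0` (`h5`), `k ∈ G` with `k a = x`, `k a' = x'` (`h2`); the quad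
set `A0.image k` (`quadSet_image`) contains `x` but not `x'`, while its image under `e` contains `x'`.
(b) For every quad set `A`: `A.image (g * g') = A.image (g' * g)` (four cases: each of `g, g'` maps `A`
to `A` or `Aᶜ`, and `(Aᶜ).image f = (A.image f)ᶜ` for a permutation `f`).  Hence
`e = (g' * g)⁻¹ * (g * g')` fixes every quad set, `e = 1` by (a). -/
theorem tset_comm (G : Subgroup (Perm α))
    (h2 : ∀ x y x' y' : α, x ≠ y → x' ≠ y' → ∃ g ∈ G, g x = x' ∧ g y = y')
    (A0 : Finset α) (hA0 : QuadSet G A0) (h5 : 5 ≤ Fintype.card α) (g g' : Perm α)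
    (hg : g ∈ TSet G) (hg' : g' ∈ TSet G) : g * g' = g' * g := by
  have hcomp : ∀ A : Finset α, QuadSet G A → A.image ⇑(g * g') = A.image ⇑(g' * g) := by
    intro A hA
    rw [badt2_image_mul, badt2_image_mul]
    rcases hg.2 A hA with h1 | h1 <;> rcases hg'.2 A hA with h1' | h1'
    · rw [h1', h1, h1']
    · rw [h1', h1, h1', badt2_image_compl, h1]
    · rw [h1', h1, badt2_image_compl, h1']
    · rw [h1', h1, badt2_image_compl, badt2_image_compl, h1, h1']
  have he : (g' * g)⁻¹ * (g * g') = 1 := by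
    apply badt2_eq_one G h2 A0 hA0 h5
    intro A hA
    rw [badt2_image_mul, hcomp A hA, ← badt2_image_mul, inv_mul_cancel]
    simp
  calc g * g' = (g' * g) * ((g' * g)⁻¹ * (g * g')) := by group
    _ = g' * g := by rw [he, mul_one]

end Cfsg.Agent.Lib.Helper45.S28
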