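import Mathlib
import Cfsg.Agent.Lib.Helper45.S28A
import Cfsg.Agent.Lib.Helper45.S28QConj

/-! S2928 piece BadX (project of helper45).
FILLED by helper6 (job 3324); theorem names and statements byte-identical.
Definitions (`Hyp`, `QuadSet`, `Bad`, `Cfg`, `TSet`, `suppK`, `ext`): Cfsg/Agent/Lib/Helper45/S28A.lean.
The paper proof is in the docstring of each theorem. -/

set_option autoImplicit false

namespace Cfsg.Agent.Lib.Helper45.S28

open Equiv Cfsg.Agent.Lib.Helper45 Cfsg.Agent.Lib.Helper45.S21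

variable {α : Type*} [Fintype α] [DecidableEq α]

/-- In the bad case: if the swap `swap x y ∈ 𝒮` has exactly one point in the quad set `A`, so has every
other swap of `𝒮`.
PROOF. `x ≠ y`; `x' ≠ y'` (else `swap x' y' = 1` is not a swap, `h.isSwap`); `{x, y}` and `{x', y'}` are
disjoint (`h.disj`, `hne`).  `g = swap x y * swap x' y' ∈ G` (`h.prod`), and `A' = A.image g` is a quad
set (`quadSet_image`).  If `x', y'` are both outside `A` or both in `A`, then `g` maps `A \ {x}` onto
itself and `x` to `y ∉ A`, so `A ∩ A' = A.erase x` has card 3, contradicting `hbad A A'`. -/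
theorem bad_swap (G K : Subgroup (Perm α)) (𝒮 : Set (Perm α)) (h : Cfg G K 𝒮) (hbad : Bad G)
    (A : Finset α) (hA : QuadSet G A) (x y : α) (hσ : swap x y ∈ 𝒮) (hx : x ∈ A) (hy : y ∉ A)
    (x' y' : α) (hσ' : swap x' y' ∈ 𝒮) (hne : swap x' y' ≠ swap x y) :
    (x' ∈ A ∧ y' ∉ A) ∨ (x' ∉ A ∧ y' ∈ A) := by
  classical
  have hxy : x ≠ y := fun e => hy (e ▸ hx)
  have hx'y' : x' ≠ y' := by
    intro e
    obtain ⟨a, b, hab, hs⟩ := h.isSwap _ hσ'
    rw [e, Equiv.swap_self] at hs
    have h1 := congrArg (fun f : Perm α => f a) hs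
    simp only [Equiv.swap_apply_left, Equiv.refl_apply] at h1
    exact hab h1
  have hdisj : ∀ p, (p = x ∨ p = y) → (p = x' ∨ p = y') → False := by
    intro p hp hp'
    apply hne
    refine (h.disj _ hσ _ hσ' p ?_ ?_).symm
    · rcases hp with hp | hp
      · rw [hp, Equiv.swap_apply_left]; exact hxy.symm
      · rw [hp, Equiv.swap_apply_right]; exact hxy
    · rcases hp' with hp' | hp'
      · rw [hp', Equiv.swap_apply_left]; exact hx'y'.symm
      · rw [hp', Equiv.swap_apply_right]; exact hx'y'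
  have hxx' : x ≠ x' := fun e => hdisj x (Or.inl rfl) (Or.inl e)
  have hxy' : x ≠ y' := fun e => hdisj x (Or.inl rfl) (Or.inr e)
  have hyx' : y ≠ x' := fun e => hdisj y (Or.inr rfl) (Or.inl e)
  have hyy' : y ≠ y' := fun e => hdisj y (Or.inr rfl) (Or.inr e)
  by_contra hcon
  have hiff : x' ∈ A ↔ y' ∈ A := by tauto
  have hg : swap x y * swap x' y' ∈ G := h.prod _ hσ _ hσ' (Ne.symm hne)
  have hgA : ∀ z ∈ A, z ≠ x →
      (swap x y * swap x' y') z ∈ A ∧ (swap x y * swap x' y') z ≠ x := by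
    intro z hz hzx
    have hzy : z ≠ y := fun e => hy (e ▸ hz)
    rw [Equiv.Perm.mul_apply]
    by_cases h1 : z = x'
    · have hy'A : y' ∈ A := hiff.mp (h1 ▸ hz)
      rw [h1, Equiv.swap_apply_left, Equiv.swap_apply_of_ne_of_ne hxy'.symm hyy'.symm]
      exact ⟨hy'A, hxy'.symm⟩
    · by_cases h2 : z = y'
      · have hx'A : x' ∈ A := hiff.mpr (h2 ▸ hz)
        rw [h2, Equiv.swap_apply_right, Equiv.swap_apply_of_ne_of_ne hxx'.symm hyx'.symm]
        exact ⟨hx'A, hxx'.symm⟩
      · rw [Equiv.swap_apply_of_ne_of_ne h1 h2, Equiv.swap_apply_of_ne_of_ne hzx hzy]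
        exact ⟨hz, hzx⟩
  have hgx : (swap x y * swap x' y') x = y := by
    rw [Equiv.Perm.mul_apply, Equiv.swap_apply_of_ne_of_ne hxx' hxy', Equiv.swap_apply_left]
  have hsub : (A.erase x).image ⇑(swap x y * swap x' y') ⊆ A.erase x := by
    intro z hz
    obtain ⟨w, hw, rfl⟩ := Finset.mem_image.mp hz
    have hw' := Finset.mem_erase.mp hw
    exact Finset.mem_erase.mpr ⟨(hgA w hw'.2 hw'.1).2, (hgA w hw'.2 hw'.1).1⟩
  have hcard : ((A.erase x).image ⇑(swap x y * swap x' y')).card = (A.erase x).card :=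
    Finset.card_image_of_injective _ (swap x y * swap x' y').injective
  have heq : (A.erase x).image ⇑(swap x y * swap x' y') = A.erase x :=
    Finset.eq_of_subset_of_card_le hsub (by rw [hcard])
  have hint : A ∩ A.image ⇑(swap x y * swap x' y') = A.erase x := by
    ext z
    constructor
    · intro hz
      obtain ⟨hzA, hzI⟩ := Finset.mem_inter.mp hz
      obtain ⟨w, hw, hwz⟩ := Finset.mem_image.mp hzI
      by_cases hwx : w = x
      · exfalso
        rw [hwx, hgx] at hwz
        exact hy (hwz ▸ hzA)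
      · exact Finset.mem_erase.mpr ⟨hwz ▸ (hgA w hw hwx).2, hzA⟩
    · intro hz
      refine Finset.mem_inter.mpr ⟨(Finset.mem_erase.mp hz).2, ?_⟩
      rw [← heq] at hz
      obtain ⟨w, hw, hwz⟩ := Finset.mem_image.mp hz
      exact Finset.mem_image.mpr ⟨w, (Finset.mem_erase.mp hw).2, hwz⟩
  have h3 : (A ∩ A.image ⇑(swap x y * swap x' y')).card = 3 := by
    rw [hint, Finset.card_erase_of_mem hx, hA.1]
  exact (hbad A _ hA (quadSet_image G _ hg A hA)).2 h3

end Cfsg.Agent.Lib.Helper45.S28
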