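import Mathlib
import Cfsg.Agent.Lib.Helper45.S28A


/-! S2928 piece Four (project of helper45); proved by helper66.
Auxiliary lemmas go ABOVE the theorems and start with the prefix `four_`.
Definitions (`Hyp`, `QuadSet`, `Bad`, `Cfg`, `TSet`, `suppK`, `ext`): Cfsg/Agent/Lib/Helper45/S28A.lean.
The paper proof is in the docstring of each theorem. -/

set_option autoImplicit false

namespace Cfsg.Agent.Lib.Helper45.S28

open Equiv Cfsg.Agent.Lib.Helper45 Cfsg.Agent.Lib.Helper45.S21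

variable {α : Type*} [Fintype α] [DecidableEq α]

/-- There are four distinct swaps in `𝒮`.
PROOF. `h.quads` gives 8 distinct points; by `h.uncov` at most one of them is fixed by all `σ ∈ 𝒮`, so
at least 7 of them are each moved by some `σ ∈ 𝒮`.  A swap moves exactly two points (`h.isSwap`), so
the chosen swaps take at least 4 distinct values (e.g. `Finset.card_le_mul_card_image` with fibres of
size `≤ 2`). -/
theorem exists_four (G K : Subgroup (Perm α)) (𝒮 : Set (Perm α)) (h : Cfg G K 𝒮) :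
    ∃ σ₁ σ₂ σ₃ σ₄ : Perm α, σ₁ ∈ 𝒮 ∧ σ₂ ∈ 𝒮 ∧ σ₃ ∈ 𝒮 ∧ σ₄ ∈ 𝒮 ∧ [σ₁, σ₂, σ₃, σ₄].Nodup := by
  classical
  obtain ⟨a, b, c, d, a', b', c', d', hnd, -, -, -, -⟩ := h.quads
  obtain ⟨T, hT⟩ : ∃ T : Finset α, T = [a, b, c, d, a', b', c', d'].toFinset := ⟨_, rfl⟩
  have hTcard : T.card = 8 := by
    rw [hT, List.toFinset_card_of_nodup hnd]; rfl
  obtain ⟨U, hU⟩ : ∃ U : Finset α, U = T.filter (fun x => ∃ σ ∈ 𝒮, σ x ≠ x) := ⟨_, rfl⟩
  have hfix : ∀ x ∈ T \ U, ∀ σ ∈ 𝒮, σ x = x := by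
    intro x hx σ hσ
    by_contra hne
    have hxU : x ∈ U := by
      rw [hU]
      exact Finset.mem_filter.2 ⟨(Finset.mem_sdiff.1 hx).1, σ, hσ, hne⟩
    exact (Finset.mem_sdiff.1 hx).2 hxU
  have hrest : (T \ U).card ≤ 1 := by
    rw [Finset.card_le_one]
    intro x hx y hy
    exact h.uncov x y (hfix x hx) (hfix y hy)
  have hUT : U ⊆ T := by
    rw [hU]
    exact Finset.filter_subset _ T
  have hUcard : 7 ≤ U.card := by
    have h1 := Finset.card_sdiff_add_card_eq_card hUT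
    omega
  let f : α → Perm α := fun x => if hx : ∃ σ ∈ 𝒮, σ x ≠ x then Classical.choose hx else 1
  have hf : ∀ x ∈ U, f x ∈ 𝒮 ∧ (f x) x ≠ x := by
    intro x hx
    rw [hU] at hx
    have hx' : ∃ σ ∈ 𝒮, σ x ≠ x := (Finset.mem_filter.1 hx).2
    have h1 : f x = Classical.choose hx' := dif_pos hx'
    rw [h1]
    exact Classical.choose_spec hx'
  have hfib : ∀ τ ∈ U.image f, (U.filter (fun x => f x = τ)).card ≤ 2 := by
    intro τ hτ
    obtain ⟨x0, hx0, rfl⟩ := Finset.mem_image.1 hτ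
    have hswap : (f x0).IsSwap := h.isSwap _ (hf x0 hx0).1
    have hsupp : (f x0).support.card = 2 := Equiv.Perm.card_support_eq_two.2 hswap
    rw [← hsupp]
    apply Finset.card_le_card
    intro x hx
    obtain ⟨hxU, hxf⟩ := Finset.mem_filter.1 hx
    rw [Equiv.Perm.mem_support, ← hxf]
    exact (hf x hxU).2
  have hI : 4 ≤ (U.image f).card := by
    have h1 := Finset.card_le_mul_card_image U 2 hfib
    omega
  have hI𝒮 : ∀ τ ∈ U.image f, τ ∈ 𝒮 := by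
    intro τ hτ
    obtain ⟨x0, hx0, rfl⟩ := Finset.mem_image.1 hτ
    exact (hf x0 hx0).1
  have hlist : ∃ l : List (Perm α), l.Nodup ∧ 4 ≤ l.length ∧ ∀ σ ∈ l, σ ∈ 𝒮 :=
    ⟨(U.image f).toList, Finset.nodup_toList _, by rw [Finset.length_toList]; exact hI,
      fun σ hσ => hI𝒮 σ (Finset.mem_toList.1 hσ)⟩
  obtain ⟨l, hlnd, hlen, hlmem⟩ := hlist
  rcases l with _ | ⟨σ₁, _ | ⟨σ₂, _ | ⟨σ₃, _ | ⟨σ₄, rest⟩⟩⟩⟩
  · simp at hlen
  · simp at hlen
  · simp at hlen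
  · simp at hlen
  · refine ⟨σ₁, σ₂, σ₃, σ₄, hlmem _ (by simp), hlmem _ (by simp), hlmem _ (by simp),
      hlmem _ (by simp), ?_⟩
    exact hlnd.sublist (List.take_sublist 4 (σ₁ :: σ₂ :: σ₃ :: σ₄ :: rest))

end Cfsg.Agent.Lib.Helper45.S28
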