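import Mathlib
import Cfsg.Agent.Lib.Helper45.S28A
import Cfsg.Agent.Lib.Helper45.S28BadX
import Cfsg.Agent.Lib.Helper45.S28QInit
import Cfsg.Agent.Lib.Helper45.S28Four

/-! S2928 piece BadU (project of helper45).
PLACEHOLDER: replace the `sorry`(s) in THIS file; keep theorem names and statements byte-identical;
keep the namespace; auxiliary lemmas go ABOVE the theorems and MUST start with the prefix `badu_`.
Definitions (`Hyp`, `QuadSet`, `Bad`, `Cfg`, `TSet`, `suppK`, `ext`): Cfsg/Agent/Lib/Helper45/S28A.lean.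
The paper proof is in the docstring of each theorem. -/

set_option autoImplicit false

namespace Cfsg.Agent.Lib.Helper45.S28

open Equiv Cfsg.Agent.Lib.Helper45 Cfsg.Agent.Lib.Helper45.S21

variable {α : Type*} [Fintype α] [DecidableEq α]

omit [Fintype α] in
theorem badu_swap_eq (σ : Perm α) (hσ : σ.IsSwap) (y : α) (hy : σ y ≠ y) : σ = swap y (σ y) := by
  obtain ⟨c, d, hcd, rfl⟩ := hσ
  by_cases hyc : y = c
  · subst hyc; rw [swap_apply_left]
  · by_cases hyd : y = d
    · subst hyd; rw [swap_apply_right]; exact swap_comm c y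
    · exact absurd (swap_apply_of_ne_of_ne hyc hyd) hy

/-- In the bad case every point is moved by some swap of `𝒮`.
PROOF. Suppose `u := x` is fixed by all `σ ∈ 𝒮`.  Take a quad set `A₀` (`exists_quadSets`), `a ∈ A₀`,
`g ∈ G` with `g a = u` (`htr`); `A = A₀.image g` is a quad set (`quadSet_image`) containing `u`;
`A = {u, p, q, r}`.  `p, q, r` are not fixed by all swaps (`h.uncov`).  Let `σ_p ∈ 𝒮` move `p`,
`σ_p = swap p p'` (`h.isSwap`), `p' ≠ u`.
Case `p' ∉ A`: by `bad_swap` every other swap of `𝒮` has exactly one point in `A`; this point is not `u`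
(fixed by all swaps) nor `p` (only `σ_p` moves `p`, `h.disj`), so it is `q` or `r`; swaps with a common
moved point are equal, so `𝒮` has at most 3 elements, contradicting `exists_four`.
Case `p' ∈ A`, say `p' = q`: let `σ_r = swap r r' ∈ 𝒮` move `r`; `r' ∉ A` (`r' ≠ u`; `r' ∉ {p, q}` else
`σ_r = σ_p` moves `r`), so by `bad_swap` (with `swap r r'`) the swap `σ_p = swap p q ≠ σ_r` has exactly
one point in `A`: contradiction. -/
theorem bad_covered (G K : Subgroup (Perm α)) (𝒮 : Set (Perm α)) (h : Cfg G K 𝒮) (hbad : Bad G)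
    (htr : ∀ x y : α, ∃ g ∈ G, g x = y) (x : α) : ∃ σ ∈ 𝒮, σ x ≠ x := by
  classical
  by_contra hcon0
  have hcon : ∀ σ ∈ 𝒮, σ x = x := by
    intro σ hσ
    by_contra hne
    exact hcon0 ⟨σ, hσ, hne⟩
  -- a quad set containing `x`
  obtain ⟨A₀, -, hA₀, -, -⟩ := exists_quadSets G K 𝒮 h
  have hne : A₀.Nonempty := by
    rw [← Finset.card_pos, hA₀.1]; norm_num
  obtain ⟨a, ha⟩ := hne
  obtain ⟨g, hg, hga⟩ := htr a x
  have hA : QuadSet G (A₀.image ⇑g) := quadSet_image G g hg A₀ hA₀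
  have hxA : x ∈ A₀.image ⇑g := Finset.mem_image.mpr ⟨a, ha, hga⟩
  generalize A₀.image ⇑g = A at hA hxA
  -- every other point is moved by a swap
  have hmov : ∀ y : α, y ≠ x → ∃ σ ∈ 𝒮, σ y ≠ y := by
    intro y hy
    by_contra hc
    apply hy
    refine h.uncov y x (fun σ hσ => ?_) hcon
    by_contra hne
    exact hc ⟨σ, hσ, hne⟩
  -- Claim 1: the partner of a point of `A` lies in `A`
  have claim1 : ∀ y ∈ A, y ≠ x → ∀ σ ∈ 𝒮, σ y ≠ y → σ y ∈ A := by
    intro y hyA hyx σ hσ hσy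
    by_contra hy'
    have hσeq : σ = swap y (σ y) := badu_swap_eq σ (h.isSwap σ hσ) y hσy
    have hσmem : swap y (σ y) ∈ 𝒮 := hσeq ▸ hσ
    have key : ∀ τ ∈ 𝒮, τ ≠ σ → ∃ w ∈ (A.erase x).erase y, τ w ≠ w := by
      intro τ hτ hτσ
      obtain ⟨c, d, hcd, hτeq⟩ := h.isSwap τ hτ
      have hne' : swap c d ≠ swap y (σ y) := by rw [← hσeq, ← hτeq]; exact hτσ
      have hcmove : τ c ≠ c := by rw [hτeq, swap_apply_left]; exact hcd.symm
      have hdmove : τ d ≠ d := by rw [hτeq, swap_apply_right]; exact hcd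
      have hgood : ∀ w : α, w ∈ A → τ w ≠ w → w ∈ (A.erase x).erase y := by
        intro w hwA hw
        rw [Finset.mem_erase, Finset.mem_erase]
        refine ⟨?_, ?_, hwA⟩
        · intro hwy
          rw [hwy] at hw
          exact hτσ (h.disj τ hτ σ hσ y hw hσy)
        · intro hwx
          rw [hwx] at hw
          exact hw (hcon τ hτ)
      have hτmem : swap c d ∈ 𝒮 := hτeq ▸ hτ
      rcases bad_swap G K 𝒮 h hbad A hA y (σ y) hσmem hyA hy' c d hτmem hne' with
        ⟨hc, -⟩ | ⟨-, hd⟩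
      · exact ⟨c, hgood c hc hcmove, hcmove⟩
      · exact ⟨d, hgood d hd hdmove, hdmove⟩
    obtain ⟨σ₁, σ₂, σ₃, σ₄, h1, h2, h3, h4, hnd⟩ := exists_four G K 𝒮 h
    have hT𝒮 : ∀ τ ∈ ({σ₁, σ₂, σ₃, σ₄} : Finset (Perm α)).erase σ, τ ∈ 𝒮 ∧ τ ≠ σ := by
      intro τ hτ
      rw [Finset.mem_erase] at hτ
      refine ⟨?_, hτ.1⟩
      have h5 := hτ.2
      simp only [Finset.mem_insert, Finset.mem_singleton] at h5
      rcases h5 with rfl | rfl | rfl | rfl <;> assumption
    have hTcard : 3 ≤ (({σ₁, σ₂, σ₃, σ₄} : Finset (Perm α)).erase σ).card := by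
      have h4card : ({σ₁, σ₂, σ₃, σ₄} : Finset (Perm α)).card = 4 := by
        have e : ({σ₁, σ₂, σ₃, σ₄} : Finset (Perm α)) = [σ₁, σ₂, σ₃, σ₄].toFinset := by
          ext τ; simp
        rw [e, List.toFinset_card_of_nodup hnd]; rfl
      have h6 := Finset.pred_card_le_card_erase (s := ({σ₁, σ₂, σ₃, σ₄} : Finset (Perm α)))
        (a := σ)
      omega
    have hBcard : ((A.erase x).erase y).card = 2 := by
      rw [Finset.card_erase_of_mem (Finset.mem_erase.mpr ⟨hyx, hyA⟩),
        Finset.card_erase_of_mem hxA, hA.1]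
    let f : Perm α → α := fun τ =>
      if hτ : τ ∈ 𝒮 ∧ τ ≠ σ then Classical.choose (key τ hτ.1 hτ.2) else x
    have hf : ∀ τ ∈ ({σ₁, σ₂, σ₃, σ₄} : Finset (Perm α)).erase σ,
        f τ ∈ (A.erase x).erase y ∧ τ (f τ) ≠ f τ := by
      intro τ hτ
      have hτ' := hT𝒮 τ hτ
      have h7 := Classical.choose_spec (key τ hτ'.1 hτ'.2)
      simp only [f, dif_pos hτ']
      exact h7
    have hinj : Set.InjOn f ((({σ₁, σ₂, σ₃, σ₄} : Finset (Perm α)).erase σ : Finset (Perm α)) :
        Set (Perm α)) := by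
      intro τ hτ τ' hτ' heq
      have e1 := (hf τ hτ).2
      have e2 := (hf τ' hτ').2
      rw [← heq] at e2
      exact h.disj τ (hT𝒮 τ hτ).1 τ' (hT𝒮 τ' hτ').1 (f τ) e1 e2
    have h8 := Finset.card_le_card_of_injOn f (fun τ hτ => (hf τ hτ).1) hinj
    omega
  -- Claim 2: a fixed-point-free pairing of the three points of `A \ {x}` is impossible
  have h3 : (A.erase x).card = 3 := by rw [Finset.card_erase_of_mem hxA, hA.1]
  obtain ⟨p, hp⟩ : (A.erase x).Nonempty := by rw [← Finset.card_pos, h3]; norm_num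
  have hpx : p ≠ x := (Finset.mem_erase.mp hp).1
  have hpA : p ∈ A := (Finset.mem_erase.mp hp).2
  obtain ⟨σp, hσp, hσpp⟩ := hmov p hpx
  have hσpeq : σp = swap p (σp p) := badu_swap_eq σp (h.isSwap σp hσp) p hσpp
  have hp'A : σp p ∈ A := claim1 p hpA hpx σp hσp hσpp
  obtain ⟨p', hp'⟩ : ∃ p', σp p = p' := ⟨_, rfl⟩
  rw [hp'] at hσpeq hp'A
  have hpp' : p ≠ p' := by rw [← hp']; exact fun e => hσpp e.symm
  have hp'x : p' ≠ x := by
    intro hc
    have h5 := hcon σp hσp
    rw [hσpeq, hc, swap_apply_right] at h5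
    exact hpx h5
  have h1c : (((A.erase x).erase p).erase p').card = 1 := by
    rw [Finset.card_erase_of_mem
      (Finset.mem_erase.mpr ⟨hpp'.symm, Finset.mem_erase.mpr ⟨hp'x, hp'A⟩⟩),
      Finset.card_erase_of_mem hp, h3]
  obtain ⟨r, hr⟩ : (((A.erase x).erase p).erase p').Nonempty := by
    rw [← Finset.card_pos, h1c]; norm_num
  simp only [Finset.mem_erase] at hr
  obtain ⟨hrp', hrp, hrx, hrA⟩ := hr
  obtain ⟨σr, hσr, hσrr⟩ := hmov r hrx
  have hσreq : σr = swap r (σr r) := badu_swap_eq σr (h.isSwap σr hσr) r hσrr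
  have hr'A : σr r ∈ A := claim1 r hrA hrx σr hσr hσrr
  obtain ⟨r', hr'⟩ : ∃ r', σr r = r' := ⟨_, rfl⟩
  rw [hr'] at hσreq hr'A
  have hrr' : r ≠ r' := by rw [← hr']; exact fun e => hσrr e.symm
  have hr'x : r' ≠ x := by
    intro hc
    have h5 := hcon σr hσr
    rw [hσreq, hc, swap_apply_right] at h5
    exact hrx h5
  have hAeq : A = {x, p, p', r} := by
    symm
    apply Finset.eq_of_subset_of_card_le
    · intro w hw
      simp only [Finset.mem_insert, Finset.mem_singleton] at hw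
      rcases hw with rfl | rfl | rfl | rfl <;> assumption
    · rw [hA.1]
      have e : ({x, p, p', r} : Finset α) = [x, p, p', r].toFinset := by
        ext w; simp
      have hnd : [x, p, p', r].Nodup := by
        simp only [List.nodup_cons, List.mem_cons, List.not_mem_nil, or_false, not_or,
          List.nodup_nil, and_true, not_false_eq_true]
        exact ⟨⟨hpx.symm, hp'x.symm, hrx.symm⟩, ⟨hpp', hrp.symm⟩, hrp'.symm⟩
      rw [e, List.toFinset_card_of_nodup hnd]; rfl
  have hr'mem : r' ∈ ({x, p, p', r} : Finset α) := hAeq ▸ hr'A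
  simp only [Finset.mem_insert, Finset.mem_singleton] at hr'mem
  have hσr_r' : σr r' ≠ r' := by
    rw [hσreq, swap_apply_right]; exact hrr'
  have hfix : σp r = r := by
    rw [hσpeq]; exact swap_apply_of_ne_of_ne hrp hrp'
  have hfin : ∀ w : α, σr w ≠ w → σp w ≠ w → False := by
    intro w h1 h2
    have e := h.disj σr hσr σp hσp w h1 h2
    rw [e] at hσrr
    exact hσrr hfix
  rcases hr'mem with e | e | e | e
  · exact hr'x e
  · exact hfin p (by rw [← e]; exact hσr_r') hσpp
  · refine hfin p' (by rw [← e]; exact hσr_r') ?_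
    rw [hσpeq, swap_apply_right]; exact hpp'
  · exact hrr' e.symm

end Cfsg.Agent.Lib.Helper45.S28
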