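import Mathlib
import Cfsg.Agent.Lib.Helper45.S28A
import Cfsg.Agent.Lib.Helper45.S28BadX

/-! S2928 piece BadZ1 (project of helper45; filled by helper64).
Definitions (`Hyp`, `QuadSet`, `Bad`, `Cfg`, `TSet`, `suppK`, `ext`): Cfsg/Agent/Lib/Helper45/S28A.lean.
The paper proof is in the docstring of the theorem. -/

set_option autoImplicit false

namespace Cfsg.Agent.Lib.Helper45.S28

open Equiv Cfsg.Agent.Lib.Helper45 Cfsg.Agent.Lib.Helper45.S21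

variable {α : Type*} [Fintype α] [DecidableEq α]

omit [Fintype α] in
theorem badz1_swap_eq {τ : Perm α} (hτ : τ.IsSwap) {v : α} (hv : τ v ≠ v) :
    τ = swap v (τ v) := by
  obtain ⟨a, b, hab, rfl⟩ := hτ
  by_cases h1 : v = a
  · subst h1; rw [swap_apply_left]
  · by_cases h2 : v = b
    · subst h2; rw [swap_apply_right, swap_comm]
    · exact absurd (swap_apply_of_ne_of_ne h1 h2) hv

omit [Fintype α] in
theorem badz1_invol {τ : Perm α} (hτ : τ.IsSwap) (v : α) : τ (τ v) = v := by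
  obtain ⟨a, b, hab, rfl⟩ := hτ
  exact swap_apply_self a b v

omit [Fintype α] in
theorem badz1_two {τ : Perm α} (hτ : τ.IsSwap) {a b : α} (ha : τ a ≠ a) (hb : τ b ≠ b)
    (hab : a ≠ b) : τ a = b := by
  have h := badz1_swap_eq hτ ha
  by_contra hne
  apply hb
  have h2 : swap a (τ a) b = b := swap_apply_of_ne_of_ne (Ne.symm hab) (Ne.symm hne)
  rw [← h] at h2
  exact h2

omit [Fintype α] in
theorem badz1_moves {τ : Perm α} (hτ : τ.IsSwap) : ∃ u, τ u ≠ u := by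
  obtain ⟨a, b, hab, rfl⟩ := hτ
  exact ⟨a, by rw [swap_apply_left]; exact hab.symm⟩

/-- In the bad case, if some quad set `A` is not closed under some swap of `𝒮`, then `𝒮` consists of
exactly four swaps covering all points, and their product `z` lies in `G`.
PROOF. `σ = swap x y` with `y = σ x ∉ A`, `y ≠ x`.  By `bad_swap` every other swap of `𝒮` has exactly one
point in `A`.  `A = {x, x₂, x₃, x₄}`; let `σᵢ ∈ 𝒮` move `xᵢ` (`hcov`), `σᵢ ≠ σ` (σ moves only `x, y`),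
`σᵢ = swap xᵢ yᵢ` with `yᵢ ∉ A` (`bad_swap`); the `σᵢ` are distinct (if `σᵢ = σⱼ` then `xⱼ = yᵢ ∈ A`).
Every `τ ∈ 𝒮` is `σ` or has a point `xⱼ ∈ A`, hence moves `xⱼ`, hence `τ = σⱼ` (`h.disj`).
So `𝒮 = {σ₁ = σ, σ₂, σ₃, σ₄}` (8 distinct points `x, y, x₂, y₂, x₃, y₃, x₄, y₄`), and by `hcov` every
point of `α` is one of these 8.  `z = σ₁ * σ₂ * σ₃ * σ₄ = (σ₁ * σ₂) * (σ₃ * σ₄) ∈ G` (`h.prod` twice).
`z` swaps `xᵢ` and `yᵢ` for each `i`: so `z v ≠ v`, `z (z v) = v`, and `swap v (z v)` is the `σᵢ` covering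
`v` (`Equiv.swap_comm` for `v = yᵢ`). -/
theorem bad_exists_z (G K : Subgroup (Perm α)) (𝒮 : Set (Perm α)) (h : Cfg G K 𝒮) (hbad : Bad G)
    (hcov : ∀ x : α, ∃ σ ∈ 𝒮, σ x ≠ x) (A : Finset α) (hA : QuadSet G A) (σ : Perm α) (hσ : σ ∈ 𝒮)
    (x : α) (hx : x ∈ A) (hσx : σ x ∉ A) :
    ∃ z ∈ G, (∀ v : α, z v ≠ v) ∧ (∀ v : α, z (z v) = v) ∧ ∀ v : α, swap v (z v) ∈ 𝒮 := by
  classical
  have hσsw := h.isSwap σ hσ
  have hσx' : σ x ≠ x := fun hh => hσx (by rw [hh]; exact hx)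
  have hσeq : σ = swap x (σ x) := badz1_swap_eq hσsw hσx'
  have hσmem : swap x (σ x) ∈ 𝒮 := by rw [← hσeq]; exact hσ
  -- the partner of a point of `A` is outside `A`
  have hstar : ∀ a ∈ A, ∀ τ ∈ 𝒮, τ a ≠ a → τ a ∉ A := by
    intro a ha τ hτ hτa
    have hτsw := h.isSwap τ hτ
    have hτeq : τ = swap a (τ a) := badz1_swap_eq hτsw hτa
    by_cases hτσ : τ = σ
    · have hσa : σ a ≠ a := by rw [← hτσ]; exact hτa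
      have hax : a = x := by
        by_contra hne
        have h1 : σ x = a := badz1_two hσsw hσx' hσa (Ne.symm hne)
        exact hσx (by rw [h1]; exact ha)
      rw [hτσ, hax]; exact hσx
    · have hτmem : swap a (τ a) ∈ 𝒮 := by rw [← hτeq]; exact hτ
      have hne : swap a (τ a) ≠ swap x (σ x) := by rw [← hτeq, ← hσeq]; exact hτσ
      rcases bad_swap G K 𝒮 h hbad A hA x (σ x) hσmem hx hσx a (τ a) hτmem hne with h1 | h1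
      · exact h1.2
      · exact absurd ha h1.1
  obtain ⟨a₁, a₂, a₃, a₄, h12, h13, h14, h23, h24, h34, hAeq⟩ := Finset.card_eq_four.1 hA.1
  have ha₁ : a₁ ∈ A := by rw [hAeq]; simp
  have ha₂ : a₂ ∈ A := by rw [hAeq]; simp
  have ha₃ : a₃ ∈ A := by rw [hAeq]; simp
  have ha₄ : a₄ ∈ A := by rw [hAeq]; simp
  obtain ⟨τ₁, hτ₁, hm₁⟩ := hcov a₁
  obtain ⟨τ₂, hτ₂, hm₂⟩ := hcov a₂
  obtain ⟨τ₃, hτ₃, hm₃⟩ := hcov a₃
  obtain ⟨τ₄, hτ₄, hm₄⟩ := hcov a₄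
  have hdist : ∀ (τ τ' : Perm α) (a b : α), τ ∈ 𝒮 → a ∈ A → b ∈ A → a ≠ b → τ a ≠ a →
      τ' b ≠ b → τ ≠ τ' := by
    intro τ τ' a b hτ ha hb hab hma hmb heq
    subst heq
    have h1 := badz1_two (h.isSwap τ hτ) hma hmb hab
    exact hstar a ha τ hτ hma (by rw [h1]; exact hb)
  have hne12 : τ₁ ≠ τ₂ := hdist τ₁ τ₂ a₁ a₂ hτ₁ ha₁ ha₂ h12 hm₁ hm₂
  have hne13 : τ₁ ≠ τ₃ := hdist τ₁ τ₃ a₁ a₃ hτ₁ ha₁ ha₃ h13 hm₁ hm₃
  have hne14 : τ₁ ≠ τ₄ := hdist τ₁ τ₄ a₁ a₄ hτ₁ ha₁ ha₄ h14 hm₁ hm₄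
  have hne23 : τ₂ ≠ τ₃ := hdist τ₂ τ₃ a₂ a₃ hτ₂ ha₂ ha₃ h23 hm₂ hm₃
  have hne24 : τ₂ ≠ τ₄ := hdist τ₂ τ₄ a₂ a₄ hτ₂ ha₂ ha₄ h24 hm₂ hm₄
  have hne34 : τ₃ ≠ τ₄ := hdist τ₃ τ₄ a₃ a₄ hτ₃ ha₃ ha₄ h34 hm₃ hm₄
  -- every swap of `𝒮` is one of the four
  have hall : ∀ τ ∈ 𝒮, τ = τ₁ ∨ τ = τ₂ ∨ τ = τ₃ ∨ τ = τ₄ := by
    intro τ hτ
    have hmA : ∃ a ∈ A, τ a ≠ a := by
      by_cases hτσ : τ = σ
      · exact ⟨x, hx, by rw [hτσ]; exact hσx'⟩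
      · obtain ⟨u, hu⟩ := badz1_moves (h.isSwap τ hτ)
        have hτeq := badz1_swap_eq (h.isSwap τ hτ) hu
        have hτmem : swap u (τ u) ∈ 𝒮 := by rw [← hτeq]; exact hτ
        have hne : swap u (τ u) ≠ swap x (σ x) := by rw [← hτeq, ← hσeq]; exact hτσ
        rcases bad_swap G K 𝒮 h hbad A hA x (σ x) hσmem hx hσx u (τ u) hτmem hne with h1 | h1
        · exact ⟨u, h1.1, hu⟩
        · refine ⟨τ u, h1.2, ?_⟩
          rw [badz1_invol (h.isSwap τ hτ) u]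
          exact fun hh => hu hh.symm
    obtain ⟨a, ha, hma⟩ := hmA
    rw [hAeq] at ha
    simp only [Finset.mem_insert, Finset.mem_singleton] at ha
    rcases ha with ha | ha | ha | ha
    · left; rw [ha] at hma; exact h.disj τ hτ τ₁ hτ₁ a₁ hma hm₁
    · right; left; rw [ha] at hma; exact h.disj τ hτ τ₂ hτ₂ a₂ hma hm₂
    · right; right; left; rw [ha] at hma; exact h.disj τ hτ τ₃ hτ₃ a₃ hma hm₃
    · right; right; right; rw [ha] at hma; exact h.disj τ hτ τ₄ hτ₄ a₄ hma hm₄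
  refine ⟨(τ₁ * τ₂) * (τ₃ * τ₄),
    G.mul_mem (h.prod τ₁ hτ₁ τ₂ hτ₂ hne12) (h.prod τ₃ hτ₃ τ₄ hτ₄ hne34), ?_⟩
  have hfix : ∀ (ρ τ : Perm α), ρ ∈ 𝒮 → τ ∈ 𝒮 → τ ≠ ρ → ∀ v, ρ v ≠ v →
      τ v = v ∧ τ (ρ v) = ρ v := by
    intro ρ τ hρ hτ hne v hv
    constructor
    · by_contra hm; exact hne (h.disj τ hτ ρ hρ v hm hv)
    · by_contra hm
      have hρρ : ρ (ρ v) ≠ ρ v := by
        rw [badz1_invol (h.isSwap ρ hρ) v]; exact fun hh => hv hh.symm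
      exact hne (h.disj τ hτ ρ hρ (ρ v) hm hρρ)
  have hkey : ∀ (ρ : Perm α), ρ ∈ 𝒮 → ∀ v, ρ v ≠ v → ((τ₁ * τ₂) * (τ₃ * τ₄)) v = ρ v := by
    intro ρ hρ v hv
    simp only [Perm.mul_apply]
    rcases hall ρ hρ with h1 | h1 | h1 | h1
    · rw [h1] at hv ⊢
      rw [(hfix τ₁ τ₄ hτ₁ hτ₄ (Ne.symm hne14) v hv).1, (hfix τ₁ τ₃ hτ₁ hτ₃ (Ne.symm hne13) v hv).1,
        (hfix τ₁ τ₂ hτ₁ hτ₂ (Ne.symm hne12) v hv).1]
    · rw [h1] at hv ⊢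
      rw [(hfix τ₂ τ₄ hτ₂ hτ₄ (Ne.symm hne24) v hv).1, (hfix τ₂ τ₃ hτ₂ hτ₃ (Ne.symm hne23) v hv).1,
        (hfix τ₂ τ₁ hτ₂ hτ₁ hne12 v hv).2]
    · rw [h1] at hv ⊢
      rw [(hfix τ₃ τ₄ hτ₃ hτ₄ (Ne.symm hne34) v hv).1, (hfix τ₃ τ₂ hτ₃ hτ₂ hne23 v hv).2,
        (hfix τ₃ τ₁ hτ₃ hτ₁ hne13 v hv).2]
    · rw [h1] at hv ⊢
      rw [(hfix τ₄ τ₃ hτ₄ hτ₃ hne34 v hv).2, (hfix τ₄ τ₂ hτ₄ hτ₂ hne24 v hv).2,
        (hfix τ₄ τ₁ hτ₄ hτ₁ hne14 v hv).2]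
  refine ⟨fun v => ?_, fun v => ?_, fun v => ?_⟩
  · obtain ⟨ρ, hρ, hv⟩ := hcov v
    rw [hkey ρ hρ v hv]; exact hv
  · obtain ⟨ρ, hρ, hv⟩ := hcov v
    have hρρ : ρ (ρ v) ≠ ρ v := by
      rw [badz1_invol (h.isSwap ρ hρ) v]; exact fun hh => hv hh.symm
    rw [hkey ρ hρ v hv, hkey ρ hρ (ρ v) hρρ, badz1_invol (h.isSwap ρ hρ) v]
  · obtain ⟨ρ, hρ, hv⟩ := hcov v
    rw [hkey ρ hρ v hv, ← badz1_swap_eq (h.isSwap ρ hρ) hv]; exact hρ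

end Cfsg.Agent.Lib.Helper45.S28
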