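import Mathlib
import Cfsg.Agent.Lib.Helper45.S28A
import Cfsg.Agent.Lib.Helper45.S28BadX

/-! S2928 piece BadZ2 (project of helper45).
PLACEHOLDER: replace the `sorry`(s) in THIS file; keep theorem names and statements byte-identical;
keep the namespace; auxiliary lemmas go ABOVE the theorems and MUST start with the prefix `badz2_`.
Definitions (`Hyp`, `QuadSet`, `Bad`, `Cfg`, `TSet`, `suppK`, `ext`): Cfsg/Agent/Lib/Helper45/S28A.lean.
The paper proof is in the docstring of each theorem. -/

set_option autoImplicit false

namespace Cfsg.Agent.Lib.Helper45.S28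

open Equiv Cfsg.Agent.Lib.Helper45 Cfsg.Agent.Lib.Helper45.S21

variable {α : Type*} [Fintype α] [DecidableEq α]

/-- In the bad case the involution `z` (product of all swaps of `𝒮`) maps every quad set to itself or
to its complement.
PROOF. If `∀ v ∈ A, z v ∈ A`: `A.image z ⊆ A` and equal cards (`Finset.card_image_of_injective`), so
`A.image z = A`.  Otherwise pick `v ∈ A` with `z v ∉ A`.  For every `p : α`: exactly one of `p, z p`
is in `A` — if `swap p (z p) = swap v (z v)` then `{p, z p} = {v, z v}`; otherwise `bad_swap` applied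
to `swap v (z v)` (`hz3 v`) and `swap p (z p)` (`hz3 p`).  Hence `z p ∈ A ↔ p ∉ A`, and
`q ∈ A.image z ↔ z q ∈ A` (as `z (z q) = q`) `↔ q ∉ A`: `A.image z = Aᶜ`. -/
theorem bad_image_z (G K : Subgroup (Perm α)) (𝒮 : Set (Perm α)) (h : Cfg G K 𝒮) (hbad : Bad G)
    (z : Perm α) (hz1 : ∀ v : α, z v ≠ v) (hz2 : ∀ v : α, z (z v) = v)
    (hz3 : ∀ v : α, swap v (z v) ∈ 𝒮) (A : Finset α) (hA : QuadSet G A) :
    A.image ⇑z = A ∨ A.image ⇑z = Aᶜ := by
  by_cases hall : ∀ v ∈ A, z v ∈ A
  · left
    apply Finset.eq_of_subset_of_card_le
    · intro q hq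
      obtain ⟨a, ha, rfl⟩ := Finset.mem_image.mp hq
      exact hall a ha
    · rw [Finset.card_image_of_injective _ z.injective]
  · right
    push Not at hall
    obtain ⟨v, hv, hzv⟩ := hall
    have claim : ∀ p : α, (z p ∈ A ↔ p ∉ A) := by
      intro p
      by_cases hsw : swap p (z p) = swap v (z v)
      · have h1 : swap p (z p) v = swap v (z v) v := by rw [hsw]
        rw [swap_apply_left, swap_apply_def] at h1
        split_ifs at h1 with h2 h3
        · subst h2
          constructor
          · intro h4
            exact absurd h4 hzv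
          · intro h4
            exact absurd hv h4
        · constructor
          · intro _
            rw [h1]
            exact hzv
          · intro _
            rw [← h3]
            exact hv
        · exact absurd h1.symm (hz1 v)
      · have h1 := bad_swap G K 𝒮 h hbad A hA v (z v) (hz3 v) hv hzv p (z p) (hz3 p) hsw
        tauto
    ext q
    rw [Finset.mem_image, Finset.mem_compl]
    constructor
    · rintro ⟨a, ha, rfl⟩
      intro h1
      have h2 := (claim (z a)).1 (by rw [hz2 a]; exact ha)
      exact h2 h1
    · intro hq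
      exact ⟨z q, (claim q).2 hq, hz2 q⟩

end Cfsg.Agent.Lib.Helper45.S28
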