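import Mathlib
import Cfsg.Agent.Lib.Helper45.S28A
import Cfsg.Agent.Lib.Helper30.Basic

/-! S2928 piece Bridge (project of helper45).
Delivered by helper68 (theorem names and statements unchanged).
Definitions (`Hyp`, `QuadSet`, `Bad`, `Cfg`, `TSet`, `suppK`, `ext`): Cfsg/Agent/Lib/Helper45/S28A.lean.
The paper proof is in the docstring of each theorem. -/

set_option autoImplicit false

namespace Cfsg.Agent.Lib.Helper45.S28

open Equiv Cfsg.Agent.Lib.Helper45 Cfsg.Agent.Lib.Helper45.S21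



/-- The generalized Fitting subgroup `F*(H)`, when quasisimple, satisfies `Hyp` (as a subgroup of `M`).
PROOF. Let `F = Cfsg.generalizedFittingSubgroup ↥H`, `K = F.map H.subtype`.  Use helper30's lemmas
(namespace `Cfsg.Agent.Lib.Helper30`, file Lib/Helper30/Basic.lean): `genFitting_normal`
(`F` is normal in `↥H`), `centralizer_genFitting_le` (`centralizer F ≤ F`, needs `Finite`),
`qs_nontrivial`, `qs_normal_eq_top_or_le_center` (a normal subgroup of a quasisimple group is `⊤` or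
central).  `hF.1 : Group.IsPerfect ↥F` (Mathlib) gives `⁅F, F⁆ = F` hence `perf` (via `Subgroup.map`).
`qs`: for `N ≤ K` normalized by `K`, `N' = (N.comap H.subtype).subgroupOf F` is normal in `↥F`;
`N' = ⊤` gives `N = K`, `N' ≤ center ↥F` gives that `N` commutes with `K`.  `cent`: `g ∈ H` commuting
with `K` gives `⟨g, _⟩ ∈ centralizer (F : Set ↥H) ≤ F`. -/
theorem bridge {M : Type*} [Group M] [Finite M] (H : Subgroup M)
    (hF : Cfsg.IsQuasisimple ↥(Cfsg.generalizedFittingSubgroup ↥H)) :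
    Hyp H ((Cfsg.generalizedFittingSubgroup ↥H).map H.subtype) := by
  obtain ⟨F, hFdef⟩ : ∃ F : Subgroup ↥H, F = Cfsg.generalizedFittingSubgroup ↥H := ⟨_, rfl⟩
  rw [← hFdef] at hF ⊢
  have hFn : F.Normal := by
    rw [hFdef]
    exact Cfsg.Agent.Lib.Helper30.genFitting_normal
  have hcent : Subgroup.centralizer (F : Set ↥H) ≤ F := by
    rw [hFdef]
    exact Cfsg.Agent.Lib.Helper30.centralizer_genFitting_le
  have hmem : ∀ x : M, x ∈ F.map H.subtype ↔ ∃ hx : x ∈ H, (⟨x, hx⟩ : ↥H) ∈ F := by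
    intro x
    constructor
    · rintro ⟨y, hy, rfl⟩
      exact ⟨y.2, hy⟩
    · rintro ⟨hx, hy⟩
      exact ⟨⟨x, hx⟩, hy, rfl⟩
  refine ⟨Subgroup.map_subtype_le F, ?_, ?_, ?_, ?_, ?_⟩
  · intro g hg k hk
    obtain ⟨hkH, hkF⟩ := (hmem k).1 hk
    have h := hFn.conj_mem ⟨k, hkH⟩ hkF ⟨g, hg⟩
    exact Subgroup.mem_map.2 ⟨_, h, rfl⟩
  · have : Group.IsPerfect ↥F := hF.1
    rw [← Subgroup.map_commutator, Subgroup.commutator_eq_self]
  · have hnt : Nontrivial ↥F := Cfsg.Agent.Lib.Helper30.qs_nontrivial hF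
    intro hbot
    have hFbot : F = ⊥ := (Subgroup.map_eq_bot_iff_of_injective F H.subtype_injective).1 hbot
    exact (Subgroup.nontrivial_iff_ne_bot F).1 hnt hFbot
  · intro N hNK hNinv
    obtain ⟨N', hN'⟩ : ∃ N' : Subgroup ↥F, N' = (N.comap H.subtype).subgroupOf F := ⟨_, rfl⟩
    have hN'mem : ∀ y : ↥F, y ∈ N' ↔ ((y : ↥H) : M) ∈ N := by
      intro y
      rw [hN', Subgroup.mem_subgroupOf, Subgroup.mem_comap]
      rfl
    have hN'n : N'.Normal := by
      constructor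
      intro x hx f
      rw [hN'mem] at hx ⊢
      have hfK : ((f : ↥H) : M) ∈ F.map H.subtype := (hmem _).2 ⟨(f : ↥H).2, f.2⟩
      exact hNinv _ hfK _ hx
    rcases Cfsg.Agent.Lib.Helper30.qs_normal_eq_top_or_le_center hF N' with h1 | h1
    · left
      apply le_antisymm hNK
      intro k hk
      obtain ⟨hkH, hkF⟩ := (hmem k).1 hk
      have h2 : (⟨⟨k, hkH⟩, hkF⟩ : ↥F) ∈ N' := by
        rw [h1]
        exact Subgroup.mem_top _
      exact (hN'mem _).1 h2
    · right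
      intro x hx k hk
      obtain ⟨hxH, hxF⟩ := (hmem x).1 (hNK hx)
      obtain ⟨hkH, hkF⟩ := (hmem k).1 hk
      have h2 : (⟨⟨x, hxH⟩, hxF⟩ : ↥F) ∈ N' := (hN'mem _).2 hx
      have h3 := Subgroup.mem_center_iff.1 (h1 h2) ⟨⟨k, hkH⟩, hkF⟩
      have h4 := congrArg (fun y : ↥F => ((y : ↥H) : M)) h3
      exact h4.symm
  · intro g hg hcomm
    have h1 : (⟨g, hg⟩ : ↥H) ∈ Subgroup.centralizer (F : Set ↥H) := by
      rw [Subgroup.mem_centralizer_iff]
      intro y hy
      apply Subtype.ext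
      have h2 := hcomm (y : M) ((hmem _).2 ⟨y.2, hy⟩)
      exact h2.symm
    exact (hmem g).2 ⟨hg, hcent h1⟩

end Cfsg.Agent.Lib.Helper45.S28
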