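import Mathlib
import Cfsg.Agent.Lib.Helper45.S28A


/-! S2928 piece Faith (project of helper45).
PLACEHOLDER: replace the `sorry`(s) in THIS file; keep theorem names and statements byte-identical;
keep the namespace; auxiliary lemmas go ABOVE the theorems and MUST start with the prefix `faith_`.
Definitions (`Hyp`, `QuadSet`, `Bad`, `Cfg`, `TSet`, `suppK`, `ext`): Cfsg/Agent/Lib/Helper45/S28A.lean.
The paper proof is in the docstring of each theorem. -/

set_option autoImplicit false

namespace Cfsg.Agent.Lib.Helper45.S28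

open Equiv Cfsg.Agent.Lib.Helper45 Cfsg.Agent.Lib.Helper45.S21

variable {X : Type} [Fintype X] [DecidableEq X]

/-- PROOF. If `k ∈ K` moves `x` then `g * k * g⁻¹ ∈ K` (`h.norm`) moves `g x`; conversely use `g⁻¹ ∈ H`. -/
theorem suppK_invariant (H K : Subgroup (Perm X)) (h : Hyp H K) (g : Perm X) (hg : g ∈ H) (x : X) :
    g x ∈ suppK K ↔ x ∈ suppK K := by
  constructor
  · rintro ⟨k, hk, hkx⟩
    refine ⟨g⁻¹ * k * g⁻¹⁻¹, h.norm g⁻¹ (inv_mem hg) k hk, ?_⟩
    intro hfix
    apply hkx
    have h1 : (g⁻¹ * k * g⁻¹⁻¹) x = g⁻¹ (k (g x)) := by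
      simp [Perm.mul_apply]
    rw [h1] at hfix
    have h2 := congrArg g hfix
    simpa using h2
  · rintro ⟨k, hk, hkx⟩
    refine ⟨g * k * g⁻¹, h.norm g hg k hk, ?_⟩
    intro hfix
    apply hkx
    have h1 : (g * k * g⁻¹) (g x) = g (k x) := by
      simp [Perm.mul_apply]
    rw [h1] at hfix
    exact g.injective hfix

/-- `H` acts faithfully on the support of `K`.
PROOF. `g` commutes with every `k ∈ K`: pointwise at `x`.  If `x ∈ suppK K` then `k x ∈ suppK K`
(`suppK_invariant`, `K ≤ H`), so `g (k x) = k x = k (g x)`.  If `x ∉ suppK K` then `k x = x` and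
`g x ∉ suppK K` (`suppK_invariant`), so `k (g x) = g x = g (k x)`.  Hence `g ∈ K` (`h.cent`), so `g` fixes
every point outside `suppK K` (definition of `suppK`) and every point inside (`hfix`): `g = 1`. -/
theorem faith (H K : Subgroup (Perm X)) (h : Hyp H K) (g : Perm X) (hg : g ∈ H)
    (hfix : ∀ x ∈ suppK K, g x = x) : g = 1 := by
  have hcomm : ∀ k ∈ K, g * k = k * g := by
    intro k hk
    ext x
    simp only [Perm.mul_apply]
    by_cases hx : x ∈ suppK K
    · have hkx : k x ∈ suppK K := (suppK_invariant H K h k (h.le hk) x).mpr hx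
      rw [hfix (k x) hkx, hfix x hx]
    · have hkx : k x = x := by
        by_contra hne
        exact hx ⟨k, hk, hne⟩
      have hgx : g x ∉ suppK K := fun hmem => hx ((suppK_invariant H K h g hg x).mp hmem)
      have hkgx : k (g x) = g x := by
        by_contra hne
        exact hgx ⟨k, hk, hne⟩
      rw [hkx, hkgx]
  have hgK : g ∈ K := h.cent g hg hcomm
  ext x
  rw [Perm.one_apply]
  by_cases hx : x ∈ suppK K
  · exact hfix x hx
  · by_contra hne
    exact hx ⟨g, hgK, hne⟩

end Cfsg.Agent.Lib.Helper45.S28
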