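import Mathlib
import Cfsg.Agent.Lib.Helper45.S28A
import Cfsg.Agent.Lib.Helper45.S28Faith

/-! S2928 piece SwapIn (project of helper45).
FILLED (helper41, job 3350); theorem names and statements kept byte-identical;
keep the namespace; auxiliary lemmas go ABOVE the theorems and MUST start with the prefix `swapin_`.
Definitions (`Hyp`, `QuadSet`, `Bad`, `Cfg`, `TSet`, `suppK`, `ext`): Cfsg/Agent/Lib/Helper45/S28A.lean.
The paper proof is in the docstring of each theorem. -/

set_option autoImplicit false

namespace Cfsg.Agent.Lib.Helper45.S28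

open Equiv Cfsg.Agent.Lib.Helper45 Cfsg.Agent.Lib.Helper45.S21

variable {X : Type} [Fintype X] [DecidableEq X]

/-- A transposition of `T` moving a point of the support of `K` has its support inside.
PROOF. `Nat.card ↥(swapsIn T) = card X / 2 ≥ 4` (`S21.card_swaps`), so there is `τ' ∈ swapsIn T`,
`τ' ≠ swap p q`.  `τ'` fixes `p` (`S21.swaps_disj`: two swaps of `T` moving a common point are equal).
`swap p q * τ'` is in `T` and even, so in `PT T ≤ H` (`S21.mem_PT`, `S21.sign_swap'`); it maps `p` to `q`;
conclude by `suppK_invariant`. -/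
theorem swap_mem (H K : Subgroup (Perm X)) (h : Hyp H K) (T : Sylow 2 (Perm X))
    (hT : PT (T : Subgroup (Perm X)) ≤ H) (h8 : 8 ≤ Fintype.card X) (p q : X)
    (hτ : swap p q ∈ swapsIn (T : Subgroup (Perm X))) (hp : p ∈ suppK K) : q ∈ suppK K := by
  have hpq : p ≠ q := by
    rintro rfl
    obtain ⟨a, b, hab, hsw⟩ := hτ.2
    rw [swap_self] at hsw
    have h1 : (Equiv.refl X : Perm X) a = swap a b a := by rw [hsw]
    rw [swap_apply_left] at h1
    exact hab h1
  have hcard : Nat.card ↥(swapsIn (T : Subgroup (Perm X))) = Fintype.card X / 2 := S21.card_swaps T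
  have h1 : 1 < (swapsIn (T : Subgroup (Perm X))).ncard := by
    rw [← Nat.card_coe_set_eq, hcard]
    omega
  obtain ⟨τ', hτ', hne⟩ := Set.exists_ne_of_one_lt_ncard h1 (swap p q)
  have hfix : τ' p = p := by
    by_contra hx'
    have hx : swap p q p ≠ p := by
      rw [swap_apply_left]; exact fun h => hpq h.symm
    exact hne (S21.swaps_disj T (swap p q) τ' hτ hτ' p hx hx').symm
  have hg : swap p q * τ' ∈ H := by
    apply hT
    rw [S21.mem_PT]
    refine ⟨Subgroup.mul_mem _ hτ.1 hτ'.1, ?_⟩
    rw [map_mul, S21.sign_swap' _ hτ.2, S21.sign_swap' _ hτ'.2]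
    simp
  have hgp : (swap p q * τ') p = q := by
    rw [Perm.mul_apply, hfix, swap_apply_left]
  have := (suppK_invariant H K h (swap p q * τ') hg p).mpr hp
  rwa [hgp] at this

end Cfsg.Agent.Lib.Helper45.S28
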