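import Mathlib
import Cfsg.Agent.Lib.Helper45.S28A
import Cfsg.Agent.Lib.Helper45.S28Faith
import Cfsg.Agent.Lib.Helper45.S28SwapIn

/-! S2928 piece Card (project of helper45).
PLACEHOLDER: replace the `sorry`(s) in THIS file; keep theorem names and statements byte-identical;
keep the namespace; auxiliary lemmas go ABOVE the theorems and MUST start with the prefix `card_`.
Definitions (`Hyp`, `QuadSet`, `Bad`, `Cfg`, `TSet`, `suppK`, `ext`): Cfsg/Agent/Lib/Helper45/S28A.lean.
The paper proof is in the docstring of each theorem. -/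

set_option autoImplicit false

namespace Cfsg.Agent.Lib.Helper45.S28

open Equiv Cfsg.Agent.Lib.Helper45 Cfsg.Agent.Lib.Helper45.S21

variable {X : Type} [Fintype X] [DecidableEq X]

/-- At most 3 points are fixed by `K`.
PROOF. Let `U = (suppK K)ᶜ`.  (1) A swap `swap p q ∈ swapsIn T` with `p ∈ U` has `q ∈ U` (else
`swap_mem` applied to `swap q p = swap p q` gives `p ∈ suppK K`).  (2) Two swaps `τ ≠ τ'` of `T` cannot
both move points of `U`: by (1) their supports are inside `U`, so `τ * τ' ∈ PT T ≤ H` fixes `suppK K`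
pointwise, so `τ * τ' = 1` by `faith`, but it moves the points of `τ` (`S21.swaps_disj`).  (3) The
points of `U` fixed by all swaps of `T` form a subsingleton (`S21.uncov`); the other points of `U` lie
in the support (2 points) of the unique swap of (2).  So `U.ncard ≤ 3`, and
`card X = Nat.card ↥(suppK K) + U.ncard`. -/
theorem card_supp (H K : Subgroup (Perm X)) (h : Hyp H K) (T : Sylow 2 (Perm X))
    (hT : PT (T : Subgroup (Perm X)) ≤ H) (h8 : 8 ≤ Fintype.card X) :
    Fintype.card X ≤ Nat.card ↥(suppK K) + 3 := by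
  classical
  have h1 : ∀ p q : X, swap p q ∈ swapsIn (T : Subgroup (Perm X)) → p ∉ suppK K → q ∉ suppK K := by
    intro p q hτ hp hq
    have hτ' : swap q p ∈ swapsIn (T : Subgroup (Perm X)) := by rw [swap_comm]; exact hτ
    exact hp (swap_mem H K h T hT h8 q p hτ' hq)
  have h1' : ∀ τ ∈ swapsIn (T : Subgroup (Perm X)), ∀ x, x ∉ suppK K → τ x ≠ x →
      ∀ z, τ z ≠ z → z ∉ suppK K := by
    intro τ hτ x hx hmv z hz
    obtain ⟨p, q, hpq, rfl⟩ := hτ.2
    have hxpq : x = p ∨ x = q := by
      by_contra hcon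
      push Not at hcon
      exact hmv (swap_apply_of_ne_of_ne hcon.1 hcon.2)
    have hzpq : z = p ∨ z = q := by
      by_contra hcon
      push Not at hcon
      exact hz (swap_apply_of_ne_of_ne hcon.1 hcon.2)
    have hp : p ∉ suppK K := by
      rcases hxpq with rfl | rfl
      · exact hx
      · have hτ' : swap x p ∈ swapsIn (T : Subgroup (Perm X)) := by rw [swap_comm]; exact hτ
        exact h1 x p hτ' hx
    have hq : q ∉ suppK K := h1 p q hτ hp
    rcases hzpq with rfl | rfl
    · exact hp
    · exact hq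
  have h2 : ∀ τ ∈ swapsIn (T : Subgroup (Perm X)), ∀ τ' ∈ swapsIn (T : Subgroup (Perm X)),
      (∃ x, x ∉ suppK K ∧ τ x ≠ x) → (∃ y, y ∉ suppK K ∧ τ' y ≠ y) → τ = τ' := by
    rintro τ hτ τ' hτ' ⟨x, hx, hmx⟩ ⟨y, hy, hmy⟩
    have hg : τ * τ' ∈ H := by
      apply hT
      rw [mem_PT]
      refine ⟨mul_mem hτ.1 hτ'.1, ?_⟩
      rw [map_mul, sign_swap' τ hτ.2, sign_swap' τ' hτ'.2]
      simp
    have hfix : ∀ z ∈ suppK K, (τ * τ') z = z := by
      intro z hz
      have e1 : τ' z = z := by
        by_contra hne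
        exact h1' τ' hτ' y hy hmy z hne hz
      have e2 : τ z = z := by
        by_contra hne
        exact h1' τ hτ x hx hmx z hne hz
      rw [Perm.mul_apply, e1, e2]
    have h1g := faith H K h (τ * τ') hg hfix
    have e : τ' = τ⁻¹ := eq_inv_of_mul_eq_one_right h1g
    rw [e, swap_inv' τ hτ.2]
  -- counting
  have hsplit : Fintype.card X = Nat.card ↥(suppK K) +
      (Finset.univ.filter (fun x : X => x ∉ suppK K)).card := by
    rw [Nat.card_eq_fintype_card, Fintype.card_subtype]
    rw [← Finset.card_univ (α := X)]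
    exact (Finset.card_filter_add_card_filter_not (s := Finset.univ) (fun x : X => x ∈ suppK K)).symm
  have hU0 : (Finset.univ.filter (fun x : X => x ∉ suppK K ∧
      ∀ τ ∈ swapsIn (T : Subgroup (Perm X)), τ x = x)).card ≤ 1 := by
    rw [Finset.card_le_one_iff]
    intro a b ha hb
    simp only [Finset.mem_filter, Finset.mem_univ, true_and] at ha hb
    exact uncov T a b ha.2 hb.2
  have hU : (Finset.univ.filter (fun x : X => x ∉ suppK K)).card ≤ 3 := by
    by_cases hex : ∃ τ ∈ swapsIn (T : Subgroup (Perm X)), ∃ x, x ∉ suppK K ∧ τ x ≠ x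
    · obtain ⟨τ0, hτ0, x0, hx0, hm0⟩ := hex
      obtain ⟨p, q, hpq, hτ0eq⟩ := hτ0.2
      have hsub : Finset.univ.filter (fun x : X => x ∉ suppK K) ⊆
          ({p, q} : Finset X) ∪ Finset.univ.filter (fun x : X => x ∉ suppK K ∧
            ∀ τ ∈ swapsIn (T : Subgroup (Perm X)), τ x = x) := by
        intro x hx
        simp only [Finset.mem_filter, Finset.mem_univ, true_and] at hx
        rw [Finset.mem_union]
        by_cases hfx : ∀ τ ∈ swapsIn (T : Subgroup (Perm X)), τ x = x
        · right
          simp only [Finset.mem_filter, Finset.mem_univ, true_and]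
          exact ⟨hx, hfx⟩
        · left
          push Not at hfx
          obtain ⟨τ, hτ, hmx⟩ := hfx
          have e := h2 τ hτ τ0 hτ0 ⟨x, hx, hmx⟩ ⟨x0, hx0, hm0⟩
          rw [e, hτ0eq] at hmx
          rw [Finset.mem_insert, Finset.mem_singleton]
          by_contra hcon
          push Not at hcon
          exact hmx (swap_apply_of_ne_of_ne hcon.1 hcon.2)
      calc (Finset.univ.filter (fun x : X => x ∉ suppK K)).card
          ≤ (({p, q} : Finset X) ∪ Finset.univ.filter (fun x : X => x ∉ suppK K ∧
            ∀ τ ∈ swapsIn (T : Subgroup (Perm X)), τ x = x)).card := Finset.card_le_card hsub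
        _ ≤ ({p, q} : Finset X).card + (Finset.univ.filter (fun x : X => x ∉ suppK K ∧
            ∀ τ ∈ swapsIn (T : Subgroup (Perm X)), τ x = x)).card := Finset.card_union_le _ _
        _ ≤ 2 + 1 := Nat.add_le_add Finset.card_le_two hU0
    · push Not at hex
      have hsub : Finset.univ.filter (fun x : X => x ∉ suppK K) ⊆
          Finset.univ.filter (fun x : X => x ∉ suppK K ∧
            ∀ τ ∈ swapsIn (T : Subgroup (Perm X)), τ x = x) := by
        intro x hx
        simp only [Finset.mem_filter, Finset.mem_univ, true_and] at hx ⊢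
        exact ⟨hx, fun τ hτ => hex τ hτ x hx⟩
      exact le_trans (Finset.card_le_card hsub) (le_trans hU0 (by norm_num))
  rw [hsplit]
  exact Nat.add_le_add_left hU _

end Cfsg.Agent.Lib.Helper45.S28
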