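import Mathlib
import Cfsg.Agent.Lib.Helper45.S28A


/-! S2928 piece Ext (project of helper45).
PLACEHOLDER: replace the `sorry`(s) in THIS file; keep theorem names and statements byte-identical;
keep the namespace; auxiliary lemmas go ABOVE the theorems and MUST start with the prefix `ext_`.
Definitions (`Hyp`, `QuadSet`, `Bad`, `Cfg`, `TSet`, `suppK`, `ext`): Cfsg/Agent/Lib/Helper45/S28A.lean.
The paper proof is in the docstring of each theorem. -/

set_option autoImplicit false

namespace Cfsg.Agent.Lib.Helper45.S28

open Equiv Cfsg.Agent.Lib.Helper45 Cfsg.Agent.Lib.Helper45.S21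

variable {X : Type} [Fintype X] [DecidableEq X]

/-- Mathlib `Equiv.Perm.ofSubtype_apply_coe` (unfold `ext`). -/
theorem ext_apply_mem (K : Subgroup (Perm X)) (g : Perm ↥(suppK K)) (x : ↥(suppK K)) :
    ext K g (x : X) = ((g x : ↥(suppK K)) : X) := by
  classical
  unfold ext
  exact Equiv.Perm.ofSubtype_apply_coe g x

/-- Mathlib `Equiv.Perm.ofSubtype_apply_of_not_mem`. -/
theorem ext_apply_not_mem (K : Subgroup (Perm X)) (g : Perm ↥(suppK K)) (x : X) (hx : x ∉ suppK K) :
    ext K g x = x := by
  classical
  unfold ext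
  exact Equiv.Perm.ofSubtype_apply_of_not_mem g hx

/-- Mathlib `Equiv.Perm.ofSubtype_injective`. -/
theorem ext_injective (K : Subgroup (Perm X)) : Function.Injective (ext K) := by
  classical
  unfold ext
  exact Equiv.Perm.ofSubtype_injective

/-- PROOF. `g` preserves `suppK K` (if `x ∈ suppK K` and `g x ∉ suppK K` then `g (g x) = g x`, so
`g x = x`, contradiction), so `g = ofSubtype (g.subtypePerm _)` (`Equiv.Perm.ofSubtype_subtypePerm`). -/
theorem mem_range_ext (K : Subgroup (Perm X)) (g : Perm X) (hg : ∀ x, x ∉ suppK K → g x = x) :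
    g ∈ (ext K).range := by
  classical
  have hpres : ∀ x, g x ∈ suppK K ↔ x ∈ suppK K := by
    intro x
    constructor
    · intro h
      by_contra hx
      rw [hg x hx] at h
      exact hx h
    · intro h
      by_contra hx
      have h1 := hg (g x) hx
      have h2 : g x = x := g.injective h1
      rw [h2] at hx
      exact hx h
  refine ⟨g.subtypePerm hpres, ?_⟩
  unfold ext
  exact Equiv.Perm.ofSubtype_subtypePerm hpres (fun x hx => by
    by_contra hx'
    exact hx (hg x hx'))

theorem le_range_ext (K : Subgroup (Perm X)) : K ≤ (ext K).range := by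
  intro k hk
  apply mem_range_ext
  intro x hx
  by_contra hne
  exact hx ⟨k, hk, hne⟩

/-- Mathlib `Equiv.Perm.ofSubtype_swap_eq`. -/
theorem ext_swap (K : Subgroup (Perm X)) (x y : ↥(suppK K)) :
    ext K (swap x y) = swap (x : X) (y : X) := by
  classical
  unfold ext
  exact Equiv.Perm.ofSubtype_swap_eq x y

end Cfsg.Agent.Lib.Helper45.S28
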