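import Mathlib
import Cfsg.Agent.Lib.Helper45.S28A


/-! S2928 piece HypComap (project of helper45).
PLACEHOLDER: replace the `sorry`(s) in THIS file; keep theorem names and statements byte-identical;
keep the namespace; auxiliary lemmas go ABOVE the theorems and MUST start with the prefix `hypcomap_`.
Definitions (`Hyp`, `QuadSet`, `Bad`, `Cfg`, `TSet`, `suppK`, `ext`): Cfsg/Agent/Lib/Helper45/S28A.lean.
The paper proof is in the docstring of each theorem. -/

set_option autoImplicit false

namespace Cfsg.Agent.Lib.Helper45.S28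

open Equiv Cfsg.Agent.Lib.Helper45 Cfsg.Agent.Lib.Helper45.S21



/-- `Hyp` passes to preimages under an injective homomorphism whose range contains `K`.
PROOF. `K = (K.comap f).map f` (`Subgroup.map_comap_eq`, `hK`).  `le`, `norm`: direct.  `perf`:
`(⁅K.comap f, K.comap f⁆).map f = ⁅K, K⁆ = K = (K.comap f).map f` (`Subgroup.map_commutator`) and
`Subgroup.map_injective hf`.  `ne_bot`: else `K = ⊥`.  `qs`: for `N ≤ K.comap f` normalized by it,
`N.map f ≤ K` is normalized by `K`; apply `h.qs` and pull back (`N.map f = K` gives `N = K.comap f` by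
injectivity).  `cent`: if `g ∈ G.comap f` commutes with `K.comap f` then `f g` commutes with
`K = (K.comap f).map f`, so `f g ∈ K`. -/
theorem hyp_comap {M M' : Type*} [Group M] [Group M'] (f : M' →* M) (hf : Function.Injective f)
    (G K : Subgroup M) (hK : K ≤ f.range) (h : Hyp G K) : Hyp (G.comap f) (K.comap f) := by
  have hmap : (K.comap f).map f = K := Subgroup.map_comap_eq_self hK
  have hpre : ∀ k ∈ K, ∃ k' ∈ K.comap f, f k' = k := by
    intro k hk
    obtain ⟨k', hk'⟩ := hK hk
    exact ⟨k', by rw [Subgroup.mem_comap, hk']; exact hk, hk'⟩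
  refine ⟨Subgroup.comap_mono h.le, ?_, ?_, ?_, ?_, ?_⟩
  · intro g hg k hk
    rw [Subgroup.mem_comap] at hg hk ⊢
    rw [map_mul, map_mul, map_inv]
    exact h.norm _ hg _ hk
  · apply Subgroup.map_injective hf
    rw [Subgroup.map_commutator, hmap, h.perf]
  · intro hbot
    apply h.ne_bot
    rw [← hmap, hbot, Subgroup.map_bot]
  · intro N hN hNn
    have hN' : N.map f ≤ K := by
      rw [Subgroup.map_le_iff_le_comap]
      exact hN
    have hNn' : ∀ k ∈ K, ∀ x ∈ N.map f, k * x * k⁻¹ ∈ N.map f := by
      intro k hk x hx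
      obtain ⟨k', hk', rfl⟩ := hpre k hk
      obtain ⟨n, hn, rfl⟩ := Subgroup.mem_map.1 hx
      rw [← map_inv, ← map_mul, ← map_mul]
      exact Subgroup.mem_map_of_mem f (hNn k' hk' n hn)
    rcases h.qs (N.map f) hN' hNn' with h1 | h1
    · left
      rw [← Subgroup.comap_map_eq_self_of_injective hf N, h1]
    · right
      intro x hx k hk
      apply hf
      rw [map_mul, map_mul]
      exact h1 (f x) (Subgroup.mem_map_of_mem f hx) (f k) (Subgroup.mem_comap.1 hk)
  · intro g hg hc
    rw [Subgroup.mem_comap] at hg ⊢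
    apply h.cent _ hg
    intro k hk
    obtain ⟨k', hk', rfl⟩ := hpre k hk
    rw [← map_mul, ← map_mul, hc k' hk']

end Cfsg.Agent.Lib.Helper45.S28
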