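import Mathlib
import Cfsg.Agent.Lib.Helper45.S28A
import Cfsg.Agent.Lib.Helper45.S28Faith

/-! S2928 piece QuadIn (project of helper45).
PLACEHOLDER: replace the `sorry`(s) in THIS file; keep theorem names and statements byte-identical;
keep the namespace; auxiliary lemmas go ABOVE the theorems and MUST start with the prefix `quadin_`.
Definitions (`Hyp`, `QuadSet`, `Bad`, `Cfg`, `TSet`, `suppK`, `ext`): Cfsg/Agent/Lib/Helper45/S28A.lean.
The paper proof is in the docstring of each theorem. -/

set_option autoImplicit false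

namespace Cfsg.Agent.Lib.Helper45.S28

open Equiv Cfsg.Agent.Lib.Helper45 Cfsg.Agent.Lib.Helper45.S21

variable {X : Type} [Fintype X] [DecidableEq X]

/-- A 4-set whose Klein four-group lies in `H` is inside the support of `K`.
PROOF. `w₁ = swap a b * swap c d`, `w₂ = swap a c * swap b d`, `w₁ * w₂ ∈ H` map `a` to `b, c, d`; by
`suppK_invariant` the four points are all in `suppK K` or all outside.  If all outside, `w₁` fixes
`suppK K` pointwise (it moves only `a b c d`), so `w₁ = 1` by `faith`, but `w₁ a = b ≠ a`. -/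
theorem quad_mem (H K : Subgroup (Perm X)) (h : Hyp H K) (a b c d : X) (hnd : [a, b, c, d].Nodup)
    (h1 : swap a b * swap c d ∈ H) (h2 : swap a c * swap b d ∈ H) :
    a ∈ suppK K ∧ b ∈ suppK K ∧ c ∈ suppK K ∧ d ∈ suppK K := by
  have hab : a ≠ b := by
    intro e; subst e; simp at hnd
  have hac : a ≠ c := by
    intro e; subst e; simp at hnd
  have had : a ≠ d := by
    intro e; subst e; simp at hnd
  have hbc : b ≠ c := by
    intro e; subst e; simp at hnd
  have hbd : b ≠ d := by
    intro e; subst e; simp at hnd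
  have hcd : c ≠ d := by
    intro e; subst e; simp at hnd
  have e1 : (swap a b * swap c d) a = b := by
    rw [Perm.mul_apply, swap_apply_of_ne_of_ne hac had, swap_apply_left]
  have e2 : (swap a c * swap b d) a = c := by
    rw [Perm.mul_apply, swap_apply_of_ne_of_ne hab had, swap_apply_left]
  have e3 : ((swap a b * swap c d) * (swap a c * swap b d)) a = d := by
    rw [Perm.mul_apply, e2, Perm.mul_apply, swap_apply_left,
      swap_apply_of_ne_of_ne (Ne.symm had) (Ne.symm hbd)]
  have iab : b ∈ suppK K ↔ a ∈ suppK K := by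
    rw [← e1]; exact suppK_invariant H K h _ h1 a
  have iac : c ∈ suppK K ↔ a ∈ suppK K := by
    rw [← e2]; exact suppK_invariant H K h _ h2 a
  have iad : d ∈ suppK K ↔ a ∈ suppK K := by
    rw [← e3]; exact suppK_invariant H K h _ (H.mul_mem h1 h2) a
  by_cases ha : a ∈ suppK K
  · exact ⟨ha, iab.2 ha, iac.2 ha, iad.2 ha⟩
  · exfalso
    have hb : b ∉ suppK K := fun hb => ha (iab.1 hb)
    have hc : c ∉ suppK K := fun hc => ha (iac.1 hc)
    have hd : d ∉ suppK K := fun hd => ha (iad.1 hd)
    have h0 : swap a b * swap c d = 1 := by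
      apply faith H K h _ h1
      intro x hx
      have hxa : x ≠ a := fun e => ha (e ▸ hx)
      have hxb : x ≠ b := fun e => hb (e ▸ hx)
      have hxc : x ≠ c := fun e => hc (e ▸ hx)
      have hxd : x ≠ d := fun e => hd (e ▸ hx)
      rw [Perm.mul_apply, swap_apply_of_ne_of_ne hxc hxd, swap_apply_of_ne_of_ne hxa hxb]
    rw [h0, Perm.one_apply] at e1
    exact hab e1

end Cfsg.Agent.Lib.Helper45.S28
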