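import Mathlib
import Cfsg.Agent.Lib.Helper45.S28A


/-! S2928 piece TwoQuads (project of helper45).
PLACEHOLDER: replace the `sorry`(s) in THIS file; keep theorem names and statements byte-identical;
keep the namespace; auxiliary lemmas go ABOVE the theorems and MUST start with the prefix `twoquads_`.
Definitions (`Hyp`, `QuadSet`, `Bad`, `Cfg`, `TSet`, `suppK`, `ext`): Cfsg/Agent/Lib/Helper45/S28A.lean.
The paper proof is in the docstring of each theorem. -/

set_option autoImplicit false

namespace Cfsg.Agent.Lib.Helper45.S28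

open Equiv Cfsg.Agent.Lib.Helper45 Cfsg.Agent.Lib.Helper45.S21

variable {X : Type} [Fintype X] [DecidableEq X]

/-- a double transposition on four distinct points squares to one -/
theorem twoquads_sq {a b c d : X} (h : [a, b, c, d].Nodup) :
    (swap a b * swap c d) * (swap a b * swap c d) = 1 := by
  have hd := (Perm.disjoint_swap_swap h).commute
  calc (swap a b * swap c d) * (swap a b * swap c d)
      = swap a b * (swap c d * swap a b) * swap c d := by group
    _ = swap a b * (swap a b * swap c d) * swap c d := by rw [hd.eq]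
    _ = (swap a b * swap a b) * (swap c d * swap c d) := by group
    _ = 1 := by rw [swap_mul_self, swap_mul_self, one_mul]

/-- the two double transpositions of a Klein four-group commute -/
theorem twoquads_comm {a b c d : X} (h : [a, b, c, d].Nodup) :
    (swap a b * swap c d) * (swap a c * swap b d) =
      (swap a c * swap b d) * (swap a b * swap c d) := by
  simp only [List.nodup_cons, List.mem_cons, List.mem_singleton, List.not_mem_nil, not_or,
    or_false, List.nodup_nil, and_true, not_false_eq_true] at h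
  obtain ⟨⟨hab, hac, had⟩, ⟨hbc, hbd⟩, hcd⟩ := h
  ext x
  simp only [Perm.mul_apply, swap_apply_def]
  grind

/-- double transpositions on disjoint 4-sets commute -/
theorem twoquads_comm_disj {a b c d a' b' c' d' : X}
    (h1 : [a, b, a', b'].Nodup) (h2 : [a, b, c', d'].Nodup)
    (h3 : [c, d, a', b'].Nodup) (h4 : [c, d, c', d'].Nodup) :
    (swap a b * swap c d) * (swap a' b' * swap c' d') =
      (swap a' b' * swap c' d') * (swap a b * swap c d) := by
  have hd : Perm.Disjoint (swap a b * swap c d) (swap a' b' * swap c' d') :=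
    Perm.Disjoint.mul_left
      (Perm.Disjoint.mul_right (Perm.disjoint_swap_swap h1) (Perm.disjoint_swap_swap h2))
      (Perm.Disjoint.mul_right (Perm.disjoint_swap_swap h3) (Perm.disjoint_swap_swap h4))
  exact hd.commute.eq

/-- a subgroup generated by pairwise commuting involutions is a 2-group -/
theorem twoquads_pgroup {M : Type*} [Group M] (s : Set M)
    (hcomm : ∀ x ∈ s, ∀ y ∈ s, x * y = y * x) (hsq : ∀ x ∈ s, x * x = 1) :
    IsPGroup 2 (Subgroup.closure s) := by
  have hle : Subgroup.closure s ≤ Subgroup.centralizer ((Subgroup.closure s : Subgroup M) : Set M) := by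
    rw [Subgroup.centralizer_closure, Subgroup.closure_le]
    intro x hx
    rw [SetLike.mem_coe, Subgroup.mem_centralizer_iff]
    intro y hy
    exact hcomm y hy x hx
  have hQc : ∀ x ∈ Subgroup.closure s, ∀ y ∈ Subgroup.closure s, x * y = y * x := by
    intro x hx y hy
    exact (Subgroup.mem_centralizer_iff.1 (hle hy) x hx)
  have hall : ∀ x ∈ Subgroup.closure s, x * x = 1 := by
    intro x hx
    induction hx using Subgroup.closure_induction with
    | mem x hx => exact hsq x hx
    | one => exact one_mul 1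
    | mul x y hx hy ihx ihy =>
      calc x * y * (x * y) = x * (y * x) * y := by group
        _ = x * (x * y) * y := by rw [hQc y hy x hx]
        _ = (x * x) * (y * y) := by group
        _ = 1 := by rw [ihx, ihy, one_mul]
    | inv x hx ihx =>
      calc x⁻¹ * x⁻¹ = (x * x)⁻¹ := by group
        _ = 1 := by rw [ihx, inv_one]
  intro g
  refine ⟨1, ?_⟩
  apply Subtype.ext
  rw [pow_one, pow_two]
  exact hall g.1 g.2

/-- some Sylow 2-subgroup contains two Klein four-groups on disjoint 4-sets -/
theorem twoquads_exists_sylow (h8 : 8 ≤ Fintype.card X) :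
    ∃ (S : Sylow 2 (Perm X)) (p : Fin 8 ↪ X),
      swap (p 0) (p 1) * swap (p 2) (p 3) ∈ (S : Subgroup (Perm X)) ∧
      swap (p 0) (p 2) * swap (p 1) (p 3) ∈ (S : Subgroup (Perm X)) ∧
      swap (p 4) (p 5) * swap (p 6) (p 7) ∈ (S : Subgroup (Perm X)) ∧
      swap (p 4) (p 6) * swap (p 5) (p 7) ∈ (S : Subgroup (Perm X)) := by
  obtain ⟨p⟩ : Nonempty (Fin 8 ↪ X) :=
    Function.Embedding.nonempty_of_card_le (by rw [Fintype.card_fin]; exact h8)
  have hnd : ∀ i j k l : Fin 8, [i, j, k, l].Nodup → [p i, p j, p k, p l].Nodup := by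
    intro i j k l h
    exact List.Nodup.map p.injective h
  have e12 := twoquads_comm (hnd 0 1 2 3 (by decide))
  have e34 := twoquads_comm (hnd 4 5 6 7 (by decide))
  have e13 := twoquads_comm_disj (hnd 0 1 4 5 (by decide)) (hnd 0 1 6 7 (by decide))
    (hnd 2 3 4 5 (by decide)) (hnd 2 3 6 7 (by decide))
  have e14 := twoquads_comm_disj (hnd 0 1 4 6 (by decide)) (hnd 0 1 5 7 (by decide))
    (hnd 2 3 4 6 (by decide)) (hnd 2 3 5 7 (by decide))
  have e23 := twoquads_comm_disj (hnd 0 2 4 5 (by decide)) (hnd 0 2 6 7 (by decide))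
    (hnd 1 3 4 5 (by decide)) (hnd 1 3 6 7 (by decide))
  have e24 := twoquads_comm_disj (hnd 0 2 4 6 (by decide)) (hnd 0 2 5 7 (by decide))
    (hnd 1 3 4 6 (by decide)) (hnd 1 3 5 7 (by decide))
  have s1 := twoquads_sq (hnd 0 1 2 3 (by decide))
  have s2 := twoquads_sq (hnd 0 2 1 3 (by decide))
  have s3 := twoquads_sq (hnd 4 5 6 7 (by decide))
  have s4 := twoquads_sq (hnd 4 6 5 7 (by decide))
  have hp : IsPGroup 2 (Subgroup.closure
      ({swap (p 0) (p 1) * swap (p 2) (p 3), swap (p 0) (p 2) * swap (p 1) (p 3),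
        swap (p 4) (p 5) * swap (p 6) (p 7), swap (p 4) (p 6) * swap (p 5) (p 7)} :
        Set (Perm X))) := by
    apply twoquads_pgroup
    · intro x hx y hy
      simp only [Set.mem_insert_iff, Set.mem_singleton_iff] at hx hy
      rcases hx with rfl | rfl | rfl | rfl <;> rcases hy with rfl | rfl | rfl | rfl <;>
        first
          | rfl
          | exact e12 | exact e12.symm | exact e34 | exact e34.symm
          | exact e13 | exact e13.symm | exact e14 | exact e14.symm
          | exact e23 | exact e23.symm | exact e24 | exact e24.symm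
    · intro x hx
      simp only [Set.mem_insert_iff, Set.mem_singleton_iff] at hx
      rcases hx with rfl | rfl | rfl | rfl
      · exact s1
      · exact s2
      · exact s3
      · exact s4
  obtain ⟨S, hS⟩ := hp.exists_le_sylow
  refine ⟨S, p, ?_, ?_, ?_, ?_⟩ <;> apply hS <;> apply Subgroup.subset_closure <;>
    simp only [Set.mem_insert_iff, Set.mem_singleton_iff, true_or, or_true]

/-- A Sylow 2-subgroup of `Perm X` (`|X| ≥ 8`) contains two Klein four-groups of double transpositions
on disjoint 4-sets.
PROOF. Choose 8 distinct points `p₀ … p₇` of `X`.  The subgroup `Q` generated by the four commuting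
involutions `swap p₀ p₁ * swap p₂ p₃`, `swap p₀ p₂ * swap p₁ p₃`, `swap p₄ p₅ * swap p₆ p₇`,
`swap p₄ p₆ * swap p₅ p₇` is a 2-group (every element squares to 1), so it lies in a Sylow 2-subgroup
(`IsPGroup.exists_le_sylow`), which is conjugate to `T` (`MulAction.exists_smul_eq (Sylow 2 _)`,
`Sylow.smul_eq_iff_mem_normalizer` / `Sylow.coe_smul`): `g * Q * g⁻¹ ≤ T`.  Conjugating a double
transposition by `g` gives the double transposition on the image points
(`Equiv.swap_apply_apply`); take `a = g p₀`, ….  The elements are even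
(`Equiv.Perm.sign_swap`), so they lie in `PT T = T ⊓ alternatingGroup X` (`mem_PT`). -/
theorem exists_two_quads (T : Sylow 2 (Perm X)) (h8 : 8 ≤ Fintype.card X) :
    ∃ a b c d a' b' c' d' : X, [a, b, c, d, a', b', c', d'].Nodup ∧
      swap a b * swap c d ∈ PT (T : Subgroup (Perm X)) ∧
      swap a c * swap b d ∈ PT (T : Subgroup (Perm X)) ∧
      swap a' b' * swap c' d' ∈ PT (T : Subgroup (Perm X)) ∧
      swap a' c' * swap b' d' ∈ PT (T : Subgroup (Perm X)) := by
  obtain ⟨S, p, h1, h2, h3, h4⟩ := twoquads_exists_sylow h8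
  obtain ⟨g, hg⟩ := MulAction.exists_smul_eq (Perm X) S T
  have hconj : ∀ x : Perm X, x ∈ (S : Subgroup (Perm X)) →
      g * x * g⁻¹ ∈ (T : Subgroup (Perm X)) := by
    intro x hx
    rw [← hg, Sylow.coe_subgroup_smul]
    have := Subgroup.smul_mem_pointwise_smul x (MulAut.conj g) (S : Subgroup (Perm X)) hx
    rwa [MulAut.smul_def, MulAut.conj_apply] at this
  have hdt : ∀ i j k l : Fin 8, swap (g (p i)) (g (p j)) * swap (g (p k)) (g (p l)) =
      g * (swap (p i) (p j) * swap (p k) (p l)) * g⁻¹ := by
    intro i j k l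
    rw [swap_apply_apply, swap_apply_apply]
    group
  have hne : ∀ i j : Fin 8, i ≠ j → g (p i) ≠ g (p j) := by
    intro i j hij h
    exact hij (p.injective (g.injective h))
  have hsign : ∀ i j k l : Fin 8, i ≠ j → k ≠ l →
      Perm.sign (swap (g (p i)) (g (p j)) * swap (g (p k)) (g (p l))) = 1 := by
    intro i j k l hij hkl
    rw [map_mul, Perm.sign_swap (hne i j hij), Perm.sign_swap (hne k l hkl)]
    rfl
  refine ⟨g (p 0), g (p 1), g (p 2), g (p 3), g (p 4), g (p 5), g (p 6), g (p 7), ?_, ?_, ?_, ?_, ?_⟩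
  · have h0 : [g (p 0), g (p 1), g (p 2), g (p 3), g (p 4), g (p 5), g (p 6), g (p 7)] =
        List.map (fun i => g (p i)) [0, 1, 2, 3, 4, 5, 6, 7] := rfl
    rw [h0]
    exact List.Nodup.map (fun i j h => p.injective (g.injective h)) (by decide)
  · rw [mem_PT]
    exact ⟨by rw [hdt]; exact hconj _ h1, hsign 0 1 2 3 (by decide) (by decide)⟩
  · rw [mem_PT]
    exact ⟨by rw [hdt]; exact hconj _ h2, hsign 0 2 1 3 (by decide) (by decide)⟩
  · rw [mem_PT]
    exact ⟨by rw [hdt]; exact hconj _ h3, hsign 4 5 6 7 (by decide) (by decide)⟩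
  · rw [mem_PT]
    exact ⟨by rw [hdt]; exact hconj _ h4, hsign 4 6 5 7 (by decide) (by decide)⟩

end Cfsg.Agent.Lib.Helper45.S28
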