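import Mathlib
import Cfsg.Agent.Lib.Helper45.S28A
import Cfsg.Agent.Lib.Helper45.S28HypComap
import Cfsg.Agent.Lib.Helper45.S28Faith
import Cfsg.Agent.Lib.Helper45.S28Ext
import Cfsg.Agent.Lib.Helper45.S28TwoQuads
import Cfsg.Agent.Lib.Helper45.S28QuadIn
import Cfsg.Agent.Lib.Helper45.S28SwapIn

/-! S2928 piece CfgX (project of helper45).
FILLED by helper13 (was a placeholder); theorem names and statements byte-identical;
keep the namespace; auxiliary lemmas go ABOVE the theorems and MUST start with the prefix `cfgx_`.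
Definitions (`Hyp`, `QuadSet`, `Bad`, `Cfg`, `TSet`, `suppK`, `ext`): Cfsg/Agent/Lib/Helper45/S28A.lean.
The paper proof is in the docstring of each theorem. -/

set_option autoImplicit false

namespace Cfsg.Agent.Lib.Helper45.S28

open Equiv Cfsg.Agent.Lib.Helper45 Cfsg.Agent.Lib.Helper45.S21

variable {X : Type} [Fintype X] [DecidableEq X]

/-- The configuration on the support of `K`.
PROOF (field by field; `f = ext K`, `𝒮 = f ⁻¹' swapsIn T`).
* `hyp`: `hyp_comap f (ext_injective K) H K (le_range_ext K) h`.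
* `moved`: `x.2` gives `k ∈ K` moving `x`; `k = f k'` (`le_range_ext`), `k' ∈ K.comap f`, and `k' x ≠ x`
  (`ext_apply_mem`).
* `isSwap`: `f σ = swap p q` with `p ≠ q`; `p, q ∈ suppK K` (else `f σ` fixes them, `ext_apply_not_mem`);
  `f (swap ⟨p,_⟩ ⟨q,_⟩) = swap p q` (`ext_swap`), so `σ = swap ⟨p,_⟩ ⟨q,_⟩` (`ext_injective`).
* `disj`: `f σ, f σ'` are swaps of `T` moving the common point `(x : X)` (`ext_apply_mem`), so they are
  equal (`S21.swaps_disj`), and `f` is injective.
* `uncov`: if `x : ↥(suppK K)` is fixed by all `σ ∈ 𝒮` then `(x : X)` is fixed by all `τ ∈ swapsIn T`: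
  if `τ = swap p q` moves `x` then `x ∈ {p, q}`, so both `p, q ∈ suppK K` (`swap_mem`, `Equiv.swap_comm`),
  so `τ ∈ range f` (`mem_range_ext`), `τ = f σ`, `σ ∈ 𝒮`, `σ x = x`, contradiction.  Then `S21.uncov`.
* `prod`: `f (σ * σ') = f σ * f σ'` is in `T` and even (`S21.sign_swap'`), so in `PT T ≤ H` (`S21.mem_PT`).
* `quads`: `exists_two_quads T h8` and `hT` give the 8 points in `X` with the four double transpositions
  in `H`; `quad_mem` puts them in `suppK K`; lift to `↥(suppK K)`; the elements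
  `swap ⟨a,_⟩ ⟨b,_⟩ * swap ⟨c,_⟩ ⟨d,_⟩` are in `H.comap f` by `map_mul` and `ext_swap`. -/
theorem cfg_of (H K : Subgroup (Perm X)) (h : Hyp H K) (T : Sylow 2 (Perm X))
    (hT : PT (T : Subgroup (Perm X)) ≤ H) (h8 : 8 ≤ Fintype.card X) :
    Cfg (H.comap (ext K)) (K.comap (ext K)) (⇑(ext K) ⁻¹' swapsIn (T : Subgroup (Perm X))) := by
  classical
  refine ⟨hyp_comap (ext K) (ext_injective K) H K (le_range_ext K) h, ?_, ?_, ?_, ?_, ?_, ?_⟩
  · -- moved
    intro x
    obtain ⟨k, hk, hkx⟩ := x.2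
    obtain ⟨k', rfl⟩ := le_range_ext K hk
    refine ⟨k', Subgroup.mem_comap.2 hk, ?_⟩
    intro hfix
    apply hkx
    rw [ext_apply_mem, hfix]
  · -- isSwap
    intro σ hσ
    have hσ' : ext K σ ∈ swapsIn (T : Subgroup (Perm X)) := hσ
    obtain ⟨p, q, hpq, hpqσ⟩ := hσ'.2
    have hp : p ∈ suppK K := by
      by_contra hp
      have h1 := ext_apply_not_mem K σ p hp
      rw [hpqσ, swap_apply_left] at h1
      exact hpq h1.symm
    have hq : q ∈ suppK K := by
      by_contra hq
      have h1 := ext_apply_not_mem K σ q hq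
      rw [hpqσ, swap_apply_right] at h1
      exact hpq h1
    have hσeq : σ = swap (⟨p, hp⟩ : ↥(suppK K)) ⟨q, hq⟩ := by
      apply ext_injective K
      rw [ext_swap, hpqσ]
    exact ⟨⟨p, hp⟩, ⟨q, hq⟩, fun he => hpq (congrArg Subtype.val he), hσeq⟩
  · -- disj
    intro σ hσ σ' hσ' x hx hx'
    apply ext_injective K
    refine S21.swaps_disj T (ext K σ) (ext K σ') hσ hσ' (x : X) ?_ ?_
    · rw [ext_apply_mem]
      exact fun he => hx (Subtype.ext he)
    · rw [ext_apply_mem]
      exact fun he => hx' (Subtype.ext he)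
  · -- uncov
    have key : ∀ x : ↥(suppK K),
        (∀ σ ∈ (⇑(ext K) ⁻¹' swapsIn (T : Subgroup (Perm X))), σ x = x) →
        ∀ τ ∈ swapsIn (T : Subgroup (Perm X)), τ (x : X) = (x : X) := by
      intro x hx τ hτ
      by_contra hne
      obtain ⟨p, q, hpq, hτeq⟩ := hτ.2
      have hmem : ∀ p q : X, p ≠ q → τ = swap p q → (x : X) = p → False := by
        intro p q hpq hτeq hxp
        have hp : p ∈ suppK K := hxp ▸ x.2
        have hq : q ∈ suppK K := swap_mem H K h T hT h8 p q (hτeq ▸ hτ) hp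
        have hr : τ ∈ (ext K).range := by
          apply mem_range_ext K τ
          intro x' hx'
          rw [hτeq]
          apply swap_apply_of_ne_of_ne
          · exact fun he => hx' (he ▸ hp)
          · exact fun he => hx' (he ▸ hq)
        obtain ⟨σ, hσ⟩ := hr
        have hσS : σ ∈ (⇑(ext K) ⁻¹' swapsIn (T : Subgroup (Perm X))) := by
          show ext K σ ∈ swapsIn (T : Subgroup (Perm X))
          rw [hσ]
          exact hτ
        have h1 := hx σ hσS
        apply hne
        rw [← hσ, ext_apply_mem, h1]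
      by_cases hxp : (x : X) = p
      · exact hmem p q hpq hτeq hxp
      · by_cases hxq : (x : X) = q
        · exact hmem q p (Ne.symm hpq) (by rw [hτeq, swap_comm]) hxq
        · apply hne
          rw [hτeq]
          exact swap_apply_of_ne_of_ne hxp hxq
    intro x y hx hy
    exact Subtype.ext (S21.uncov T (x : X) (y : X) (key x hx) (key y hy))
  · -- prod
    intro σ hσ σ' hσ' _
    have h1 : ext K σ ∈ swapsIn (T : Subgroup (Perm X)) := hσ
    have h2 : ext K σ' ∈ swapsIn (T : Subgroup (Perm X)) := hσ'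
    rw [Subgroup.mem_comap, map_mul]
    apply hT
    rw [S21.mem_PT]
    refine ⟨(T : Subgroup (Perm X)).mul_mem h1.1 h2.1, ?_⟩
    rw [map_mul, S21.sign_swap' _ h1.2, S21.sign_swap' _ h2.2]
    simp
  · -- quads
    obtain ⟨a, b, c, d, a', b', c', d', hnd, q1, q2, q3, q4⟩ := exists_two_quads T h8
    have hsplit := List.nodup_append.1
      (show ([a, b, c, d] ++ [a', b', c', d']).Nodup from hnd)
    obtain ⟨ha, hb, hc, hd⟩ := quad_mem H K h a b c d hsplit.1 (hT q1) (hT q2)
    obtain ⟨ha', hb', hc', hd'⟩ := quad_mem H K h a' b' c' d' hsplit.2.1 (hT q3) (hT q4)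
    refine ⟨⟨a, ha⟩, ⟨b, hb⟩, ⟨c, hc⟩, ⟨d, hd⟩, ⟨a', ha'⟩, ⟨b', hb'⟩, ⟨c', hc'⟩, ⟨d', hd'⟩,
      ?_, ?_, ?_, ?_, ?_⟩
    · exact List.Nodup.of_map Subtype.val (by simpa using hnd)
    · rw [Subgroup.mem_comap, map_mul, ext_swap, ext_swap]
      exact hT q1
    · rw [Subgroup.mem_comap, map_mul, ext_swap, ext_swap]
      exact hT q2
    · rw [Subgroup.mem_comap, map_mul, ext_swap, ext_swap]
      exact hT q3
    · rw [Subgroup.mem_comap, map_mul, ext_swap, ext_swap]
      exact hT q4

end Cfsg.Agent.Lib.Helper45.S28
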