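import Mathlib
import Cfsg.Agent.Lib.Helper45.S28A


/-! S2928 piece Star (project of helper45).
FILLED by helper51 (statement byte-identical; auxiliary lemmas `star_*` above the theorem).
Definitions (`Hyp`, `QuadSet`, `Bad`, `Cfg`, `TSet`, `suppK`, `ext`): Cfsg/Agent/Lib/Helper45/S28A.lean.
The paper proof is in the docstring of each theorem. -/

set_option autoImplicit false

namespace Cfsg.Agent.Lib.Helper45.S28

open Equiv Cfsg.Agent.Lib.Helper45 Cfsg.Agent.Lib.Helper45.S21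



private theorem star_swap {M : Type*} [Group M] (a b z₁ z₂ : M) (h1a : z₁ * a = a * z₁)
    (h1b : z₁ * b = b * z₁) (h2b : z₂ * b = b * z₂) :
    (z₁ * a) * (z₂ * b) = a * b * (z₁ * z₂) := by
  have h3 : (z₁ * z₂) * b = b * (z₁ * z₂) := by
    rw [mul_assoc, h2b, ← mul_assoc, h1b, mul_assoc]
  calc z₁ * a * (z₂ * b) = a * z₁ * (z₂ * b) := by rw [h1a]
    _ = a * ((z₁ * z₂) * b) := by group
    _ = a * (b * (z₁ * z₂)) := by rw [h3]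
    _ = a * b * (z₁ * z₂) := by group

private theorem star_aux {M : Type*} [Group M] (a b z₁ z₂ : M) (h1a : z₁ * a = a * z₁)
    (h1b : z₁ * b = b * z₁) (h2a : z₂ * a = a * z₂) (h2b : z₂ * b = b * z₂)
    (h12 : z₁ * z₂ = z₂ * z₁) :
    (z₁ * a) * (z₂ * b) * (z₁ * a)⁻¹ * (z₂ * b)⁻¹ = a * b * a⁻¹ * b⁻¹ := by
  have e1 := star_swap a b z₁ z₂ h1a h1b h2b
  have e2 := star_swap b a z₂ z₁ h2b h2a h1a
  calc (z₁ * a) * (z₂ * b) * (z₁ * a)⁻¹ * (z₂ * b)⁻¹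
      = ((z₁ * a) * (z₂ * b)) * ((z₂ * b) * (z₁ * a))⁻¹ := by group
    _ = (a * b * (z₁ * z₂)) * (b * a * (z₂ * z₁))⁻¹ := by rw [e1, e2]
    _ = (a * b * (z₁ * z₂)) * (b * a * (z₁ * z₂))⁻¹ := by rw [← h12]
    _ = a * b * a⁻¹ * b⁻¹ := by group

/-- PROOF. By `h.qs N hNK hN` and `hne`, `N` is central in `K`: every `x ∈ N` commutes with every
`k ∈ K`.  For `k ∈ K` put `c k = w * k * w⁻¹ * k⁻¹ ∈ N`, so `w * k * w⁻¹ = c k * k` with `c k` central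
in `K` (and `c k ∈ K`).  Hence for `k₁ k₂ ∈ K`:
`w * ⁅k₁, k₂⁆ * w⁻¹ = ⁅c k₁ * k₁, c k₂ * k₂⁆ = ⁅k₁, k₂⁆` (central factors cancel), i.e. `⁅k₁, k₂⁆` lies in
`Subgroup.centralizer {w}`.  By `Subgroup.commutator_le`, `⁅K, K⁆ ≤ centralizer {w}`, and
`⁅K, K⁆ = K` (`h.perf`). -/
theorem comm_of_comm_mem {M : Type*} [Group M] (G K : Subgroup M) (h : Hyp G K) (w : M) (hw : w ∈ G)
    (N : Subgroup M) (hNK : N ≤ K) (hN : ∀ k ∈ K, ∀ x ∈ N, k * x * k⁻¹ ∈ N) (hne : N ≠ K)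
    (hc : ∀ k ∈ K, w * k * w⁻¹ * k⁻¹ ∈ N) : ∀ k ∈ K, w * k = k * w := by
  have hcen := (h.qs N hNK hN).resolve_left hne
  have hKle : K ≤ Subgroup.centralizer ({w} : Set M) := by
    calc K = ⁅K, K⁆ := h.perf.symm
      _ ≤ Subgroup.centralizer ({w} : Set M) := by
        rw [Subgroup.commutator_le]
        intro k₁ hk₁ k₂ hk₂
        show k₁ * k₂ * k₁⁻¹ * k₂⁻¹ ∈ Subgroup.centralizer ({w} : Set M)
        rw [Subgroup.mem_centralizer_iff]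
        intro x hx
        rw [Set.mem_singleton_iff] at hx
        subst hx
        have hc₁ : x * k₁ * x⁻¹ * k₁⁻¹ ∈ N := hc k₁ hk₁
        have hc₂ : x * k₂ * x⁻¹ * k₂⁻¹ ∈ N := hc k₂ hk₂
        have key : x * (k₁ * k₂ * k₁⁻¹ * k₂⁻¹) * x⁻¹ = k₁ * k₂ * k₁⁻¹ * k₂⁻¹ := by
          calc x * (k₁ * k₂ * k₁⁻¹ * k₂⁻¹) * x⁻¹
              = ((x * k₁ * x⁻¹ * k₁⁻¹) * k₁) * ((x * k₂ * x⁻¹ * k₂⁻¹) * k₂) *
                  ((x * k₁ * x⁻¹ * k₁⁻¹) * k₁)⁻¹ * ((x * k₂ * x⁻¹ * k₂⁻¹) * k₂)⁻¹ := by group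
            _ = k₁ * k₂ * k₁⁻¹ * k₂⁻¹ :=
              star_aux k₁ k₂ _ _ (hcen _ hc₁ k₁ hk₁) (hcen _ hc₁ k₂ hk₂) (hcen _ hc₂ k₁ hk₁)
                (hcen _ hc₂ k₂ hk₂) (hcen _ hc₁ _ (hNK hc₂))
        calc x * (k₁ * k₂ * k₁⁻¹ * k₂⁻¹) = (x * (k₁ * k₂ * k₁⁻¹ * k₂⁻¹) * x⁻¹) * x := by group
          _ = (k₁ * k₂ * k₁⁻¹ * k₂⁻¹) * x := by rw [key]
  intro k hk
  exact Subgroup.mem_centralizer_iff.mp (hKle hk) w rfl

end Cfsg.Agent.Lib.Helper45.S28
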