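import Mathlib
import Cfsg.Agent.Lib.Helper45.S28A
import Cfsg.Agent.Lib.Helper45.S28Star

/-! S2928 piece FinBad (project of helper45).
PLACEHOLDER: replace the `sorry`(s) in THIS file; keep theorem names and statements byte-identical;
keep the namespace; auxiliary lemmas go ABOVE the theorems and MUST start with the prefix `finbad_`.
Definitions (`Hyp`, `QuadSet`, `Bad`, `Cfg`, `TSet`, `suppK`, `ext`): Cfsg/Agent/Lib/Helper45/S28A.lean.
The paper proof is in the docstring of each theorem. -/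

set_option autoImplicit false

namespace Cfsg.Agent.Lib.Helper45.S28

open Equiv Cfsg.Agent.Lib.Helper45 Cfsg.Agent.Lib.Helper45.S21

variable {α : Type*} [Fintype α] [DecidableEq α]

theorem finbad_not_comm {M : Type*} [Group M] (G K : Subgroup M) (h : Hyp G K)
    (hK : ∀ a ∈ K, ∀ b ∈ K, a * b = b * a) : False := by
  have h1 : ⁅K, K⁆ = ⊥ := by
    rw [Subgroup.commutator_eq_bot_iff_le_centralizer]
    intro a ha
    rw [Subgroup.mem_centralizer_iff]
    intro b hb
    exact hK b hb a ha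
  rw [h.perf] at h1
  exact h.ne_bot h1

/-- A transitive abelian subgroup `T ≤ G` normalized by `G` is impossible.
PROOF. `N = T ⊓ K ≤ K` is normalized by `K` (`hTn` with `K ≤ G`; `K` normalizes `K`).  `N ≠ K`: else
`K ≤ T` is commutative, `⁅K, K⁆ = ⊥`, contradicting `h.perf`, `h.ne_bot`.  For `t ∈ T`, `k ∈ K`:
`t * k * t⁻¹ * k⁻¹ ∈ N` (in `T`: `t * (k * t⁻¹ * k⁻¹)`, `hTn`; in `K`: `(t * k * t⁻¹) * k⁻¹`, `h.norm` with
`t ∈ G`).  By `comm_of_comm_mem` `t` commutes with `K`, so `t ∈ K` (`h.cent`).  Thus `T ≤ K` and `T`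
commutes with `K` elementwise.  Now `K ≤ T`: `α` is nonempty (else `K = ⊥`); fix `x`, let `k ∈ K`,
take `t ∈ T` with `t x = k x` (`hTt`); `e = t⁻¹ * k` fixes `x` and commutes with every `s ∈ T`; for any
`y` take `s ∈ T` with `s x = y`: `e y = e (s x) = s (e x) = y`; so `e = 1`, `k = t ∈ T`.  Hence `K` is
commutative: `⁅K, K⁆ = ⊥`, contradiction as before. -/
theorem false_of_T (G K : Subgroup (Perm α)) (h : Hyp G K) (T : Subgroup (Perm α)) (hTG : T ≤ G)
    (hTn : ∀ g ∈ G, ∀ t ∈ T, g * t * g⁻¹ ∈ T) (hTc : ∀ s ∈ T, ∀ t ∈ T, s * t = t * s)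
    (hTt : ∀ x y : α, ∃ t ∈ T, t x = y) : False := by
  have hNK : T ⊓ K ≤ K := inf_le_right
  have hN : ∀ k ∈ K, ∀ x ∈ T ⊓ K, k * x * k⁻¹ ∈ T ⊓ K := fun k hk x hx =>
    ⟨hTn k (h.le hk) x hx.1, K.mul_mem (K.mul_mem hk hx.2) (K.inv_mem hk)⟩
  have hne : T ⊓ K ≠ K := by
    intro hEq
    have hKT : K ≤ T := inf_eq_right.mp hEq
    exact finbad_not_comm G K h (fun a ha b hb => hTc a (hKT ha) b (hKT hb))
  have hTK : ∀ t ∈ T, ∀ k ∈ K, t * k = k * t := by
    intro t ht
    apply comm_of_comm_mem G K h t (hTG ht) (T ⊓ K) hNK hN hne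
    intro k hk
    refine ⟨?_, K.mul_mem (h.norm t (hTG ht) k hk) (K.inv_mem hk)⟩
    have e : t * k * t⁻¹ * k⁻¹ = t * (k * t⁻¹ * k⁻¹) := by group
    rw [e]
    exact T.mul_mem ht (hTn k (h.le hk) t⁻¹ (T.inv_mem ht))
  have hKT : K ≤ T := by
    intro k hk
    rcases isEmpty_or_nonempty α with hα | ⟨⟨x⟩⟩
    · have hk1 : k = 1 := Equiv.ext fun y => isEmptyElim y
      rw [hk1]; exact T.one_mem
    · obtain ⟨t, ht, htx⟩ := hTt x (k x)
      have he : t⁻¹ * k = 1 := by
        refine Equiv.ext fun y => ?_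
        obtain ⟨s, hs, hsy⟩ := hTt x y
        have hcomm : (t⁻¹ * k) * s = s * (t⁻¹ * k) := by
          have h1 : k * s = s * k := (hTK s hs k hk).symm
          have h2 : t⁻¹ * s = s * t⁻¹ := hTc _ (T.inv_mem ht) s hs
          calc t⁻¹ * k * s = t⁻¹ * (k * s) := by group
            _ = t⁻¹ * (s * k) := by rw [h1]
            _ = (t⁻¹ * s) * k := by group
            _ = (s * t⁻¹) * k := by rw [h2]
            _ = s * (t⁻¹ * k) := by group
        have hex : (t⁻¹ * k) x = x := by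
          rw [Perm.mul_apply, ← htx]
          simp
        calc (t⁻¹ * k) y = (t⁻¹ * k) (s x) := by rw [hsy]
          _ = ((t⁻¹ * k) * s) x := rfl
          _ = (s * (t⁻¹ * k)) x := by rw [hcomm]
          _ = s ((t⁻¹ * k) x) := rfl
          _ = s x := by rw [hex]
          _ = y := hsy
          _ = (1 : Perm α) y := rfl
      have hkt : k = t := by
        calc k = t * (t⁻¹ * k) := by group
          _ = t := by rw [he, mul_one]
      rw [hkt]; exact ht
  exact finbad_not_comm G K h (fun a ha b hb => hTc a (hKT ha) b (hKT hb))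

end Cfsg.Agent.Lib.Helper45.S28
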