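import Mathlib
import Cfsg.Agent.Lib.Helper45.S28A


/-! S2928 piece Good (project of helper45).
PLACEHOLDER: replace the `sorry`(s) in THIS file; keep theorem names and statements byte-identical;
keep the namespace; auxiliary lemmas go ABOVE the theorems and MUST start with the prefix `good_`.
Definitions (`Hyp`, `QuadSet`, `Bad`, `Cfg`, `TSet`, `suppK`, `ext`): Cfsg/Agent/Lib/Helper45/S28A.lean.
The paper proof is in the docstring of each theorem. -/

set_option autoImplicit false

namespace Cfsg.Agent.Lib.Helper45.S28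

open Equiv Cfsg.Agent.Lib.Helper45 Cfsg.Agent.Lib.Helper45.S21

variable {α : Type*} [Fintype α] [DecidableEq α]

/-- Two quad sets meeting in exactly 1 or 3 points give a 3-cycle in `G`.
PROOF. Card 3: `A ∩ A' = {x, y, z}`, `A = {x, y, z, p}`, `A' = {x, y, z, q}`, `p ≠ q`:
`(swap x y * swap z p) * (swap x y * swap z q) = swap z p * swap z q` (disjoint swaps commute,
`swap x y * swap x y = 1`), a 3-cycle by `Equiv.Perm.isThreeCycle_swap_mul_swap_same`.
Card 1: `A = {a, b, c, d}`, `A' = {d, e, f, g}` with `a b c d e f g` distinct.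
`u = swap a b * swap c d ∈ G`, `v = swap d e * swap f g ∈ G`; `u * v = swap a b * swap f g * (swap c d *
swap d e)` where the three factors `swap a b`, `swap f g`, `t = swap c d * swap d e` commute pairwise
(disjoint supports), so `(u * v) * (u * v) = t * t`, and `t` is a 3-cycle
(`isThreeCycle_swap_mul_swap_same` after `swap_comm`), so is `t * t`
(`Equiv.Perm.IsThreeCycle.isThreeCycle_sq`). -/
theorem exists_threeCycle (G : Subgroup (Perm α)) (A A' : Finset α) (hA : QuadSet G A)
    (hA' : QuadSet G A') (h : (A ∩ A').card = 1 ∨ (A ∩ A').card = 3) : ∃ c ∈ G, c.IsThreeCycle := by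
  obtain ⟨hA4, hAG⟩ := hA
  obtain ⟨hA'4, hA'G⟩ := hA'
  rcases h with h | h
  · obtain ⟨d, hd⟩ := Finset.card_eq_one.mp h
    have hdm : d ∈ A ∩ A' := by
      rw [hd]
      exact Finset.mem_singleton_self d
    have hdA : d ∈ A := (Finset.mem_inter.mp hdm).1
    have hdA' : d ∈ A' := (Finset.mem_inter.mp hdm).2
    have hint : ∀ x, x ∈ A → x ∈ A' → x = d := by
      intro x hx hx'
      have hxm : x ∈ A ∩ A' := Finset.mem_inter.mpr ⟨hx, hx'⟩
      rw [hd] at hxm
      exact Finset.mem_singleton.mp hxm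
    have h3 : (A.erase d).card = 3 := by rw [Finset.card_erase_of_mem hdA, hA4]
    have h3' : (A'.erase d).card = 3 := by rw [Finset.card_erase_of_mem hdA', hA'4]
    obtain ⟨a, b, c, hab, hac, hbc, habc⟩ := Finset.card_eq_three.mp h3
    obtain ⟨e, f, g, hef, heg, hfg, hefg⟩ := Finset.card_eq_three.mp h3'
    have ha : a ∈ A.erase d := by rw [habc]; simp
    have hb : b ∈ A.erase d := by rw [habc]; simp
    have hc : c ∈ A.erase d := by rw [habc]; simp
    have he : e ∈ A'.erase d := by rw [hefg]; simp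
    have hf : f ∈ A'.erase d := by rw [hefg]; simp
    have hg : g ∈ A'.erase d := by rw [hefg]; simp
    rw [Finset.mem_erase] at ha hb hc he hf hg
    have heA : e ∉ A := fun hh => he.1 (hint e hh he.2)
    have hfA : f ∉ A := fun hh => hf.1 (hint f hh hf.2)
    have hgA : g ∉ A := fun hh => hg.1 (hint g hh hg.2)
    have ne_of : ∀ {x y : α}, x ∈ A → y ∉ A → y ≠ x := by
      intro x y hx hy hxy
      rw [hxy] at hy
      exact hy hx
    have hu : swap a b * swap c d ∈ G :=
      hAG a ha.2 b hb.2 c hc.2 d hdA hab hac ha.1 hbc hb.1 hc.1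
    have hv : swap d e * swap f g ∈ G :=
      hA'G d hdA' e he.2 f hf.2 g hg.2 (Ne.symm he.1) (Ne.symm hf.1) (Ne.symm hg.1) hef heg hfg
    have hv' : swap f g * swap d e ∈ G :=
      hA'G f hf.2 g hg.2 d hdA' e he.2 hfg hf.1 hef.symm hg.1 heg.symm (Ne.symm he.1)
    have hud : (swap a b * swap c d) d = c := by
      rw [Perm.mul_apply, swap_apply_right, swap_apply_of_ne_of_ne hac.symm hbc.symm]
    have hue : (swap a b * swap c d) e = e := by
      rw [Perm.mul_apply, swap_apply_of_ne_of_ne (ne_of hc.2 heA) he.1,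
        swap_apply_of_ne_of_ne (ne_of ha.2 heA) (ne_of hb.2 heA)]
    have huf : (swap a b * swap c d) f = f := by
      rw [Perm.mul_apply, swap_apply_of_ne_of_ne (ne_of hc.2 hfA) hf.1,
        swap_apply_of_ne_of_ne (ne_of ha.2 hfA) (ne_of hb.2 hfA)]
    have hug : (swap a b * swap c d) g = g := by
      rw [Perm.mul_apply, swap_apply_of_ne_of_ne (ne_of hc.2 hgA) hg.1,
        swap_apply_of_ne_of_ne (ne_of ha.2 hgA) (ne_of hb.2 hgA)]
    refine ⟨(swap a b * swap c d) * (swap d e * swap f g) * (swap a b * swap c d)⁻¹ *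
      (swap f g * swap d e), G.mul_mem (G.mul_mem (G.mul_mem hu hv) (G.inv_mem hu)) hv', ?_⟩
    have e1 : (swap a b * swap c d) * (swap d e * swap f g) * (swap a b * swap c d)⁻¹ =
        swap c e * swap f g := by
      have e0 : ∀ u s t : Perm α, u * (s * t) * u⁻¹ = (u * s * u⁻¹) * (u * t * u⁻¹) := by
        intro u s t
        group
      rw [e0, ← swap_apply_apply, ← swap_apply_apply, hud, hue, huf, hug]
    rw [e1]
    have e2 : swap c e * swap f g * (swap f g * swap d e) = swap e c * swap e d := by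
      rw [mul_assoc, ← mul_assoc (swap f g), swap_mul_self, one_mul, swap_comm c e,
        swap_comm d e]
    rw [e2]
    exact Perm.isThreeCycle_swap_mul_swap_same (ne_of hc.2 heA) he.1 hc.1
  · obtain ⟨x, y, z, hxy, hxz, hyz, hxyz⟩ := Finset.card_eq_three.mp h
    have hx : x ∈ A ∩ A' := by rw [hxyz]; simp
    have hy : y ∈ A ∩ A' := by rw [hxyz]; simp
    have hz : z ∈ A ∩ A' := by rw [hxyz]; simp
    rw [Finset.mem_inter] at hx hy hz
    have h1 : (A \ A').card = 1 := by
      have h0 := Finset.card_sdiff_add_card_inter A A'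
      omega
    have h1' : (A' \ A).card = 1 := by
      have h0 := Finset.card_sdiff_add_card_inter A' A
      rw [Finset.inter_comm] at h0
      omega
    obtain ⟨p, hp⟩ := Finset.card_eq_one.mp h1
    obtain ⟨q, hq⟩ := Finset.card_eq_one.mp h1'
    have hpm : p ∈ A \ A' := by rw [hp]; exact Finset.mem_singleton_self p
    have hqm : q ∈ A' \ A := by rw [hq]; exact Finset.mem_singleton_self q
    rw [Finset.mem_sdiff] at hpm hqm
    have hpx : p ≠ x := fun hh => hpm.2 (by rw [hh]; exact hx.2)
    have hpy : p ≠ y := fun hh => hpm.2 (by rw [hh]; exact hy.2)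
    have hpz : p ≠ z := fun hh => hpm.2 (by rw [hh]; exact hz.2)
    have hqx : q ≠ x := fun hh => hqm.2 (by rw [hh]; exact hx.1)
    have hqy : q ≠ y := fun hh => hqm.2 (by rw [hh]; exact hy.1)
    have hqz : q ≠ z := fun hh => hqm.2 (by rw [hh]; exact hz.1)
    have hpq : p ≠ q := fun hh => hqm.2 (by rw [← hh]; exact hpm.1)
    have hu : swap z p * swap x y ∈ G :=
      hAG z hz.1 p hpm.1 x hx.1 y hy.1 hpz.symm hxz.symm hyz.symm hpx hpy hxy
    have hv : swap x y * swap z q ∈ G :=
      hA'G x hx.2 y hy.2 z hz.2 q hqm.1 hxy hxz hqx.symm hyz hqy.symm hqz.symm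
    refine ⟨swap z p * swap x y * (swap x y * swap z q), G.mul_mem hu hv, ?_⟩
    have e : swap z p * swap x y * (swap x y * swap z q) = swap z p * swap z q := by
      rw [mul_assoc, ← mul_assoc (swap x y), swap_mul_self, one_mul]
    rw [e]
    exact Perm.isThreeCycle_swap_mul_swap_same hpz.symm hqz.symm hpq

end Cfsg.Agent.Lib.Helper45.S28
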