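import Mathlib
import Cfsg.Agent.Lib.Helper45.S28A
import Cfsg.Agent.Lib.Helper45.S28Star

/-! S2928 piece OrbMeet (project of helper45).
PLACEHOLDER: replace the `sorry`(s) in THIS file; keep theorem names and statements byte-identical;
keep the namespace; auxiliary lemmas go ABOVE the theorems and MUST start with the prefix `orbmeet_`.
Definitions (`Hyp`, `QuadSet`, `Bad`, `Cfg`, `TSet`, `suppK`, `ext`): Cfsg/Agent/Lib/Helper45/S28A.lean.
The paper proof is in the docstring of each theorem. -/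

set_option autoImplicit false

namespace Cfsg.Agent.Lib.Helper45.S28

open Equiv Cfsg.Agent.Lib.Helper45 Cfsg.Agent.Lib.Helper45.S21

variable {α : Type*} [Fintype α] [DecidableEq α]

theorem orbmeet_apply_inv {β : Type*} (f : Perm β) (x : β) : f (f⁻¹ x) = x :=
  (Perm.eq_inv_iff_eq (f := f) (x := f⁻¹ x) (y := x)).1 rfl

/-- a double transposition on four distinct points: its values -/
theorem orbmeet_dswap {β : Type*} [DecidableEq β] (a b c d : β) (_hab : a ≠ b) (hac : a ≠ c)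
    (had : a ≠ d) (hbc : b ≠ c) (hbd : b ≠ d) (_hcd : c ≠ d) :
    (swap a b * swap c d) a = b ∧ (swap a b * swap c d) b = a ∧ (swap a b * swap c d) c = d ∧
      (swap a b * swap c d) d = c ∧
      ∀ p, p ≠ a → p ≠ b → p ≠ c → p ≠ d → (swap a b * swap c d) p = p := by
  refine ⟨?_, ?_, ?_, ?_, ?_⟩
  · rw [Perm.mul_apply, swap_apply_of_ne_of_ne hac had, swap_apply_left]
  · rw [Perm.mul_apply, swap_apply_of_ne_of_ne hbc hbd, swap_apply_right]
  · rw [Perm.mul_apply, swap_apply_left, swap_apply_of_ne_of_ne had.symm hbd.symm]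
  · rw [Perm.mul_apply, swap_apply_right, swap_apply_of_ne_of_ne hac.symm hbc.symm]
  · intro p hpa hpb hpc hpd
    rw [Perm.mul_apply, swap_apply_of_ne_of_ne hpc hpd, swap_apply_of_ne_of_ne hpa hpb]

/-- an element of `G` fixing every point outside `A` commutes with `K` when the `K`-orbit of `o`
misses `A` -/
theorem orbmeet_comm (G K : Subgroup (Perm α)) (h : Hyp G K) (hmoved : ∀ x : α, ∃ k ∈ K, k x ≠ x)
    (A : Finset α) (o : α) (hno : ∀ k ∈ K, k o ∉ A) (w : Perm α) (hw : w ∈ G)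
    (hfix : ∀ p, p ∉ A → w p = p) : ∀ k ∈ K, w * k = k * w := by
  obtain ⟨N, hNmem⟩ : ∃ N : Subgroup (Perm α),
      ∀ k, k ∈ N ↔ (k ∈ K ∧ ∀ k' ∈ K, k (k' o) = k' o) := by
    refine ⟨{ carrier := {k | k ∈ K ∧ ∀ k' ∈ K, k (k' o) = k' o}
              mul_mem' := ?_
              one_mem' := ⟨K.one_mem, fun k' _ => rfl⟩
              inv_mem' := ?_ }, fun k => Iff.rfl⟩
    · rintro a b ⟨ha, ha'⟩ ⟨hb, hb'⟩
      refine ⟨K.mul_mem ha hb, fun k' hk' => ?_⟩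
      rw [Perm.mul_apply, hb' k' hk', ha' k' hk']
    · rintro a ⟨ha, ha'⟩
      refine ⟨K.inv_mem ha, fun k' hk' => ?_⟩
      rw [Perm.inv_eq_iff_eq]
      exact (ha' k' hk').symm
  have hNK : N ≤ K := fun k hk => ((hNmem k).1 hk).1
  have hN : ∀ k ∈ K, ∀ x ∈ N, k * x * k⁻¹ ∈ N := by
    intro k hk x hx
    have hx' := (hNmem x).1 hx
    refine (hNmem _).2 ⟨K.mul_mem (K.mul_mem hk hx'.1) (K.inv_mem hk), fun k' hk' => ?_⟩
    have h1 : x ((k⁻¹ * k') o) = (k⁻¹ * k') o := hx'.2 _ (K.mul_mem (K.inv_mem hk) hk')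
    rw [Perm.mul_apply] at h1
    rw [Perm.mul_apply, Perm.mul_apply, h1, orbmeet_apply_inv]
  have hne : N ≠ K := by
    intro hNeq
    obtain ⟨k₀, hk₀, hk₀o⟩ := hmoved o
    have h1 : k₀ ∈ N := by rw [hNeq]; exact hk₀
    have h2 := ((hNmem k₀).1 h1).2 1 K.one_mem
    rw [Perm.one_apply] at h2
    exact hk₀o h2
  have hwinv : ∀ p, p ∉ A → w⁻¹ p = p := by
    intro p hp
    rw [Perm.inv_eq_iff_eq]
    exact (hfix p hp).symm
  have hc : ∀ k ∈ K, w * k * w⁻¹ * k⁻¹ ∈ N := by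
    intro k hk
    refine (hNmem _).2 ⟨K.mul_mem (h.norm w hw k hk) (K.inv_mem hk), fun k' hk' => ?_⟩
    have h1 : (k⁻¹ * k') o ∉ A := hno _ (K.mul_mem (K.inv_mem hk) hk')
    have h2 : k' o ∉ A := hno _ hk'
    rw [Perm.mul_apply] at h1
    rw [Perm.mul_apply, Perm.mul_apply, Perm.mul_apply, hwinv _ h1, orbmeet_apply_inv,
      hfix _ h2]
  exact comm_of_comm_mem G K h w hw N hNK hN hne hc

/-- Every `K`-orbit meets every quad set.
PROOF. Suppose `∀ k ∈ K, k o ∉ A`.  Let `N = {k ∈ K | ∀ k' ∈ K, k (k' o) = k' o}` (a subgroup of `K`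
normalized by `K`; `N ≠ K` because some `k₀ ∈ K` moves `o` by `hmoved`).  Write `A = {x, y, z, t}` and let
`w` be one of the double transpositions `swap x y * swap z t`, `swap x z * swap y t`, `swap x t * swap y z`
(all in `G` by `hA`).  `w` fixes every point outside `A`, in particular all `k' o`; hence
`w * k * w⁻¹ * k⁻¹ ∈ N` for `k ∈ K` (it is in `K` by `h.norm`, and it fixes `k' o` since `k⁻¹ (k' o)` and
`k' o` are outside `A`).  By `comm_of_comm_mem`, `w` commutes with all of `K`.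
So `K` commutes with the three double transpositions `w₁ w₂ w₃` on `A`.  Then for `k ∈ K`: `k x ∈ A`
(`w₁ (k x) = k (w₁ x) = k y ≠ k x`, and `w₁` moves only points of `A`), so `k x = v x` for some
`v ∈ {1, w₁, w₂, w₃}`; for `k₁ k₂ ∈ K` with `kᵢ x = vᵢ x`: `k₁ (k₂ x) = k₁ (v₂ x) = v₂ (k₁ x) = v₂ (v₁ x)`
and likewise `k₂ (k₁ x) = v₁ (v₂ x) = v₂ (v₁ x)`.  So `k₁ k₂ x = k₂ k₁ x` for all `k₁ k₂ ∈ K`, hence every
commutator `⁅k₁, k₂⁆` fixes `x`, so `⁅K, K⁆ = K` fixes `x` (`Subgroup.commutator_le` into the stabilizer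
of `x`), contradicting `hmoved x`. -/
theorem orbit_meets (G K : Subgroup (Perm α)) (h : Hyp G K) (hmoved : ∀ x : α, ∃ k ∈ K, k x ≠ x)
    (A : Finset α) (hA : QuadSet G A) (o : α) : ∃ k ∈ K, k o ∈ A := by
  by_contra hcon
  push Not at hcon
  obtain ⟨x, y, z, t, hxy, hxz, hxt, hyz, hyt, hzt, hAeq⟩ := Finset.card_eq_four.1 hA.1
  have hmemA : ∀ p, p ∈ A ↔ (p = x ∨ p = y ∨ p = z ∨ p = t) := by
    intro p
    rw [hAeq]
    simp only [Finset.mem_insert, Finset.mem_singleton]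
  have hx : x ∈ A := (hmemA x).2 (Or.inl rfl)
  have hy : y ∈ A := (hmemA y).2 (Or.inr (Or.inl rfl))
  have hz : z ∈ A := (hmemA z).2 (Or.inr (Or.inr (Or.inl rfl)))
  have ht : t ∈ A := (hmemA t).2 (Or.inr (Or.inr (Or.inr rfl)))
  have hnot : ∀ p, p ∉ A → p ≠ x ∧ p ≠ y ∧ p ≠ z ∧ p ≠ t := by
    intro p hp
    refine ⟨?_, ?_, ?_, ?_⟩ <;> rintro rfl <;> exact hp (by assumption)
  -- the three double transpositions
  obtain ⟨w₁, hw₁⟩ : ∃ w : Perm α, w = swap x y * swap z t := ⟨_, rfl⟩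
  obtain ⟨w₂, hw₂⟩ : ∃ w : Perm α, w = swap x z * swap y t := ⟨_, rfl⟩
  obtain ⟨w₃, hw₃⟩ : ∃ w : Perm α, w = swap x t * swap y z := ⟨_, rfl⟩
  have hw₁G : w₁ ∈ G := by
    rw [hw₁]
    exact hA.2 x hx y hy z hz t ht hxy hxz hxt hyz hyt hzt
  have hw₂G : w₂ ∈ G := by
    rw [hw₂]
    exact hA.2 x hx z hz y hy t ht hxz hxy hxt hyz.symm hzt hyt
  have hw₃G : w₃ ∈ G := by
    rw [hw₃]
    exact hA.2 x hx t ht y hy z hz hxt hxy hxz hyt.symm hzt.symm hyz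
  obtain ⟨a1, a2, a3, a4, a5⟩ := orbmeet_dswap x y z t hxy hxz hxt hyz hyt hzt
  obtain ⟨b1, b2, b3, b4, b5⟩ := orbmeet_dswap x z y t hxz hxy hxt hyz.symm hzt hyt
  obtain ⟨c1, c2, c3, c4, c5⟩ := orbmeet_dswap x t y z hxt hxy hxz hyt.symm hzt.symm hyz
  rw [← hw₁] at a1 a2 a3 a4 a5
  rw [← hw₂] at b1 b2 b3 b4 b5
  rw [← hw₃] at c1 c2 c3 c4 c5
  have hfix₁ : ∀ p, p ∉ A → w₁ p = p := fun p hp => by
    obtain ⟨h1, h2, h3, h4⟩ := hnot p hp
    exact a5 p h1 h2 h3 h4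
  have hfix₂ : ∀ p, p ∉ A → w₂ p = p := fun p hp => by
    obtain ⟨h1, h2, h3, h4⟩ := hnot p hp
    exact b5 p h1 h3 h2 h4
  have hfix₃ : ∀ p, p ∉ A → w₃ p = p := fun p hp => by
    obtain ⟨h1, h2, h3, h4⟩ := hnot p hp
    exact c5 p h1 h4 h2 h3
  have hcm₁ := orbmeet_comm G K h hmoved A o hcon w₁ hw₁G hfix₁
  have hcm₂ := orbmeet_comm G K h hmoved A o hcon w₂ hw₂G hfix₂
  have hcm₃ := orbmeet_comm G K h hmoved A o hcon w₃ hw₃G hfix₃
  have hp₁ : ∀ k ∈ K, ∀ p, w₁ (k p) = k (w₁ p) := fun k hk p =>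
    congrArg (fun f : Perm α => f p) (hcm₁ k hk)
  have hp₂ : ∀ k ∈ K, ∀ p, w₂ (k p) = k (w₂ p) := fun k hk p =>
    congrArg (fun f : Perm α => f p) (hcm₂ k hk)
  have hp₃ : ∀ k ∈ K, ∀ p, w₃ (k p) = k (w₃ p) := fun k hk p =>
    congrArg (fun f : Perm α => f p) (hcm₃ k hk)
  -- the action of an element of `K` on `A`
  have htype : ∀ k ∈ K, (k x = x ∧ k y = y ∧ k z = z ∧ k t = t) ∨
      (k x = y ∧ k y = x ∧ k z = t ∧ k t = z) ∨ (k x = z ∧ k y = t ∧ k z = x ∧ k t = y) ∨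
      (k x = t ∧ k y = z ∧ k z = y ∧ k t = x) := by
    intro k hk
    have hkx : k x ∈ A := by
      by_contra hkx
      have h1 := hp₁ k hk x
      rw [hfix₁ _ hkx, a1] at h1
      exact hxy (k.injective h1)
    have e1 : k y = w₁ (k x) := by rw [hp₁ k hk x, a1]
    have e2 : k z = w₂ (k x) := by rw [hp₂ k hk x, b1]
    have e3 : k t = w₃ (k x) := by rw [hp₃ k hk x, c1]
    rcases (hmemA _).1 hkx with e | e | e | e
    · left
      rw [e] at e1 e2 e3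
      exact ⟨e, e1.trans a1, e2.trans b1, e3.trans c1⟩
    · right; left
      rw [e] at e1 e2 e3
      exact ⟨e, e1.trans a2, e2.trans b3, e3.trans c3⟩
    · right; right; left
      rw [e] at e1 e2 e3
      exact ⟨e, e1.trans a3, e2.trans b2, e3.trans c4⟩
    · right; right; right
      rw [e] at e1 e2 e3
      exact ⟨e, e1.trans a4, e2.trans b4, e3.trans c2⟩
  have hcomm : ∀ k₁ ∈ K, ∀ k₂ ∈ K, k₁ (k₂ x) = k₂ (k₁ x) := by
    intro k₁ hk₁ k₂ hk₂
    rcases htype k₁ hk₁ with ⟨p1, p2, p3, p4⟩ | ⟨p1, p2, p3, p4⟩ | ⟨p1, p2, p3, p4⟩ |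
      ⟨p1, p2, p3, p4⟩ <;>
    rcases htype k₂ hk₂ with ⟨q1, q2, q3, q4⟩ | ⟨q1, q2, q3, q4⟩ | ⟨q1, q2, q3, q4⟩ |
      ⟨q1, q2, q3, q4⟩ <;>
    simp only [p1, p2, p3, p4, q1, q2, q3, q4]
  have hstab : K ≤ MulAction.stabilizer (Perm α) x := by
    have h1 : ⁅K, K⁆ ≤ MulAction.stabilizer (Perm α) x := by
      rw [Subgroup.commutator_le]
      intro k₁ hk₁ k₂ hk₂
      rw [MulAction.mem_stabilizer_iff, Perm.smul_def, commutatorElement_def]
      have h2 := hcomm k₁⁻¹ (K.inv_mem hk₁) k₂⁻¹ (K.inv_mem hk₂)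
      rw [Perm.mul_apply, Perm.mul_apply, Perm.mul_apply, h2, orbmeet_apply_inv,
        orbmeet_apply_inv]
    rw [h.perf] at h1
    exact h1
  obtain ⟨k, hk, hkx⟩ := hmoved x
  have h3 := hstab hk
  rw [MulAction.mem_stabilizer_iff, Perm.smul_def] at h3
  exact hkx h3

end Cfsg.Agent.Lib.Helper45.S28
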