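import Mathlib
import Cfsg.Agent.Lib.Helper45.S28A
import Cfsg.Agent.Lib.Helper45.S28OrbMeet

/-! S2928 piece KTrans (project of helper45; proof filled in by helper21).
Auxiliary lemmas have the prefix `ktrans_`.
Definitions (`Hyp`, `QuadSet`, `Bad`, `Cfg`, `TSet`, `suppK`, `ext`): Cfsg/Agent/Lib/Helper45/S28A.lean.
The paper proof is in the docstring of the theorem. -/

set_option autoImplicit false

namespace Cfsg.Agent.Lib.Helper45.S28

open Equiv Cfsg.Agent.Lib.Helper45 Cfsg.Agent.Lib.Helper45.S21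

variable {α : Type*} [Fintype α] [DecidableEq α]

theorem ktrans_step1 (G K : Subgroup (Perm α)) (h : Hyp G K) (hmoved : ∀ x : α, ∃ k ∈ K, k x ≠ x)
    (A A' : Finset α) (hA' : QuadSet G A') (hd : Disjoint A A') (w : Perm α) (hw : w ∈ G)
    (hfix : ∀ p, p ∉ A → w p = p) (o : α) : ∃ k ∈ K, k o = w o := by
  obtain ⟨k, hk, hkA'⟩ := orbit_meets G K h hmoved A' hA' o
  have hp : w (k o) = k o := hfix _ (Finset.disjoint_right.1 hd hkA')
  have hp' : w⁻¹ (k o) = k o := by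
    rw [Perm.inv_eq_iff_eq]
    exact hp.symm
  refine ⟨w * k⁻¹ * w⁻¹ * k, K.mul_mem (h.norm w hw k⁻¹ (K.inv_mem hk)) hk, ?_⟩
  simp only [Perm.mul_apply]
  rw [hp', show k⁻¹ (k o) = o from Perm.inv_eq_iff_eq.mpr rfl]

theorem ktrans_step2 (G K : Subgroup (Perm α)) (h : Hyp G K) (hmoved : ∀ x : α, ∃ k ∈ K, k x ≠ x)
    (A A' : Finset α) (hA : QuadSet G A) (hA' : QuadSet G A') (hd : Disjoint A A')
    (a a' : α) (ha : a ∈ A) (ha' : a' ∈ A) : ∃ k ∈ K, k a = a' := by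
  by_cases hne : a = a'
  · exact ⟨1, K.one_mem, by rw [hne, Perm.one_apply]⟩
  have hc : ((A.erase a).erase a').card = 2 := by
    rw [Finset.card_erase_of_mem (Finset.mem_erase.2 ⟨Ne.symm hne, ha'⟩),
      Finset.card_erase_of_mem ha, hA.1]
  obtain ⟨b, b', hbb', hset⟩ := Finset.card_eq_two.1 hc
  have hb : b ∈ (A.erase a).erase a' := by rw [hset]; simp
  have hb' : b' ∈ (A.erase a).erase a' := by rw [hset]; simp
  rw [Finset.mem_erase, Finset.mem_erase] at hb hb'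
  have hwG : swap a a' * swap b b' ∈ G :=
    hA.2 a ha a' ha' b hb.2.2 b' hb'.2.2 hne (Ne.symm hb.2.1) (Ne.symm hb'.2.1) (Ne.symm hb.1)
      (Ne.symm hb'.1) hbb'
  have hfix : ∀ p, p ∉ A → (swap a a' * swap b b') p = p := by
    intro p hp
    have h1 : p ≠ a := fun e => hp (by rw [e]; exact ha)
    have h2 : p ≠ a' := fun e => hp (by rw [e]; exact ha')
    have h3 : p ≠ b := fun e => hp (by rw [e]; exact hb.2.2)
    have h4 : p ≠ b' := fun e => hp (by rw [e]; exact hb'.2.2)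
    rw [Perm.mul_apply, swap_apply_of_ne_of_ne h3 h4, swap_apply_of_ne_of_ne h1 h2]
  obtain ⟨k, hk, hka⟩ := ktrans_step1 G K h hmoved A A' hA' hd _ hwG hfix a
  refine ⟨k, hk, ?_⟩
  rw [hka, Perm.mul_apply, swap_apply_of_ne_of_ne (Ne.symm hb.2.1) (Ne.symm hb'.2.1),
    swap_apply_left]

/-- `K` is transitive.
PROOF. (1) For a double transposition `w` on `A` (in `G` by `hA`) and any `o`: `w o` is in the `K`-orbit
of `o`.  Indeed by `orbit_meets` for `A'` there is `k ∈ K` with `p = k o ∈ A'`; `w p = p` since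
`p ∉ A` (`hd`), so `w o = w (k⁻¹ p) = (w * k⁻¹ * w⁻¹) p = (w * k⁻¹ * w⁻¹ * k) o` and
`w * k⁻¹ * w⁻¹ ∈ K` by `h.norm`.
(2) Any two points `a ≠ a'` of `A` are in the same `K`-orbit: with `A = {a, a', b, b'}` take
`w = swap a a' * swap b b'`, `w a = a'`.
(3) For arbitrary `x y`: by `orbit_meets` for `A`, `k₁ x ∈ A` and `k₂ y ∈ A`; conclude by (2). -/
theorem K_trans (G K : Subgroup (Perm α)) (h : Hyp G K) (hmoved : ∀ x : α, ∃ k ∈ K, k x ≠ x)
    (A A' : Finset α) (hA : QuadSet G A) (hA' : QuadSet G A') (hd : Disjoint A A') :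
    ∀ x y : α, ∃ k ∈ K, k x = y := by
  intro x y
  obtain ⟨k₁, hk₁, h1⟩ := orbit_meets G K h hmoved A hA x
  obtain ⟨k₂, hk₂, h2⟩ := orbit_meets G K h hmoved A hA y
  obtain ⟨k, hk, hkk⟩ := ktrans_step2 G K h hmoved A A' hA hA' hd (k₁ x) (k₂ y) h1 h2
  refine ⟨k₂⁻¹ * k * k₁, K.mul_mem (K.mul_mem (K.inv_mem hk₂) hk) hk₁, ?_⟩
  rw [Perm.mul_apply, Perm.mul_apply, hkk]
  exact Perm.inv_eq_iff_eq.mpr rfl

end Cfsg.Agent.Lib.Helper45.S28
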