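import Mathlib
import Cfsg.Agent.Lib.Helper45.S28A
import Cfsg.Agent.Lib.Helper45.S28Star

/-! S2928 piece PrimFix (project of helper45).
PLACEHOLDER: replace the `sorry`(s) in THIS file; keep theorem names and statements byte-identical;
keep the namespace; auxiliary lemmas go ABOVE the theorems and MUST start with the prefix `primfix_`.
Definitions (`Hyp`, `QuadSet`, `Bad`, `Cfg`, `TSet`, `suppK`, `ext`): Cfsg/Agent/Lib/Helper45/S28A.lean.
The paper proof is in the docstring of each theorem. -/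

set_option autoImplicit false

namespace Cfsg.Agent.Lib.Helper45.S28

open Equiv Cfsg.Agent.Lib.Helper45 Cfsg.Agent.Lib.Helper45.S21

variable {α : Type*} [Fintype α] [DecidableEq α]

theorem primfix_image_mul (a b : Perm α) (A : Set α) : ⇑(a * b) '' A = ⇑a '' (⇑b '' A) := by
  rw [Perm.coe_mul, Set.image_comp]

theorem primfix_image_one (A : Set α) : ⇑(1 : Perm α) '' A = A := by
  rw [Perm.coe_one, Set.image_id]

theorem primfix_image_inv (a : Perm α) (A : Set α) (h : ⇑a '' A = A) : ⇑a⁻¹ '' A = A := by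
  conv_lhs => rw [← h]
  rw [← primfix_image_mul, inv_mul_cancel, primfix_image_one]

/-- the elements of `K` fixing every `G`-translate of `S` -/
def primfix_N (G K : Subgroup (Perm α)) (S : Set α) : Subgroup (Perm α) where
  carrier := {k | k ∈ K ∧ ∀ g ∈ G, ⇑k '' (⇑g '' S) = ⇑g '' S}
  one_mem' := ⟨K.one_mem, fun g _ => primfix_image_one _⟩
  mul_mem' := by
    rintro a b ⟨ha, ha'⟩ ⟨hb, hb'⟩
    refine ⟨K.mul_mem ha hb, fun g hg => ?_⟩
    rw [primfix_image_mul, hb' g hg, ha' g hg]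
  inv_mem' := by
    rintro a ⟨ha, ha'⟩
    exact ⟨K.inv_mem ha, fun g hg => primfix_image_inv a _ (ha' g hg)⟩

/-- An element of `G` fixing all `G`-translates of `S` and fixing a point is trivial.
PROOF. `N = {k ∈ K | ∀ g ∈ G, k '' (g '' S) = g '' S}` is a subgroup of `K` normalized by `K`
(for `k' ∈ K ≤ G`: `k' k k'⁻¹ (g S) = k' k ((k'⁻¹ g) S) = g S`).  `N ≠ K`: take `s ∈ S`, `t ∉ S` and
`k ∈ K` with `k s = t` (`htr`); then `k '' S ≠ S` (use `g = 1`).  For `k ∈ K`:
`w * k * w⁻¹ * k⁻¹ ∈ N` (in `K` by `h.norm`; it fixes `g S` because `k⁻¹ (g S) = (k⁻¹ g) S` is a translate,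
fixed by `w⁻¹`, mapped back to `g S` by `k`, fixed by `w`).  By `comm_of_comm_mem`, `w` commutes with
all `k ∈ K`; so `w (k x) = k (w x) = k x` for all `k ∈ K`, and `K` is transitive: `w = 1`. -/
theorem eq_one_of_fix_translates (G K : Subgroup (Perm α)) (h : Hyp G K)
    (htr : ∀ x y : α, ∃ k ∈ K, k x = y) (S : Set α) (hne : S.Nonempty) (hnu : S ≠ Set.univ)
    (w : Perm α) (hw : w ∈ G) (hfix : ∀ g ∈ G, ⇑w '' (⇑g '' S) = ⇑g '' S) (x : α) (hx : w x = x) :
    w = 1 := by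
  have hNK : primfix_N G K S ≤ K := fun k hk => hk.1
  have hN : ∀ k ∈ K, ∀ y ∈ primfix_N G K S, k * y * k⁻¹ ∈ primfix_N G K S := by
    intro k hk y hy
    refine ⟨K.mul_mem (K.mul_mem hk hy.1) (K.inv_mem hk), fun g hg => ?_⟩
    have hg' : k⁻¹ * g ∈ G := G.mul_mem (G.inv_mem (h.le hk)) hg
    have e1 : ⇑k⁻¹ '' (⇑g '' S) = ⇑(k⁻¹ * g) '' S := (primfix_image_mul _ _ _).symm
    rw [primfix_image_mul, primfix_image_mul, e1, hy.2 _ hg', ← primfix_image_mul,
      mul_inv_cancel_left]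
  have hne' : primfix_N G K S ≠ K := by
    intro hEq
    obtain ⟨s, hs⟩ := hne
    obtain ⟨t, ht⟩ : ∃ t, t ∉ S := by
      by_contra hcon
      exact hnu (Set.eq_univ_of_forall fun t => by_contra fun ht => hcon ⟨t, ht⟩)
    obtain ⟨k, hk, hks⟩ := htr s t
    have hkN : k ∈ primfix_N G K S := by rw [hEq]; exact hk
    have h1 := hkN.2 1 G.one_mem
    rw [primfix_image_one] at h1
    apply ht
    rw [← h1, ← hks]
    exact Set.mem_image_of_mem _ hs
  have hc : ∀ k ∈ K, w * k * w⁻¹ * k⁻¹ ∈ primfix_N G K S := by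
    intro k hk
    refine ⟨K.mul_mem (h.norm w hw k hk) (K.inv_mem hk), fun g hg => ?_⟩
    have hg' : k⁻¹ * g ∈ G := G.mul_mem (G.inv_mem (h.le hk)) hg
    have e1 : ⇑k⁻¹ '' (⇑g '' S) = ⇑(k⁻¹ * g) '' S := (primfix_image_mul _ _ _).symm
    have e2 : ⇑w⁻¹ '' (⇑(k⁻¹ * g) '' S) = ⇑(k⁻¹ * g) '' S :=
      primfix_image_inv w _ (hfix _ hg')
    rw [primfix_image_mul, primfix_image_mul, primfix_image_mul, e1, e2,
      ← primfix_image_mul k (k⁻¹ * g) S, mul_inv_cancel_left, hfix g hg]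
  have hcomm := comm_of_comm_mem G K h w hw (primfix_N G K S) hNK hN hne' hc
  refine Equiv.ext fun y => ?_
  obtain ⟨k, hk, hky⟩ := htr x y
  calc w y = w (k x) := by rw [hky]
    _ = (w * k) x := rfl
    _ = (k * w) x := by rw [hcomm k hk]
    _ = k (w x) := rfl
    _ = k x := by rw [hx]
    _ = y := hky
    _ = (1 : Perm α) y := rfl

end Cfsg.Agent.Lib.Helper45.S28
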