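import Mathlib
import Cfsg.Agent.Lib.Helper45.S28A
import Cfsg.Agent.Lib.Helper45.S28PrimFix

/-! S2928 piece Prim (project of helper45; proved by helper92).
Definitions (`Hyp`, `QuadSet`, `Bad`, `Cfg`, `TSet`, `suppK`, `ext`): Cfsg/Agent/Lib/Helper45/S28A.lean.
The paper proof is in the docstring of the theorem. -/

set_option autoImplicit false

namespace Cfsg.Agent.Lib.Helper45.S28

open Equiv Cfsg.Agent.Lib.Helper45 Cfsg.Agent.Lib.Helper45.S21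
open scoped Pointwise

variable {α : Type*} [Fintype α] [DecidableEq α]

omit [Fintype α] in
/-- the action of a double transposition -/
theorem prim_dswap (a b c d : α) (hac : a ≠ c) (had : a ≠ d) (hbc : b ≠ c) (hbd : b ≠ d) :
    (swap a b * swap c d) a = b ∧ (swap a b * swap c d) b = a ∧
      (swap a b * swap c d) c = d ∧ (swap a b * swap c d) d = c ∧
      ∀ x, x ≠ a → x ≠ b → x ≠ c → x ≠ d → (swap a b * swap c d) x = x := by
  refine ⟨?_, ?_, ?_, ?_, ?_⟩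
  · rw [Perm.mul_apply, swap_apply_of_ne_of_ne hac had, swap_apply_left]
  · rw [Perm.mul_apply, swap_apply_of_ne_of_ne hbc hbd, swap_apply_right]
  · rw [Perm.mul_apply, swap_apply_left, swap_apply_of_ne_of_ne (Ne.symm had) (Ne.symm hbd)]
  · rw [Perm.mul_apply, swap_apply_right, swap_apply_of_ne_of_ne (Ne.symm hac) (Ne.symm hbc)]
  · intro x hxa hxb hxc hxd
    rw [Perm.mul_apply, swap_apply_of_ne_of_ne hxc hxd, swap_apply_of_ne_of_ne hxa hxb]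

omit [Fintype α] [DecidableEq α] in
/-- a set disjoint from its image under `(a b)(c d)` and containing `a`, `c` is `{a, c}` -/
theorem prim_pair (w : Perm α) (a b c d : α)
    (hwa : w a = b) (hwc : w c = d)
    (hwfix : ∀ x, x ≠ a → x ≠ b → x ≠ c → x ≠ d → w x = x)
    (T : Set α) (hdisj : Disjoint (⇑w '' T) T) (ha : a ∈ T) (hc : c ∈ T) :
    T = {a, c} ∧ ⇑w '' T = {b, d} := by
  have hmv : ∀ x ∈ T, w x ∉ T := fun x hx =>
    Set.disjoint_left.mp hdisj (Set.mem_image_of_mem _ hx)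
  have hb : b ∉ T := hwa ▸ hmv a ha
  have hd : d ∉ T := hwc ▸ hmv c hc
  have hT : T = {a, c} := by
    ext x
    constructor
    · intro hx
      by_contra hne
      rw [Set.mem_insert_iff, Set.mem_singleton_iff, not_or] at hne
      have hxb : x ≠ b := fun h => hb (h ▸ hx)
      have hxd : x ≠ d := fun h => hd (h ▸ hx)
      have h1 := hmv x hx
      rw [hwfix x hne.1 hxb hne.2 hxd] at h1
      exact h1 hx
    · intro hx
      rcases hx with rfl | rfl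
      · exact ha
      · exact hc
  refine ⟨hT, ?_⟩
  rw [hT, Set.image_pair, hwa, hwc]

omit [Fintype α] [DecidableEq α] in
/-- if `{a, c}` and `{b, d}` are members of a family of pairwise equal-or-disjoint sets, then
`(a c)(b d)` fixes every member -/
theorem prim_fixall (𝒯 : Set (Set α))
    (hdisj : ∀ T ∈ 𝒯, ∀ T' ∈ 𝒯, T = T' ∨ Disjoint T T')
    (w : Perm α) (a b c d : α)
    (hwa : w a = c) (hwc : w c = a) (hwb : w b = d) (hwd : w d = b)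
    (hwfix : ∀ x, x ≠ a → x ≠ b → x ≠ c → x ≠ d → w x = x)
    (h1 : ({a, c} : Set α) ∈ 𝒯) (h2 : ({b, d} : Set α) ∈ 𝒯) :
    ∀ T ∈ 𝒯, ⇑w '' T = T := by
  intro T hT
  rcases hdisj T hT _ h1 with rfl | hd1
  · rw [Set.image_pair, hwa, hwc, Set.pair_comm]
  rcases hdisj T hT _ h2 with rfl | hd2
  · rw [Set.image_pair, hwb, hwd, Set.pair_comm]
  have hfix : ∀ x ∈ T, w x = x := by
    intro x hx
    have hxa : x ≠ a := fun h => Set.disjoint_left.mp hd1 hx (by rw [h]; simp)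
    have hxc : x ≠ c := fun h => Set.disjoint_left.mp hd1 hx (by rw [h]; simp)
    have hxb : x ≠ b := fun h => Set.disjoint_left.mp hd2 hx (by rw [h]; simp)
    have hxd : x ≠ d := fun h => Set.disjoint_left.mp hd2 hx (by rw [h]; simp)
    exact hwfix x hxa hxb hxc hxd
  ext y
  constructor
  · rintro ⟨x, hx, rfl⟩
    rw [hfix x hx]
    exact hx
  · intro hy
    exact ⟨y, hy, hfix y hy⟩

omit [Fintype α] [DecidableEq α] in
/-- the combinatorial core: if `(a b)(c d)` moves some member of the family, then `(a c)(b d)` or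
`(a d)(b c)` fixes all members -/
theorem prim_core (𝒯 : Set (Set α))
    (hdisj : ∀ T ∈ 𝒯, ∀ T' ∈ 𝒯, T = T' ∨ Disjoint T T')
    (htwo : ∀ T ∈ 𝒯, ∃ x ∈ T, ∃ y ∈ T, x ≠ y)
    (w₁ w₂ w₃ : Perm α) (a b c d : α)
    (h1a : w₁ a = b) (h1b : w₁ b = a) (h1c : w₁ c = d) (h1d : w₁ d = c)
    (h1f : ∀ x, x ≠ a → x ≠ b → x ≠ c → x ≠ d → w₁ x = x)
    (h2a : w₂ a = c) (h2c : w₂ c = a) (h2b : w₂ b = d) (h2d : w₂ d = b)
    (h2f : ∀ x, x ≠ a → x ≠ b → x ≠ c → x ≠ d → w₂ x = x)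
    (h3a : w₃ a = d) (h3d : w₃ d = a) (h3b : w₃ b = c) (h3c : w₃ c = b)
    (h3f : ∀ x, x ≠ a → x ≠ b → x ≠ c → x ≠ d → w₃ x = x)
    (hw1 : ∀ T ∈ 𝒯, ⇑w₁ '' T ∈ 𝒯)
    (T₁ : Set α) (hT₁ : T₁ ∈ 𝒯) (hmove : ⇑w₁ '' T₁ ≠ T₁) :
    (∀ T ∈ 𝒯, ⇑w₂ '' T = T) ∨ (∀ T ∈ 𝒯, ⇑w₃ '' T = T) := by
  have hd : Disjoint (⇑w₁ '' T₁) T₁ := (hdisj _ (hw1 T₁ hT₁) _ hT₁).resolve_left hmove
  have hmv : ∀ x ∈ T₁, w₁ x ∉ T₁ := fun x hx =>
    Set.disjoint_left.mp hd (Set.mem_image_of_mem _ hx)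
  have hmem : ∀ x ∈ T₁, x = a ∨ x = b ∨ x = c ∨ x = d := by
    intro x hx
    by_contra hne
    simp only [not_or] at hne
    have h1 := hmv x hx
    rw [h1f x hne.1 hne.2.1 hne.2.2.1 hne.2.2.2] at h1
    exact h1 hx
  have exAB : a ∈ T₁ → b ∈ T₁ → False := fun ha hb => (h1a ▸ hmv a ha) hb
  have exCD : c ∈ T₁ → d ∈ T₁ → False := fun hc hd' => (h1c ▸ hmv c hc) hd'
  have h1f' : ∀ x, x ≠ a → x ≠ b → x ≠ d → x ≠ c → w₁ x = x :=
    fun x h1 h2 h3 h4 => h1f x h1 h2 h4 h3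
  have h1f'' : ∀ x, x ≠ b → x ≠ a → x ≠ c → x ≠ d → w₁ x = x :=
    fun x h1 h2 h3 h4 => h1f x h2 h1 h3 h4
  have h1f''' : ∀ x, x ≠ b → x ≠ a → x ≠ d → x ≠ c → w₁ x = x :=
    fun x h1 h2 h3 h4 => h1f x h2 h1 h4 h3
  have h3f' : ∀ x, x ≠ a → x ≠ b → x ≠ d → x ≠ c → w₃ x = x :=
    fun x h1 h2 h3 h4 => h3f x h1 h2 h4 h3
  have caseAC : a ∈ T₁ → c ∈ T₁ → (∀ T ∈ 𝒯, ⇑w₂ '' T = T) ∨ (∀ T ∈ 𝒯, ⇑w₃ '' T = T) := by
    intro ha hc
    obtain ⟨e1, e2⟩ := prim_pair w₁ a b c d h1a h1c h1f T₁ hd ha hc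
    refine Or.inl (prim_fixall 𝒯 hdisj w₂ a b c d h2a h2c h2b h2d h2f (e1 ▸ hT₁) ?_)
    rw [← e2]
    exact hw1 T₁ hT₁
  have caseBD : b ∈ T₁ → d ∈ T₁ → (∀ T ∈ 𝒯, ⇑w₂ '' T = T) ∨ (∀ T ∈ 𝒯, ⇑w₃ '' T = T) := by
    intro hb hd'
    obtain ⟨e1, e2⟩ := prim_pair w₁ b a d c h1b h1d h1f''' T₁ hd hb hd'
    refine Or.inl (prim_fixall 𝒯 hdisj w₂ a b c d h2a h2c h2b h2d h2f ?_ (e1 ▸ hT₁))
    rw [← e2]
    exact hw1 T₁ hT₁
  have caseAD : a ∈ T₁ → d ∈ T₁ → (∀ T ∈ 𝒯, ⇑w₂ '' T = T) ∨ (∀ T ∈ 𝒯, ⇑w₃ '' T = T) := by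
    intro ha hd'
    obtain ⟨e1, e2⟩ := prim_pair w₁ a b d c h1a h1d h1f' T₁ hd ha hd'
    refine Or.inr (prim_fixall 𝒯 hdisj w₃ a b d c h3a h3d h3b h3c h3f' (e1 ▸ hT₁) ?_)
    rw [← e2]
    exact hw1 T₁ hT₁
  have caseBC : b ∈ T₁ → c ∈ T₁ → (∀ T ∈ 𝒯, ⇑w₂ '' T = T) ∨ (∀ T ∈ 𝒯, ⇑w₃ '' T = T) := by
    intro hb hc
    obtain ⟨e1, e2⟩ := prim_pair w₁ b a c d h1b h1c h1f'' T₁ hd hb hc
    refine Or.inr (prim_fixall 𝒯 hdisj w₃ a b d c h3a h3d h3b h3c h3f' ?_ (e1 ▸ hT₁))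
    rw [← e2]
    exact hw1 T₁ hT₁
  obtain ⟨x, hx, y, hy, hxy⟩ := htwo T₁ hT₁
  rcases hmem x hx with hxa | hxb | hxc | hxd <;> rcases hmem y hy with hya | hyb | hyc | hyd
  · exact absurd (hxa.trans hya.symm) hxy
  · exact (exAB (hxa ▸ hx) (hyb ▸ hy)).elim
  · exact caseAC (hxa ▸ hx) (hyc ▸ hy)
  · exact caseAD (hxa ▸ hx) (hyd ▸ hy)
  · exact (exAB (hya ▸ hy) (hxb ▸ hx)).elim
  · exact absurd (hxb.trans hyb.symm) hxy
  · exact caseBC (hxb ▸ hx) (hyc ▸ hy)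
  · exact caseBD (hxb ▸ hx) (hyd ▸ hy)
  · exact caseAC (hya ▸ hy) (hxc ▸ hx)
  · exact caseBC (hyb ▸ hy) (hxc ▸ hx)
  · exact absurd (hxc.trans hyc.symm) hxy
  · exact (exCD (hxc ▸ hx) (hyd ▸ hy)).elim
  · exact caseAD (hya ▸ hy) (hxd ▸ hx)
  · exact caseBD (hyb ▸ hy) (hxd ▸ hx)
  · exact (exCD (hyc ▸ hy) (hxd ▸ hx)).elim
  · exact absurd (hxd.trans hyd.symm) hxy

/-- `G` is primitive.
PROOF. Pretransitive by `htr` (`K ≤ G`).  Let `S` be a block (`MulAction.IsBlock G S`; for `g : ↥G`,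
`g • S = ⇑(g : Perm α) '' S`), not a subsingleton and `≠ univ`; derive `False`.  Translates `g S`
(`g ∈ G`) are pairwise equal or disjoint and cover `α`.
Write `A = {a, b, c, d}`, `w₁ = swap a b * swap c d`, `w₂ = swap a c * swap b d`,
`w₃ = swap a d * swap b c` (in `G` by `hA`); each fixes a point (`5 ≤ card α`) and is `≠ 1`.
By `eq_one_of_fix_translates`, `w₁` moves some translate `S₁ = g S`: `w₁ S₁ ≠ S₁`, so
`w₁ S₁ ∩ S₁ = ∅` (block), so every point of `S₁` is moved by `w₁`: `S₁ ⊆ A`; `S₁` has `≥ 2` points, is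
disjoint from `w₁ S₁ ⊆ A`, so `S₁` is one of `{a,c}, {a,d}, {b,c}, {b,d}` and `w₁ S₁ = A \ S₁` is also a
translate.  If the translates contained in `A` are `{a,c}` and `{b,d}`: `w₂` fixes both, and fixes
every other translate (those are disjoint from `A`, hence pointwise fixed); so `w₂` fixes all
translates and a point, `w₂ = 1` by `eq_one_of_fix_translates`: contradiction.  If they are `{a,d}` and
`{b,c}`: same with `w₃`. -/
theorem isPreprimitive_of (G K : Subgroup (Perm α)) (h : Hyp G K)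
    (htr : ∀ x y : α, ∃ k ∈ K, k x = y) (A : Finset α) (hA : QuadSet G A)
    (h5 : 5 ≤ Fintype.card α) : MulAction.IsPreprimitive G α := by
  obtain ⟨a, b, c, d, hab, hac, had, hbc, hbd, hcd, rfl⟩ := Finset.card_eq_four.mp hA.1
  have hmA : ∀ x : α, x ∈ ({a, b, c, d} : Finset α) ↔ x = a ∨ x = b ∨ x = c ∨ x = d := by
    intro x
    simp
  have ha : a ∈ ({a, b, c, d} : Finset α) := (hmA a).mpr (Or.inl rfl)
  have hb : b ∈ ({a, b, c, d} : Finset α) := (hmA b).mpr (Or.inr (Or.inl rfl))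
  have hc : c ∈ ({a, b, c, d} : Finset α) := (hmA c).mpr (Or.inr (Or.inr (Or.inl rfl)))
  have hd : d ∈ ({a, b, c, d} : Finset α) := (hmA d).mpr (Or.inr (Or.inr (Or.inr rfl)))
  have hw₁ : swap a b * swap c d ∈ G := hA.2 a ha b hb c hc d hd hab hac had hbc hbd hcd
  have hw₂ : swap a c * swap b d ∈ G :=
    hA.2 a ha c hc b hb d hd hac hab had (Ne.symm hbc) hcd hbd
  have hw₃ : swap a d * swap b c ∈ G :=
    hA.2 a ha d hd b hb c hc had hab hac (Ne.symm hbd) (Ne.symm hcd) hbc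
  obtain ⟨h1a, h1b, h1c, h1d, h1f⟩ := prim_dswap a b c d hac had hbc hbd
  obtain ⟨h2a, h2c, h2b, h2d, h2f'⟩ := prim_dswap a c b d hab had (Ne.symm hbc) hcd
  obtain ⟨h3a, h3d, h3b, h3c, h3f'⟩ := prim_dswap a d b c hab hac (Ne.symm hbd) (Ne.symm hcd)
  have h2f : ∀ x, x ≠ a → x ≠ b → x ≠ c → x ≠ d → (swap a c * swap b d) x = x :=
    fun x e1 e2 e3 e4 => h2f' x e1 e3 e2 e4
  have h3f : ∀ x, x ≠ a → x ≠ b → x ≠ c → x ≠ d → (swap a d * swap b c) x = x :=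
    fun x e1 e2 e3 e4 => h3f' x e1 e4 e2 e3
  -- a point outside `A`
  obtain ⟨x₀, hx₀⟩ : ∃ x₀ : α, x₀ ∉ ({a, b, c, d} : Finset α) := by
    by_contra hall
    push Not at hall
    have huniv : ({a, b, c, d} : Finset α) = Finset.univ := Finset.eq_univ_iff_forall.mpr hall
    have hcard := hA.1
    rw [huniv, Finset.card_univ] at hcard
    omega
  have hx₀' : x₀ ≠ a ∧ x₀ ≠ b ∧ x₀ ≠ c ∧ x₀ ≠ d := by
    have h' := (hmA x₀).not.mp hx₀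
    simp only [not_or] at h'
    exact h'
  have : MulAction.IsPretransitive G α := by
    refine ⟨fun x y => ?_⟩
    obtain ⟨k, hk, hkx⟩ := htr x y
    exact ⟨⟨k, h.le hk⟩, hkx⟩
  refine ⟨fun {S} hS => ?_⟩
  by_contra htriv
  unfold MulAction.IsTrivialBlock at htriv
  rw [not_or] at htriv
  obtain ⟨hsub, hnu⟩ := htriv
  obtain ⟨s₁, hs₁, s₂, hs₂, hs12⟩ := Set.not_subsingleton_iff.mp hsub
  have hne : S.Nonempty := ⟨s₁, hs₁⟩
  have hsm : ∀ (g : Perm α) (hg : g ∈ G), (⟨g, hg⟩ : G) • S = ⇑g '' S := by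
    intro g hg
    ext x
    simp only [Set.mem_smul_set, Set.mem_image]
    rfl
  -- the family of translates
  obtain ⟨𝒯, h𝒯⟩ : ∃ 𝒯 : Set (Set α), 𝒯 = {T | ∃ g ∈ G, T = ⇑g '' S} := ⟨_, rfl⟩
  have hdisj : ∀ T ∈ 𝒯, ∀ T' ∈ 𝒯, T = T' ∨ Disjoint T T' := by
    intro T hT T' hT'
    rw [h𝒯] at hT hT'
    obtain ⟨g, hg, rfl⟩ := hT
    obtain ⟨g', hg', rfl⟩ := hT'
    have := (MulAction.isBlock_iff_smul_eq_smul_or_disjoint.mp hS) ⟨g, hg⟩ ⟨g', hg'⟩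
    rwa [hsm g hg, hsm g' hg'] at this
  have htwo : ∀ T ∈ 𝒯, ∃ x ∈ T, ∃ y ∈ T, x ≠ y := by
    intro T hT
    rw [h𝒯] at hT
    obtain ⟨g, hg, rfl⟩ := hT
    exact ⟨g s₁, Set.mem_image_of_mem _ hs₁, g s₂, Set.mem_image_of_mem _ hs₂,
      fun he => hs12 (g.injective he)⟩
  have hmul : ∀ w ∈ G, ∀ T ∈ 𝒯, ⇑w '' T ∈ 𝒯 := by
    intro w hw T hT
    rw [h𝒯] at hT ⊢
    obtain ⟨g, hg, rfl⟩ := hT
    refine ⟨w * g, G.mul_mem hw hg, ?_⟩
    rw [Set.image_image]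
    rfl
  have hfixall : ∀ w ∈ G, (∀ T ∈ 𝒯, ⇑w '' T = T) → w x₀ = x₀ → w = 1 := by
    intro w hw hall hwx
    refine eq_one_of_fix_translates G K h htr S hne hnu w hw (fun g hg => hall _ ?_) x₀ hwx
    rw [h𝒯]
    exact ⟨g, hg, rfl⟩
  have hw₁x : (swap a b * swap c d) x₀ = x₀ := h1f x₀ hx₀'.1 hx₀'.2.1 hx₀'.2.2.1 hx₀'.2.2.2
  have hw₂x : (swap a c * swap b d) x₀ = x₀ := h2f x₀ hx₀'.1 hx₀'.2.1 hx₀'.2.2.1 hx₀'.2.2.2
  have hw₃x : (swap a d * swap b c) x₀ = x₀ := h3f x₀ hx₀'.1 hx₀'.2.1 hx₀'.2.2.1 hx₀'.2.2.2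
  -- `w₁` moves a translate
  obtain ⟨T₁, hT₁, hmove⟩ : ∃ T₁ ∈ 𝒯, ⇑(swap a b * swap c d) '' T₁ ≠ T₁ := by
    by_contra hall
    push Not at hall
    have h1 := hfixall _ hw₁ hall hw₁x
    have h2 := h1a
    rw [h1] at h2
    exact hab h2
  rcases prim_core 𝒯 hdisj htwo (swap a b * swap c d) (swap a c * swap b d) (swap a d * swap b c)
    a b c d h1a h1b h1c h1d h1f h2a h2c h2b h2d h2f h3a h3d h3b h3c h3f (hmul _ hw₁) T₁ hT₁ hmove
    with hall | hall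
  · have h1 := hfixall _ hw₂ hall hw₂x
    have h2 := h2a
    rw [h1] at h2
    exact hac h2
  · have h1 := hfixall _ hw₃ hall hw₃x
    have h2 := h3a
    rw [h1] at h2
    exact had h2

end Cfsg.Agent.Lib.Helper45.S28
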