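import Mathlib
import Cfsg.Agent.Lib.Helper45.S28A


/-! S2928 piece TwoTr (project of helper45).
PLACEHOLDER: replace the `sorry`(s) in THIS file; keep theorem names and statements byte-identical;
keep the namespace; auxiliary lemmas go ABOVE the theorems and MUST start with the prefix `twotr_`.
Definitions (`Hyp`, `QuadSet`, `Bad`, `Cfg`, `TSet`, `suppK`, `ext`): Cfsg/Agent/Lib/Helper45/S28A.lean.
The paper proof is in the docstring of each theorem. -/

set_option autoImplicit false

namespace Cfsg.Agent.Lib.Helper45.S28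

open Equiv Cfsg.Agent.Lib.Helper45 Cfsg.Agent.Lib.Helper45.S21

variable {α : Type*} [Fintype α] [DecidableEq α]

omit [Fintype α] in
/-- the other two points of a 4-set -/
theorem twotr_other_two (A : Finset α) (hA : A.card = 4) {x y : α} (hx : x ∈ A) (hy : y ∈ A)
    (hxy : x ≠ y) :
    ∃ z w : α, z ∈ A ∧ w ∈ A ∧ x ≠ z ∧ x ≠ w ∧ y ≠ z ∧ y ≠ w ∧ z ≠ w ∧
      ∀ a ∈ A, a = x ∨ a = y ∨ a = z ∨ a = w := by
  have hy' : y ∈ A.erase x := Finset.mem_erase.mpr ⟨hxy.symm, hy⟩
  have h1 : (A.erase x).card = 3 := by rw [Finset.card_erase_of_mem hx, hA]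
  have h2 : ((A.erase x).erase y).card = 2 := by rw [Finset.card_erase_of_mem hy', h1]
  obtain ⟨z, w, hzw, hE⟩ := Finset.card_eq_two.mp h2
  have hz : z ∈ (A.erase x).erase y := by rw [hE]; simp
  have hw : w ∈ (A.erase x).erase y := by rw [hE]; simp
  rw [Finset.mem_erase, Finset.mem_erase] at hz hw
  refine ⟨z, w, hz.2.2, hw.2.2, hz.2.1.symm, hw.2.1.symm, hz.1.symm, hw.1.symm, hzw, ?_⟩
  intro a ha
  by_cases hax : a = x
  · exact Or.inl hax
  by_cases hay : a = y
  · exact Or.inr (Or.inl hay)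
  have : a ∈ (A.erase x).erase y :=
    Finset.mem_erase.mpr ⟨hay, Finset.mem_erase.mpr ⟨hax, ha⟩⟩
  rw [hE] at this
  simp only [Finset.mem_insert, Finset.mem_singleton] at this
  rcases this with h | h
  · exact Or.inr (Or.inr (Or.inl h))
  · exact Or.inr (Or.inr (Or.inr h))

/-- the fixing subgroup of the complement of a quad set is transitive on the quad set -/
theorem twotr_trans (G : Subgroup (Perm α)) (A : Finset α) (hA : QuadSet G A) :
    MulAction.IsPretransitive (fixingSubgroup G ((↑A : Set α)ᶜ))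
      (SubMulAction.ofFixingSubgroup G ((↑A : Set α)ᶜ)) := by
  constructor
  rintro ⟨x, hx⟩ ⟨y, hy⟩
  rw [SubMulAction.mem_ofFixingSubgroup_iff] at hx hy
  have hxA : x ∈ A := by
    by_contra h
    exact hx (by simpa using h)
  have hyA : y ∈ A := by
    by_contra h
    exact hy (by simpa using h)
  by_cases hxy : x = y
  · subst hxy
    exact ⟨1, one_smul _ _⟩
  obtain ⟨z, w, hz, hw, hxz, hxw, hyz, hyw, hzw, hall⟩ :=
    twotr_other_two A hA.1 hxA hyA hxy
  have hg : swap x y * swap z w ∈ G := hA.2 x hxA y hyA z hz w hw hxy hxz hxw hyz hyw hzw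
  have hfix : (⟨swap x y * swap z w, hg⟩ : G) ∈ fixingSubgroup G ((↑A : Set α)ᶜ) := by
    rw [mem_fixingSubgroup_iff]
    intro a ha
    have haA : a ∉ A := by simpa using ha
    have h1 : a ≠ x := fun h => haA (h ▸ hxA)
    have h2 : a ≠ y := fun h => haA (h ▸ hyA)
    have h3 : a ≠ z := fun h => haA (h ▸ hz)
    have h4 : a ≠ w := fun h => haA (h ▸ hw)
    show (swap x y * swap z w) a = a
    rw [Perm.mul_apply, swap_apply_of_ne_of_ne h3 h4, swap_apply_of_ne_of_ne h1 h2]
  refine ⟨⟨⟨swap x y * swap z w, hg⟩, hfix⟩, ?_⟩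
  apply Subtype.ext
  show (swap x y * swap z w) x = y
  rw [Perm.mul_apply, swap_apply_of_ne_of_ne hxz hxw, swap_apply_left]

/-- Jordan: `G` is 2-transitive.
PROOF. Mathlib `MulAction.IsPreprimitive.is_two_pretransitive (hG : IsPreprimitive G α) {s : Set α}
{n : ℕ} (hsn : s.ncard = n + 1) (hsn' : n + 2 < Nat.card α)
(hs_trans : IsPretransitive (fixingSubgroup G s) (SubMulAction.ofFixingSubgroup G s)) :
IsMultiplyPretransitive G α 2` with `s = (↑A)ᶜ`, `n = card α - 5`: the double transpositions on `A`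
lie in `fixingSubgroup G s` and act transitively on the 4 points of `A` (= the carrier of
`ofFixingSubgroup G s`).  Then `MulAction.is_two_pretransitive_iff`. -/
theorem two_trans (G : Subgroup (Perm α)) (hprim : MulAction.IsPreprimitive G α) (A : Finset α)
    (hA : QuadSet G A) (h5 : 5 ≤ Fintype.card α) :
    ∀ x y x' y' : α, x ≠ y → x' ≠ y' → ∃ g ∈ G, g x = x' ∧ g y = y' := by
  have hcard : ((↑A : Set α)ᶜ).ncard = (Fintype.card α - 5) + 1 := by
    rw [← Finset.coe_compl, Set.ncard_coe_finset, Finset.card_compl, hA.1]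
    omega
  have hlt : (Fintype.card α - 5) + 2 < Nat.card α := by
    rw [Nat.card_eq_fintype_card]
    omega
  have h2 : MulAction.IsMultiplyPretransitive G α 2 :=
    MulAction.IsPreprimitive.is_two_pretransitive hprim hcard hlt (twotr_trans G A hA)
  rw [MulAction.is_two_pretransitive_iff] at h2
  intro x y x' y' hxy hxy'
  obtain ⟨g, h1, h2⟩ := h2 hxy hxy'
  exact ⟨g.1, g.2, h1, h2⟩

end Cfsg.Agent.Lib.Helper45.S28
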