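import Mathlib
import Cfsg.Agent.Lib.Helper45.S28A
import Cfsg.Agent.Lib.Helper45.S28QInit
import Cfsg.Agent.Lib.Helper45.S28KTrans
import Cfsg.Agent.Lib.Helper45.S28Prim
import Cfsg.Agent.Lib.Helper45.S28TwoTr
import Cfsg.Agent.Lib.Helper45.S28Good
import Cfsg.Agent.Lib.Helper45.S28Alt
import Cfsg.Agent.Lib.Helper45.S28BadU
import Cfsg.Agent.Lib.Helper45.S28BadClosed
import Cfsg.Agent.Lib.Helper45.S28BadZ1
import Cfsg.Agent.Lib.Helper45.S28BadZ2
import Cfsg.Agent.Lib.Helper45.S28BadT1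
import Cfsg.Agent.Lib.Helper45.S28BadT2
import Cfsg.Agent.Lib.Helper45.S28FinBad

/-! S2928: assembly on the support of `K` (helper45). -/

set_option autoImplicit false

namespace Cfsg.Agent.Lib.Helper45.S28

open Equiv

variable {α : Type*} [Fintype α] [DecidableEq α]

/-- in the configuration `Cfg G K 𝒮`, `K` is the alternating group -/
theorem core (G K : Subgroup (Perm α)) (𝒮 : Set (Perm α)) (h : Cfg G K 𝒮) :
    K = alternatingGroup α := by
  obtain ⟨A, A', hA, hA', hd⟩ := exists_quadSets G K 𝒮 h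
  have htr := K_trans G K h.hyp h.moved A A' hA hA' hd
  have h8 : 8 ≤ Fintype.card α := by
    have h1 := Finset.card_le_univ (A ∪ A')
    rw [Finset.card_union_of_disjoint hd, hA.1, hA'.1] at h1
    exact h1
  have h5 : 5 ≤ Fintype.card α := by omega
  have hprim := isPreprimitive_of G K h.hyp htr A hA h5
  have h2 := two_trans G hprim A hA h5
  by_cases hbad : Bad G
  · exfalso
    have htrG : ∀ x y : α, ∃ g ∈ G, g x = y := fun x y => by
      obtain ⟨k, hk, hkx⟩ := htr x y
      exact ⟨k, h.hyp.le hk, hkx⟩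
    have hcov := bad_covered G K 𝒮 h hbad htrG
    by_cases hcl : ∀ A : Finset α, QuadSet G A → ∀ σ ∈ 𝒮, ∀ x ∈ A, σ x ∈ A
    · exact bad_closed G K 𝒮 h h2 hcov hcl
    · have hex : ∃ A1 : Finset α, QuadSet G A1 ∧ ∃ σ ∈ 𝒮, ∃ x ∈ A1, σ x ∉ A1 := by
        by_contra hne
        apply hcl
        intro A1 hA1 σ hσ x hx
        by_contra hσx
        exact hne ⟨A1, hA1, σ, hσ, x, hx, hσx⟩
      obtain ⟨A1, hA1, σ, hσ, x, hx, hσx⟩ := hex
      obtain ⟨z, hzG, hz1, hz2, hz3⟩ := bad_exists_z G K 𝒮 h hbad hcov A1 hA1 σ hσ x hx hσx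
      have hzT : z ∈ TSet G := ⟨hzG, fun B hB => bad_image_z G K 𝒮 h hbad z hz1 hz2 hz3 B hB⟩
      have hzne : z ≠ 1 := by
        intro hz
        apply hz1 x
        rw [hz]
        rfl
      let T : Subgroup (Perm α) :=
        { carrier := TSet G
          mul_mem' := fun {a b} ha hb => tset_mul G a b ha hb
          one_mem' := tset_one G
          inv_mem' := fun {a} ha => tset_inv G a ha }
      exact false_of_T G K h.hyp T (fun t ht => ht.1) (fun g hg t ht => tset_conj G g t hg ht)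
        (fun s hs t ht => tset_comm G h2 A hA h5 s t hs ht) (tset_trans G h2 z hzT hzne)
  · have hex : ∃ B B' : Finset α, QuadSet G B ∧ QuadSet G B' ∧
        ((B ∩ B').card = 1 ∨ (B ∩ B').card = 3) := by
      by_contra hne
      apply hbad
      intro B B' hB hB'
      refine ⟨fun h1 => hne ⟨B, B', hB, hB', Or.inl h1⟩, fun h3 => hne ⟨B, B', hB, hB', Or.inr h3⟩⟩
    obtain ⟨B, B', hB, hB', hcard⟩ := hex
    obtain ⟨c, hcG, hc3⟩ := exists_threeCycle G B B' hB hB' hcard
    have hle : alternatingGroup α ≤ G :=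
      Equiv.Perm.alternatingGroup_le_of_isPreprimitive_of_isThreeCycle_mem hprim hc3 hcG
    exact K_eq_alt G K h.hyp hle h5

end Cfsg.Agent.Lib.Helper45.S28
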