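import Mathlib
import Cfsg.Agent.Lib.Helper45.S28Core
import Cfsg.Agent.Lib.Helper45.S28Bridge
import Cfsg.Agent.Lib.Helper45.S28CfgX
import Cfsg.Agent.Lib.Helper45.S28Card
import Cfsg.Agent.Lib.Helper45.S28Ext
import Cfsg.Agent.Lib.Helper45.S21Transfer
import Cfsg.Agent.Lib.Helper45.SylMax1

/-! S2928: final assembly (helper45). -/

set_option autoImplicit false

namespace Cfsg.Agent.Lib.Helper45.S28

open Equiv Cfsg.Agent.Lib.Helper45 Cfsg.Agent.Lib.Helper45.S21

theorem final (n : ℕ) (hn : 8 ≤ n) (H : Subgroup (Equiv.Perm (Fin n)))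
    (hF : Cfsg.IsQuasisimple ↥(Cfsg.generalizedFittingSubgroup ↥H))
    (hS : ∃ P : Sylow 2 ↥(alternatingGroup (Fin n)),
      ((P : Subgroup ↥(alternatingGroup (Fin n))).map (alternatingGroup (Fin n)).subtype) ≤ H) :
    ∃ m : ℕ, (m = n - 3 ∨ m = n - 2 ∨ m = n - 1 ∨ m = n) ∧
      Nonempty (↥(Cfsg.generalizedFittingSubgroup ↥H) ≃* ↥(alternatingGroup (Fin m))) := by
  obtain ⟨P, hP⟩ := hS
  obtain ⟨T, hT⟩ := SylMax.exists_sylow_perm P
  have himg := tf_img_eq n P T hT
  rw [himg] at hP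
  have hyp : Hyp H ((Cfsg.generalizedFittingSubgroup ↥H).map H.subtype) := bridge H hF
  generalize hKdef : (Cfsg.generalizedFittingSubgroup ↥H).map H.subtype = K at hyp
  have h8 : 8 ≤ Fintype.card (Fin n) := by simpa using hn
  have hcfg := cfg_of H K hyp T hP h8
  haveI : Fintype ↥(suppK K) := Fintype.ofFinite _
  have hK := core _ _ _ hcfg
  have hcard := card_supp H K hyp T hP h8
  have hle : Fintype.card ↥(suppK K) ≤ n := by
    have h1 := Fintype.card_subtype_le (fun x : Fin n => x ∈ suppK K)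
    have h2 : Fintype.card ↥(suppK K) = Fintype.card {x : Fin n // x ∈ suppK K} :=
      Fintype.card_congr (Equiv.refl _)
    rw [h2]
    simpa using h1
  refine ⟨Fintype.card ↥(suppK K), ?_, ⟨?_⟩⟩
  · rw [Nat.card_eq_fintype_card, Fintype.card_fin] at hcard
    omega
  · have e1 : ↥(Cfsg.generalizedFittingSubgroup ↥H) ≃* ↥K :=
      (Subgroup.equivMapOfInjective _ H.subtype (Subgroup.subtype_injective H)).trans
        (MulEquiv.subgroupCongr hKdef)
    have hKmap : (K.comap (ext K)).map (ext K) = K := by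
      rw [Subgroup.map_comap_eq]
      exact inf_eq_right.mpr (le_range_ext K)
    have e2 : ↥(K.comap (ext K)) ≃* ↥K :=
      (Subgroup.equivMapOfInjective _ (ext K) (ext_injective K)).trans (MulEquiv.subgroupCongr hKmap)
    have e3 := MulEquiv.subgroupCongr hK
    have e4 := Equiv.altCongrHom (Fintype.equivFin ↥(suppK K))
    exact e1.trans (e2.symm.trans (e3.trans e4))

end Cfsg.Agent.Lib.Helper45.S28
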