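import Mathlib
import Cfsg.Agent.Lib.Helper45.Sl2Even2

set_option autoImplicit false

/-!
Proper subgroups of `SL₂(2^p)`, `p` prime: each lies in a conjugate of the Borel subgroup or in
the normalizer `Nrm x₀` of a torus.
-/

namespace Cfsg.Agent.Lib.Helper45.Sl2Even

open Matrix Cfsg.Agent.S0809 Cfsg.Agent.Lib.Helper19.Dk

theorem a4_wit : ∃ u : alternatingGroup (Fin 4), u ≠ 1 ∧ u * u = 1 ∧
    ∀ g : alternatingGroup (Fin 4), (g * u * g⁻¹) * u = u * (g * u * g⁻¹) := by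
  decide

set_option maxRecDepth 100000 in
theorem s4_wit : ∃ σ : Equiv.Perm (Fin 4), σ ^ 4 = 1 ∧ σ * σ ≠ 1 :=
  ⟨finRotate 4, by decide, by decide⟩

theorem arith60 (p : ℕ) (hp : p.Prime) (h : 60 ∣ 2 ^ p * ((2 ^ p) ^ 2 - 1)) : p = 2 := by
  by_contra hne
  rcases hp.eq_two_or_odd' with h2 | ⟨j, hj⟩
  · exact hne h2
  · have h5 : 5 ∣ 2 ^ p * ((2 ^ p) ^ 2 - 1) := dvd_trans (by norm_num) h
    apply Cfsg.Agent.S0810.no5 (2 ^ p) ?_ ?_ h5
    · intro h0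
      have : 5 ∣ 2 ^ p := Nat.dvd_of_mod_eq_zero h0
      have := Nat.Prime.dvd_of_dvd_pow Nat.prime_five this
      omega
    · have e : (2 ^ p) ^ 2 = 4 ^ p := by
        rw [← pow_mul, mul_comm, pow_mul]; norm_num
      rw [e, hj]
      exact Cfsg.Agent.S0810.pow4 j

theorem arith_field2 (p b k : ℕ) (hp : p.Prime) (h3 : 3 ≤ 2 ^ b)
    (hk : k = 2 ^ b - 1 ∨ 2 * k = 2 ^ b - 1)
    (hdvd : k * 2 ^ b * (1 + 2 ^ b) ∣ 2 ^ p * ((2 ^ p) ^ 2 - 1)) :
    b = p ∧ k = 2 ^ b - 1 := by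
  have hb : 2 ≤ b := by
    by_contra hb
    have : b = 0 ∨ b = 1 := by omega
    rcases this with rfl | rfl <;> omega
  have hev : Even (2 ^ b) := (Nat.even_pow' (by omega)).2 even_two
  have hk' : k = 2 ^ b - 1 := by
    rcases hk with hk | hk
    · exact hk
    · obtain ⟨j, hj⟩ := hev
      omega
  refine ⟨?_, hk'⟩
  have e1 : (2 ^ b) ^ 2 - 1 = (2 ^ b - 1) * (1 + 2 ^ b) := by
    obtain ⟨m, hm⟩ : ∃ m, 2 ^ b = m + 1 := ⟨2 ^ b - 1, by omega⟩
    rw [hm]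
    have : (m + 1) ^ 2 = m * (1 + (m + 1)) + 1 := by ring
    have e0 : m + 1 - 1 = m := by omega
    rw [e0]
    omega
  have h1 : (2 ^ b) ^ 2 - 1 ∣ 2 ^ p * ((2 ^ p) ^ 2 - 1) := by
    refine dvd_trans ?_ hdvd
    rw [e1, hk']
    exact ⟨2 ^ b, by ring⟩
  have e2 : (2 ^ b) ^ 2 = 2 ^ (2 * b) := by rw [← pow_mul, mul_comm]
  have e3 : (2 ^ p) ^ 2 = 2 ^ (2 * p) := by rw [← pow_mul, mul_comm]
  rw [e2, e3] at h1
  have h2 : 2 ^ (2 * b) - 1 ∣ 2 ^ (2 * p) - 1 :=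
    Nat.Coprime.dvd_of_dvd_mul_left
      (Cfsg.Agent.Lib.Helper45.PslMax.pm_coprime 2 (2 * b) p Nat.prime_two (by omega)) h1
  have h4 : b ∣ p := Cfsg.Agent.Lib.Helper45.PslMax.pm_dvd_of_pow 2 b p (le_refl 2) (by omega)
    (dvd_mul_of_dvd_right h2 2)
  rcases (Nat.dvd_prime hp).1 h4 with h | h
  · omega
  · exact h

section Fin

variable {F : Type*} [Field F] [Fintype F]

omit [Fintype F] in
/-- an involution all of whose `L`-conjugates commute with it puts `L` into a Borel subgroup -/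
theorem borel_of_invol (h2 : (2 : F) = 0) (L : Subgroup (S2 F)) (u : S2 F) (hu1 : u ≠ 1)
    (hu2 : u * u = 1) (hc : ∀ ℓ ∈ L, (ℓ * u * ℓ⁻¹) * u = u * (ℓ * u * ℓ⁻¹)) :
    ∃ g : S2 F, ∀ ℓ ∈ L, (g * ℓ * g⁻¹) 1 0 = 0 := by
  have htr : tr u = 2 := by rw [tr_zero_of_sq h2 u hu2, h2]
  have hsc : ¬ IsSc u := fun h => hu1 ((isSc_iff_one h2 u).1 h)
  obtain ⟨g, b, hb, hg⟩ := exists_conj_uu u htr hsc
  refine ⟨g, fun ℓ hℓ => ?_⟩
  have h1 := hc ℓ hℓ
  have h3 : ((g * ℓ * g⁻¹) * uu b * (g * ℓ * g⁻¹)⁻¹) * uu b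
      = uu b * ((g * ℓ * g⁻¹) * uu b * (g * ℓ * g⁻¹)⁻¹) := by
    rw [← hg]
    have e1 : (g * ℓ * g⁻¹) * (g * u * g⁻¹) * (g * ℓ * g⁻¹)⁻¹ * (g * u * g⁻¹)
        = g * ((ℓ * u * ℓ⁻¹) * u) * g⁻¹ := by group
    have e2 : (g * u * g⁻¹) * ((g * ℓ * g⁻¹) * (g * u * g⁻¹) * (g * ℓ * g⁻¹)⁻¹)
        = g * (u * (ℓ * u * ℓ⁻¹)) * g⁻¹ := by group
    rw [e1, e2, h1]
  have h4 := ((comm_uu_iff _ b hb).1 h3).1
  rw [conj_uu_10] at h4
  have h5 : (g * ℓ * g⁻¹ : S2 F) 1 0 ^ 2 = 0 := by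
    have : b * (g * ℓ * g⁻¹ : S2 F) 1 0 ^ 2 = 0 := by linear_combination (-1 : F) * h4
    rcases mul_eq_zero.1 this with h | h
    · exact absurd h hb
    · exact h
  exact pow_eq_zero_iff (two_ne_zero) |>.1 h5

/-- proper subgroups of `SL₂(2^p)` -/
theorem proper_cases (p : ℕ) (hp : p.Prime) (hF : Fintype.card F = 2 ^ p) (L : Subgroup (S2 F))
    (hL : L ≠ ⊤) :
    (∃ g : S2 F, ∀ ℓ ∈ L, (g * ℓ * g⁻¹) 1 0 = 0) ∨ (∃ x₀ ∈ L, tr x₀ ≠ 0 ∧ L ≤ Nrm x₀) := by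
  classical
  have : Fact (Nat.Prime 2) := ⟨Nat.prime_two⟩
  have : CharP F 2 := charP_of_card_eq_prime_pow hF
  have h2 : (2 : F) = 0 := by
    have := CharP.cast_eq_zero F 2
    exact_mod_cast this
  have hZ : Subgroup.center (S2 F) ≤ L := by rw [center_eq_bot h2]; exact bot_le
  have hz1 : Nat.card (Subgroup.center (S2 F)) = 1 := center_card_one h2
  have hLof : Lof (L.map (prj F)) = L :=
    Subgroup.comap_map_eq_self (f := prj F) (H := L) (by rw [ker_prj]; exact hZ)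
  have hinj := prj_injective (F := F) h2
  have hS := card_S2 (K := F)
  rw [hF] at hS
  have hLdvd : Nat.card L ∣ 2 ^ p * ((2 ^ p) ^ 2 - 1) := by
    rw [← hS]; exact Subgroup.card_subgroup_dvd_card L
  have hout := main_cases 2 L hZ
  unfold Outcome at hout
  rcases hout with h | ⟨x, hx, hss, hall⟩ | ⟨x, hx, hss, hcard⟩ | ⟨g, hg⟩ |
    ⟨hcard, x, hx, hxs, hA, hN⟩ | ⟨hcard, ⟨x, hx, hxs, hA⟩, hall⟩ | ⟨hcard, hall⟩ |
    ⟨x₀, hx₀, hsc, h4, q', k, hq3, hcA, hcN, hcard, hk⟩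
  · left
    refine ⟨1, fun ℓ hℓ => ?_⟩
    rw [h, center_eq_bot h2, Subgroup.mem_bot] at hℓ
    rw [hℓ]
    simp
  · right
    exact ⟨x, hx, tr_ne_zero_of_sq_ne h2 x hss,
      fun ℓ hℓ => Or.inl (mul_inv_eq_iff_eq_mul.2 (hall ℓ hℓ))⟩
  · right
    refine ⟨x, hx, tr_ne_zero_of_sq_ne h2 x hss, fun ℓ hℓ => ?_⟩
    have hle : cenL L x ≤ L := inf_le_left
    have hidx : ((cenL L x).subgroupOf L).index = 2 := by
      have h1 := Subgroup.card_mul_index ((cenL L x).subgroupOf L)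
      have h2' : Nat.card ((cenL L x).subgroupOf L) = cA L x :=
        Nat.card_congr (Subgroup.subgroupOfEquivOfLe hle).toEquiv
      rw [h2', hcard] at h1
      have hpos : 0 < cA L x := Nat.card_pos
      have h3 : cA L x * ((cenL L x).subgroupOf L).index = cA L x * 2 := by
        rw [h1]; ring
      exact Nat.eq_of_mul_eq_mul_left hpos h3
    have hnorm : ((cenL L x).subgroupOf L).Normal := Subgroup.normal_of_index_eq_two hidx
    have hxK : (⟨x, hx⟩ : L) ∈ (cenL L x).subgroupOf L := by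
      rw [Subgroup.mem_subgroupOf]
      exact mem_cenL.2 ⟨hx, rfl⟩
    have h5 := hnorm.conj_mem _ hxK ⟨ℓ, hℓ⟩
    rw [Subgroup.mem_subgroupOf] at h5
    have h6 : (ℓ * x * ℓ⁻¹) * x = x * (ℓ * x * ℓ⁻¹) := (mem_cenL.1 h5).2
    exact eq_or_inv x (ℓ * x * ℓ⁻¹) hss h6 (tr_conj ℓ x)
  · left
    exact ⟨g, hg⟩
  · left
    obtain ⟨e⟩ := out_A4 (L.map (prj F)) (by rw [hLof]; exact hcard) x (by rw [hLof]; exact hx)
      (by rw [hLof]; exact hA) (by rw [hLof]; exact hN)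
    obtain ⟨u, hu1, hu2, hu3⟩ := a4_wit
    obtain ⟨ũ, hũL, hũ⟩ := Subgroup.mem_map.1 (e.symm u).2
    apply borel_of_invol h2 L ũ
    · rintro rfl
      apply hu1
      have : (e.symm u : P2 F) = 1 := by rw [← hũ, map_one]
      have h1 : e.symm u = 1 := Subtype.ext this
      have := congrArg e h1
      simpa using this
    · apply hinj
      rw [map_mul, hũ, map_one]
      have h1 : e.symm u * e.symm u = 1 := by rw [← map_mul, hu2, map_one]
      exact congrArg Subtype.val h1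
    · intro ℓ hℓ
      apply hinj
      have hh : prj F ℓ ∈ L.map (prj F) := Subgroup.mem_map_of_mem _ hℓ
      have h1 := hu3 (e ⟨prj F ℓ, hh⟩)
      have h3 : (⟨prj F ℓ, hh⟩ * e.symm u * (⟨prj F ℓ, hh⟩ : L.map (prj F))⁻¹) * e.symm u
          = e.symm u * (⟨prj F ℓ, hh⟩ * e.symm u * (⟨prj F ℓ, hh⟩ : L.map (prj F))⁻¹) := by
        apply e.injective
        simp only [map_mul, map_inv, MulEquiv.apply_symm_apply]
        exact h1
      have h4 := congrArg Subtype.val h3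
      simp only [Subgroup.coe_mul, Subgroup.coe_inv, ← hũ] at h4
      simp only [map_mul, map_inv]
      exact h4
  · exfalso
    obtain ⟨e⟩ := out_S4 (L.map (prj F)) (by rw [hLof]; exact hcard) x (by rw [hLof]; exact hx)
      hxs (by rw [hLof]; exact hA) (by rw [hLof]; exact hall)
    obtain ⟨σ, hσ4, hσ2⟩ := s4_wit
    obtain ⟨g, hgL, hg⟩ := Subgroup.mem_map.1 (e.symm σ).2
    have h1 : (e.symm σ) ^ 4 = 1 := by rw [← map_pow, hσ4, map_one]
    have h3 : g ^ 4 = 1 := by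
      apply hinj
      rw [map_pow, hg, map_one]
      have := congrArg Subtype.val h1
      simpa using this
    have h5 := sq_of_pow_four h2 g h3
    apply hσ2
    have h6 : e.symm σ * e.symm σ = 1 := by
      apply Subtype.ext
      rw [Subgroup.coe_mul, ← hg, ← map_mul, h5, map_one]
      rfl
    have := congrArg e h6
    simpa using this
  · exfalso
    rw [hz1, mul_one] at hcard
    rw [hcard] at hLdvd
    have hp2 := arith60 p hp hLdvd
    apply hL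
    apply Subgroup.eq_top_of_card_eq
    rw [hcard, hS, hp2]
    norm_num
  · exfalso
    have hq' : q' ∣ Fintype.card F :=
      Cfsg.Agent.Lib.Helper54.dkm_unip_dvd L hZ x₀ hx₀ hsc h4 q' hcA
    rw [hF] at hq'
    obtain ⟨b, -, rfl⟩ := (Nat.dvd_prime_pow Nat.prime_two).1 hq'
    rw [hz1, one_mul] at hcard
    rw [hcard] at hLdvd
    obtain ⟨hbp, hk'⟩ := arith_field2 p b k hp hq3 hk hLdvd
    apply hL
    apply Subgroup.eq_top_of_card_eq
    rw [hcard, hS, hk', hbp]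
    obtain ⟨m, hm⟩ : ∃ m, 2 ^ p = m + 1 := ⟨2 ^ p - 1, by
      have := Nat.one_le_pow p 2 (by norm_num); omega⟩
    rw [hm]
    have e0 : m + 1 - 1 = m := by omega
    have e1 : (m + 1) ^ 2 - 1 = m * (1 + (m + 1)) := by
      have : (m + 1) ^ 2 = m * (1 + (m + 1)) + 1 := by ring
      omega
    rw [e0, e1]
    ring

end Fin

end Cfsg.Agent.Lib.Helper45.Sl2Even
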