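import Mathlib
import Cfsg.Agent.Lib.Helper45.Sl2Even3

set_option autoImplicit false

/-!
`SL₂(2^p)`: for the three kinds of elements `x`, an explicit description of the `y` with
`⟨x, y⟩ ≠ SL₂`.
-/

namespace Cfsg.Agent.Lib.Helper45.Sl2Even

open Matrix Cfsg.Agent.S0809 Cfsg.Agent.Lib.Helper19.Dk

section Gen

variable {F : Type*} [Field F]

/-- the lower triangular subgroup -/
def BorL (F : Type*) [Field F] : Subgroup (S2 F) where
  carrier := {g | g 0 1 = 0}
  one_mem' := one01
  mul_mem' := by
    intro a b ha hb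
    change a 0 1 = 0 at ha
    change b 0 1 = 0 at hb
    change (a * b) 0 1 = 0
    rw [mul01, ha, hb]; ring
  inv_mem' := by
    intro a ha
    change a 0 1 = 0 at ha
    change (a⁻¹) 0 1 = 0
    rw [inv01, ha]; ring

theorem mem_BorL (g : S2 F) : g ∈ BorL F ↔ g 0 1 = 0 := Iff.rfl

theorem Bor_ne_top : Bor F ≠ ⊤ := by
  intro h
  have : ll (1 : F) ∈ Bor F := by rw [h]; trivial
  rw [mem_Bor, ll_10] at this
  exact one_ne_zero this

theorem BorL_ne_top : BorL F ≠ ⊤ := by
  intro h
  have : uu (1 : F) ∈ BorL F := by rw [h]; trivial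
  rw [mem_BorL, uu_01] at this
  exact one_ne_zero this

theorem closure_pair_le (K : Subgroup (S2 F)) (x y : S2 F) (hx : x ∈ K) (hy : y ∈ K) :
    Subgroup.closure ({x, y} : Set (S2 F)) ≤ K := by
  rw [Subgroup.closure_le]
  intro z hz
  rcases hz with rfl | rfl
  · exact hx
  · exact hy

theorem closure_ne_top_of_le (K : Subgroup (S2 F)) (hK : K ≠ ⊤) (x y : S2 F) (hx : x ∈ K)
    (hy : y ∈ K) : Subgroup.closure ({x, y} : Set (S2 F)) ≠ ⊤ := by
  intro h
  apply hK
  rw [eq_top_iff, ← h]
  exact closure_pair_le K x y hx hy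

/-- conjugating by a Borel element -/
theorem conj_bor_10 (g y : S2 F) (hg : g 1 0 = 0) : (g * y * g⁻¹) 1 0 = g 1 1 ^ 2 * y 1 0 := by
  simp only [mul10, mul11, inv00, inv10, hg]
  ring

theorem bor_11_ne (g : S2 F) (hg : g 1 0 = 0) : g 1 1 ≠ 0 := by
  intro h
  have hd := det2 g
  rw [hg, h] at hd
  simp at hd

end Gen

section Fin

variable {F : Type*} [Field F] [Fintype F]

/-- involutions: `x = uu b` -/
theorem ng_uu_iff (p : ℕ) (hp : p.Prime) (hF : Fintype.card F = 2 ^ p) (h2 : (2 : F) = 0)
    (b : F) (hb : b ≠ 0) (y : S2 F) :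
    Subgroup.closure ({uu b, y} : Set (S2 F)) ≠ ⊤ ↔
      (y 1 0 = 0 ∨ tr y = 0 ∨ tr y = b * y 1 0) := by
  have h4 : 4 ≤ Fintype.card F := by
    rw [hF]
    calc 4 = 2 ^ 2 := by norm_num
      _ ≤ 2 ^ p := Nat.pow_le_pow_right (by norm_num) hp.two_le
  have hxx : uu b * uu b = 1 := by
    rw [uu_mul]
    have : b + b = 0 := by linear_combination b * h2
    rw [this, uu_zero]
  have hxinv : (uu b)⁻¹ = uu b := inv_eq_of_mul_eq_one_right hxx
  have htrxy : tr (uu b * y) = tr y + b * y 1 0 := by
    unfold tr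
    simp only [mul00, mul11, uu_00, uu_01, uu_10, uu_11]
    ring
  constructor
  · intro hne
    have hxL : uu b ∈ Subgroup.closure ({uu b, y} : Set (S2 F)) :=
      Subgroup.subset_closure (Set.mem_insert _ _)
    have hyL : y ∈ Subgroup.closure ({uu b, y} : Set (S2 F)) :=
      Subgroup.subset_closure (Set.mem_insert_of_mem _ rfl)
    rcases proper_cases p hp hF _ hne with ⟨g, hg⟩ | ⟨x₀, hx₀, htr, hle⟩
    · left
      have h1 := hg _ hxL
      rw [conj_uu_10] at h1
      have h3 : g 1 0 = 0 := by
        have : b * g 1 0 ^ 2 = 0 := by linear_combination (-1 : F) * h1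
        rcases mul_eq_zero.1 this with h | h
        · exact absurd h hb
        · exact pow_eq_zero_iff (two_ne_zero) |>.1 h
      have h5 := hg _ hyL
      rw [conj_bor_10 g y h3] at h5
      rcases mul_eq_zero.1 h5 with h | h
      · exact absurd (pow_eq_zero_iff (two_ne_zero) |>.1 h) (bor_11_ne g h3)
      · exact h
    · right
      have hx1 := hle hxL
      have hy1 := hle hyL
      rw [mem_Nrm] at hx1 hy1
      have hxinvert : uu b * x₀ * (uu b)⁻¹ = x₀⁻¹ := by
        rcases hx1 with h | h
        · exfalso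
          have hc : x₀ * uu b = uu b * x₀ := (mul_inv_eq_iff_eq_mul.1 h).symm
          have := (comm_uu_iff x₀ b hb).1 hc
          apply htr
          unfold tr
          rw [this.2]
          linear_combination x₀ 1 1 * h2
        · exact h
      rcases hy1 with h | h
      · right
        have h6 : (uu b * y) * x₀ * (uu b * y)⁻¹ = x₀⁻¹ := by
          calc (uu b * y) * x₀ * (uu b * y)⁻¹ = uu b * (y * x₀ * y⁻¹) * (uu b)⁻¹ := by group
            _ = x₀⁻¹ := by rw [h, hxinvert]
        have h7 := tr_inverting h2 _ _ h6 htr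
        rw [htrxy] at h7
        linear_combination h7 - b * y 1 0 * h2
      · left
        exact tr_inverting h2 _ _ h htr
  · rintro (h | h | h)
    · exact closure_ne_top_of_le (Bor F) Bor_ne_top _ _ ((mem_Bor _).2 (uu_10 b)) ((mem_Bor _).2 h)
    · have hyy : y * y = 1 := sq_of_tr_zero h2 y h
      have hyinv : y⁻¹ = y := inv_eq_of_mul_eq_one_right hyy
      by_cases ht : uu b * y = 1
      · have hy : y = uu b := by
          have : y = (uu b)⁻¹ := (inv_eq_of_mul_eq_one_right ht).symm
          rw [this, hxinv]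
        rw [hy]
        exact closure_ne_top_of_le (Bor F) Bor_ne_top _ _ ((mem_Bor _).2 (uu_10 b))
          ((mem_Bor _).2 (uu_10 b))
      · apply closure_ne_top_of_le (Nrm (uu b * y)) (Nrm_ne_top h2 h4 _ ht)
        · rw [mem_Nrm]; right
          rw [_root_.mul_inv_rev, hyinv, hxinv]
          calc uu b * (uu b * y) * uu b = (uu b * uu b) * y * uu b := by group
            _ = y * uu b := by rw [hxx, one_mul]
        · rw [mem_Nrm]; right
          rw [_root_.mul_inv_rev, hyinv, hxinv]
          calc y * (uu b * y) * y = y * uu b * (y * y) := by group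
            _ = y * uu b := by rw [hyy, mul_one]
    · have htt : (uu b * y) * (uu b * y) = 1 := by
        apply sq_of_tr_zero h2
        rw [htrxy, h]
        linear_combination b * y 1 0 * h2
      by_cases hy1 : y = 1
      · rw [hy1]
        exact closure_ne_top_of_le (Bor F) Bor_ne_top _ _ ((mem_Bor _).2 (uu_10 b))
          ((mem_Bor _).2 one10)
      · apply closure_ne_top_of_le (Nrm y) (Nrm_ne_top h2 h4 _ hy1)
        · rw [mem_Nrm]; right
          rw [hxinv]
          have : uu b * y * uu b * y = 1 := by rw [← htt]; group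
          exact eq_inv_of_mul_eq_one_left this
        · exact self_mem_Nrm y

omit [Fintype F] in
theorem dd_tr_ne (h2 : (2 : F) = 0) (c : F) (hc : c ≠ 0) (hc1 : c ≠ 1) : tr (dd c hc) ≠ 0 := by
  intro h
  have h1 : c + c⁻¹ = 0 := h
  have h3 : (c + 1) ^ 2 = 0 := by
    have : c * (c + c⁻¹) = 0 := by rw [h1, mul_zero]
    rw [mul_add, mul_inv_cancel₀ hc] at this
    linear_combination this + c * h2
  have h4 : c + 1 = 0 := pow_eq_zero_iff (two_ne_zero) |>.1 h3
  apply hc1
  linear_combination h4 - h2

omit [Fintype F] in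
theorem dd_sub_ne (h2 : (2 : F) = 0) (c : F) (hc : c ≠ 0) (hc1 : c ≠ 1) : c - c⁻¹ ≠ 0 := by
  intro h
  apply dd_tr_ne h2 c hc hc1
  show c + c⁻¹ = 0
  linear_combination h + c⁻¹ * h2

/-- split elements: `x = dd c` -/
theorem ng_dd_iff (p : ℕ) (hp : p.Prime) (hF : Fintype.card F = 2 ^ p) (h2 : (2 : F) = 0)
    (c : F) (hc : c ≠ 0) (hc1 : c ≠ 1) (y : S2 F) :
    Subgroup.closure ({dd c hc, y} : Set (S2 F)) ≠ ⊤ ↔
      (y 1 0 = 0 ∨ y 0 1 = 0 ∨ (y 0 0 = 0 ∧ y 1 1 = 0)) := by
  have h4 : 4 ≤ Fintype.card F := by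
    rw [hF]
    calc 4 = 2 ^ 2 := by norm_num
      _ ≤ 2 ^ p := Nat.pow_le_pow_right (by norm_num) hp.two_le
  have d00 : (dd c hc) 0 0 = c := rfl
  have d01 : (dd c hc) 0 1 = 0 := rfl
  have d10 : (dd c hc) 1 0 = 0 := rfl
  have d11 : (dd c hc) 1 1 = c⁻¹ := rfl
  have hsub := dd_sub_ne h2 c hc hc1
  have htrx := dd_tr_ne h2 c hc hc1
  constructor
  · intro hne
    have hxL : dd c hc ∈ Subgroup.closure ({dd c hc, y} : Set (S2 F)) :=
      Subgroup.subset_closure (Set.mem_insert _ _)
    have hyL : y ∈ Subgroup.closure ({dd c hc, y} : Set (S2 F)) :=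
      Subgroup.subset_closure (Set.mem_insert_of_mem _ rfl)
    rcases proper_cases p hp hF _ hne with ⟨g, hg⟩ | ⟨x₀, hx₀, htr, hle⟩
    · have h1 := hg _ hxL
      simp only [mul10, mul11, inv00, inv10, d00, d01, d10, d11] at h1
      have h3 : g 1 0 * g 1 1 * (c - c⁻¹) = 0 := by linear_combination h1
      have h5 := hg _ hyL
      rcases mul_eq_zero.1 h3 with h | h
      · rcases mul_eq_zero.1 h with h | h
        · left
          rw [conj_bor_10 g y h] at h5
          rcases mul_eq_zero.1 h5 with h6 | h6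
          · exact absurd (pow_eq_zero_iff (two_ne_zero) |>.1 h6) (bor_11_ne g h)
          · exact h6
        · right; left
          simp only [mul10, mul11, inv00, inv10, h] at h5
          have hd := det2 g
          rw [h] at hd
          have h10 : g 1 0 ≠ 0 := by
            intro h0
            rw [h0] at hd
            simp at hd
          have h7 : g 1 0 ^ 2 * y 0 1 = 0 := by linear_combination (-1 : F) * h5
          rcases mul_eq_zero.1 h7 with h8 | h8
          · exact absurd (pow_eq_zero_iff (two_ne_zero) |>.1 h8) h10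
          · exact h8
      · exact absurd h hsub
    · have hx1 := hle hxL
      have hy1 := hle hyL
      rw [mem_Nrm] at hx1 hy1
      have hxc : dd c hc * x₀ = x₀ * dd c hc := by
        rcases hx1 with h | h
        · exact mul_inv_eq_iff_eq_mul.1 h
        · exact absurd (tr_inverting h2 _ _ h htr) htrx
      have e01 := congrArg (fun g : S2 F => g 0 1) hxc
      have e10 := congrArg (fun g : S2 F => g 1 0) hxc
      simp only [mul01, mul10, d00, d01, d10, d11] at e01 e10
      have hx01 : x₀ 0 1 = 0 := by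
        have : x₀ 0 1 * (c - c⁻¹) = 0 := by linear_combination e01
        rcases mul_eq_zero.1 this with h | h
        · exact h
        · exact absurd h hsub
      have hx10 : x₀ 1 0 = 0 := by
        have : x₀ 1 0 * (c - c⁻¹) = 0 := by linear_combination (-1 : F) * e10
        rcases mul_eq_zero.1 this with h | h
        · exact h
        · exact absurd h hsub
      have hdiff : x₀ 0 0 - x₀ 1 1 ≠ 0 := by
        intro h
        apply htr
        unfold tr
        linear_combination h + x₀ 1 1 * h2
      rcases hy1 with h | h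
      · right; left
        have hyc : y * x₀ = x₀ * y := mul_inv_eq_iff_eq_mul.1 h
        have f01 := congrArg (fun g : S2 F => g 0 1) hyc
        simp only [mul01, hx01, hx10] at f01
        have : y 0 1 * (x₀ 0 0 - x₀ 1 1) = 0 := by linear_combination (-1 : F) * f01
        rcases mul_eq_zero.1 this with h' | h'
        · exact h'
        · exact absurd h' hdiff
      · right; right
        have hyc : y * x₀ = x₀⁻¹ * y := by rw [← h]; group
        have f00 := congrArg (fun g : S2 F => g 0 0) hyc
        have f11 := congrArg (fun g : S2 F => g 1 1) hyc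
        simp only [mul00, mul11, inv00, inv01, inv10, inv11, hx01, hx10] at f00 f11
        constructor
        · have : y 0 0 * (x₀ 0 0 - x₀ 1 1) = 0 := by linear_combination f00
          rcases mul_eq_zero.1 this with h' | h'
          · exact h'
          · exact absurd h' hdiff
        · have : y 1 1 * (x₀ 0 0 - x₀ 1 1) = 0 := by linear_combination (-1 : F) * f11
          rcases mul_eq_zero.1 this with h' | h'
          · exact h'
          · exact absurd h' hdiff
  · rintro (h | h | ⟨h, h'⟩)
    · exact closure_ne_top_of_le (Bor F) Bor_ne_top _ _ ((mem_Bor _).2 d10) ((mem_Bor _).2 h)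
    · exact closure_ne_top_of_le (BorL F) BorL_ne_top _ _ ((mem_BorL _).2 d01) ((mem_BorL _).2 h)
    · have hx1 : dd c hc ≠ 1 := by
        intro h1
        apply hc1
        have := congrArg (fun g : S2 F => g 0 0) h1
        simpa [d00] using this
      apply closure_ne_top_of_le (Nrm (dd c hc)) (Nrm_ne_top h2 h4 _ hx1) _ _ (self_mem_Nrm _)
      rw [mem_Nrm]; right
      rw [mul_inv_eq_iff_eq_mul]
      apply ext2 <;> simp only [mul00, mul01, mul10, mul11, inv00, inv01, inv10, inv11, d00, d01,
        d10, d11, h, h'] <;> ring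

/-- nonsplit elements -/
theorem ng_ns_iff (p : ℕ) (hp : p.Prime) (hF : Fintype.card F = 2 ^ p) (h2 : (2 : F) = 0)
    (x : S2 F) (hx : ∀ e : F, e ^ 2 + tr x * e + 1 ≠ 0) (y : S2 F) :
    Subgroup.closure ({x, y} : Set (S2 F)) ≠ ⊤ ↔ y ∈ Nrm x := by
  have h4 : 4 ≤ Fintype.card F := by
    rw [hF]
    calc 4 = 2 ^ 2 := by norm_num
      _ ≤ 2 ^ p := Nat.pow_le_pow_right (by norm_num) hp.two_le
  have htrx : tr x ≠ 0 := by
    intro h
    apply hx 1
    rw [h]
    linear_combination h2
  have hx1 : x ≠ 1 := by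
    rintro rfl
    apply htrx
    rw [tr_one, h2]
  have hss := tr_sq_ne_four h2 x htrx
  constructor
  · intro hne
    have hxL : x ∈ Subgroup.closure ({x, y} : Set (S2 F)) :=
      Subgroup.subset_closure (Set.mem_insert _ _)
    have hyL : y ∈ Subgroup.closure ({x, y} : Set (S2 F)) :=
      Subgroup.subset_closure (Set.mem_insert_of_mem _ rfl)
    rcases proper_cases p hp hF _ hne with ⟨g, hg⟩ | ⟨x₀, hx₀, htr, hle⟩
    · exfalso
      have h1 := hg _ hxL
      have hd := det2 (g * x * g⁻¹)
      have ht := tr_conj g x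
      unfold tr at ht
      rw [h1] at hd
      apply hx ((g * x * g⁻¹ : S2 F) 0 0)
      unfold tr
      rw [← ht]
      linear_combination hd + ((g * x * g⁻¹ : S2 F) 0 0 ^ 2 + 1) * h2
    · have hx1' := hle hxL
      have hy1 := hle hyL
      rw [mem_Nrm] at hx1' hy1 ⊢
      have hss₀ := tr_sq_ne_four h2 x₀ htr
      have hns₀ := not_isSc_of_tr x₀ hss₀
      have hxc : x * x₀ = x₀ * x := by
        rcases hx1' with h | h
        · exact mul_inv_eq_iff_eq_mul.1 h
        · exact absurd (tr_inverting h2 _ _ h htr) htrx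
      rcases hy1 with h | h
      · left
        have hyc : y * x₀ = x₀ * y := mul_inv_eq_iff_eq_mul.1 h
        exact mul_inv_eq_iff_eq_mul.2 (comm_trans y x₀ x hns₀ hyc hxc)
      · have hmc : (y * x * y⁻¹) * x₀ = x₀ * (y * x * y⁻¹) := by
          have e1 : (y * x * y⁻¹) * x₀⁻¹ = x₀⁻¹ * (y * x * y⁻¹) := by
            rw [← h]
            calc y * x * y⁻¹ * (y * x₀ * y⁻¹) = y * (x * x₀) * y⁻¹ := by group
              _ = y * (x₀ * x) * y⁻¹ := by rw [hxc]
              _ = y * x₀ * y⁻¹ * (y * x * y⁻¹) := by group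
          calc (y * x * y⁻¹) * x₀ = x₀ * (x₀⁻¹ * (y * x * y⁻¹)) * x₀ := by group
            _ = x₀ * ((y * x * y⁻¹) * x₀⁻¹) * x₀ := by rw [e1]
            _ = x₀ * (y * x * y⁻¹) := by group
        have hmx : (y * x * y⁻¹) * x = x * (y * x * y⁻¹) := comm_trans _ x₀ x hns₀ hmc hxc
        exact eq_or_inv x (y * x * y⁻¹) hss hmx (tr_conj y x)
  · intro h
    exact closure_ne_top_of_le (Nrm x) (Nrm_ne_top h2 h4 x hx1) x y (self_mem_Nrm x) h

end Fin

end Cfsg.Agent.Lib.Helper45.Sl2Even
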