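import Mathlib
import Cfsg.Agent.Lib.Helper45.Sl2Even4

set_option autoImplicit false

/-!
`SL₂(F)`, `F` finite of characteristic 2: cardinalities of the sets of `Sl2Even4`.
-/

namespace Cfsg.Agent.Lib.Helper45.Sl2Even

open Matrix Cfsg.Agent.S0809 Cfsg.Agent.Lib.Helper19.Dk

theorem card_or_disj {α : Type*} [Finite α] (P Q : α → Prop) (h : ∀ a, P a → Q a → False) :
    Nat.card {a // P a ∨ Q a} = Nat.card {a // P a} + Nat.card {a // Q a} := by
  classical
  rw [← Nat.card_sum]
  exact Nat.card_congr (subtypeOrEquiv P Q (disjoint_iff_inf_le.2 (fun a ha => h a ha.1 ha.2)))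

section Fin

variable {F : Type*} [Field F] [Fintype F]

theorem card_cell (D : F → F → F) :
    Nat.card {y : S2 F // y 1 0 ≠ 0 ∧ y 1 1 = D (y 0 0) (y 1 0)}
      = Fintype.card F * (Fintype.card F - 1) := by
  classical
  have e : {y : S2 F // y 1 0 ≠ 0 ∧ y 1 1 = D (y 0 0) (y 1 0)} ≃ F × Fˣ :=
    { toFun := fun y => (y.1 0 0, Units.mk0 (y.1 1 0) y.2.1)
      invFun := fun ac => ⟨mk2 ac.1 ((ac.1 * D ac.1 ac.2 - 1) / ac.2) ac.2 (D ac.1 ac.2) (by
        have := ac.2.ne_zero
        field_simp
        ring), ⟨ac.2.ne_zero, rfl⟩⟩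
      left_inv := by
        rintro ⟨y, hy1, hy2⟩
        apply Subtype.ext
        have hd := det2 y
        apply ext2
        · rfl
        · show (y 0 0 * D (y 0 0) (y 1 0) - 1) / y 1 0 = y 0 1
          rw [← hy2]
          field_simp
          linear_combination hd
        · rfl
        · exact hy2.symm
      right_inv := by
        rintro ⟨a, c⟩
        exact Prod.ext rfl (Units.ext rfl) }
  rw [Nat.card_congr e, Nat.card_prod, Nat.card_eq_fintype_card, Nat.card_eq_fintype_card,
    Fintype.card_units]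

theorem card_bor_set : Nat.card {y : S2 F // y 1 0 = 0} = Fintype.card F * (Fintype.card F - 1) := by
  rw [← card_Bor (F := F)]
  exact Nat.card_congr (Equiv.subtypeEquivRight (fun g => (mem_Bor g).symm))

/-- the count for involutions -/
theorem card_uu_set (b : F) (hb : b ≠ 0) :
    Nat.card {y : S2 F // y 1 0 = 0 ∨ tr y = 0 ∨ tr y = b * y 1 0}
      = 3 * (Fintype.card F * (Fintype.card F - 1)) := by
  have hiff : ∀ y : S2 F, (y 1 0 = 0 ∨ tr y = 0 ∨ tr y = b * y 1 0) ↔
      (y 1 0 = 0 ∨ ((y 1 0 ≠ 0 ∧ y 1 1 = -(y 0 0)) ∨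
        (y 1 0 ≠ 0 ∧ y 1 1 = b * y 1 0 - y 0 0))) := by
    intro y
    unfold tr
    by_cases h10 : y 1 0 = 0
    · simp [h10]
    · constructor
      · rintro (h | h | h)
        · exact absurd h h10
        · right; left; exact ⟨h10, by linear_combination h⟩
        · right; right; exact ⟨h10, by linear_combination h⟩
      · rintro (h | ⟨-, h⟩ | ⟨-, h⟩)
        · exact absurd h h10
        · right; left; linear_combination h
        · right; right; linear_combination h
  have c1 : Nat.card {y : S2 F // y 1 0 ≠ 0 ∧ y 1 1 = -(y 0 0)}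
      = Fintype.card F * (Fintype.card F - 1) := card_cell (fun a _ => -a)
  have c2 : Nat.card {y : S2 F // y 1 0 ≠ 0 ∧ y 1 1 = b * y 1 0 - y 0 0}
      = Fintype.card F * (Fintype.card F - 1) := card_cell (fun a c => b * c - a)
  rw [Nat.card_congr (Equiv.subtypeEquivRight hiff), card_or_disj, card_or_disj, c1, c2,
    card_bor_set]
  · ring
  · rintro y ⟨h10, h⟩ ⟨-, h'⟩
    have : b * y 1 0 = 0 := by linear_combination h - h'
    rcases mul_eq_zero.1 this with h3 | h3
    · exact hb h3
    · exact h10 h3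
  · rintro y h (⟨h10, -⟩ | ⟨h10, -⟩) <;> exact h10 h

theorem card_lowdiag_set :
    Nat.card {y : S2 F // y 1 0 ≠ 0 ∧ y 0 1 = 0} = (Fintype.card F - 1) * (Fintype.card F - 1) := by
  classical
  have e : {y : S2 F // y 1 0 ≠ 0 ∧ y 0 1 = 0} ≃ Fˣ × Fˣ :=
    { toFun := fun y => (Units.mk0 (y.1 0 0) (by
          intro h
          have hd := det2 y.1
          rw [h, y.2.2] at hd
          simp at hd), Units.mk0 (y.1 1 0) y.2.1)
      invFun := fun ac => ⟨mk2 ac.1 0 ac.2 (ac.1 : F)⁻¹ (by
        have := ac.1.ne_zero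
        field_simp
        ring), ⟨ac.2.ne_zero, rfl⟩⟩
      left_inv := by
        rintro ⟨y, hy1, hy2⟩
        apply Subtype.ext
        have hd := det2 y
        rw [hy2] at hd
        apply ext2
        · rfl
        · exact hy2.symm
        · rfl
        · show (y 0 0)⁻¹ = y 1 1
          have h0 : y 0 0 ≠ 0 := by
            intro h
            rw [h] at hd
            simp at hd
          field_simp
          linear_combination (-1 : F) * hd
      right_inv := by
        rintro ⟨a, c⟩
        exact Prod.ext (Units.ext rfl) (Units.ext rfl) }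
  rw [Nat.card_congr e, Nat.card_prod, Nat.card_eq_fintype_card, Fintype.card_units]

theorem card_antidiag_set :
    Nat.card {y : S2 F // y 0 0 = 0 ∧ y 1 1 = 0} = Fintype.card F - 1 := by
  classical
  have e : {y : S2 F // y 0 0 = 0 ∧ y 1 1 = 0} ≃ Fˣ :=
    { toFun := fun y => Units.mk0 (y.1 1 0) (by
          intro h
          have hd := det2 y.1
          rw [h, y.2.1] at hd
          simp at hd)
      invFun := fun c => ⟨mk2 0 (-(c : F)⁻¹) c 0 (by
        have := c.ne_zero
        field_simp
        ring), ⟨rfl, rfl⟩⟩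
      left_inv := by
        rintro ⟨y, hy1, hy2⟩
        apply Subtype.ext
        have hd := det2 y
        rw [hy1, hy2] at hd
        apply ext2
        · exact hy1.symm
        · show -(y 1 0)⁻¹ = y 0 1
          have h0 : y 1 0 ≠ 0 := by
            intro h
            rw [h] at hd
            simp at hd
          field_simp
          linear_combination hd
        · rfl
        · exact hy2.symm
      right_inv := by
        intro c
        exact Units.ext rfl }
  rw [Nat.card_congr e, Nat.card_eq_fintype_card, Fintype.card_units]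

/-- the count for split elements -/
theorem card_dd_set :
    Nat.card {y : S2 F // y 1 0 = 0 ∨ y 0 1 = 0 ∨ (y 0 0 = 0 ∧ y 1 1 = 0)}
      = 2 * (Fintype.card F * (Fintype.card F - 1)) := by
  have hiff : ∀ y : S2 F, (y 1 0 = 0 ∨ y 0 1 = 0 ∨ (y 0 0 = 0 ∧ y 1 1 = 0)) ↔
      (y 1 0 = 0 ∨ ((y 1 0 ≠ 0 ∧ y 0 1 = 0) ∨ (y 0 0 = 0 ∧ y 1 1 = 0))) := by
    intro y
    by_cases h10 : y 1 0 = 0
    · simp [h10]
    · simp [h10]
  have hq : 1 ≤ Fintype.card F := Fintype.card_pos
  rw [Nat.card_congr (Equiv.subtypeEquivRight hiff), card_or_disj, card_or_disj,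
    card_lowdiag_set, card_antidiag_set, card_bor_set]
  · obtain ⟨m, hm⟩ : ∃ m, Fintype.card F = m + 1 := ⟨Fintype.card F - 1, by omega⟩
    rw [hm]
    have e0 : m + 1 - 1 = m := by omega
    rw [e0]
    ring
  · rintro y ⟨-, h⟩ ⟨h', -⟩
    have hd := det2 y
    rw [h, h'] at hd
    simp at hd
  · rintro y h (⟨h10, -⟩ | ⟨h', -⟩)
    · exact h10 h
    · have hd := det2 y
      rw [h, h'] at hd
      simp at hd

/-- the count for nonsplit elements -/
theorem card_Nrm_ns (h2 : (2 : F) = 0) (x : S2 F) (hx : ∀ e : F, e ^ 2 + tr x * e + 1 ≠ 0) :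
    Nat.card (Nrm x) = 2 * (Fintype.card F + 1) := by
  have htrx : tr x ≠ 0 := by
    intro h
    apply hx 1
    rw [h]
    linear_combination h2
  have hss := tr_sq_ne_four h2 x htrx
  obtain ⟨w, -, hw⟩ := exists_inverting x hss
  have hw' : w⁻¹ * x⁻¹ * w = x := by rw [← hw]; group
  have e1 : Nat.card (Nrm x) = Nat.card {y : S2 F // y * x * y⁻¹ = x ∨ y * x * y⁻¹ = x⁻¹} := rfl
  have e2 : Nat.card {y : S2 F // y * x * y⁻¹ = x}
      = Nat.card (Subgroup.centralizer ({x} : Set (S2 F))) := by
    apply Nat.card_congr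
    apply Equiv.subtypeEquivRight
    intro y
    rw [Subgroup.mem_centralizer_iff, mul_inv_eq_iff_eq_mul]
    constructor
    · intro h z hz
      rw [Set.mem_singleton_iff] at hz
      rw [hz, h]
    · intro h
      exact (h x rfl).symm
  have e3 : Nat.card {y : S2 F // y * x * y⁻¹ = x⁻¹} = Nat.card {y : S2 F // y * x * y⁻¹ = x} := by
    apply Nat.card_congr
    exact
      { toFun := fun y => ⟨w⁻¹ * y.1, by
          calc w⁻¹ * y.1 * x * (w⁻¹ * y.1)⁻¹ = w⁻¹ * (y.1 * x * y.1⁻¹) * w := by group
            _ = x := by rw [y.2, hw']⟩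
        invFun := fun y => ⟨w * y.1, by
          calc w * y.1 * x * (w * y.1)⁻¹ = w * (y.1 * x * y.1⁻¹) * w⁻¹ := by group
            _ = x⁻¹ := by rw [y.2, hw]⟩
        left_inv := by
          rintro ⟨y, hy⟩
          apply Subtype.ext
          show w * (w⁻¹ * y) = y
          group
        right_inv := by
          rintro ⟨y, hy⟩
          apply Subtype.ext
          show w⁻¹ * (w * y) = y
          group }
  rw [e1, card_or_disj, e3, e2, card_cent_nonsplit h2 x hx]
  · ring
  · intro y h h'
    exact ne_inv_of_ss x hss (h.symm.trans h')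

end Fin

end Cfsg.Agent.Lib.Helper45.Sl2Even
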