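import Mathlib
import Cfsg.Agent.Lib.Helper45.Sl2Even5

set_option autoImplicit false

/-!
`SL₂(2^p)`: the number of `y` with `⟨x, y⟩ ≠ SL₂`, for the three kinds of `x`; transfer to
`PSL₂(2^p)` and solvability.
-/

namespace Cfsg.Agent.Lib.Helper45.Sl2Even

open Matrix Cfsg.Agent.S0809 Cfsg.Agent.Lib.Helper19.Dk

theorem closure_pair_equiv {G H : Type*} [Group G] [Group H] (e : G ≃* H) (x y : G) :
    Subgroup.closure ({e x, e y} : Set H) = ⊤ ↔ Subgroup.closure ({x, y} : Set G) = ⊤ := by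
  have h1 : Subgroup.closure ({e x, e y} : Set H)
      = (Subgroup.closure ({x, y} : Set G)).map e.toMonoidHom := by
    rw [MonoidHom.map_closure, Set.image_pair]
    rfl
  rw [h1]
  constructor
  · intro h
    apply Subgroup.map_injective (f := e.toMonoidHom) e.injective
    rw [h]
    exact (Subgroup.map_top_of_surjective e.toMonoidHom e.surjective).symm
  · intro h
    rw [h]
    exact Subgroup.map_top_of_surjective e.toMonoidHom e.surjective

section Fin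

variable {F : Type*} [Field F] [Fintype F]

/-- the number of `y` not generating `SL₂` with `x` -/
noncomputable def ngc (x : S2 F) : ℕ :=
  Nat.card {y : S2 F // Subgroup.closure ({x, y} : Set (S2 F)) ≠ ⊤}

theorem ngc_equiv {H : Type*} [Group H] (e : S2 F ≃* H) (x : S2 F) :
    ngc x = Nat.card {y : H // Subgroup.closure ({e x, y} : Set H) ≠ ⊤} := by
  unfold ngc
  apply Nat.card_congr
  refine Equiv.subtypeEquiv e.toEquiv (fun y => ?_)
  exact (closure_pair_equiv e x y).not.symm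

theorem ngc_conj (g x : S2 F) : ngc (g * x * g⁻¹) = ngc x := by
  have h := ngc_equiv (MulAut.conj g) x
  rw [h]
  rfl

omit [Fintype F] in
theorem dd_pow_entries (e : F) (he : e ≠ 0) (n : ℕ) :
    ((dd e he) ^ n) 0 0 = e ^ n ∧ ((dd e he) ^ n) 0 1 = 0 ∧ ((dd e he) ^ n) 1 0 = 0 ∧
      ((dd e he) ^ n) 1 1 = (e⁻¹) ^ n := by
  have d00 : (dd e he) 0 0 = e := rfl
  have d01 : (dd e he) 0 1 = 0 := rfl
  have d10 : (dd e he) 1 0 = 0 := rfl
  have d11 : (dd e he) 1 1 = e⁻¹ := rfl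
  induction n with
  | zero => simp [one00, one01, one10, one11]
  | succ n ih =>
    obtain ⟨h1, h2, h3, h4⟩ := ih
    rw [pow_succ]
    refine ⟨?_, ?_, ?_, ?_⟩
    · rw [mul00, h1, h2, d00, d10]; ring
    · rw [mul01, h1, h2, d01, d11]; ring
    · rw [mul10, h3, h4, d00, d10]; ring
    · rw [mul11, h3, h4, d01, d11]; ring

theorem dd_pow_card (e : F) (he : e ≠ 0) : (dd e he) ^ (Fintype.card F - 1) = 1 := by
  obtain ⟨h1, h2, h3, h4⟩ := dd_pow_entries e he (Fintype.card F - 1)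
  apply ext2
  · rw [h1, one00, FiniteField.pow_card_sub_one_eq_one e he]
  · rw [h2, one01]
  · rw [h3, one10]
  · rw [h4, one11, FiniteField.pow_card_sub_one_eq_one e⁻¹ (inv_ne_zero he)]

/-- diagonalization of a split regular semisimple element -/
theorem exists_conj_dd (h2 : (2 : F) = 0) (x : S2 F) (e : F) (he : e ^ 2 + tr x * e + 1 = 0)
    (htr : tr x ≠ 0) : ∃ g : S2 F, ∃ he0 : e ≠ 0, g * x * g⁻¹ = dd e he0 := by
  have hns : ¬ IsSc x := not_isSc_of_tr x (tr_sq_ne_four h2 x htr)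
  obtain ⟨g₁, hg₁⟩ := Cfsg.Agent.S0804.exists_conj_10 x hns
  have ht₁ : tr (g₁ * x * g₁⁻¹) = tr x := tr_conj g₁ x
  obtain ⟨x₁, hx₁⟩ : ∃ x₁ : S2 F, x₁ = g₁ * x * g₁⁻¹ := ⟨_, rfl⟩
  rw [← hx₁] at hg₁ ht₁
  have hd₁ := det2 x₁
  have hP : (e - x₁ 1 1) * 0 - (-(x₁ 1 0)⁻¹) * x₁ 1 0 = 1 := by
    rw [neg_mul, inv_mul_cancel₀ hg₁]; ring
  obtain ⟨P, hPdef⟩ : ∃ P : S2 F, P = mk2 (e - x₁ 1 1) (-(x₁ 1 0)⁻¹) (x₁ 1 0) 0 hP := ⟨_, rfl⟩
  have p00 : P 0 0 = e - x₁ 1 1 := by rw [hPdef]; rfl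
  have p01 : P 0 1 = -(x₁ 1 0)⁻¹ := by rw [hPdef]; rfl
  have p10 : P 1 0 = x₁ 1 0 := by rw [hPdef]; rfl
  have p11 : P 1 1 = 0 := by rw [hPdef]; rfl
  obtain ⟨m, hm⟩ : ∃ m : S2 F, m = P⁻¹ * x₁ * P := ⟨_, rfl⟩
  have htm : tr m = tr x := by
    have := tr_conj P⁻¹ x₁
    rw [inv_inv] at this
    rw [hm, this, ht₁]
  unfold tr at ht₁ he
  have m10 : m 1 0 = 0 := by
    rw [hm]
    simp only [mul00, mul01, mul10, mul11, inv00, inv01, inv10, inv11, p00, p01, p10, p11]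
    linear_combination x₁ 1 0 * he - x₁ 1 0 * e * ht₁ + x₁ 1 0 * hd₁
      - x₁ 1 0 * ((x₁ 0 0 + x₁ 1 1) * e + 1) * h2 + x₁ 1 0 * h2 + 2 * x₁ 1 0 * e * ht₁
  have m00 : m 0 0 = e := by
    rw [hm]
    simp only [mul00, mul01, mul10, mul11, inv00, inv01, inv10, inv11, p00, p01, p10, p11]
    field_simp
    ring
  have he0 : e ≠ 0 := by rw [← m00]; exact bor_00_ne m m10
  have m11 : m 1 1 = e⁻¹ := by rw [bor_11 m m10, m00]
  have hdiff : e - e⁻¹ ≠ 0 := by
    intro h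
    apply htr
    rw [← htm]
    unfold tr
    rw [m00, m11]
    linear_combination h + e⁻¹ * h2
  obtain ⟨t, ht⟩ : ∃ t : F, t * (e - e⁻¹) = m 0 1 :=
    ⟨m 0 1 / (e - e⁻¹), div_mul_cancel₀ _ hdiff⟩
  refine ⟨uu t * P⁻¹ * g₁, he0, ?_⟩
  have e1 : uu t * P⁻¹ * g₁ * x * (uu t * P⁻¹ * g₁)⁻¹ = uu t * m * (uu t)⁻¹ := by
    rw [hm, hx₁]; group
  rw [e1, uu_inv]
  have d00 : (dd e he0) 0 0 = e := rfl
  have d01 : (dd e he0) 0 1 = 0 := rfl
  have d10 : (dd e he0) 1 0 = 0 := rfl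
  have d11 : (dd e he0) 1 1 = e⁻¹ := rfl
  apply ext2
  · simp only [mul00, mul01, mul10, mul11, uu_00, uu_01, uu_10, uu_11, m10, m00, m11, d00]
    ring
  · simp only [mul00, mul01, mul10, mul11, uu_00, uu_01, uu_10, uu_11, m10, m00, m11, d01]
    linear_combination -ht
  · simp only [mul00, mul01, mul10, mul11, uu_00, uu_01, uu_10, uu_11, m10, m00, m11, d10]
    ring
  · simp only [mul00, mul01, mul10, mul11, uu_00, uu_01, uu_10, uu_11, m10, m00, m11, d11]
    ring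

omit [Fintype F] in
theorem tr_ne_zero_of_odd (h2 : (2 : F) = 0) (x : S2 F) (hx1 : x ≠ 1) (n : ℕ) (hn : Odd n)
    (hxn : x ^ n = 1) : tr x ≠ 0 := by
  intro h
  have hxx := sq_of_tr_zero h2 x h
  obtain ⟨j, rfl⟩ := hn
  apply hx1
  have : x ^ (2 * j + 1) = x := by
    rw [pow_succ, pow_mul, pow_two, hxx, one_pow, one_mul]
  rw [← this, hxn]

theorem eq_one_of_pows (x : S2 F) (hq : Even (Fintype.card F)) (h1 : x ^ (Fintype.card F - 1) = 1)
    (h2 : x ^ (Fintype.card F + 1) = 1) : x = 1 := by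
  have hq1 : 1 ≤ Fintype.card F := Fintype.card_pos
  have d1 := orderOf_dvd_of_pow_eq_one h1
  have d2 := orderOf_dvd_of_pow_eq_one h2
  have d3 : orderOf x ∣ 2 := by
    have := Nat.dvd_sub d2 d1
    have e : Fintype.card F + 1 - (Fintype.card F - 1) = 2 := by omega
    rwa [e] at this
  have hodd : ¬ 2 ∣ Fintype.card F - 1 := by
    obtain ⟨j, hj⟩ := hq
    omega
  rcases (Nat.dvd_prime Nat.prime_two).1 d3 with h | h
  · exact orderOf_eq_one_iff.1 h
  · rw [h] at d1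
    exact absurd d1 hodd

variable (p : ℕ) (hp : p.Prime) (hF : Fintype.card F = 2 ^ p)
include hp hF

theorem ngc_invol (h2 : (2 : F) = 0) (x : S2 F) (hx1 : x ≠ 1) (hxx : x * x = 1) :
    ngc x = 3 * (Fintype.card F * (Fintype.card F - 1)) := by
  have htr : tr x = 2 := by rw [tr_zero_of_sq h2 x hxx, h2]
  have hsc : ¬ IsSc x := fun h => hx1 ((isSc_iff_one h2 x).1 h)
  obtain ⟨g, b, hb, hg⟩ := exists_conj_uu x htr hsc
  rw [← ngc_conj g x, hg]
  unfold ngc
  rw [Nat.card_congr (Equiv.subtypeEquivRight (ng_uu_iff p hp hF h2 b hb))]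
  exact card_uu_set b hb

theorem ngc_split (h2 : (2 : F) = 0) (x : S2 F) (hx1 : x ≠ 1)
    (hord : x ^ (Fintype.card F - 1) = 1) :
    ngc x = 2 * (Fintype.card F * (Fintype.card F - 1)) := by
  have hq1 : 1 ≤ Fintype.card F := Fintype.card_pos
  have hqe : Even (Fintype.card F) := by
    rw [hF]; exact (Nat.even_pow' hp.ne_zero).2 even_two
  have hodd : Odd (Fintype.card F - 1) := by
    obtain ⟨j, hj⟩ := hqe
    exact ⟨j - 1, by omega⟩
  have htr := tr_ne_zero_of_odd h2 x hx1 _ hodd hord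
  have hsplit : ∃ e : F, e ^ 2 + tr x * e + 1 = 0 := by
    by_contra hns
    push Not at hns
    have hc := card_cent_nonsplit h2 x hns
    have hxc : x ∈ Subgroup.centralizer ({x} : Set (S2 F)) := by
      rw [Subgroup.mem_centralizer_iff]
      intro z hz
      rw [Set.mem_singleton_iff] at hz
      rw [hz]
    have h5 : orderOf x ∣ Fintype.card F + 1 := by
      rw [← hc]
      have := orderOf_dvd_natCard (⟨x, hxc⟩ : Subgroup.centralizer ({x} : Set (S2 F)))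
      rwa [Subgroup.orderOf_mk] at this
    exact hx1 (eq_one_of_pows x hqe hord (orderOf_dvd_iff_pow_eq_one.1 h5))
  obtain ⟨e, he⟩ := hsplit
  obtain ⟨g, he0, hg⟩ := exists_conj_dd h2 x e he htr
  have he1 : e ≠ 1 := by
    rintro rfl
    apply htr
    linear_combination he - h2
  rw [← ngc_conj g x, hg]
  unfold ngc
  rw [Nat.card_congr (Equiv.subtypeEquivRight (ng_dd_iff p hp hF h2 e he0 he1))]
  exact card_dd_set

theorem ngc_nonsplit (h2 : (2 : F) = 0) (x : S2 F) (hx1 : x ≠ 1)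
    (hord : x ^ (Fintype.card F + 1) = 1) :
    ngc x = 2 * (Fintype.card F + 1) := by
  have hqe : Even (Fintype.card F) := by
    rw [hF]; exact (Nat.even_pow' hp.ne_zero).2 even_two
  have htr := tr_ne_zero_of_odd h2 x hx1 _ hqe.add_one hord
  have hns : ∀ e : F, e ^ 2 + tr x * e + 1 ≠ 0 := by
    intro e he
    obtain ⟨g, he0, hg⟩ := exists_conj_dd h2 x e he htr
    have h5 : x ^ (Fintype.card F - 1) = 1 := by
      have h6 : (g * x * g⁻¹) ^ (Fintype.card F - 1) = 1 := by rw [hg]; exact dd_pow_card e he0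
      rw [conj_pow] at h6
      have : x ^ (Fintype.card F - 1) = g⁻¹ * (g * x ^ (Fintype.card F - 1) * g⁻¹) * g := by group
      rw [this, h6]; group
    exact hx1 (eq_one_of_pows x hqe h5 hord)
  unfold ngc
  rw [Nat.card_congr (Equiv.subtypeEquivRight (ng_ns_iff p hp hF h2 x hns))]
  exact card_Nrm_ns h2 x hns

end Fin

end Cfsg.Agent.Lib.Helper45.Sl2Even
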