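import Mathlib
import Cfsg.Agent.Lib.Helper45.Sl2Even6

set_option autoImplicit false

/-!
Pairs of elements lying in a common proper subgroup containing the center; characteristic-free
facts on `SL₂(F)` used for `PSL₂(3^p)`.
-/

namespace Cfsg.Agent.Lib.Helper45.Sl2Odd

open Matrix Cfsg.Agent.S0809 Cfsg.Agent.Lib.Helper19.Dk Cfsg.Agent.Lib.Helper45.Sl2Even

section Grp

variable {G : Type*} [Group G]

/-- `x, y` lie in a common proper subgroup containing the center -/
def NG (x y : G) : Prop :=
  ∃ K : Subgroup G, K ≠ ⊤ ∧ Subgroup.center G ≤ K ∧ x ∈ K ∧ y ∈ K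

theorem ng_symm {x y : G} (h : NG x y) : NG y x := by
  obtain ⟨K, h1, h2, h3, h4⟩ := h
  exact ⟨K, h1, h2, h4, h3⟩

theorem ng_conj_of (g x y : G) (h : NG x y) : NG (g * x * g⁻¹) (g * y * g⁻¹) := by
  obtain ⟨K, h1, h2, h3, h4⟩ := h
  refine ⟨K.comap (MulAut.conj g⁻¹).toMonoidHom, ?_, ?_, ?_, ?_⟩
  · intro htop
    apply h1
    rw [eq_top_iff]
    intro z _
    have hz : g * z * g⁻¹ ∈ K.comap (MulAut.conj g⁻¹).toMonoidHom := by rw [htop]; trivial
    rw [Subgroup.mem_comap] at hz
    have e : (MulAut.conj g⁻¹).toMonoidHom (g * z * g⁻¹) = z := by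
      show g⁻¹ * (g * z * g⁻¹) * g⁻¹⁻¹ = z
      group
    rwa [e] at hz
  · intro c hc
    rw [Subgroup.mem_comap]
    have e : (MulAut.conj g⁻¹).toMonoidHom c = c := by
      show g⁻¹ * c * g⁻¹⁻¹ = c
      rw [Subgroup.mem_center_iff] at hc
      rw [inv_inv, mul_assoc, ← hc g, ← mul_assoc, inv_mul_cancel, one_mul]
    rw [e]
    exact h2 hc
  · rw [Subgroup.mem_comap]
    have e : (MulAut.conj g⁻¹).toMonoidHom (g * x * g⁻¹) = x := by
      show g⁻¹ * (g * x * g⁻¹) * g⁻¹⁻¹ = x
      group
    rw [e]; exact h3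
  · rw [Subgroup.mem_comap]
    have e : (MulAut.conj g⁻¹).toMonoidHom (g * y * g⁻¹) = y := by
      show g⁻¹ * (g * y * g⁻¹) * g⁻¹⁻¹ = y
      group
    rw [e]; exact h4

theorem ng_conj (g x y : G) : NG (g * x * g⁻¹) (g * y * g⁻¹) ↔ NG x y := by
  constructor
  · intro h
    have h' := ng_conj_of g⁻¹ _ _ h
    have e1 : g⁻¹ * (g * x * g⁻¹) * g⁻¹⁻¹ = x := by group
    have e2 : g⁻¹ * (g * y * g⁻¹) * g⁻¹⁻¹ = y := by group
    rwa [e1, e2] at h'
  · exact ng_conj_of g x y

theorem ng_center_mul_right {x y c : G} (hc : c ∈ Subgroup.center G) : NG x (c * y) ↔ NG x y := by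
  constructor
  · rintro ⟨K, h1, h2, h3, h4⟩
    refine ⟨K, h1, h2, h3, ?_⟩
    have : y = c⁻¹ * (c * y) := by group
    rw [this]
    exact K.mul_mem (K.inv_mem (h2 hc)) h4
  · rintro ⟨K, h1, h2, h3, h4⟩
    exact ⟨K, h1, h2, h3, K.mul_mem (h2 hc) h4⟩

theorem ng_center_mul_left {x y c : G} (hc : c ∈ Subgroup.center G) : NG (c * x) y ↔ NG x y := by
  constructor
  · intro h
    exact ng_symm ((ng_center_mul_right hc).1 (ng_symm h))
  · intro h
    exact ng_symm ((ng_center_mul_right hc).2 (ng_symm h))

/-- transfer to the quotient by the center -/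
theorem ng_iff_map {H : Type*} [Group H] (f : G →* H) (hf : Function.Surjective f)
    (hk : f.ker = Subgroup.center G) (x y : G) :
    NG x y ↔ Subgroup.closure ({f x, f y} : Set H) ≠ ⊤ := by
  constructor
  · rintro ⟨K, h1, h2, h3, h4⟩ htop
    apply h1
    have hle : Subgroup.closure ({f x, f y} : Set H) ≤ K.map f := by
      rw [Subgroup.closure_le]
      intro z hz
      rcases hz with rfl | rfl
      · exact Subgroup.mem_map_of_mem f h3
      · exact Subgroup.mem_map_of_mem f h4
    have hm : K.map f = ⊤ := by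
      rw [eq_top_iff, ← htop]; exact hle
    have h5 := Subgroup.comap_map_eq f K
    rw [hm, Subgroup.comap_top, hk, sup_eq_left.2 h2] at h5
    exact h5.symm
  · intro hne
    refine ⟨(Subgroup.closure ({f x, f y} : Set H)).comap f, ?_, ?_, ?_, ?_⟩
    · intro htop
      apply hne
      apply Subgroup.comap_injective hf
      rw [htop, Subgroup.comap_top]
    · rw [← hk]
      exact Subgroup.ker_le_comap f _
    · rw [Subgroup.mem_comap]
      exact Subgroup.subset_closure (Set.mem_insert _ _)
    · rw [Subgroup.mem_comap]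
      exact Subgroup.subset_closure (Set.mem_insert_of_mem _ rfl)

/-- counting through a surjective homomorphism -/
theorem card_fiber_pred {H : Type*} [Group H] (f : G →* H)
    (hf : Function.Surjective f) (P : H → Prop) :
    Nat.card {g : G // P (f g)} = Nat.card f.ker * Nat.card {h : H // P h} := by
  have hs : ∀ h : H, f (Function.surjInv hf h) = h := Function.surjInv_eq hf
  have e : {g : G // P (f g)} ≃ {h : H // P h} × f.ker :=
    { toFun := fun g => (⟨f g.1, g.2⟩, ⟨(Function.surjInv hf (f g.1))⁻¹ * g.1, by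
        rw [MonoidHom.mem_ker, map_mul, map_inv, hs, inv_mul_cancel]⟩)
      invFun := fun hk => ⟨Function.surjInv hf hk.1.1 * hk.2.1, by
        have : f (Function.surjInv hf hk.1.1 * hk.2.1) = hk.1.1 := by
          rw [map_mul, hs, MonoidHom.mem_ker.1 hk.2.2, mul_one]
        rw [this]; exact hk.1.2⟩
      left_inv := by
        rintro ⟨g, hg⟩
        apply Subtype.ext
        show Function.surjInv hf (f g) * ((Function.surjInv hf (f g))⁻¹ * g) = g
        group
      right_inv := by
        rintro ⟨⟨h, hP⟩, ⟨k, hk⟩⟩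
        have e1 : f (Function.surjInv hf h * k) = h := by
          rw [map_mul, hs, MonoidHom.mem_ker.1 hk, mul_one]
        apply Prod.ext
        · apply Subtype.ext
          exact e1
        · apply Subtype.ext
          show (Function.surjInv hf (f (Function.surjInv hf h * k)))⁻¹
            * (Function.surjInv hf h * k) = k
          rw [e1]
          group }
  rw [Nat.card_congr e, Nat.card_prod, mul_comm]

theorem center_le_Nrm (x : G) : Subgroup.center G ≤ Nrm x := by
  intro c hc
  rw [mem_Nrm]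
  left
  rw [Subgroup.mem_center_iff] at hc
  rw [← hc x, mul_assoc, mul_inv_cancel, mul_one]

/-- squares of elements of `Nrm x` centralize `x` -/
theorem sq_comm_of_Nrm (x g : G) (hg : g ∈ Nrm x) : (g * g) * x = x * (g * g) := by
  rw [mem_Nrm] at hg
  rcases hg with h | h
  · have h1 : g * x = x * g := mul_inv_eq_iff_eq_mul.1 h
    calc g * g * x = g * (g * x) := by group
      _ = g * (x * g) := by rw [h1]
      _ = (g * x) * g := by group
      _ = x * g * g := by rw [h1]
      _ = x * (g * g) := by group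
  · have h1 : g * x = x⁻¹ * g := mul_inv_eq_iff_eq_mul.1 h
    have h2 : g * x⁻¹ = x * g := by
      have h3 : g * x⁻¹ * g⁻¹ = x := by
        calc g * x⁻¹ * g⁻¹ = (g * x * g⁻¹)⁻¹ := by group
          _ = x := by rw [h, inv_inv]
      exact mul_inv_eq_iff_eq_mul.1 h3
    calc g * g * x = g * (g * x) := by group
      _ = g * (x⁻¹ * g) := by rw [h1]
      _ = (g * x⁻¹) * g := by group
      _ = (x * g) * g := by rw [h2]
      _ = x * (g * g) := by group

end Grp

section SL

variable {F : Type*} [Field F]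

/-- an element inverting a nonscalar element has trace `0` -/
theorem tr_inverting' (y x : S2 F) (hx : ¬ IsSc x) (h : y * x * y⁻¹ = x⁻¹) : tr y = 0 := by
  have h' : y * x = x⁻¹ * y := mul_inv_eq_iff_eq_mul.1 h
  have e00 := congrArg (fun g : S2 F => g 0 0) h'
  have e01 := congrArg (fun g : S2 F => g 0 1) h'
  have e10 := congrArg (fun g : S2 F => g 1 0) h'
  have e11 := congrArg (fun g : S2 F => g 1 1) h'
  simp only [mul00, mul01, mul10, mul11, inv00, inv01, inv10, inv11] at e00 e01 e10 e11
  unfold tr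
  rcases (not_isSc_iff x).1 hx with h1 | h1 | h1
  · have : x 0 1 * (y 0 0 + y 1 1) = 0 := by linear_combination e01
    rcases mul_eq_zero.1 this with h3 | h3
    · exact absurd h3 h1
    · exact h3
  · have : x 1 0 * (y 0 0 + y 1 1) = 0 := by linear_combination e10
    rcases mul_eq_zero.1 this with h3 | h3
    · exact absurd h3 h1
    · exact h3
  · by_cases h01 : x 0 1 = 0
    · by_cases h10 : x 1 0 = 0
      · rw [h01, h10] at e00 e11
        have a1 : y 0 0 * (x 0 0 - x 1 1) = 0 := by linear_combination e00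
        have a2 : y 1 1 * (x 0 0 - x 1 1) = 0 := by linear_combination (-1 : F) * e11
        rcases mul_eq_zero.1 a1 with h3 | h3
        · rcases mul_eq_zero.1 a2 with h4 | h4
          · rw [h3, h4]; ring
          · exact absurd h4 h1
        · exact absurd h3 h1
      · have : x 1 0 * (y 0 0 + y 1 1) = 0 := by linear_combination e10
        rcases mul_eq_zero.1 this with h3 | h3
        · exact absurd h3 h10
        · exact h3
    · have : x 0 1 * (y 0 0 + y 1 1) = 0 := by linear_combination e01
      rcases mul_eq_zero.1 this with h3 | h3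
      · exact absurd h3 h01
      · exact h3

theorem isSc_of_comm_uu_ll (x : S2 F) (h1 : x * uu 1 = uu 1 * x) (h2 : x * ll 1 = ll 1 * x) :
    IsSc x := by
  have h1 := (comm_iff x (uu 1)).1 h1
  have h2 := (comm_iff x (ll 1)).1 h2
  simp only [uu_00, uu_01, uu_10, uu_11, ll_00, ll_01, ll_10, ll_11] at h1 h2
  obtain ⟨a1, a2, a3⟩ := h1
  obtain ⟨b1, b2, b3⟩ := h2
  exact ⟨by linear_combination b1, by linear_combination -a1, by linear_combination a2⟩

theorem Nrm_ne_top_odd (h2 : (2 : F) ≠ 0) (x : S2 F) (hx : ¬ IsSc x) : Nrm x ≠ ⊤ := by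
  intro htop
  apply hx
  have hall : ∀ g : S2 F, (g * g) * x = x * (g * g) := fun g =>
    sq_comm_of_Nrm x g (by rw [htop]; trivial)
  have hhalf : (2 : F)⁻¹ + 2⁻¹ = 1 := by field_simp; norm_num
  apply isSc_of_comm_uu_ll
  · have := hall (uu (2 : F)⁻¹)
    rw [uu_mul, hhalf] at this
    exact this.symm
  · have := hall (ll (2 : F)⁻¹)
    rw [ll_mul, hhalf] at this
    exact this.symm

theorem tr_mul_self (g : S2 F) : tr (g * g) = tr g ^ 2 - 2 := by
  unfold tr
  simp only [mul00, mul11]
  linear_combination (-2 : F) * det2 g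

theorem negOne_00 : (negOne : S2 F) 0 0 = -1 := rfl
theorem negOne_01 : (negOne : S2 F) 0 1 = 0 := rfl
theorem negOne_10 : (negOne : S2 F) 1 0 = 0 := rfl
theorem negOne_11 : (negOne : S2 F) 1 1 = -1 := rfl

theorem sq_of_tr_zero' (g : S2 F) (h : tr g = 0) : g * g = negOne := by
  have hd := det2 g
  unfold tr at h
  apply ext2 <;> simp only [mul00, mul01, mul10, mul11, negOne_00, negOne_01, negOne_10, negOne_11]
  · linear_combination (-1 : F) * hd + g 0 0 * h
  · linear_combination g 0 1 * h
  · linear_combination g 1 0 * h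
  · linear_combination (-1 : F) * hd + g 1 1 * h

theorem tr_zero_of_sq' (g : S2 F) (h : g * g = negOne) : tr g = 0 := by
  have e00 := congrArg (fun x : S2 F => x 0 0) h
  have e11 := congrArg (fun x : S2 F => x 1 1) h
  simp only [mul00, mul11, negOne_00, negOne_11] at e00 e11
  have hd := det2 g
  unfold tr
  have h3 : (g 0 0 + g 1 1) ^ 2 = 0 := by
    linear_combination e00 + e11 + 2 * hd
  exact pow_eq_zero_iff (two_ne_zero) |>.1 h3

theorem negOne_mem_center : (negOne : S2 F) ∈ Subgroup.center (S2 F) :=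
  (isSc_iff_center _).1 isSc_negOne

theorem tr_negOne_mul' (x : S2 F) : tr (negOne * x) = - tr x := by
  unfold tr
  simp only [mul00, mul11, negOne_00, negOne_01, negOne_10, negOne_11]
  ring

theorem mem_center_iff_eq (g : S2 F) : g ∈ Subgroup.center (S2 F) ↔ g = 1 ∨ g = negOne := by
  constructor
  · intro h
    exact isSc_eq g ((isSc_iff_center g).2 h)
  · rintro (rfl | rfl)
    · exact Subgroup.one_mem _
    · exact negOne_mem_center

end SL

end Cfsg.Agent.Lib.Helper45.Sl2Odd
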