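import Mathlib
import Cfsg.Agent.Lib.Helper45.Sl2Odd1
import Cfsg.Agent.Lib.Helper54.DkMax2

set_option autoImplicit false

/-!
Proper subgroups of `SL₂(3^p)` (`p` an odd prime) containing the center: each lies in the
normalizer `Nrm x₀` of a torus, in a conjugate of the Borel subgroup, or has all traces in `𝔽₃`.
-/

namespace Cfsg.Agent.Lib.Helper45.Sl2Odd

open Matrix Cfsg.Agent.S0809 Cfsg.Agent.Lib.Helper19.Dk Cfsg.Agent.Lib.Helper45.Sl2Even

theorem three_pow_mod8 (p : ℕ) (hodd : Odd p) : 3 ^ p % 8 = 3 := by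
  obtain ⟨k, rfl⟩ := hodd
  rw [pow_succ, pow_mul]
  have : (3 ^ 2) ^ k % 8 = 1 := by
    rw [Nat.pow_mod]; norm_num
  omega

theorem not_16_dvd (q : ℕ) (hq : q % 8 = 3) : ¬ 16 ∣ q * (q ^ 2 - 1) := by
  obtain ⟨m, rfl⟩ : ∃ m, q = 8 * m + 3 := ⟨q / 8, by omega⟩
  have e : (8 * m + 3) ^ 2 = 8 * (8 * m ^ 2 + 6 * m + 1) + 1 := by ring
  rw [e, Nat.add_sub_cancel]
  rintro ⟨c, hc⟩
  have h1 : Odd (8 * m + 3) := ⟨4 * m + 1, by ring⟩
  have h2 : Odd (8 * m ^ 2 + 6 * m + 1) := ⟨4 * m ^ 2 + 3 * m, by ring⟩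
  have h3 := h1.mul h2
  have h4 : (8 * m + 3) * (8 * m ^ 2 + 6 * m + 1) = 2 * c := by
    have : 8 * ((8 * m + 3) * (8 * m ^ 2 + 6 * m + 1)) = 8 * (2 * c) := by linarith
    exact Nat.eq_of_mul_eq_mul_left (by norm_num) this
  rw [h4] at h3
  exact (Nat.not_even_iff_odd.2 h3) (even_two_mul c)

theorem not_5_dvd (p : ℕ) (hodd : Odd p) : ¬ 5 ∣ 3 ^ p * ((3 ^ p) ^ 2 - 1) := by
  apply Cfsg.Agent.S0810.no5
  · intro h0
    have : 5 ∣ 3 ^ p := Nat.dvd_of_mod_eq_zero h0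
    have := Nat.Prime.dvd_of_dvd_pow Nat.prime_five this
    omega
  · obtain ⟨j, rfl⟩ := hodd
    have e : (3 ^ (2 * j + 1)) ^ 2 = 9 ^ (2 * j + 1) := by
      rw [← pow_mul, mul_comm, pow_mul]; norm_num
    rw [e]
    exact Cfsg.Agent.S0810.pow9 j

section Fld

variable {F : Type*} [Field F]

/-- in characteristic 3 with `-1` a nonsquare, elements of order dividing 24 have trace in `𝔽₃` -/
theorem tr_of_pow24 [CharP F 3] (h3 : (3 : F) = 0) (hns : ∀ a : F, a ^ 2 ≠ -1) (ℓ : S2 F)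
    (h : ℓ ^ 24 = 1) : tr ℓ ^ 3 = tr ℓ := by
  have : Fact (Nat.Prime 3) := ⟨Nat.prime_three⟩
  have h8 : (((ℓ * ℓ) * (ℓ * ℓ)) * ((ℓ * ℓ) * (ℓ * ℓ))) ^ 3 = 1 := by
    rw [← h]
    simp only [← pow_two, ← pow_mul]
    norm_num
  have ht := tr_of_pow_char 3 _ h8
  rw [tr_mul_self, tr_mul_self, tr_mul_self] at ht
  obtain ⟨t, ht0⟩ : ∃ t : F, t = tr ℓ := ⟨_, rfl⟩
  rw [← ht0] at ht ⊢
  have e1 : ((t ^ 2 - 2) ^ 2 - 2 - 1) * ((t ^ 2 - 2) ^ 2 - 2 + 1) = 0 := by
    linear_combination ht + h3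
  rcases mul_eq_zero.1 e1 with h1 | h1
  · exfalso
    have e2 : (t ^ 2 - 2) ^ 2 = 0 := by linear_combination h1 + h3
    have e3 : t ^ 2 - 2 = 0 := pow_eq_zero_iff (two_ne_zero) |>.1 e2
    apply hns t
    linear_combination e3 + h3
  · have e2 : (t ^ 2 - 2 - 1) * (t ^ 2 - 2 + 1) = 0 := by linear_combination h1
    rcases mul_eq_zero.1 e2 with h5 | h5
    · have e3 : t ^ 2 = 0 := by linear_combination h5 + h3
      have e4 : t = 0 := pow_eq_zero_iff (two_ne_zero) |>.1 e3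
      rw [e4]; ring
    · linear_combination t * h5

end Fld

section Fin

variable {F : Type*} [Field F] [Fintype F]

theorem char_facts (p : ℕ) (hodd : Odd p) (hF : Fintype.card F = 3 ^ p) :
    (3 : F) = 0 ∧ (2 : F) ≠ 0 ∧ ∀ a : F, a ^ 2 ≠ -1 := by
  have : Fact (Nat.Prime 3) := ⟨Nat.prime_three⟩
  have : CharP F 3 := charP_of_card_eq_prime_pow hF
  have h3 : (3 : F) = 0 := by
    have := CharP.cast_eq_zero F 3
    exact_mod_cast this
  refine ⟨h3, ?_, ?_⟩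
  · intro h2
    have : (1 : F) = 0 := by linear_combination h3 - h2
    exact one_ne_zero this
  · intro a ha
    have hsq : IsSquare (-1 : F) := ⟨a, by rw [← ha]; ring⟩
    rw [FiniteField.isSquare_neg_one_iff, hF] at hsq
    have := three_pow_mod8 p hodd
    omega

/-- proper subgroups of `SL₂(3^p)` containing the center -/
theorem proper_cases_odd (p : ℕ) (hp : p.Prime) (hodd : Odd p) (hF : Fintype.card F = 3 ^ p)
    (L : Subgroup (S2 F)) (hZ : Subgroup.center (S2 F) ≤ L) (hL : L ≠ ⊤) :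
    (∃ x₀ ∈ L, tr x₀ ^ 2 ≠ 4 ∧ L ≤ Nrm x₀) ∨
    (∃ g : S2 F, ∀ ℓ ∈ L, (g * ℓ * g⁻¹) 1 0 = 0) ∨
    (∀ ℓ ∈ L, tr ℓ ^ 3 = tr ℓ) := by
  classical
  have : Fact (Nat.Prime 3) := ⟨Nat.prime_three⟩
  have : CharP F 3 := charP_of_card_eq_prime_pow hF
  obtain ⟨h3, h2, hns⟩ := char_facts p hodd hF
  have hz2 : Nat.card (Subgroup.center (S2 F)) = 2 := center_card_two h2
  have hS := card_S2 (K := F)
  rw [hF] at hS
  have hLdvd : Nat.card L ∣ 3 ^ p * ((3 ^ p) ^ 2 - 1) := by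
    rw [← hS]; exact Subgroup.card_subgroup_dvd_card L
  have hq8 := three_pow_mod8 p hodd
  have h16 := not_16_dvd (3 ^ p) hq8
  have h5 := not_5_dvd p hodd
  have h24 : Nat.card L = 24 → ∀ ℓ ∈ L, tr ℓ ^ 3 = tr ℓ := by
    intro hc ℓ hℓ
    apply tr_of_pow24 h3 hns
    have h1 : (⟨ℓ, hℓ⟩ : L) ^ Nat.card L = 1 := pow_card_eq_one'
    rw [hc] at h1
    have := congrArg Subtype.val h1
    simpa using this
  have hout := main_cases 3 L hZ
  unfold Outcome at hout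
  rcases hout with h | ⟨x, hx, hss, hall⟩ | ⟨x, hx, hss, hcard⟩ | ⟨g, hg⟩ |
    ⟨hcard, -⟩ | ⟨hcard, -⟩ | ⟨hcard, -⟩ |
    ⟨x₀, hx₀, hsc, h4, q', k, hq3, hcA, hcN, hcard, hk⟩
  · right; left
    refine ⟨1, fun ℓ hℓ => ?_⟩
    rw [h] at hℓ
    have hsc := (isSc_iff_center ℓ).2 hℓ
    have e : (1 : S2 F) * ℓ * 1⁻¹ = ℓ := by group
    rw [e]
    exact hsc.2.1
  · left
    exact ⟨x, hx, hss, fun ℓ hℓ => Or.inl (mul_inv_eq_iff_eq_mul.2 (hall ℓ hℓ))⟩
  · left
    refine ⟨x, hx, hss, fun ℓ hℓ => ?_⟩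
    have hle : cenL L x ≤ L := inf_le_left
    have hidx : ((cenL L x).subgroupOf L).index = 2 := by
      have h1 := Subgroup.card_mul_index ((cenL L x).subgroupOf L)
      have h2' : Nat.card ((cenL L x).subgroupOf L) = cA L x :=
        Nat.card_congr (Subgroup.subgroupOfEquivOfLe hle).toEquiv
      rw [h2', hcard] at h1
      have hpos : 0 < cA L x := Nat.card_pos
      have h3' : cA L x * ((cenL L x).subgroupOf L).index = cA L x * 2 := by
        rw [h1]; ring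
      exact Nat.eq_of_mul_eq_mul_left hpos h3'
    have hnorm : ((cenL L x).subgroupOf L).Normal := Subgroup.normal_of_index_eq_two hidx
    have hxK : (⟨x, hx⟩ : L) ∈ (cenL L x).subgroupOf L := by
      rw [Subgroup.mem_subgroupOf]
      exact mem_cenL.2 ⟨hx, rfl⟩
    have h5' := hnorm.conj_mem _ hxK ⟨ℓ, hℓ⟩
    rw [Subgroup.mem_subgroupOf] at h5'
    have h6 : (ℓ * x * ℓ⁻¹) * x = x * (ℓ * x * ℓ⁻¹) := (mem_cenL.1 h5').2
    exact eq_or_inv x (ℓ * x * ℓ⁻¹) hss h6 (tr_conj ℓ x)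
  · right; left
    exact ⟨g, hg⟩
  · right; right
    apply h24
    rw [hcard, hz2]
  · exfalso
    rw [hz2] at hcard
    rw [hcard] at hLdvd
    exact h16 (dvd_trans (by norm_num) hLdvd)
  · exfalso
    rw [hz2] at hcard
    rw [hcard] at hLdvd
    exact h5 (dvd_trans (by norm_num) hLdvd)
  · have hk1 : 1 ≤ k := by omega
    obtain ⟨m, hm⟩ := Cfsg.Agent.Lib.Helper54.dkm_unip_pow 3 L hZ x₀ hx₀ hsc h4 q' k (by omega) hk1
      hcA hcN hcard
    rw [hF] at hm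
    have hq3p : 3 ≤ 3 ^ p := by
      calc 3 = 3 ^ 1 := by norm_num
        _ ≤ 3 ^ p := Nat.pow_le_pow_right (by norm_num) hp.one_lt.le
    have hm0 : m ≠ 0 := by
      rintro rfl
      rw [pow_zero] at hm
      omega
    have hq' : q' ∣ 3 ^ p := by
      rw [← hm]; exact dvd_pow_self q' hm0
    obtain ⟨b, -, rfl⟩ := (Nat.dvd_prime_pow Nat.prime_three).1 hq'
    have hbm : b * m = p := by
      rw [← pow_mul] at hm
      exact Nat.pow_right_injective (le_refl 2 |>.trans (by norm_num : 2 ≤ 3)) hm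
    have hb : b = 1 ∨ b = p := (Nat.dvd_prime hp).1 ⟨m, hbm.symm⟩
    rw [hz2] at hcard
    rcases hb with rfl | rfl
    · have hk' : k = 2 ∨ k = 1 := by
        rcases hk with hk | hk
        · left; norm_num at hk; exact hk
        · right; norm_num at hk; omega
      rcases hk' with rfl | rfl
      · exfalso
        rw [hcard] at hLdvd
        exact h16 (dvd_trans (by norm_num) hLdvd)
      · right; right
        apply h24
        rw [hcard]
        norm_num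
    · exfalso
      obtain ⟨n, hn⟩ : ∃ n, 3 ^ b = n + 2 := ⟨3 ^ b - 2, by omega⟩
      rw [hn] at hcard hLdvd hS hk
      have e : (n + 2) ^ 2 - 1 = (n + 1) * (n + 3) := by
        have : (n + 2) ^ 2 = (n + 1) * (n + 3) + 1 := by ring
        omega
      rw [e] at hLdvd hS
      have hNpos : 0 < (n + 2) * ((n + 1) * (n + 3)) := by positivity
      rcases hk with hk | hk
      · have hk' : k = n + 1 := by omega
        rw [hk'] at hcard
        have e2 : 2 * (n + 1) * (n + 2) * (1 + (n + 2)) = 2 * ((n + 2) * ((n + 1) * (n + 3))) := by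
          ring
        rw [e2] at hcard
        rw [hcard] at hLdvd
        have := Nat.le_of_dvd hNpos hLdvd
        omega
      · have hk' : 2 * k = n + 1 := by omega
        apply hL
        apply Subgroup.eq_top_of_card_eq
        rw [hcard, hS]
        have e2 : 2 * k * (n + 2) * (1 + (n + 2)) = (n + 2) * ((2 * k) * (n + 3)) := by ring
        rw [e2, hk']

end Fin

end Cfsg.Agent.Lib.Helper45.Sl2Odd
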