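import Mathlib
import Cfsg.Agent.Lib.Helper45.Sl2Odd2

set_option autoImplicit false
set_option linter.unusedSimpArgs false
set_option linter.unusedVariables false
set_option linter.unusedSectionVars false

/-!
`SL₂(3^p)`, `p` an odd prime: for the four kinds of elements `x`, an explicit description of the
`y` lying with `x` in a proper subgroup containing the center.
-/

namespace Cfsg.Agent.Lib.Helper45.Sl2Odd

open Matrix Cfsg.Agent.S0809 Cfsg.Agent.Lib.Helper19.Dk Cfsg.Agent.Lib.Helper45.Sl2Even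

section Fld

variable {F : Type*} [Field F]

/-- the conjugate of `SL₂(𝔽₃)` by `diag(b, 1)` -/
def Mb (h3 : (3 : F) = 0) (b : F) : Subgroup (S2 F) where
  carrier := {g | g 0 0 ^ 3 = g 0 0 ∧ g 1 1 ^ 3 = g 1 1 ∧ g 0 1 ^ 3 = b ^ 2 * g 0 1 ∧
    b ^ 2 * g 1 0 ^ 3 = g 1 0}
  mul_mem' := by
    rintro g h ⟨a1, a2, a3, a4⟩ ⟨b1, b2, b3, b4⟩
    refine ⟨?_, ?_, ?_, ?_⟩
    · rw [mul00]
      linear_combination h 0 0 ^ 3 * a1 + g 0 0 * b1 + h 1 0 ^ 3 * a3 + g 0 1 * b4
        + (g 0 0 * h 0 0 * (g 0 1 * h 1 0) * (g 0 0 * h 0 0 + g 0 1 * h 1 0)) * h3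
    · rw [mul11]
      linear_combination g 1 0 ^ 3 * b3 + h 0 1 * a4 + h 1 1 ^ 3 * a2 + g 1 1 * b2
        + (g 1 0 * h 0 1 * (g 1 1 * h 1 1) * (g 1 0 * h 0 1 + g 1 1 * h 1 1)) * h3
    · rw [mul01]
      linear_combination h 0 1 ^ 3 * a1 + g 0 0 * b3 + h 1 1 ^ 3 * a3 + b ^ 2 * g 0 1 * b2
        + (g 0 0 * h 0 1 * (g 0 1 * h 1 1) * (g 0 0 * h 0 1 + g 0 1 * h 1 1)) * h3
    · rw [mul10]
      linear_combination h 0 0 ^ 3 * a4 + g 1 0 * b1 + b ^ 2 * h 1 0 ^ 3 * a2 + g 1 1 * b4
        + b ^ 2 * (g 1 0 * h 0 0 * (g 1 1 * h 1 0) * (g 1 0 * h 0 0 + g 1 1 * h 1 0)) * h3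
  one_mem' := by
    refine ⟨?_, ?_, ?_, ?_⟩
    · rw [one00]; ring
    · rw [one11]; ring
    · rw [one01]; ring
    · rw [one10]; ring
  inv_mem' := by
    rintro g ⟨a1, a2, a3, a4⟩
    refine ⟨?_, ?_, ?_, ?_⟩
    · rw [inv00]; exact a2
    · rw [inv11]; exact a1
    · rw [inv01]; linear_combination (-1 : F) * a3
    · rw [inv10]; linear_combination (-1 : F) * a4

theorem mem_Mb (h3 : (3 : F) = 0) (b : F) (g : S2 F) :
    g ∈ Mb h3 b ↔ (g 0 0 ^ 3 = g 0 0 ∧ g 1 1 ^ 3 = g 1 1 ∧ g 0 1 ^ 3 = b ^ 2 * g 0 1 ∧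
      b ^ 2 * g 1 0 ^ 3 = g 1 0) := Iff.rfl

theorem center_le_Mb (h3 : (3 : F) = 0) (b : F) : Subgroup.center (S2 F) ≤ Mb h3 b := by
  intro c hc
  rcases (mem_center_iff_eq c).1 hc with rfl | rfl
  · exact Subgroup.one_mem _
  · rw [mem_Mb, negOne_00, negOne_01, negOne_10, negOne_11]
    refine ⟨by ring, by ring, by ring, by ring⟩

theorem center_le_Bor : Subgroup.center (S2 F) ≤ Bor F := by
  intro c hc
  rw [mem_Bor]
  exact ((isSc_iff_center c).2 hc).2.1

theorem center_le_BorL : Subgroup.center (S2 F) ≤ BorL F := by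
  intro c hc
  rw [mem_BorL]
  exact ((isSc_iff_center c).2 hc).1

theorem tr_mul_comm (a b : S2 F) : tr (a * b) = tr (b * a) := by
  unfold tr
  simp only [mul00, mul11]
  ring

theorem tr_uu_mul (b : F) (y : S2 F) : tr (uu b * y) = tr y + b * y 1 0 := by
  unfold tr
  simp only [mul00, mul11, uu_00, uu_01, uu_10, uu_11]
  ring

theorem cube_eq_cases (h3 : (3 : F) = 0) (t : F) (h : t ^ 3 = t) : t = 0 ∨ t ^ 2 = 1 := by
  have : t * (t ^ 2 - 1) = 0 := by linear_combination h
  rcases mul_eq_zero.1 this with h1 | h1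
  · left; exact h1
  · right; linear_combination h1

end Fld

section Fin

variable {F : Type*} [Field F] [Fintype F]

theorem Mb_ne_top (h3 : (3 : F) = 0) (hq : 3 < Fintype.card F) (b : F) (hb : b ≠ 0) :
    Mb h3 b ≠ ⊤ := by
  intro htop
  have hall : ∀ t : F, t ^ 3 = t := by
    intro t
    have hm : uu (b * t) ∈ Mb h3 b := by rw [htop]; trivial
    rw [mem_Mb] at hm
    have h1 := hm.2.2.1
    rw [uu_01] at h1
    have h5 : b ^ 3 * (t ^ 3 - t) = 0 := by linear_combination h1
    rcases mul_eq_zero.1 h5 with h6 | h6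
    · exact absurd (pow_eq_zero_iff (by norm_num) |>.1 h6) hb
    · linear_combination h6
  have hu : ∀ x : Fˣ, x ^ 2 = 1 := by
    intro x
    apply Units.ext
    have h1 := hall (x : F)
    have h5 : (x : F) * ((x : F) ^ 2 - 1) = 0 := by linear_combination h1
    rcases mul_eq_zero.1 h5 with h6 | h6
    · exact absurd h6 x.ne_zero
    · rw [Units.val_pow_eq_pow_val, Units.val_one]
      linear_combination h6
  have hd := (FiniteField.forall_pow_eq_one_iff F 2).1 hu
  have := Nat.le_of_dvd (by norm_num) hd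
  omega

/-- `uu b` and an element `y` with `tr y ∈ 𝔽₃`, `b y₁₀ = ±1` lie in a conjugate of `SL₂(𝔽₃)` -/
theorem ng_uu_of (h3 : (3 : F) = 0) (hq : 3 < Fintype.card F) (b : F) (hb : b ≠ 0) (y : S2 F)
    (hty : tr y ^ 3 = tr y) (hc : (b * y 1 0) ^ 2 = 1) : NG (uu b) y := by
  have h10 : y 1 0 ≠ 0 := by
    intro h
    rw [h] at hc
    simp at hc
  obtain ⟨t, ht⟩ : ∃ t : F, t = -(y 0 0) / y 1 0 := ⟨_, rfl⟩
  have ht' : t * y 1 0 = -(y 0 0) := by rw [ht]; field_simp
  obtain ⟨y', hy'⟩ : ∃ y' : S2 F, y' = uu t * y * (uu t)⁻¹ := ⟨_, rfl⟩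
  have y00 : y' 0 0 = 0 := by
    rw [hy', uu_inv]
    simp only [mul00, mul01, mul10, mul11, uu_00, uu_01, uu_10, uu_11]
    linear_combination ht'
  have y10 : y' 1 0 = y 1 0 := by
    rw [hy', uu_inv]
    simp only [mul00, mul01, mul10, mul11, uu_00, uu_01, uu_10, uu_11]
    ring
  have y11 : y' 1 1 = tr y := by
    rw [hy', uu_inv]
    unfold tr
    simp only [mul00, mul01, mul10, mul11, uu_00, uu_01, uu_10, uu_11]
    linear_combination (-1 : F) * ht'
  have hd := det2 y'
  rw [y00, y10] at hd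
  have hd' : y' 0 1 * y 1 0 = -1 := by linear_combination (-1 : F) * hd
  have hv : y' 0 1 ^ 2 = b ^ 2 := by
    have h5 : (y' 0 1 ^ 2 - b ^ 2) * y 1 0 ^ 2 = 0 := by
      linear_combination (y' 0 1 * y 1 0 - 1) * hd' - hc
    rcases mul_eq_zero.1 h5 with h6 | h6
    · linear_combination h6
    · exact absurd (pow_eq_zero_iff (two_ne_zero) |>.1 h6) h10
  have hmem : y' ∈ Mb h3 b := by
    rw [mem_Mb, y00, y10, y11]
    refine ⟨by ring, hty, ?_, ?_⟩
    · linear_combination y' 0 1 * hv
    · linear_combination y 1 0 * hc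
  have hx : uu t * uu b * (uu t)⁻¹ = uu b := by
    rw [uu_inv, uu_mul, uu_mul]
    congr 1
    ring
  have hxm : uu b ∈ Mb h3 b := by
    rw [mem_Mb, uu_00, uu_01, uu_10, uu_11]
    refine ⟨by ring, by ring, by ring, by ring⟩
  have h1 : NG (uu t * uu b * (uu t)⁻¹) (uu t * y * (uu t)⁻¹) := by
    rw [hx, ← hy']
    exact ⟨Mb h3 b, Mb_ne_top h3 hq b hb, center_le_Mb h3 b, hxm, hmem⟩
  exact (ng_conj _ _ _).1 h1

variable (p : ℕ) (hp : p.Prime) (hodd : Odd p) (hF : Fintype.card F = 3 ^ p)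
include hp hodd hF

theorem card_gt_three : 3 < Fintype.card F := by
  rw [hF]
  calc 3 < 3 ^ 2 := by norm_num
    _ ≤ 3 ^ p := Nat.pow_le_pow_right (by norm_num) hp.two_le

/-- unipotent elements: `x = uu b` -/
theorem ng_uu_iff (b : F) (hb : b ≠ 0) (y : S2 F) :
    NG (uu b) y ↔ (y 1 0 = 0 ∨ (tr y ^ 3 = tr y ∧ (b * y 1 0) ^ 2 = 1)) := by
  obtain ⟨h3, h2, hns⟩ := char_facts p hodd hF
  constructor
  · rintro ⟨K, hK, hZ, hx, hy⟩
    rcases proper_cases_odd p hp hodd hF K hZ hK with ⟨x₀, hx₀, hss, hle⟩ | ⟨g, hg⟩ | hC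
    · exfalso
      have hx1 := hle hx
      rw [mem_Nrm] at hx1
      rcases hx1 with h | h
      · have hc : x₀ * uu b = uu b * x₀ := (mul_inv_eq_iff_eq_mul.1 h).symm
        have h5 := (comm_uu_iff x₀ b hb).1 hc
        have hd := det2 x₀
        rw [h5.1, ← h5.2] at hd
        apply hss
        unfold tr
        rw [← h5.2]
        linear_combination 4 * hd
      · have := tr_inverting' _ _ (not_isSc_of_tr x₀ hss) h
        rw [tr_uu] at this
        exact h2 this
    · left
      have h1 := hg _ hx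
      rw [conj_uu_10] at h1
      have h5 : g 1 0 = 0 := by
        have : b * g 1 0 ^ 2 = 0 := by linear_combination (-1 : F) * h1
        rcases mul_eq_zero.1 this with h | h
        · exact absurd h hb
        · exact pow_eq_zero_iff (two_ne_zero) |>.1 h
      have h6 := hg _ hy
      rw [conj_bor_10 g y h5] at h6
      rcases mul_eq_zero.1 h6 with h | h
      · exact absurd (pow_eq_zero_iff (two_ne_zero) |>.1 h) (bor_11_ne g h5)
      · exact h
    · by_cases h10 : y 1 0 = 0
      · left; exact h10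
      · right
        have hty := hC y hy
        refine ⟨hty, ?_⟩
        have hxy := hC _ (K.mul_mem hx hy)
        rw [tr_uu_mul] at hxy
        have h5 : (b * y 1 0) ^ 3 = b * y 1 0 := by
          linear_combination hxy - hty - (tr y * (b * y 1 0) * (tr y + b * y 1 0)) * h3
        rcases cube_eq_cases h3 _ h5 with h6 | h6
        · rcases mul_eq_zero.1 h6 with h | h
          · exact absurd h hb
          · exact absurd h h10
        · exact h6
  · rintro (h | ⟨h1, h5⟩)
    · exact ⟨Bor F, Bor_ne_top, center_le_Bor, (mem_Bor _).2 (uu_10 b), (mem_Bor _).2 h⟩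
    · exact ng_uu_of h3 (card_gt_three p hp hodd hF) b hb y h1 h5

/-- split elements: `x = dd e` -/
theorem ng_dd_iff (e : F) (he : e ≠ 0) (he1 : e ^ 2 ≠ 1) (y : S2 F) :
    NG (dd e he) y ↔ (y 1 0 = 0 ∨ y 0 1 = 0 ∨ (y 0 0 = 0 ∧ y 1 1 = 0)) := by
  obtain ⟨h3, h2, hns⟩ := char_facts p hodd hF
  have d00 : (dd e he) 0 0 = e := rfl
  have d01 : (dd e he) 0 1 = 0 := rfl
  have d10 : (dd e he) 1 0 = 0 := rfl
  have d11 : (dd e he) 1 1 = e⁻¹ := rfl
  have hef : e * e⁻¹ = 1 := mul_inv_cancel₀ he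
  have hsub : e - e⁻¹ ≠ 0 := by
    intro h
    apply he1
    linear_combination e * h + hef
  have htrx : tr (dd e he) ≠ 0 := by
    intro h
    unfold tr at h
    rw [d00, d11] at h
    apply hns e
    linear_combination e * h - hef
  have hnsc : ¬ IsSc (dd e he) := by
    rw [not_isSc_iff, d00, d11]
    right; right; exact hsub
  constructor
  · rintro ⟨K, hK, hZ, hxL, hyL⟩
    rcases proper_cases_odd p hp hodd hF K hZ hK with ⟨x₀, hx₀, hss, hle⟩ | ⟨g, hg⟩ | hC
    · have hx1 := hle hxL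
      have hy1 := hle hyL
      rw [mem_Nrm] at hx1 hy1
      have hns₀ := not_isSc_of_tr x₀ hss
      have hxc : dd e he * x₀ = x₀ * dd e he := by
        rcases hx1 with h | h
        · exact mul_inv_eq_iff_eq_mul.1 h
        · exact absurd (tr_inverting' _ _ hns₀ h) htrx
      have e01 := congrArg (fun g : S2 F => g 0 1) hxc
      have e10 := congrArg (fun g : S2 F => g 1 0) hxc
      simp only [mul01, mul10, d00, d01, d10, d11] at e01 e10
      have hx01 : x₀ 0 1 = 0 := by
        have : x₀ 0 1 * (e - e⁻¹) = 0 := by linear_combination e01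
        rcases mul_eq_zero.1 this with h | h
        · exact h
        · exact absurd h hsub
      have hx10 : x₀ 1 0 = 0 := by
        have : x₀ 1 0 * (e - e⁻¹) = 0 := by linear_combination (-1 : F) * e10
        rcases mul_eq_zero.1 this with h | h
        · exact h
        · exact absurd h hsub
      have hdiff : x₀ 0 0 - x₀ 1 1 ≠ 0 := by
        intro h
        have hd := det2 x₀
        rw [hx01] at hd
        apply hss
        unfold tr
        have h' : x₀ 0 0 = x₀ 1 1 := by linear_combination h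
        rw [h'] at hd ⊢
        linear_combination 4 * hd
      rcases hy1 with h | h
      · right; left
        have hyc : y * x₀ = x₀ * y := mul_inv_eq_iff_eq_mul.1 h
        have f01 := congrArg (fun g : S2 F => g 0 1) hyc
        simp only [mul01, hx01, hx10] at f01
        have : y 0 1 * (x₀ 0 0 - x₀ 1 1) = 0 := by linear_combination (-1 : F) * f01
        rcases mul_eq_zero.1 this with h' | h'
        · exact h'
        · exact absurd h' hdiff
      · right; right
        have hyc : y * x₀ = x₀⁻¹ * y := by rw [← h]; group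
        have f00 := congrArg (fun g : S2 F => g 0 0) hyc
        have f11 := congrArg (fun g : S2 F => g 1 1) hyc
        simp only [mul00, mul11, inv00, inv01, inv10, inv11, hx01, hx10] at f00 f11
        constructor
        · have : y 0 0 * (x₀ 0 0 - x₀ 1 1) = 0 := by linear_combination f00
          rcases mul_eq_zero.1 this with h' | h'
          · exact h'
          · exact absurd h' hdiff
        · have : y 1 1 * (x₀ 0 0 - x₀ 1 1) = 0 := by linear_combination (-1 : F) * f11
          rcases mul_eq_zero.1 this with h' | h'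
          · exact h'
          · exact absurd h' hdiff
    · have h1 := hg _ hxL
      simp only [mul10, mul11, inv00, inv10, d00, d01, d10, d11] at h1
      have h5 : g 1 0 * g 1 1 * (e - e⁻¹) = 0 := by linear_combination h1
      have h6 := hg _ hyL
      rcases mul_eq_zero.1 h5 with h | h
      · rcases mul_eq_zero.1 h with h | h
        · left
          rw [conj_bor_10 g y h] at h6
          rcases mul_eq_zero.1 h6 with h7 | h7
          · exact absurd (pow_eq_zero_iff (two_ne_zero) |>.1 h7) (bor_11_ne g h)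
          · exact h7
        · right; left
          simp only [mul10, mul11, inv00, inv10, h] at h6
          have hd := det2 g
          rw [h] at hd
          have h10 : g 1 0 ≠ 0 := by
            intro h0
            rw [h0] at hd
            simp at hd
          have h7 : g 1 0 ^ 2 * y 0 1 = 0 := by linear_combination (-1 : F) * h6
          rcases mul_eq_zero.1 h7 with h8 | h8
          · exact absurd (pow_eq_zero_iff (two_ne_zero) |>.1 h8) h10
          · exact h8
      · exact absurd h hsub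
    · exfalso
      have h1 := hC _ hxL
      rcases cube_eq_cases h3 _ h1 with h5 | h5
      · exact htrx h5
      · unfold tr at h5
        rw [d00, d11] at h5
        apply he1
        have h6 : (e ^ 2 - 1) ^ 2 = 0 := by
          linear_combination e ^ 2 * h5 - (2 * e ^ 2 + e * e⁻¹ + 1) * hef - e ^ 2 * h3
        have h7 := pow_eq_zero_iff (two_ne_zero) |>.1 h6
        linear_combination h7
  · rintro (h | h | ⟨h, h'⟩)
    · exact ⟨Bor F, Bor_ne_top, center_le_Bor, (mem_Bor _).2 d10, (mem_Bor _).2 h⟩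
    · exact ⟨BorL F, BorL_ne_top, center_le_BorL, (mem_BorL _).2 d01, (mem_BorL _).2 h⟩
    · refine ⟨Nrm (dd e he), Nrm_ne_top_odd h2 _ hnsc, center_le_Nrm _, self_mem_Nrm _, ?_⟩
      rw [mem_Nrm]; right
      rw [mul_inv_eq_iff_eq_mul]
      apply ext2 <;> simp only [mul00, mul01, mul10, mul11, inv00, inv01, inv10, inv11, d00, d01,
        d10, d11, h, h'] <;> ring

/-- nonsplit elements of nonzero trace -/
theorem ng_ns_iff (x : S2 F) (hx : ¬ IsSquare (tr x ^ 2 - 4)) (htr : tr x ≠ 0) (y : S2 F) :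
    NG x y ↔ y ∈ Nrm x := by
  obtain ⟨h3, h2, hns⟩ := char_facts p hodd hF
  have hss : tr x ^ 2 ≠ 4 := by
    intro h
    apply hx
    rw [h, sub_self]
    exact ⟨0, by ring⟩
  have hnsc := not_isSc_of_tr x hss
  constructor
  · rintro ⟨K, hK, hZ, hxL, hyL⟩
    rcases proper_cases_odd p hp hodd hF K hZ hK with ⟨x₀, hx₀, hss₀, hle⟩ | ⟨g, hg⟩ | hC
    · have hx1' := hle hxL
      have hy1 := hle hyL
      rw [mem_Nrm] at hx1' hy1 ⊢
      have hns₀ := not_isSc_of_tr x₀ hss₀
      have hxc : x * x₀ = x₀ * x := by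
        rcases hx1' with h | h
        · exact mul_inv_eq_iff_eq_mul.1 h
        · exact absurd (tr_inverting' _ _ hns₀ h) htr
      rcases hy1 with h | h
      · left
        have hyc : y * x₀ = x₀ * y := mul_inv_eq_iff_eq_mul.1 h
        exact mul_inv_eq_iff_eq_mul.2 (comm_trans y x₀ x hns₀ hyc hxc)
      · have hmc : (y * x * y⁻¹) * x₀ = x₀ * (y * x * y⁻¹) := by
          have e1 : (y * x * y⁻¹) * x₀⁻¹ = x₀⁻¹ * (y * x * y⁻¹) := by
            rw [← h]
            calc y * x * y⁻¹ * (y * x₀ * y⁻¹) = y * (x * x₀) * y⁻¹ := by group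
              _ = y * (x₀ * x) * y⁻¹ := by rw [hxc]
              _ = y * x₀ * y⁻¹ * (y * x * y⁻¹) := by group
          calc (y * x * y⁻¹) * x₀ = x₀ * (x₀⁻¹ * (y * x * y⁻¹)) * x₀ := by group
            _ = x₀ * ((y * x * y⁻¹) * x₀⁻¹) * x₀ := by rw [e1]
            _ = x₀ * (y * x * y⁻¹) := by group
        have hmx : (y * x * y⁻¹) * x = x * (y * x * y⁻¹) := comm_trans _ x₀ x hns₀ hmc hxc
        exact eq_or_inv x (y * x * y⁻¹) hss hmx (tr_conj y x)
    · exfalso
      have h1 := hg _ hxL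
      have hd := det2 (g * x * g⁻¹)
      have ht := tr_conj g x
      unfold tr at ht
      rw [h1] at hd
      apply hx
      refine ⟨(g * x * g⁻¹ : S2 F) 0 0 - (g * x * g⁻¹ : S2 F) 1 1, ?_⟩
      unfold tr
      rw [← ht]
      linear_combination (4 : F) * hd
    · exfalso
      rcases cube_eq_cases h3 _ (hC x hxL) with h5 | h5
      · exact htr h5
      · apply hx
        refine ⟨0, ?_⟩
        rw [h5]
        linear_combination (-1 : F) * h3
  · intro h
    exact ⟨Nrm x, Nrm_ne_top_odd h2 x hnsc, center_le_Nrm x, self_mem_Nrm x, h⟩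

end Fin

end Cfsg.Agent.Lib.Helper45.Sl2Odd
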