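import Mathlib
import Cfsg.Agent.Lib.Helper45.Sl2Odd3

set_option autoImplicit false
set_option linter.unusedSimpArgs false
set_option linter.unusedVariables false
set_option linter.unusedSectionVars false

/-!
`SL₂(3^p)`, `p` an odd prime: elements of trace `0` (involutions of `PSL₂`).
-/

namespace Cfsg.Agent.Lib.Helper45.Sl2Odd

open Matrix Cfsg.Agent.S0809 Cfsg.Agent.Lib.Helper19.Dk Cfsg.Agent.Lib.Helper45.Sl2Even

section Fld

variable {F : Type*} [Field F]

theorem inv_of_sq_negOne (g : S2 F) (h : g * g = negOne) : g⁻¹ = negOne * g := by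
  apply inv_eq_of_mul_eq_one_right
  calc g * (negOne * g) = (g * negOne) * g := by group
    _ = (negOne * g) * g := by rw [← negOne_mul g]
    _ = negOne * (g * g) := by group
    _ = 1 := by rw [h, negOne_sq]

theorem not_isSc_of_tr_zero (h2 : (2 : F) ≠ 0) (w : S2 F) (hw : tr w = 0) : ¬ IsSc w := by
  apply not_isSc_of_tr
  rw [hw]
  intro h
  have : (2 : F) * 2 = 0 := by linear_combination -h
  rcases mul_eq_zero.1 this with h' | h' <;> exact h2 h'

/-- two elements of trace `0` lie in a common torus normalizer -/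
theorem ng_of_tr_zero (h2 : (2 : F) ≠ 0) (w y : S2 F) (hw : tr w = 0) (hy : tr y = 0) :
    NG w y := by
  have hw2 := sq_of_tr_zero' w hw
  have hy2 := sq_of_tr_zero' y hy
  have hwi := inv_of_sq_negOne w hw2
  have hyi := inv_of_sq_negOne y hy2
  have hwsc := not_isSc_of_tr_zero h2 w hw
  by_cases hz : IsSc (w * y)
  · refine ⟨Nrm w, Nrm_ne_top_odd h2 w hwsc, center_le_Nrm w, self_mem_Nrm w, ?_⟩
    rw [mem_Nrm]; left
    rw [mul_inv_eq_iff_eq_mul]
    have hc := isSc_comm (w * y) hz w
    calc y * w = w⁻¹ * ((w * y) * w) := by group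
      _ = w⁻¹ * (w * (w * y)) := by rw [hc]
      _ = w * y := by group
  · refine ⟨Nrm (w * y), Nrm_ne_top_odd h2 _ hz, center_le_Nrm _, ?_, ?_⟩
    · rw [mem_Nrm]; right
      calc w * (w * y) * w⁻¹ = (w * w) * y * w⁻¹ := by group
        _ = negOne * y * w⁻¹ := by rw [hw2]
        _ = y⁻¹ * w⁻¹ := by rw [hyi]
        _ = (w * y)⁻¹ := by group
    · rw [mem_Nrm]; right
      calc y * (w * y) * y⁻¹ = y * w := by group
        _ = (negOne * negOne) * (y * w) := by rw [negOne_sq, one_mul]
        _ = negOne * (negOne * y) * w := by group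
        _ = negOne * (y * negOne) * w := by rw [negOne_mul y]
        _ = (negOne * y) * (negOne * w) := by group
        _ = y⁻¹ * w⁻¹ := by rw [hyi, hwi]
        _ = (w * y)⁻¹ := by group

end Fld

section Fin

variable {F : Type*} [Field F] [Fintype F]

theorem ng_of_tr_two (h3 : (3 : F) = 0) (hq : 3 < Fintype.card F) (w y : S2 F) (hw : tr w = 0)
    (hy : tr y = 2) (hu : tr (w * y) ^ 2 = 1) : NG w y := by
  have hsc : ¬ IsSc y := by
    rintro ⟨h1, h2, h5⟩
    have : tr (w * y) = 0 := by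
      unfold tr at hw ⊢
      simp only [mul00, mul11, h1, h2, h5]
      linear_combination y 1 1 * hw
    rw [this] at hu
    simp at hu
  obtain ⟨g, b, hb, hg⟩ := exists_conj_uu y hy hsc
  have htw : tr (g * w * g⁻¹) = 0 := by rw [tr_conj, hw]
  have h1 : tr (uu b * (g * w * g⁻¹)) = tr (w * y) := by
    rw [← hg]
    have e : g * y * g⁻¹ * (g * w * g⁻¹) = g * (y * w) * g⁻¹ := by group
    rw [e, tr_conj, tr_mul_comm]
  rw [tr_uu_mul, htw, zero_add] at h1
  have h5 : NG (uu b) (g * w * g⁻¹) := by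
    apply ng_uu_of h3 hq b hb
    · rw [htw]; ring
    · rw [h1]; exact hu
  rw [← hg] at h5
  exact ng_symm ((ng_conj g y w).1 h5)

theorem ng_of_tr_pm (h3 : (3 : F) = 0) (hq : 3 < Fintype.card F) (w y : S2 F) (hw : tr w = 0)
    (hs : tr y ^ 2 = 1) (hu : tr (w * y) ^ 2 = 1) : NG w y := by
  have h5 : (tr y - 1) * (tr y + 1) = 0 := by linear_combination hs
  rcases mul_eq_zero.1 h5 with h | h
  · have hty : tr (negOne * y) = 2 := by
      rw [tr_negOne_mul']
      linear_combination (-1 : F) * h - h3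
    have e : w * (negOne * y) = negOne * (w * y) := by
      rw [← mul_assoc, ← negOne_mul w, mul_assoc]
    have hu' : tr (w * (negOne * y)) ^ 2 = 1 := by
      rw [e, tr_negOne_mul']
      linear_combination hu
    exact (ng_center_mul_right negOne_mem_center).1 (ng_of_tr_two h3 hq w _ hw hty hu')
  · exact ng_of_tr_two h3 hq w y hw (by linear_combination h - h3) hu

variable (p : ℕ) (hp : p.Prime) (hodd : Odd p) (hF : Fintype.card F = 3 ^ p)
include hp hodd hF

/-- elements of trace `0` -/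
theorem ng_tr0_iff (x : S2 F) (hx : tr x = 0) (y : S2 F) :
    NG x y ↔ (y * x = x * y ∨ tr y = 0 ∨ tr (x * y) = 0 ∨
      (tr y ^ 2 = 1 ∧ tr (x * y) ^ 2 = 1)) := by
  obtain ⟨h3, h2, hns⟩ := char_facts p hodd hF
  have hnsc := not_isSc_of_tr_zero h2 x hx
  constructor
  · rintro ⟨K, hK, hZ, hxL, hyL⟩
    rcases proper_cases_odd p hp hodd hF K hZ hK with ⟨x₀, hx₀, hss, hle⟩ | ⟨g, hg⟩ | hC
    · have hx1 := hle hxL
      have hy1 := hle hyL
      rw [mem_Nrm] at hx1 hy1
      have hns₀ := not_isSc_of_tr x₀ hss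
      rcases hy1 with hyc | hyi
      · rcases hx1 with hxc | hxi
        · left
          exact comm_trans y x₀ x hns₀ (mul_inv_eq_iff_eq_mul.1 hyc) (mul_inv_eq_iff_eq_mul.1 hxc)
        · right; right; left
          apply tr_inverting' _ x₀ hns₀
          calc (x * y) * x₀ * (x * y)⁻¹ = x * (y * x₀ * y⁻¹) * x⁻¹ := by group
            _ = x₀⁻¹ := by rw [hyc, hxi]
      · right; left
        exact tr_inverting' y x₀ hns₀ hyi
    · exfalso
      have h1 := hg _ hxL
      have hd := det2 (g * x * g⁻¹)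
      have ht := tr_conj g x
      unfold tr at ht hx
      rw [h1] at hd
      apply hns ((g * x * g⁻¹ : S2 F) 0 0)
      linear_combination (g * x * g⁻¹ : S2 F) 0 0 * ht + (g * x * g⁻¹ : S2 F) 0 0 * hx - hd
    · have hs := hC y hyL
      have hu := hC _ (K.mul_mem hxL hyL)
      rcases cube_eq_cases h3 _ hs with h | h
      · right; left; exact h
      · rcases cube_eq_cases h3 _ hu with h' | h'
        · right; right; left; exact h'
        · right; right; right; exact ⟨h, h'⟩
  · rintro (h | h | h | ⟨h, h'⟩)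
    · exact ⟨Nrm x, Nrm_ne_top_odd h2 x hnsc, center_le_Nrm x, self_mem_Nrm x,
        Or.inl (mul_inv_eq_iff_eq_mul.2 h)⟩
    · exact ng_of_tr_zero h2 x y hx h
    · obtain ⟨K, hK, hZ, hxK, hzK⟩ := ng_of_tr_zero h2 x (x * y) hx h
      refine ⟨K, hK, hZ, hxK, ?_⟩
      have : y = x⁻¹ * (x * y) := by group
      rw [this]
      exact K.mul_mem (K.inv_mem hxK) hzK
    · exact ng_of_tr_pm h3 (card_gt_three p hp hodd hF) x y hx h h'

end Fin

end Cfsg.Agent.Lib.Helper45.Sl2Odd
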