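import Mathlib
import Cfsg.Agent.Lib.Helper45.Sl2Odd4

set_option autoImplicit false
set_option linter.unusedSimpArgs false
set_option linter.unusedVariables false
set_option linter.unusedSectionVars false

/-!
`SL₂(F)`, `F` finite of characteristic 3 with `-1` a nonsquare: cardinalities of the sets of
`Sl2Odd3`, `Sl2Odd4`.
-/

namespace Cfsg.Agent.Lib.Helper45.Sl2Odd

open Matrix Cfsg.Agent.S0809 Cfsg.Agent.Lib.Helper19.Dk Cfsg.Agent.Lib.Helper45.Sl2Even

theorem card_subtype_finset {α : Type*} (P : α → Prop) (s : Finset α) (h : ∀ a, P a ↔ a ∈ s) :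
    Nat.card {a // P a} = s.card := by
  rw [Nat.card_congr (Equiv.subtypeEquivRight h), Nat.card_eq_fintype_card, Fintype.card_coe]

theorem card_compl' {α : Type*} [Fintype α] (P : α → Prop) :
    Nat.card {a // ¬ P a} = Fintype.card α - Nat.card {a // P a} := by
  classical
  rw [Nat.card_eq_fintype_card, Nat.card_eq_fintype_card, Fintype.card_subtype_compl]

/-- counting a fibered set with fibers of constant size -/
theorem card_fiberwise_const {α β : Type*} [Finite α] [Finite β] (P : β → Prop)
    (R : β → α → Prop) (n : ℕ) (h : ∀ b, P b → Nat.card {a // R b a} = n) :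
    Nat.card {v : β × α // P v.1 ∧ R v.1 v.2} = Nat.card {b // P b} * n := by
  classical
  have := Fintype.ofFinite β
  have e : {v : β × α // P v.1 ∧ R v.1 v.2} ≃ Σ b : {b // P b}, {a // R b.1 a} :=
    { toFun := fun v => ⟨⟨v.1.1, v.2.1⟩, ⟨v.1.2, v.2.2⟩⟩
      invFun := fun s => ⟨(s.1.1, s.2.1), s.1.2, s.2.2⟩
      left_inv := fun v => rfl
      right_inv := fun s => rfl }
  rw [Nat.card_congr e, Nat.card_sigma, Finset.sum_congr rfl (fun b _ => h b.1 b.2),
    Finset.sum_const, Finset.card_univ, smul_eq_mul, Nat.card_eq_fintype_card]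

section Fin

variable {F : Type*} [Field F] [Fintype F]

theorem card_sq_one (h2 : (2 : F) ≠ 0) : Nat.card {t : F // t ^ 2 = 1} = 2 := by
  classical
  have key := card_subtype_finset (fun t : F => t ^ 2 = 1) {1, -1} (by
    intro a
    rw [Finset.mem_insert, Finset.mem_singleton]
    constructor
    · intro h
      have : (a - 1) * (a + 1) = 0 := by linear_combination h
      rcases mul_eq_zero.1 this with h' | h'
      · left; linear_combination h'
      · right; linear_combination h'
    · rintro (rfl | rfl) <;> ring)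
  rw [key]
  apply Finset.card_pair
  intro h
  apply h2
  linear_combination h

theorem card_cube_fix (h2 : (2 : F) ≠ 0) (h3 : (3 : F) = 0) :
    Nat.card {t : F // t ^ 3 = t} = 3 := by
  classical
  have key := card_subtype_finset (fun t : F => t ^ 3 = t) {0, 1, -1} (by
    intro a
    rw [Finset.mem_insert, Finset.mem_insert, Finset.mem_singleton]
    constructor
    · intro h
      rcases cube_eq_cases h3 a h with h' | h'
      · left; exact h'
      · have : (a - 1) * (a + 1) = 0 := by linear_combination h'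
        rcases mul_eq_zero.1 this with h'' | h''
        · right; left; linear_combination h''
        · right; right; linear_combination h''
    · rintro (rfl | rfl | rfl) <;> ring)
  rw [key]
  rw [Finset.card_eq_three]
  refine ⟨0, 1, -1, zero_ne_one, ?_, ?_, rfl⟩
  · intro h
    have : (1 : F) = 0 := by linear_combination h
    exact one_ne_zero this
  · intro h
    apply h2
    linear_combination h

theorem tr_mk2 (a b c d : F) (h : a * d - b * c = 1) : tr (mk2 a b c d h) = a + d := rfl

/-- the cell of the count for unipotent elements -/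
theorem card_uu_cell (h2 : (2 : F) ≠ 0) (h3 : (3 : F) = 0) (b : F) (hb : b ≠ 0) :
    Nat.card {y : S2 F // tr y ^ 3 = tr y ∧ (b * y 1 0) ^ 2 = 1} = Fintype.card F * 6 := by
  have hc0 : ∀ c : F, (b * c) ^ 2 = 1 → c ≠ 0 := by
    rintro c h rfl
    simp at h
  have e : {y : S2 F // tr y ^ 3 = tr y ∧ (b * y 1 0) ^ 2 = 1} ≃
      F × ({c : F // (b * c) ^ 2 = 1} × {t : F // t ^ 3 = t}) :=
    { toFun := fun y => (y.1 0 0, (⟨y.1 1 0, y.2.2⟩, ⟨tr y.1, y.2.1⟩))
      invFun := fun v => ⟨mk2 v.1 ((v.1 * (v.2.2.1 - v.1) - 1) / v.2.1.1) v.2.1.1 (v.2.2.1 - v.1) (by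
          have := hc0 _ v.2.1.2
          field_simp
          ring), ⟨by
            rw [tr_mk2]
            have := v.2.2.2
            rw [show v.1 + (v.2.2.1 - v.1) = v.2.2.1 by ring]
            exact this, v.2.1.2⟩⟩
      left_inv := by
        rintro ⟨y, hy1, hy2⟩
        apply Subtype.ext
        have h10 := hc0 _ hy2
        have hd := det2 y
        apply ext2
        · rfl
        · show (y 0 0 * (tr y - y 0 0) - 1) / y 1 0 = y 0 1
          unfold tr
          field_simp
          linear_combination hd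
        · rfl
        · show tr y - y 0 0 = y 1 1
          unfold tr
          ring
      right_inv := by
        rintro ⟨a, ⟨c, hc⟩, ⟨t, ht⟩⟩
        refine Prod.ext rfl (Prod.ext (Subtype.ext rfl) (Subtype.ext ?_))
        show a + (t - a) = t
        ring }
  have hc2 : Nat.card {c : F // (b * c) ^ 2 = 1} = 2 := by
    have := Nat.card_congr (Equiv.subtypeEquiv (p := fun c : F => (b * c) ^ 2 = 1)
      (q := fun t : F => t ^ 2 = 1) (Equiv.mulLeft₀ b hb) (fun c => Iff.rfl))
    exact this.trans (card_sq_one h2)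
  rw [Nat.card_congr e, Nat.card_prod, Nat.card_prod, Nat.card_eq_fintype_card (α := F), hc2,
    card_cube_fix h2 h3]

/-- the count for unipotent elements -/
theorem card_uu_set' (h2 : (2 : F) ≠ 0) (h3 : (3 : F) = 0) (b : F) (hb : b ≠ 0) :
    Nat.card {y : S2 F // y 1 0 = 0 ∨ (tr y ^ 3 = tr y ∧ (b * y 1 0) ^ 2 = 1)}
      = Fintype.card F * (Fintype.card F + 5) := by
  have hq1 : 1 ≤ Fintype.card F := Fintype.card_pos
  rw [card_or_disj, card_bor_set, card_uu_cell h2 h3 b hb]
  · obtain ⟨m, hm⟩ : ∃ m, Fintype.card F = m + 1 := ⟨Fintype.card F - 1, by omega⟩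
    rw [hm]
    have e0 : m + 1 - 1 = m := by omega
    rw [e0]
    ring
  · rintro y h ⟨-, h'⟩
    rw [h] at h'
    simp at h'

/-- the centralizer of a nonsplit element has order `q + 1` -/
theorem card_cent_nonsplit' (h2 : (2 : F) ≠ 0) (x : S2 F) (hx : ¬ IsSquare (tr x ^ 2 - 4)) :
    Nat.card (Subgroup.centralizer ({x} : Set (S2 F))) = Fintype.card F + 1 := by
  classical
  have hns : ∀ c : F, (x : Matrix (Fin 2) (Fin 2) F) ≠ c • 1 := by
    intro c hc
    apply hx
    have h00 : x 0 0 = c := by
      have := congrFun (congrFun hc 0) 0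
      simpa using this
    have h11 : x 1 1 = c := by
      have := congrFun (congrFun hc 1) 1
      simpa using this
    have h01 : x 0 1 = 0 := by
      have := congrFun (congrFun hc 0) 1
      simpa using this
    have hd := det2 x
    rw [h00, h11, h01] at hd
    refine ⟨0, ?_⟩
    unfold tr
    rw [h00, h11]
    linear_combination 4 * hd
  rw [Cfsg.Agent.Lib.Helper54.card_centralizer_eq_conic x hns]
  have ht : (x : Matrix (Fin 2) (Fin 2) F).trace = tr x := by
    rw [Matrix.trace_fin_two]; rfl
  rw [ht, Nat.card_congr ((Cfsg.Agent.Lib.Helper54.conicSq h2 (tr x)).trans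
    (Cfsg.Agent.S2429.conicEquiv (tr x ^ 2 - 4) hx h2).symm), Nat.card_eq_fintype_card,
    Fintype.card_option]

/-- the count for nonsplit elements -/
theorem card_Nrm_ns' (h2 : (2 : F) ≠ 0) (x : S2 F) (hx : ¬ IsSquare (tr x ^ 2 - 4)) :
    Nat.card (Nrm x) = 2 * (Fintype.card F + 1) := by
  have hss : tr x ^ 2 ≠ 4 := by
    intro h
    apply hx
    rw [h, sub_self]
    exact ⟨0, by ring⟩
  obtain ⟨w, -, hw⟩ := exists_inverting x hss
  have hw' : w⁻¹ * x⁻¹ * w = x := by rw [← hw]; group
  have e1 : Nat.card (Nrm x) = Nat.card {y : S2 F // y * x * y⁻¹ = x ∨ y * x * y⁻¹ = x⁻¹} := rfl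
  have e2 : Nat.card {y : S2 F // y * x * y⁻¹ = x}
      = Nat.card (Subgroup.centralizer ({x} : Set (S2 F))) := by
    apply Nat.card_congr
    apply Equiv.subtypeEquivRight
    intro y
    rw [Subgroup.mem_centralizer_iff, mul_inv_eq_iff_eq_mul]
    constructor
    · intro h z hz
      rw [Set.mem_singleton_iff] at hz
      rw [hz, h]
    · intro h
      exact (h x rfl).symm
  have e3 : Nat.card {y : S2 F // y * x * y⁻¹ = x⁻¹} = Nat.card {y : S2 F // y * x * y⁻¹ = x} := by
    apply Nat.card_congr
    exact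
      { toFun := fun y => ⟨w⁻¹ * y.1, by
          calc w⁻¹ * y.1 * x * (w⁻¹ * y.1)⁻¹ = w⁻¹ * (y.1 * x * y.1⁻¹) * w := by group
            _ = x := by rw [y.2, hw']⟩
        invFun := fun y => ⟨w * y.1, by
          calc w * y.1 * x * (w * y.1)⁻¹ = w * (y.1 * x * y.1⁻¹) * w⁻¹ := by group
            _ = x⁻¹ := by rw [y.2, hw]⟩
        left_inv := by
          rintro ⟨y, hy⟩
          apply Subtype.ext
          show w * (w⁻¹ * y) = y
          group
        right_inv := by
          rintro ⟨y, hy⟩
          apply Subtype.ext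
          show w⁻¹ * (w * y) = y
          group }
  rw [e1, card_or_disj, e3, e2, card_cent_nonsplit' h2 x hx]
  · ring
  · intro y h h'
    exact ne_inv_of_ss x hss (h.symm.trans h')

end Fin

end Cfsg.Agent.Lib.Helper45.Sl2Odd
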