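import Mathlib
import Cfsg.Agent.Lib.Helper45.Sl2Odd5

set_option autoImplicit false
set_option linter.unusedSimpArgs false
set_option linter.unusedVariables false
set_option linter.unusedSectionVars false

/-!
`SL₂(F)`, `F` finite of characteristic 3 with `-1` a nonsquare: the count for the element
`ww = [[0, 1], [-1, 0]]` of trace `0`.
-/

namespace Cfsg.Agent.Lib.Helper45.Sl2Odd

open Matrix Cfsg.Agent.S0809 Cfsg.Agent.Lib.Helper19.Dk Cfsg.Agent.Lib.Helper45.Sl2Even

section Fld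

variable {F : Type*} [Field F]

/-- the standard element of trace `0` -/
def ww : S2 F := mk2 0 1 (-1) 0 (by ring)

theorem ww_00 : (ww : S2 F) 0 0 = 0 := rfl
theorem ww_01 : (ww : S2 F) 0 1 = 1 := rfl
theorem ww_10 : (ww : S2 F) 1 0 = -1 := rfl
theorem ww_11 : (ww : S2 F) 1 1 = 0 := rfl

theorem tr_ww : tr (ww : S2 F) = 0 := by
  unfold tr
  rw [ww_00, ww_11]
  ring

theorem tr_ww_mul (y : S2 F) : tr (ww * y) = y 1 0 - y 0 1 := by
  unfold tr
  simp only [mul00, mul11, ww_00, ww_01, ww_10, ww_11]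
  ring

theorem comm_ww_iff (y : S2 F) : y * ww = ww * y ↔ (y 0 0 = y 1 1 ∧ y 0 1 = - y 1 0) := by
  rw [comm_iff]
  simp only [ww_00, ww_01, ww_10, ww_11]
  constructor
  · rintro ⟨h1, h2, -⟩
    exact ⟨by linear_combination h2, by linear_combination (-1 : F) * h1⟩
  · rintro ⟨h1, h2⟩
    refine ⟨by linear_combination (-1 : F) * h2, by linear_combination h1,
      by linear_combination (-1 : F) * h1⟩

theorem circle_zero (hns : ∀ a : F, a ^ 2 ≠ -1) (a b : F) (h : a ^ 2 + b ^ 2 = 0) :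
    a = 0 ∧ b = 0 := by
  by_cases hb : b = 0
  · subst hb
    have : a ^ 2 = 0 := by linear_combination h
    exact ⟨pow_eq_zero_iff (two_ne_zero) |>.1 this, rfl⟩
  · exfalso
    apply hns (a / b)
    field_simp
    linear_combination h

/-- the set of pairs of traces `(tr y, tr (ww * y))` allowed for noncentralizing elements -/
def TT (s u : F) : Prop := s = 0 ∨ u = 0 ∨ (s ^ 2 = 1 ∧ u ^ 2 = 1)

end Fld

section Fin

variable {F : Type*} [Field F] [Fintype F]

/-- circles of nonzero radius have `q + 1` points -/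
theorem card_circle (h2 : (2 : F) ≠ 0) (hns : ∀ a : F, a ^ 2 ≠ -1)
    (hodd2 : Fintype.card F % 2 = 1) (k : F) (hk : k ≠ 0) :
    Nat.card {ab : F × F // ab.1 ^ 2 + ab.2 ^ 2 = k} = Fintype.card F + 1 := by
  classical
  have hε : ¬ IsSquare (-1 : F) := by
    rintro ⟨r, hr⟩
    exact hns r (by rw [hr]; ring)
  have h1 : Nat.card {ab : F × F // ab.1 ^ 2 + ab.2 ^ 2 = 1} = Fintype.card F + 1 := by
    have e1 : {ab : F × F // ab.1 ^ 2 + ab.2 ^ 2 = 1} ≃
        {p : F × F // p.1 ^ 2 - (-1) * p.2 ^ 2 = 1} :=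
      Equiv.subtypeEquivRight (fun ab => by constructor <;> intro h <;> linear_combination h)
    rw [Nat.card_congr (e1.trans (Cfsg.Agent.S2429.conicEquiv (-1) hε h2).symm),
      Nat.card_eq_fintype_card, Fintype.card_option]
  obtain ⟨a₀, b₀, h0⟩ := FiniteField.exists_root_sum_quadratic
      (f := Polynomial.C 1 * Polynomial.X ^ 2 + Polynomial.C 0 * Polynomial.X + Polynomial.C 0)
      (g := Polynomial.C 1 * Polynomial.X ^ 2 + Polynomial.C 0 * Polynomial.X
        + Polynomial.C (-k))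
      (Polynomial.degree_quadratic one_ne_zero) (Polynomial.degree_quadratic one_ne_zero) hodd2
  simp only [Polynomial.eval_add, Polynomial.eval_mul, Polynomial.eval_C, Polynomial.eval_pow,
    Polynomial.eval_X] at h0
  have h0' : a₀ ^ 2 + b₀ ^ 2 = k := by linear_combination h0
  have e : {ab : F × F // ab.1 ^ 2 + ab.2 ^ 2 = 1} ≃ {ab : F × F // ab.1 ^ 2 + ab.2 ^ 2 = k} :=
    { toFun := fun v => ⟨(v.1.1 * a₀ - v.1.2 * b₀, v.1.1 * b₀ + v.1.2 * a₀), by
        have := v.2
        show (v.1.1 * a₀ - v.1.2 * b₀) ^ 2 + (v.1.1 * b₀ + v.1.2 * a₀) ^ 2 = k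
        linear_combination (a₀ ^ 2 + b₀ ^ 2) * this + h0'⟩
      invFun := fun v => ⟨((v.1.1 * a₀ + v.1.2 * b₀) / k, (v.1.2 * a₀ - v.1.1 * b₀) / k), by
        have := v.2
        show ((v.1.1 * a₀ + v.1.2 * b₀) / k) ^ 2 + ((v.1.2 * a₀ - v.1.1 * b₀) / k) ^ 2 = 1
        field_simp
        linear_combination (a₀ ^ 2 + b₀ ^ 2) * this + k * h0'⟩
      left_inv := by
        rintro ⟨⟨a, b⟩, hab⟩
        apply Subtype.ext
        apply Prod.ext
        · show ((a * a₀ - b * b₀) * a₀ + (a * b₀ + b * a₀) * b₀) / k = a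
          field_simp
          linear_combination a * h0'
        · show ((a * b₀ + b * a₀) * a₀ - (a * a₀ - b * b₀) * b₀) / k = b
          field_simp
          linear_combination b * h0'
      right_inv := by
        rintro ⟨⟨c, d⟩, hcd⟩
        apply Subtype.ext
        apply Prod.ext
        · show (c * a₀ + d * b₀) / k * a₀ - (d * a₀ - c * b₀) / k * b₀ = c
          field_simp
          linear_combination c * h0'
        · show (c * a₀ + d * b₀) / k * b₀ + (d * a₀ - c * b₀) / k * a₀ = d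
          field_simp
          linear_combination d * h0' }
  rw [← Nat.card_congr e, h1]

theorem card_TT (h2 : (2 : F) ≠ 0) (h3 : (3 : F) = 0) (hq : 3 ≤ Fintype.card F) :
    Nat.card {su : F × F // TT su.1 su.2 ∧ su.1 ^ 2 + su.2 ^ 2 ≠ 1} = 2 * Fintype.card F - 1 := by
  classical
  have hiff : ∀ su : F × F, (TT su.1 su.2 ∧ su.1 ^ 2 + su.2 ^ 2 ≠ 1) ↔
      ((su.1 = 0 ∧ su.2 ^ 2 ≠ 1) ∨ ((su.1 ^ 3 ≠ su.1 ∧ su.2 = 0) ∨
        (su.1 ^ 2 = 1 ∧ su.2 ^ 2 = 1))) := by
    rintro ⟨s, u⟩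
    show (TT s u ∧ s ^ 2 + u ^ 2 ≠ 1) ↔
      ((s = 0 ∧ u ^ 2 ≠ 1) ∨ ((s ^ 3 ≠ s ∧ u = 0) ∨ (s ^ 2 = 1 ∧ u ^ 2 = 1)))
    constructor
    · rintro ⟨h | h | h, hne⟩
      · left
        refine ⟨h, fun hu => hne ?_⟩
        rw [h, hu]; ring
      · by_cases hs : s = 0
        · left
          refine ⟨hs, fun hu => hne ?_⟩
          rw [hs, hu]; ring
        · right; left
          refine ⟨fun hs3 => ?_, h⟩
          rcases cube_eq_cases h3 s hs3 with h' | h'
          · exact hs h'
          · apply hne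
            rw [h, h']; ring
      · right; right; exact h
    · rintro (⟨h, hu⟩ | ⟨hs, h⟩ | ⟨hs, hu⟩)
      · refine ⟨Or.inl h, fun hne => hu ?_⟩
        rw [h] at hne
        linear_combination hne
      · refine ⟨Or.inr (Or.inl h), fun hne => hs ?_⟩
        rw [h] at hne
        have : s ^ 2 = 1 := by linear_combination hne
        linear_combination s * this
      · refine ⟨Or.inr (Or.inr ⟨hs, hu⟩), fun hne => ?_⟩
        have : (1 : F) = 0 := by linear_combination hne - hs - hu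
        exact one_ne_zero this
  have hz : Nat.card {s : F // s = 0} = 1 := by
    rw [Nat.card_eq_fintype_card, Fintype.card_subtype_eq]
  have c1 : Nat.card {su : F × F // su.1 = 0 ∧ su.2 ^ 2 ≠ 1} = Fintype.card F - 2 := by
    refine (Nat.card_congr (Equiv.subtypeProdEquivProd (p := fun s : F => s = 0)
      (q := fun u : F => u ^ 2 ≠ 1))).trans ?_
    rw [Nat.card_prod, hz, one_mul]
    have := card_compl' (fun t : F => t ^ 2 = 1)
    rw [card_sq_one h2] at this
    exact this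
  have c2 : Nat.card {su : F × F // su.1 ^ 3 ≠ su.1 ∧ su.2 = 0} = Fintype.card F - 3 := by
    refine (Nat.card_congr (Equiv.subtypeProdEquivProd (p := fun s : F => s ^ 3 ≠ s)
      (q := fun u : F => u = 0))).trans ?_
    rw [Nat.card_prod, hz, mul_one]
    have := card_compl' (fun t : F => t ^ 3 = t)
    rw [card_cube_fix h2 h3] at this
    exact this
  have c3 : Nat.card {su : F × F // su.1 ^ 2 = 1 ∧ su.2 ^ 2 = 1} = 4 := by
    refine (Nat.card_congr (Equiv.subtypeProdEquivProd (p := fun s : F => s ^ 2 = 1)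
      (q := fun u : F => u ^ 2 = 1))).trans ?_
    rw [Nat.card_prod, card_sq_one h2]
  rw [Nat.card_congr (Equiv.subtypeEquivRight hiff), card_or_disj, card_or_disj, c1, c2, c3]
  · omega
  · rintro ⟨s, u⟩ ⟨-, h⟩ ⟨-, h'⟩
    change u = 0 at h
    change u ^ 2 = 1 at h'
    rw [h] at h'
    simp at h'
  · rintro ⟨s, u⟩ ⟨h, -⟩ (⟨h', -⟩ | ⟨h', -⟩)
    · change s = 0 at h
      change s ^ 3 ≠ s at h'
      apply h'
      rw [h]; ring
    · change s = 0 at h
      change s ^ 2 = 1 at h'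
      rw [h] at h'
      simp at h'

/-- the elements not centralizing `ww` -/
theorem card_ww_part2 (h2 : (2 : F) ≠ 0) (h3 : (3 : F) = 0) (hns : ∀ a : F, a ^ 2 ≠ -1)
    (hodd2 : Fintype.card F % 2 = 1) (hq : 3 ≤ Fintype.card F) :
    Nat.card {y : S2 F // ¬ (y 0 0 = y 1 1 ∧ y 0 1 = - y 1 0) ∧
        TT (y 0 0 + y 1 1) (y 1 0 - y 0 1)}
      = (2 * Fintype.card F - 1) * (Fintype.card F + 1) := by
  have hQ : ∀ y : S2 F, (y 0 0 - y 1 1) ^ 2 + (y 0 1 + y 1 0) ^ 2
      = (y 0 0 + y 1 1) ^ 2 + (y 1 0 - y 0 1) ^ 2 - 1 := by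
    intro y
    linear_combination (-4 : F) * det2 y - h3
  have hne : ∀ y : S2 F, ¬ (y 0 0 = y 1 1 ∧ y 0 1 = - y 1 0) →
      (y 0 0 + y 1 1) ^ 2 + (y 1 0 - y 0 1) ^ 2 ≠ 1 := by
    intro y hy h
    apply hy
    have := hQ y
    rw [h, sub_self] at this
    obtain ⟨e1, e2⟩ := circle_zero hns _ _ this
    exact ⟨by linear_combination e1, by linear_combination e2⟩
  have e : {y : S2 F // ¬ (y 0 0 = y 1 1 ∧ y 0 1 = - y 1 0) ∧
        TT (y 0 0 + y 1 1) (y 1 0 - y 0 1)} ≃
      {v : (F × F) × (F × F) // (TT v.1.1 v.1.2 ∧ v.1.1 ^ 2 + v.1.2 ^ 2 ≠ 1) ∧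
        v.2.1 ^ 2 + v.2.2 ^ 2 = v.1.1 ^ 2 + v.1.2 ^ 2 - 1} :=
    { toFun := fun y => ⟨((y.1 0 0 + y.1 1 1, y.1 1 0 - y.1 0 1),
          (y.1 0 0 - y.1 1 1, y.1 0 1 + y.1 1 0)), ⟨⟨y.2.2, hne y.1 y.2.1⟩, hQ y.1⟩⟩
      invFun := fun v => ⟨mk2 (-(v.1.1.1 + v.1.2.1)) (v.1.1.2 - v.1.2.2) (-(v.1.1.2 + v.1.2.2))
          (v.1.2.1 - v.1.1.1) (by linear_combination (-1 : F) * v.2.2), ⟨by
            rintro ⟨e1, e2⟩
            change -(v.1.1.1 + v.1.2.1) = v.1.2.1 - v.1.1.1 at e1
            change v.1.1.2 - v.1.2.2 = - -(v.1.1.2 + v.1.2.2) at e2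
            have ha : v.1.2.1 = 0 := by
              have : (2 : F) * v.1.2.1 = 0 := by linear_combination (-1 : F) * e1
              rcases mul_eq_zero.1 this with h | h
              · exact absurd h h2
              · exact h
            have hb : v.1.2.2 = 0 := by
              have : (2 : F) * v.1.2.2 = 0 := by linear_combination (-1 : F) * e2
              rcases mul_eq_zero.1 this with h | h
              · exact absurd h h2
              · exact h
            have h5 := v.2.2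
            rw [ha, hb] at h5
            apply v.2.1.2
            linear_combination (-1 : F) * h5, by
            have e1 : -(v.1.1.1 + v.1.2.1) + (v.1.2.1 - v.1.1.1) = v.1.1.1 := by
              linear_combination (-v.1.1.1) * h3
            have e2 : -(v.1.1.2 + v.1.2.2) - (v.1.1.2 - v.1.2.2) = v.1.1.2 := by
              linear_combination (-v.1.1.2) * h3
            show TT (-(v.1.1.1 + v.1.2.1) + (v.1.2.1 - v.1.1.1))
              (-(v.1.1.2 + v.1.2.2) - (v.1.1.2 - v.1.2.2))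
            rw [e1, e2]
            exact v.2.1.1⟩⟩
      left_inv := by
        rintro ⟨y, hy1, hy2⟩
        apply Subtype.ext
        apply ext2
        · show -((y 0 0 + y 1 1) + (y 0 0 - y 1 1)) = y 0 0
          linear_combination (-(y 0 0)) * h3
        · show (y 1 0 - y 0 1) - (y 0 1 + y 1 0) = y 0 1
          linear_combination (-(y 0 1)) * h3
        · show -((y 1 0 - y 0 1) + (y 0 1 + y 1 0)) = y 1 0
          linear_combination (-(y 1 0)) * h3
        · show (y 0 0 - y 1 1) - (y 0 0 + y 1 1) = y 1 1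
          linear_combination (-(y 1 1)) * h3
      right_inv := by
        rintro ⟨⟨⟨s, u⟩, ⟨α, β⟩⟩, ⟨hT, hne'⟩, hQ'⟩
        apply Subtype.ext
        apply Prod.ext
        · apply Prod.ext
          · show -(s + α) + (α - s) = s
            linear_combination (-s) * h3
          · show -(u + β) - (u - β) = u
            linear_combination (-u) * h3
        · apply Prod.ext
          · show -(s + α) - (α - s) = α
            linear_combination (-α) * h3
          · show (u - β) + -(u + β) = β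
            linear_combination (-β) * h3 }
  rw [Nat.card_congr e]
  have h := card_fiberwise_const (α := F × F) (β := F × F)
    (fun su => TT su.1 su.2 ∧ su.1 ^ 2 + su.2 ^ 2 ≠ 1)
    (fun su ab => ab.1 ^ 2 + ab.2 ^ 2 = su.1 ^ 2 + su.2 ^ 2 - 1) (Fintype.card F + 1)
    (fun su hsu => card_circle h2 hns hodd2 _ (sub_ne_zero.2 hsu.2))
  rw [card_TT h2 h3 hq] at h
  exact h

/-- the count for `ww` -/
theorem card_ww_set (h2 : (2 : F) ≠ 0) (h3 : (3 : F) = 0) (hns : ∀ a : F, a ^ 2 ≠ -1)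
    (hodd2 : Fintype.card F % 2 = 1) (hq : 3 ≤ Fintype.card F) :
    Nat.card {y : S2 F // y * ww = ww * y ∨ tr y = 0 ∨ tr (ww * y) = 0 ∨
        (tr y ^ 2 = 1 ∧ tr (ww * y) ^ 2 = 1)}
      = 2 * (Fintype.card F * (Fintype.card F + 1)) := by
  have hiff : ∀ y : S2 F, (y * ww = ww * y ∨ tr y = 0 ∨ tr (ww * y) = 0 ∨
        (tr y ^ 2 = 1 ∧ tr (ww * y) ^ 2 = 1)) ↔
      (y * ww = ww * y ∨ (¬ (y 0 0 = y 1 1 ∧ y 0 1 = - y 1 0) ∧
        TT (y 0 0 + y 1 1) (y 1 0 - y 0 1))) := by
    intro y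
    have hc := comm_ww_iff y
    rw [tr_ww_mul]
    constructor
    · intro h
      by_cases hc' : y * ww = ww * y
      · exact Or.inl hc'
      · right
        refine ⟨fun h' => hc' (hc.2 h'), ?_⟩
        rcases h with h | h | h | h
        · exact absurd h hc'
        · exact Or.inl h
        · exact Or.inr (Or.inl h)
        · exact Or.inr (Or.inr h)
    · rintro (h | ⟨-, h | h | h⟩)
      · exact Or.inl h
      · exact Or.inr (Or.inl h)
      · exact Or.inr (Or.inr (Or.inl h))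
      · exact Or.inr (Or.inr (Or.inr h))
  have hcent : Nat.card {y : S2 F // y * ww = ww * y} = Fintype.card F + 1 := by
    have hx : ¬ IsSquare (tr (ww : S2 F) ^ 2 - 4) := by
      rw [tr_ww]
      rintro ⟨r, hr⟩
      apply hns r
      linear_combination (-1 : F) * hr - h3
    rw [← card_cent_nonsplit' h2 ww hx]
    apply Nat.card_congr
    apply Equiv.subtypeEquivRight
    intro y
    rw [Subgroup.mem_centralizer_iff]
    constructor
    · intro h z hz
      rw [Set.mem_singleton_iff] at hz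
      rw [hz, h]
    · intro h
      exact (h ww rfl).symm
  rw [Nat.card_congr (Equiv.subtypeEquivRight hiff), card_or_disj, card_ww_part2 h2 h3 hns hodd2 hq,
    hcent]
  · obtain ⟨m, hm⟩ : ∃ m, Fintype.card F = m + 1 := ⟨Fintype.card F - 1, by omega⟩
    rw [hm]
    have e0 : 2 * (m + 1) - 1 = 2 * m + 1 := by omega
    rw [e0]
    ring
  · rintro y h ⟨h', -⟩
    exact h' ((comm_ww_iff y).1 h)

end Fin

end Cfsg.Agent.Lib.Helper45.Sl2Odd
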