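import Mathlib
import Cfsg.Agent.Lib.Helper45.Sl2Odd6

set_option autoImplicit false
set_option linter.unusedSimpArgs false
set_option linter.unusedVariables false
set_option linter.unusedSectionVars false

/-!
`SL₂(3^p)`, `p` an odd prime: the number `ngz x` of `y` lying with `x` in a proper subgroup
containing the center, for the four kinds of `x`.
-/

namespace Cfsg.Agent.Lib.Helper45.Sl2Odd

open Matrix Cfsg.Agent.S0809 Cfsg.Agent.Lib.Helper19.Dk Cfsg.Agent.Lib.Helper45.Sl2Even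

section Fld

variable {F : Type*} [Field F]

/-- diagonalization of a split element -/
theorem exists_conj_dd' (x : S2 F) (hns : ¬ IsSc x) (e : F) (he : e ^ 2 - tr x * e + 1 = 0)
    (he1 : e ^ 2 ≠ 1) : ∃ g : S2 F, ∃ he0 : e ≠ 0, g * x * g⁻¹ = dd e he0 := by
  obtain ⟨g₁, hg₁⟩ := Cfsg.Agent.S0804.exists_conj_10 x hns
  have ht₁ : tr (g₁ * x * g₁⁻¹) = tr x := tr_conj g₁ x
  obtain ⟨x₁, hx₁⟩ : ∃ x₁ : S2 F, x₁ = g₁ * x * g₁⁻¹ := ⟨_, rfl⟩
  rw [← hx₁] at hg₁ ht₁
  have hd₁ := det2 x₁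
  have hP : (e - x₁ 1 1) * 0 - (-(x₁ 1 0)⁻¹) * x₁ 1 0 = 1 := by
    rw [neg_mul, inv_mul_cancel₀ hg₁]; ring
  obtain ⟨P, hPdef⟩ : ∃ P : S2 F, P = mk2 (e - x₁ 1 1) (-(x₁ 1 0)⁻¹) (x₁ 1 0) 0 hP := ⟨_, rfl⟩
  have p00 : P 0 0 = e - x₁ 1 1 := by rw [hPdef]; rfl
  have p01 : P 0 1 = -(x₁ 1 0)⁻¹ := by rw [hPdef]; rfl
  have p10 : P 1 0 = x₁ 1 0 := by rw [hPdef]; rfl
  have p11 : P 1 1 = 0 := by rw [hPdef]; rfl
  obtain ⟨m, hm⟩ : ∃ m : S2 F, m = P⁻¹ * x₁ * P := ⟨_, rfl⟩
  have htm : tr m = tr x := by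
    have := tr_conj P⁻¹ x₁
    rw [inv_inv] at this
    rw [hm, this, ht₁]
  unfold tr at ht₁ he
  have m10 : m 1 0 = 0 := by
    rw [hm]
    simp only [mul00, mul01, mul10, mul11, inv00, inv01, inv10, inv11, p00, p01, p10, p11]
    linear_combination x₁ 1 0 * he - x₁ 1 0 * e * ht₁ + x₁ 1 0 * hd₁
  have m00 : m 0 0 = e := by
    rw [hm]
    simp only [mul00, mul01, mul10, mul11, inv00, inv01, inv10, inv11, p00, p01, p10, p11]
    field_simp
    ring
  have he0 : e ≠ 0 := by rw [← m00]; exact bor_00_ne m m10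
  have m11 : m 1 1 = e⁻¹ := by rw [bor_11 m m10, m00]
  have hef : e * e⁻¹ = 1 := mul_inv_cancel₀ he0
  have hdiff : e - e⁻¹ ≠ 0 := by
    intro h
    apply he1
    linear_combination e * h + hef
  obtain ⟨t, ht⟩ : ∃ t : F, t * (e - e⁻¹) = m 0 1 :=
    ⟨m 0 1 / (e - e⁻¹), div_mul_cancel₀ _ hdiff⟩
  refine ⟨uu t * P⁻¹ * g₁, he0, ?_⟩
  have e1 : uu t * P⁻¹ * g₁ * x * (uu t * P⁻¹ * g₁)⁻¹ = uu t * m * (uu t)⁻¹ := by
    rw [hm, hx₁]; group
  rw [e1, uu_inv]
  have d00 : (dd e he0) 0 0 = e := rfl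
  have d01 : (dd e he0) 0 1 = 0 := rfl
  have d10 : (dd e he0) 1 0 = 0 := rfl
  have d11 : (dd e he0) 1 1 = e⁻¹ := rfl
  apply ext2
  · simp only [mul00, mul01, mul10, mul11, uu_00, uu_01, uu_10, uu_11, m10, m00, m11, d00]
    ring
  · simp only [mul00, mul01, mul10, mul11, uu_00, uu_01, uu_10, uu_11, m10, m00, m11, d01]
    linear_combination -ht
  · simp only [mul00, mul01, mul10, mul11, uu_00, uu_01, uu_10, uu_11, m10, m00, m11, d10]
    ring
  · simp only [mul00, mul01, mul10, mul11, uu_00, uu_01, uu_10, uu_11, m10, m00, m11, d11]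
    ring

/-- an eigenvalue `≠ ±1` of an element whose discriminant is a nonzero square -/
theorem split_data (h2 : (2 : F) ≠ 0) (x : S2 F) (δ : F) (hδ : tr x ^ 2 - 4 = δ * δ)
    (hδ0 : δ ≠ 0) : ∃ e : F, e ^ 2 - tr x * e + 1 = 0 ∧ e ^ 2 ≠ 1 := by
  have he : ((tr x + δ) / 2) ^ 2 - tr x * ((tr x + δ) / 2) + 1 = 0 := by
    field_simp
    linear_combination (-1 : F) * hδ
  refine ⟨(tr x + δ) / 2, he, ?_⟩
  intro h1
  obtain ⟨e, hedef⟩ : ∃ e : F, e = (tr x + δ) / 2 := ⟨_, rfl⟩
  rw [← hedef] at he h1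
  have hte : tr x * e = 2 := by linear_combination h1 - he
  have h4 : tr x ^ 2 = 4 := by
    linear_combination (-(tr x) ^ 2) * h1 + (tr x * e + 2) * hte
  rw [h4, sub_self] at hδ
  rcases mul_eq_zero.1 hδ.symm with h | h <;> exact hδ0 h

theorem isSc_sq_of_pow_two (x : S2 F) (h : x ^ 2 = 1) : IsSc (x * x) := by
  rw [← pow_two, h]
  exact isSc_one

theorem isSc_sq_of_pow_four (h2 : (2 : F) ≠ 0) (x : S2 F) (h : x ^ 4 = 1) : IsSc (x * x) := by
  have h1 : (x * x) * (x * x) = 1 := by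
    rw [← h]
    simp only [← pow_two, ← pow_mul]
    norm_num
  rcases sq_eq_one h2 _ h1 with h' | h'
  · rw [h']; exact isSc_one
  · rw [h']; exact isSc_negOne

theorem pow_six_of_tr_sq [CharP F 3] (x : S2 F) (h : tr x ^ 2 = 4) : x ^ 6 = 1 := by
  have : Fact (Nat.Prime 3) := ⟨Nat.prime_three⟩
  have h5 : (tr x - 2) * (tr x + 2) = 0 := by linear_combination h
  rcases mul_eq_zero.1 h5 with h' | h'
  · have h3 := pow_char_of_tr 3 x (by linear_combination h')
    rw [show (6 : ℕ) = 3 * 2 from rfl, pow_mul, h3, one_pow]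
  · have h3 := pow_char_of_tr 3 (negOne * x) (by rw [tr_negOne_mul']; linear_combination (-1 : F) * h')
    have h6 : (negOne * x) ^ 6 = 1 := by
      rw [show (6 : ℕ) = 3 * 2 from rfl, pow_mul, h3, one_pow]
    rw [Commute.mul_pow (negOne_mul x)] at h6
    have hn : (negOne : S2 F) ^ 6 = 1 := by
      rw [show (6 : ℕ) = 2 * 3 from rfl, pow_mul, pow_two, negOne_sq, one_pow]
    rw [hn, one_mul] at h6
    exact h6

end Fld

section Fin

variable {F : Type*} [Field F] [Fintype F]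

/-- conjugation to the standard element of trace `0` -/
theorem exists_conj_ww (hns : ∀ a : F, a ^ 2 ≠ -1) (hodd2 : Fintype.card F % 2 = 1) (x : S2 F)
    (hx : tr x = 0) : ∃ g : S2 F, g * x * g⁻¹ = ww := by
  have hd := det2 x
  unfold tr at hx
  have hc : x 1 0 ≠ 0 := by
    intro h
    apply hns (x 0 0)
    rw [h] at hd
    linear_combination x 0 0 * hx - hd
  obtain ⟨A, B, hAB⟩ := FiniteField.exists_root_sum_quadratic
      (f := Polynomial.C 1 * Polynomial.X ^ 2 + Polynomial.C 0 * Polynomial.X + Polynomial.C 0)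
      (g := Polynomial.C 1 * Polynomial.X ^ 2 + Polynomial.C 0 * Polynomial.X
        + Polynomial.C (x 1 0))
      (Polynomial.degree_quadratic one_ne_zero) (Polynomial.degree_quadratic one_ne_zero) hodd2
  simp only [Polynomial.eval_add, Polynomial.eval_mul, Polynomial.eval_C, Polynomial.eval_pow,
    Polynomial.eval_X] at hAB
  have hAB' : A ^ 2 + B ^ 2 = -(x 1 0) := by linear_combination hAB
  obtain ⟨V, hV⟩ : ∃ V : F, x 1 0 * V = A + x 0 0 * B :=
    ⟨(A + x 0 0 * B) / x 1 0, by field_simp⟩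
  have hQ : (x 0 0 * V + x 0 1 * B) * B - V * (x 1 0 * V + x 1 1 * B) = 1 := by
    have h5 : x 1 0 * ((x 0 0 * V + x 0 1 * B) * B - V * (x 1 0 * V + x 1 1 * B) - 1) = 0 := by
      linear_combination (-1 : F) * hAB' - A * B * hx - B ^ 2 * hd
        + ((x 0 0 - x 1 1) * B - (x 1 0 * V + A + x 0 0 * B)) * hV
    rcases mul_eq_zero.1 h5 with h | h
    · exact absurd h hc
    · linear_combination h
  obtain ⟨h, hh⟩ : ∃ h : S2 F,
      h = mk2 (x 0 0 * V + x 0 1 * B) V (x 1 0 * V + x 1 1 * B) B hQ := ⟨_, rfl⟩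
  have h00 : h 0 0 = x 0 0 * V + x 0 1 * B := by rw [hh]; rfl
  have h01 : h 0 1 = V := by rw [hh]; rfl
  have h10 : h 1 0 = x 1 0 * V + x 1 1 * B := by rw [hh]; rfl
  have h11 : h 1 1 = B := by rw [hh]; rfl
  refine ⟨h⁻¹, ?_⟩
  have key : x * h = h * ww := by
    apply ext2 <;> simp only [mul00, mul01, mul10, mul11, h00, h01, h10, h11, ww_00, ww_01, ww_10,
      ww_11]
    · linear_combination (V * x 0 0 + x 0 1 * B) * hx - V * hd
    · ring
    · linear_combination (x 1 0 * V + x 1 1 * B) * hx - B * hd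
    · ring
  calc h⁻¹ * x * h⁻¹⁻¹ = h⁻¹ * (x * h) := by group
    _ = h⁻¹ * (h * ww) := by rw [key]
    _ = ww := by group

/-- the number of `y` lying with `x` in a proper subgroup containing the center -/
noncomputable def ngz (x : S2 F) : ℕ := Nat.card {y : S2 F // NG x y}

theorem ngz_conj (g x : S2 F) : ngz (g * x * g⁻¹) = ngz x := by
  unfold ngz
  apply Nat.card_congr
  refine Equiv.subtypeEquiv (MulAut.conj g⁻¹).toEquiv (fun y => ?_)
  have h := ng_conj g⁻¹ (g * x * g⁻¹) y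
  have e : g⁻¹ * (g * x * g⁻¹) * g⁻¹⁻¹ = x := by group
  rw [e] at h
  exact h.symm

theorem ngz_negOne_mul (x : S2 F) : ngz (negOne * x) = ngz x :=
  Nat.card_congr (Equiv.subtypeEquivRight (fun y => ng_center_mul_left negOne_mem_center))

variable (p : ℕ) (hp : p.Prime) (hodd : Odd p) (hF : Fintype.card F = 3 ^ p)
include hp hodd hF

theorem card_mod_two : Fintype.card F % 2 = 1 := by
  rw [hF]
  have := three_pow_mod8 p hodd
  omega

theorem card_mod_three : Fintype.card F % 3 = 0 := by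
  rw [hF]
  apply Nat.mod_eq_zero_of_dvd
  exact dvd_pow_self 3 hp.ne_zero

/-- elements of trace `0` -/
theorem ngz_tr0 (x : S2 F) (hx : tr x = 0) :
    ngz x = 2 * (Fintype.card F * (Fintype.card F + 1)) := by
  obtain ⟨h3, h2, hns⟩ := char_facts p hodd hF
  have hodd2 := card_mod_two p hp hodd hF
  obtain ⟨g, hg⟩ := exists_conj_ww hns hodd2 x hx
  rw [← ngz_conj g x, hg]
  unfold ngz
  rw [Nat.card_congr (Equiv.subtypeEquivRight (ng_tr0_iff p hp hodd hF ww tr_ww))]
  exact card_ww_set h2 h3 hns hodd2 (le_of_lt (card_gt_three p hp hodd hF))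

theorem ngz_unip1 (x : S2 F) (hsc : ¬ IsSc x) (hx3 : x ^ 3 = 1) :
    ngz x = Fintype.card F * (Fintype.card F + 5) := by
  obtain ⟨h3, h2, hns⟩ := char_facts p hodd hF
  have : Fact (Nat.Prime 3) := ⟨Nat.prime_three⟩
  have : CharP F 3 := charP_of_card_eq_prime_pow hF
  have htr : tr x = 2 := tr_of_pow_char 3 x hx3
  obtain ⟨g, b, hb, hg⟩ := exists_conj_uu x htr hsc
  rw [← ngz_conj g x, hg]
  unfold ngz
  rw [Nat.card_congr (Equiv.subtypeEquivRight (ng_uu_iff p hp hodd hF b hb))]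
  exact card_uu_set' h2 h3 b hb

/-- elements whose cube is central -/
theorem ngz_unip (x : S2 F) (hsc : ¬ IsSc x) (hx3 : IsSc (x ^ 3)) :
    ngz x = Fintype.card F * (Fintype.card F + 5) := by
  rcases isSc_eq _ hx3 with h | h
  · exact ngz_unip1 p hp hodd hF x hsc h
  · rw [← ngz_negOne_mul x]
    apply ngz_unip1 p hp hodd hF
    · exact fun h' => hsc (isSc_negOne_mul x h')
    · rw [Commute.mul_pow (negOne_mul x), h]
      have hn : (negOne : S2 F) ^ 3 = negOne := by
        rw [show (3 : ℕ) = 2 + 1 from rfl, pow_succ, pow_two, negOne_sq, one_mul]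
      rw [hn, negOne_sq]

/-- elements of order dividing `q - 1` modulo the center -/
theorem ngz_split (x : S2 F) (hsc2 : ¬ IsSc (x * x)) (hpow : IsSc (x ^ (Fintype.card F - 1))) :
    ngz x = 2 * (Fintype.card F * (Fintype.card F - 1)) := by
  obtain ⟨h3, h2, hns⟩ := char_facts p hodd hF
  have : Fact (Nat.Prime 3) := ⟨Nat.prime_three⟩
  have : CharP F 3 := charP_of_card_eq_prime_pow hF
  have hq3 := card_gt_three p hp hodd hF
  have hm3 := card_mod_three p hp hodd hF
  have hsc : ¬ IsSc x := by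
    intro h
    apply hsc2
    rw [isSc_mul_self x h]
    exact isSc_one
  have hx2 : x ^ (2 * (Fintype.card F - 1)) = 1 := by
    rw [mul_comm, pow_mul, pow_two]
    exact isSc_mul_self _ hpow
  have hd2 := orderOf_dvd_of_pow_eq_one hx2
  have hsplit : ∃ e : F, e ^ 2 - tr x * e + 1 = 0 ∧ e ^ 2 ≠ 1 := by
    by_cases hsq : IsSquare (tr x ^ 2 - 4)
    · obtain ⟨δ, hδ⟩ := hsq
      by_cases hδ0 : δ = 0
      · exfalso
        apply hsc2
        apply isSc_sq_of_pow_two
        have h4 : tr x ^ 2 = 4 := by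
          rw [hδ0] at hδ
          linear_combination hδ
        have hd6 := orderOf_dvd_of_pow_eq_one (pow_six_of_tr_sq x h4)
        apply orderOf_dvd_iff_pow_eq_one.1
        have hle : orderOf x ≤ 6 := Nat.le_of_dvd (by norm_num) hd6
        have hpos : 0 < orderOf x := Nat.pos_of_dvd_of_pos hd6 (by norm_num)
        have hn3 : ¬ 3 ∣ 2 * (Fintype.card F - 1) := by omega
        interval_cases h : orderOf x
        · exact one_dvd _
        · exact dvd_refl _
        · exact absurd hd2 hn3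
        · norm_num at hd6
        · norm_num at hd6
        · exact absurd (dvd_trans (by norm_num) hd2) hn3
      · exact split_data h2 x δ hδ hδ0
    · exfalso
      apply hsc2
      apply isSc_sq_of_pow_four h2
      have hc := card_cent_nonsplit' h2 x hsq
      have hxc : x ∈ Subgroup.centralizer ({x} : Set (S2 F)) := by
        rw [Subgroup.mem_centralizer_iff]
        intro z hz
        rw [Set.mem_singleton_iff] at hz
        rw [hz]
      have h5 : orderOf x ∣ Fintype.card F + 1 := by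
        rw [← hc]
        have := orderOf_dvd_natCard (⟨x, hxc⟩ : Subgroup.centralizer ({x} : Set (S2 F)))
        rwa [Subgroup.orderOf_mk] at this
      apply orderOf_dvd_iff_pow_eq_one.1
      have h6 := Nat.dvd_sub (dvd_mul_of_dvd_right h5 2) hd2
      have e4 : 2 * (Fintype.card F + 1) - 2 * (Fintype.card F - 1) = 4 := by omega
      rwa [e4] at h6
  obtain ⟨e, he, he1⟩ := hsplit
  obtain ⟨g, he0, hg⟩ := exists_conj_dd' x hsc e he he1
  rw [← ngz_conj g x, hg]
  unfold ngz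
  rw [Nat.card_congr (Equiv.subtypeEquivRight (ng_dd_iff p hp hodd hF e he0 he1))]
  exact card_dd_set

/-- elements of order dividing `q + 1` modulo the center -/
theorem ngz_nonsplit (x : S2 F) (hsc2 : ¬ IsSc (x * x))
    (hpow : IsSc (x ^ (Fintype.card F + 1))) : ngz x = 2 * (Fintype.card F + 1) := by
  obtain ⟨h3, h2, hns⟩ := char_facts p hodd hF
  have : Fact (Nat.Prime 3) := ⟨Nat.prime_three⟩
  have : CharP F 3 := charP_of_card_eq_prime_pow hF
  have hq3 := card_gt_three p hp hodd hF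
  have hm3 := card_mod_three p hp hodd hF
  have hsc : ¬ IsSc x := by
    intro h
    apply hsc2
    rw [isSc_mul_self x h]
    exact isSc_one
  have hx2 : x ^ (2 * (Fintype.card F + 1)) = 1 := by
    rw [mul_comm, pow_mul, pow_two]
    exact isSc_mul_self _ hpow
  have hd2 := orderOf_dvd_of_pow_eq_one hx2
  have htr : tr x ≠ 0 := by
    intro h
    apply hsc2
    rw [sq_of_tr_zero' x h]
    exact isSc_negOne
  have hnsq : ¬ IsSquare (tr x ^ 2 - 4) := by
    rintro ⟨δ, hδ⟩
    apply hsc2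
    by_cases hδ0 : δ = 0
    · apply isSc_sq_of_pow_two
      have h4 : tr x ^ 2 = 4 := by
        rw [hδ0] at hδ
        linear_combination hδ
      have hd6 := orderOf_dvd_of_pow_eq_one (pow_six_of_tr_sq x h4)
      apply orderOf_dvd_iff_pow_eq_one.1
      have hle : orderOf x ≤ 6 := Nat.le_of_dvd (by norm_num) hd6
      have hpos : 0 < orderOf x := Nat.pos_of_dvd_of_pos hd6 (by norm_num)
      have hn3 : ¬ 3 ∣ 2 * (Fintype.card F + 1) := by omega
      interval_cases h : orderOf x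
      · exact one_dvd _
      · exact dvd_refl _
      · exact absurd hd2 hn3
      · norm_num at hd6
      · norm_num at hd6
      · exact absurd (dvd_trans (by norm_num) hd2) hn3
    · apply isSc_sq_of_pow_four h2
      obtain ⟨e, he, he1⟩ := split_data h2 x δ hδ hδ0
      obtain ⟨g, he0, hg⟩ := exists_conj_dd' x hsc e he he1
      have h5 : x ^ (Fintype.card F - 1) = 1 := by
        have h6 : (g * x * g⁻¹) ^ (Fintype.card F - 1) = 1 := by rw [hg]; exact dd_pow_card e he0
        rw [conj_pow] at h6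
        have : x ^ (Fintype.card F - 1) = g⁻¹ * (g * x ^ (Fintype.card F - 1) * g⁻¹) * g := by
          group
        rw [this, h6]; group
      have hd1 := orderOf_dvd_of_pow_eq_one h5
      apply orderOf_dvd_iff_pow_eq_one.1
      have h6 := Nat.dvd_sub hd2 (dvd_mul_of_dvd_right hd1 2)
      have e4 : 2 * (Fintype.card F + 1) - 2 * (Fintype.card F - 1) = 4 := by omega
      rwa [e4] at h6
  unfold ngz
  rw [Nat.card_congr (Equiv.subtypeEquivRight (ng_ns_iff p hp hodd hF x hnsq htr))]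
  exact card_Nrm_ns' h2 x hnsq

end Fin

end Cfsg.Agent.Lib.Helper45.Sl2Odd
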