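import Mathlib

set_option autoImplicit false

/-!
A `2`-transitive permutation group of degree at least `9` that contains all even products of
the transpositions of a perfect matching (of all points but one) contains a `3`-cycle.
-/

namespace Cfsg.Agent.Lib.Helper45.SylMax

open Equiv Equiv.Perm

variable {α : Type*} [Fintype α] [DecidableEq α]

/-- `J` is an involution with unique fixed point `c`, and the products of two of its
transpositions lie in `M`. -/
def GoodInv (M : Subgroup (Perm α)) (J : Perm α) (c : α) : Prop :=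
  (∀ x, J (J x) = x) ∧ J c = c ∧ (∀ x, x ≠ c → J x ≠ x) ∧
    ∀ x y, x ≠ c → y ≠ c → swap x (J x) * swap y (J y) ∈ M

omit [Fintype α] in
theorem GoodInv.conj {M : Subgroup (Perm α)} {J : Perm α} {c : α} (h : GoodInv M J c)
    (g : Perm α) (hg : g ∈ M) : GoodInv M (g * J * g⁻¹) (g c) := by
  obtain ⟨h1, h2, h3, h4⟩ := h
  have key : ∀ x, (g * J * g⁻¹) x = g (J (g⁻¹ x)) := fun x => rfl
  refine ⟨?_, ?_, ?_, ?_⟩
  · intro x
    rw [key, key]
    simp [h1]
  · rw [key]
    simp [h2]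
  · intro x hx hfix
    rw [key] at hfix
    have h5 : J (g⁻¹ x) = g⁻¹ x := by
      have := congrArg (fun u => g⁻¹ u) hfix
      simpa using this
    have h6 : g⁻¹ x = c := by
      by_contra hne
      exact h3 _ hne h5
    apply hx
    rw [← h6]
    simp
  · intro x y hx hy
    have hx' : g⁻¹ x ≠ c := by
      intro e
      apply hx
      rw [← e]
      simp
    have hy' : g⁻¹ y ≠ c := by
      intro e
      apply hy
      rw [← e]
      simp
    have e1 : swap x ((g * J * g⁻¹) x) = g * swap (g⁻¹ x) (J (g⁻¹ x)) * g⁻¹ := by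
      rw [← swap_apply_apply, key]
      simp
    have e2 : swap y ((g * J * g⁻¹) y) = g * swap (g⁻¹ y) (J (g⁻¹ y)) * g⁻¹ := by
      rw [← swap_apply_apply, key]
      simp
    rw [e1, e2]
    have e3 : g * swap (g⁻¹ x) (J (g⁻¹ x)) * g⁻¹ * (g * swap (g⁻¹ y) (J (g⁻¹ y)) * g⁻¹)
        = g * (swap (g⁻¹ x) (J (g⁻¹ x)) * swap (g⁻¹ y) (J (g⁻¹ y))) * g⁻¹ := by group
    rw [e3]
    exact M.mul_mem (M.mul_mem hg (h4 _ _ hx' hy')) (M.inv_mem hg)

theorem GoodInv.aux {M : Subgroup (Perm α)} (h3 : ∀ σ ∈ M, ¬ σ.IsThreeCycle) {J J' : Perm α}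
    {c c' : α} (h : GoodInv M J c) (h' : GoodInv M J' c') (x : α) (hx : J x = J' x)
    (hxc : J x ≠ x) (a : α) (ha : J a ≠ a) (ha' : J' a ≠ a) (hne : J a ≠ J' a) : False := by
  have hxc1 : x ≠ c := fun e => hxc (by rw [e]; exact h.2.1)
  have hxc2 : x ≠ c' := fun e => hxc (by rw [hx, e]; exact h'.2.1)
  have hac1 : a ≠ c := fun e => ha (by rw [e]; exact h.2.1)
  have hac2 : a ≠ c' := fun e => ha' (by rw [e]; exact h'.2.1)
  have hxa : x ≠ a := by
    intro e
    apply hne
    rw [← e]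
    exact hx
  have hJxa : J x ≠ a := by
    intro e
    apply hne
    rw [← e, h.1, hx, h'.1]
  have hxJa : x ≠ J a := by
    intro e
    apply hJxa
    rw [e, h.1]
  have hJJ : J x ≠ J a := fun e => hxa (J.injective e)
  have hnodup : [x, J x, a, J a].Nodup := by
    simp only [List.nodup_cons, List.mem_cons, List.not_mem_nil, or_false, not_or,
      List.nodup_nil, and_true, not_false_eq_true]
    exact ⟨⟨hxc.symm, hxa, hxJa⟩, ⟨hJxa, hJJ⟩, ha.symm⟩
  have hcomm : swap x (J x) * swap a (J a) = swap a (J a) * swap x (J x) :=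
    (disjoint_swap_swap hnodup).commute.eq
  have ht : swap x (J x) * swap a (J a) ∈ M := h.2.2.2 x a hxc1 hac1
  have ht' : swap x (J x) * swap a (J' a) ∈ M := by
    have := h'.2.2.2 x a hxc2 hac2
    rwa [← hx] at this
  have hprod : swap x (J x) * swap a (J a) * (swap x (J x) * swap a (J' a))
      = swap a (J a) * swap a (J' a) := by
    rw [hcomm]
    calc swap a (J a) * swap x (J x) * (swap x (J x) * swap a (J' a))
        = swap a (J a) * (swap x (J x) * swap x (J x)) * swap a (J' a) := by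
          simp only [mul_assoc]
      _ = swap a (J a) * swap a (J' a) := by rw [swap_mul_self, mul_one]
  have h3c : (swap a (J a) * swap a (J' a)).IsThreeCycle :=
    isThreeCycle_swap_mul_swap_same ha.symm ha'.symm hne
  exact h3 _ (by rw [← hprod]; exact M.mul_mem ht ht') h3c

theorem GoodInv.eq_of_apply_eq {M : Subgroup (Perm α)} (h3 : ∀ σ ∈ M, ¬ σ.IsThreeCycle)
    {J J' : Perm α} {c c' : α} (h : GoodInv M J c) (h' : GoodInv M J' c') (x : α)
    (hx : J x = J' x) (hxc : J x ≠ x) : J = J' := by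
  by_contra hne
  obtain ⟨a, ha⟩ : ∃ a, J a ≠ J' a := by
    by_contra hh
    push Not at hh
    exact hne (Equiv.ext hh)
  by_cases h1 : J a = a
  · have ha'1 : J' a ≠ a := fun e => ha (h1.trans e.symm)
    have hac : a = c := by
      by_contra hh
      exact h.2.2.1 a hh h1
    have h2 : J (J' a) ≠ J' a := h.2.2.1 _ (by rw [← hac]; exact ha'1)
    have h3' : J' (J' a) ≠ J' a := by
      rw [h'.1]
      exact ha'1.symm
    have h4 : J (J' a) ≠ J' (J' a) := by
      rw [h'.1]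
      intro e
      exact ha'1 (J.injective (e.trans h1.symm))
    exact GoodInv.aux h3 h h' x hx hxc (J' a) h2 h3' h4
  · by_cases h2 : J' a = a
    · have hac : a = c' := by
        by_contra hh
        exact h'.2.2.1 a hh h2
      have h5 : J (J a) ≠ J a := by
        rw [h.1]
        exact fun e => h1 e.symm
      have h6 : J' (J a) ≠ J a := h'.2.2.1 _ (by rw [← hac]; exact h1)
      have h7 : J (J a) ≠ J' (J a) := by
        rw [h.1]
        intro e
        exact h1 (J'.injective (e.symm.trans h2.symm))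
      exact GoodInv.aux h3 h h' x hx hxc (J a) h5 h6 h7
    · exact GoodInv.aux h3 h h' x hx hxc a h1 h2 ha

omit [Fintype α] in
theorem exists_goodInv_apply {M : Subgroup (Perm α)}
    (h2t : ∀ a b c d : α, a ≠ b → c ≠ d → ∃ g ∈ M, g a = c ∧ g b = d)
    {j : Perm α} {ω : α} (hj : GoodInv M j ω) (x₁ : α) (hx₁ : x₁ ≠ ω) (a b : α) (hab : a ≠ b) :
    ∃ J c, GoodInv M J c ∧ J a = b := by
  obtain ⟨g, hg, hga, hgb⟩ := h2t x₁ (j x₁) a b (fun e => hj.2.2.1 x₁ hx₁ e.symm) hab
  refine ⟨g * j * g⁻¹, g ω, hj.conj g hg, ?_⟩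
  change g (j (g⁻¹ a)) = b
  rw [← hga]
  simpa using hgb

omit [Fintype α] in
theorem exists_goodInv_center {M : Subgroup (Perm α)}
    (h2t : ∀ a b c d : α, a ≠ b → c ≠ d → ∃ g ∈ M, g a = c ∧ g b = d)
    {j : Perm α} {ω : α} (hj : GoodInv M j ω) (x₁ : α) (hx₁ : x₁ ≠ ω) (c : α) :
    ∃ J, GoodInv M J c := by
  obtain ⟨c₁, hc₁⟩ : ∃ c₁, c ≠ c₁ := by
    by_cases h : c = ω
    · exact ⟨x₁, by rw [h]; exact hx₁.symm⟩
    · exact ⟨ω, h⟩
  obtain ⟨g, hg, hga, _⟩ := h2t ω x₁ c c₁ hx₁.symm hc₁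
  refine ⟨g * j * g⁻¹, ?_⟩
  have := hj.conj g hg
  rwa [hga] at this

theorem GoodInv.inj {M : Subgroup (Perm α)} (h3 : ∀ σ ∈ M, ¬ σ.IsThreeCycle)
    (h2t : ∀ a b c d : α, a ≠ b → c ≠ d → ∃ g ∈ M, g a = c ∧ g b = d)
    {j : Perm α} {ω : α} (hj : GoodInv M j ω) (x₁ : α) (hx₁ : x₁ ≠ ω)
    {J J' : Perm α} {c : α} (h : GoodInv M J c) (h' : GoodInv M J' c) (x x' y : α)
    (hy : y ≠ c) (hx : J x = y) (hx' : J' x' = y) : x = x' := by
  have hex : ∀ u : {u : α // u ≠ y}, ∃ K d, GoodInv M K d ∧ K u.1 = y := fun u =>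
    exists_goodInv_apply h2t hj x₁ hx₁ u.1 y u.2
  choose Kf cf hgood happ using hex
  have hcf : ∀ u : {u : α // u ≠ y}, cf u ≠ y := by
    intro u e
    have h1 : Kf u y = y := by
      rw [← e]
      exact (hgood u).2.1
    have h2 : Kf u (Kf u u.1) = Kf u u.1 := by rw [happ u, h1]
    rw [(hgood u).1, happ u] at h2
    exact u.2 h2
  have huniq : ∀ (u : {u : α // u ≠ y}) (K : Perm α) (d : α), GoodInv M K d → K u.1 = y →
      d = cf u := by
    intro u K d hK hKu
    have hKK : K = Kf u := by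
      apply GoodInv.eq_of_apply_eq h3 hK (hgood u) u.1
      · rw [hKu, happ u]
      · rw [hKu]
        exact fun e => u.2 e.symm
    by_contra hne
    apply (hgood u).2.2.1 d hne
    rw [← hKK]
    exact hK.2.1
  have hsurj : Function.Surjective (fun u : {u : α // u ≠ y} => (⟨cf u, hcf u⟩ : {u : α // u ≠ y})) := by
    rintro ⟨d, hd⟩
    obtain ⟨K, hK⟩ := exists_goodInv_center h2t hj x₁ hx₁ d
    have hKy : K y ≠ y := hK.2.2.1 y (fun e => hd e.symm)
    refine ⟨⟨K y, hKy⟩, ?_⟩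
    apply Subtype.ext
    exact (huniq ⟨K y, hKy⟩ K d hK (hK.1 y)).symm
  have hinj := Finite.injective_iff_surjective.2 hsurj
  have hxy : x ≠ y := by
    intro e
    rw [e] at hx
    apply hy
    by_contra hne
    exact h.2.2.1 y hne hx
  have hxy' : x' ≠ y := by
    intro e
    rw [e] at hx'
    apply hy
    by_contra hne
    exact h'.2.2.1 y hne hx'
  have e1 := huniq ⟨x, hxy⟩ J c h hx
  have e2 := huniq ⟨x', hxy'⟩ J' c h' hx'
  have e3 : (⟨cf ⟨x, hxy⟩, hcf _⟩ : {u : α // u ≠ y}) = ⟨cf ⟨x', hxy'⟩, hcf _⟩ := by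
    apply Subtype.ext
    change cf ⟨x, hxy⟩ = cf ⟨x', hxy'⟩
    rw [← e1, ← e2]
  have := hinj e3
  exact congrArg Subtype.val this

theorem GoodInv.fix_of_fix {M : Subgroup (Perm α)} (h3 : ∀ σ ∈ M, ¬ σ.IsThreeCycle)
    (h2t : ∀ a b c d : α, a ≠ b → c ≠ d → ∃ g ∈ M, g a = c ∧ g b = d)
    {j : Perm α} {ω : α} (hj : GoodInv M j ω) (x₁ : α) (hx₁ : x₁ ≠ ω)
    {J : Perm α} {c : α} (h : GoodInv M J c) (x y : α) (hy : y ≠ c) (hx : J x = y)
    (g : Perm α) (hg : g ∈ M) (hgy : g y = y) (hgc : g c = c) : g x = x := by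
  have h' := h.conj g hg
  rw [hgc] at h'
  have hx' : (g * J * g⁻¹) (g x) = y := by
    change g (J (g⁻¹ (g x))) = y
    simp [hx, hgy]
  exact (GoodInv.inj h3 h2t hj x₁ hx₁ h h' x (g x) y hy hx hx').symm

omit [DecidableEq α] in
theorem exists_notMem_of_card_lt (S : Finset α) (h : S.card < Fintype.card α) : ∃ u, u ∉ S := by
  by_contra hcon
  push Not at hcon
  have : S = Finset.univ := Finset.eq_univ_iff_forall.2 hcon
  rw [this, Finset.card_univ] at h
  exact lt_irrefl _ h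

omit [Fintype α] in
theorem swap_swap_fix (a b c d u : α) (h1 : u ≠ a) (h2 : u ≠ b) (h3 : u ≠ c) (h4 : u ≠ d) :
    (swap a b * swap c d) u = u := by
  rw [Perm.mul_apply, swap_apply_of_ne_of_ne h3 h4, swap_apply_of_ne_of_ne h1 h2]

omit [Fintype α] in
theorem swap_swap_left (a b c d : α) (h3 : a ≠ c) (h4 : a ≠ d) :
    (swap a b * swap c d) a = b := by
  rw [Perm.mul_apply, swap_apply_of_ne_of_ne h3 h4, swap_apply_left]

/-- the main result of this file -/
theorem exists_threeCycle (M : Subgroup (Perm α)) (hcard : 9 ≤ Fintype.card α)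
    (h2t : ∀ a b c d : α, a ≠ b → c ≠ d → ∃ g ∈ M, g a = c ∧ g b = d)
    (j : Perm α) (ω : α) (hj : GoodInv M j ω) : ∃ σ ∈ M, σ.IsThreeCycle := by
  by_contra h3
  push Not at h3
  have hjne : ∀ u v, u ≠ v → j u ≠ j v := fun u v h e => h (j.injective e)
  have hjne' : ∀ u v, u ≠ j v → j u ≠ v := by
    intro u v h e
    apply h
    rw [← e, hj.1]
  obtain ⟨x, hx⟩ := exists_notMem_of_card_lt ([ω].toFinset) (by
    exact lt_of_le_of_lt (List.toFinset_card_le _) (by simp; omega))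
  obtain ⟨y, hy⟩ := exists_notMem_of_card_lt ([ω, x, j x].toFinset) (by
    exact lt_of_le_of_lt (List.toFinset_card_le _) (by simp; omega))
  obtain ⟨z, hz⟩ := exists_notMem_of_card_lt ([ω, x, j x, y, j y].toFinset) (by
    exact lt_of_le_of_lt (List.toFinset_card_le _) (by simp; omega))
  simp only [List.mem_toFinset, List.mem_cons, List.not_mem_nil, or_false, not_or] at hx hy hz
  obtain ⟨hyω, hyx, hyx'⟩ := hy
  obtain ⟨hzω, hzx, hzx', hzy, hzy'⟩ := hz
  have hxx' : j x ≠ x := hj.2.2.1 x hx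
  have hyy' : j y ≠ y := hj.2.2.1 y hyω
  have hzz' : j z ≠ z := hj.2.2.1 z hzω
  have hy'x : j y ≠ x := hjne' y x hyx'
  have hy'x' : j y ≠ j x := hjne y x hyx
  have hz'x : j z ≠ x := hjne' z x hzx'
  have hz'x' : j z ≠ j x := hjne z x hzx
  have hz'y : j z ≠ y := hjne' z y hzy'
  have hz'y' : j z ≠ j y := hjne z y hzy
  -- the involution `J` with `J x = y`
  obtain ⟨J, c, hJ, hJx⟩ := exists_goodInv_apply h2t hj x hx x y (fun e => hyx e.symm)
  have hcy : y ≠ c := by
    intro e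
    have h1 : J x = J c := by rw [hJx, e, hJ.2.1]
    exact hyx (by rw [e, ← J.injective h1])
  have hcx : x ≠ c := by
    intro e
    apply hyx
    rw [← hJx, e, hJ.2.1]
  have hJy : J y = x := by rw [← hJx, hJ.1]
  -- `h₃ = (x x')(z z')` moves `x` and fixes `y`, so it moves `c`
  have hh₃ : swap x (j x) * swap z (j z) ∈ M := hj.2.2.2 x z hx hzω
  have hk₃ : swap y (j y) * swap z (j z) ∈ M := hj.2.2.2 y z hyω hzω
  have hc1 : (swap x (j x) * swap z (j z)) c ≠ c := by
    intro hfix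
    have := GoodInv.fix_of_fix h3 h2t hj x hx hJ x y hcy hJx _ hh₃
      (swap_swap_fix _ _ _ _ y hyx hyx' (Ne.symm hzy) (Ne.symm hz'y)) hfix
    rw [swap_swap_left _ _ _ _ (Ne.symm hzx) (Ne.symm hz'x)] at this
    exact hxx' this
  have hc2 : (swap y (j y) * swap z (j z)) c ≠ c := by
    intro hfix
    have := GoodInv.fix_of_fix h3 h2t hj x hx hJ y x hcx hJy _ hk₃
      (swap_swap_fix _ _ _ _ x (Ne.symm hyx) (Ne.symm hy'x) (Ne.symm hzx) (Ne.symm hz'x)) hfix
    rw [swap_swap_left _ _ _ _ (Ne.symm hzy) (Ne.symm hz'y)] at this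
    exact hyy' this
  -- so `c ∈ {x, x', z, z'} ∩ {y, y', z, z'} = {z, z'}`
  have hc3 : c = z ∨ c = j z := by
    by_contra hcon
    push Not at hcon
    by_cases hcx' : c = j x
    · apply hc2
      apply swap_swap_fix
      · exact fun e => hcy e.symm
      · rw [hcx']
        exact Ne.symm hy'x'
      · exact hcon.1
      · exact hcon.2
    · apply hc1
      apply swap_swap_fix
      · exact fun e => hcx e.symm
      · exact hcx'
      · exact hcon.1
      · exact hcon.2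
  -- use a fourth pair `w, w'`
  obtain ⟨w, hw⟩ := exists_notMem_of_card_lt ([ω, x, j x, y, j y, z, j z].toFinset) (by
    exact lt_of_le_of_lt (List.toFinset_card_le _) (by simp; omega))
  simp only [List.mem_toFinset, List.mem_cons, List.not_mem_nil, or_false, not_or] at hw
  obtain ⟨hwω, hwx, hwx', hwy, hwy', hwz, hwz'⟩ := hw
  have hw'x : j w ≠ x := hjne' w x hwx'
  have hw'y : j w ≠ y := hjne' w y hwy'
  have hw'z : j w ≠ z := hjne' w z hwz'
  have hw'z' : j w ≠ j z := hjne w z hwz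
  have hh₄ : swap x (j x) * swap w (j w) ∈ M := hj.2.2.2 x w hx hwω
  have hc4 : (swap x (j x) * swap w (j w)) c ≠ c := by
    intro hfix
    have := GoodInv.fix_of_fix h3 h2t hj x hx hJ x y hcy hJx _ hh₄
      (swap_swap_fix _ _ _ _ y hyx hyx' (Ne.symm hwy) (Ne.symm hw'y)) hfix
    rw [swap_swap_left _ _ _ _ (Ne.symm hwx) (Ne.symm hw'x)] at this
    exact hxx' this
  apply hc4
  rcases hc3 with e | e
  · rw [e]
    exact swap_swap_fix _ _ _ _ z hzx hzx' (Ne.symm hwz) (Ne.symm hw'z)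
  · rw [e]
    exact swap_swap_fix _ _ _ _ (j z) hz'x hz'x' (Ne.symm hwz') (Ne.symm hw'z')

end Cfsg.Agent.Lib.Helper45.SylMax
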