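import Mathlib
import Cfsg.Agent.Lib.Helper45.SylMax3

set_option autoImplicit false

/-!
Generation of the alternating group by the even parts of the centralizer of a
fixed-point-free involution and of the stabilizer of a partition into two large parts.
-/

namespace Cfsg.Agent.Lib.Helper45.SylMax

open Equiv Equiv.Perm

variable {α : Type*} [Fintype α] [DecidableEq α]

/-- Jordan: a `2`-transitive group containing a `3`-cycle contains the alternating group. -/
theorem alt_le_of_two_trans (M : Subgroup (Perm α))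
    (h2t : ∀ a b c d : α, a ≠ b → c ≠ d → ∃ g ∈ M, g a = c ∧ g b = d)
    (σ : Perm α) (hσ : σ ∈ M) (h3 : σ.IsThreeCycle) : alternatingGroup α ≤ M := by
  have h2 : MulAction.IsMultiplyPretransitive M α 2 := by
    rw [MulAction.is_two_pretransitive_iff]
    intro a b c d hab hcd
    obtain ⟨g, hg, h1, h2⟩ := h2t a b c d hab hcd
    exact ⟨⟨g, hg⟩, h1, h2⟩
  have hprim : MulAction.IsPreprimitive M α := MulAction.isPreprimitive_of_is_two_pretransitive h2
  exact alternatingGroup_le_of_isPreprimitive_of_isThreeCycle_mem hprim h3 hσ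

omit [Fintype α] in
theorem swap_mem_iff (B : Set α) (a b x : α) (h : a ∈ B ↔ b ∈ B) :
    swap a b x ∈ B ↔ x ∈ B := by
  rw [swap_apply_def]
  split_ifs with h1 h2
  · rw [h1]
    exact h.symm
  · rw [h2]
    exact h
  · rfl

omit [Fintype α] in
theorem swap_mem_iff_in (B : Set α) (a b x : α) (ha : a ∈ B) (hb : b ∈ B) :
    swap a b x ∈ B ↔ x ∈ B :=
  swap_mem_iff B a b x ⟨fun _ => hb, fun _ => ha⟩

omit [Fintype α] in
theorem swap_mem_iff_out (B : Set α) (a b x : α) (ha : a ∉ B) (hb : b ∉ B) :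
    swap a b x ∈ B ↔ x ∈ B :=
  swap_mem_iff B a b x ⟨fun h => absurd h ha, fun h => absurd h hb⟩

theorem sign_swap_swap (a b c d : α) (hab : a ≠ b) (hcd : c ≠ d) :
    sign (swap a b * swap c d) = 1 := by
  rw [Perm.sign_mul, sign_swap hab, sign_swap hcd]
  rfl

section Gen

variable (p : Perm α) (hp1 : ∀ x, p (p x) = x) (hp2 : ∀ x, p x ≠ x) (B : Set α)
  (hB : ∀ S : Finset α, S.card ≤ 3 → ∃ u ∈ B, u ∉ S)
  (hBc : ∀ S : Finset α, S.card ≤ 3 → ∃ u, u ∉ B ∧ u ∉ S)
  (g₁ : Perm α) (hg₁ : ∀ x, g₁ x ∈ B ↔ x ∉ B)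
  (M : Subgroup (Perm α))
  (hMa : ∀ σ : Perm α, sign σ = 1 → σ * p = p * σ → σ ∈ M)
  (hMb : ∀ σ : Perm α, sign σ = 1 →
    ((∀ x, σ x ∈ B ↔ x ∈ B) ∨ (∀ x, σ x ∈ B ↔ x ∉ B)) → σ ∈ M)

include hBc hMb in
theorem gen_adj (g : Perm α) (hg : (∀ x, g x ∈ B ↔ x ∈ B) ∨ (∀ x, g x ∈ B ↔ x ∉ B)) (u v : α) :
    ∃ g' ∈ M, g' u = g u ∧ g' v = g v := by
  rcases Int.units_eq_one_or (sign g) with h | h
  · exact ⟨g, hMb g h hg, rfl, rfl⟩
  · obtain ⟨z, hzB, hz⟩ := hBc [u, v].toFinset (le_trans (List.toFinset_card_le _) (by simp))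
    obtain ⟨z', hz'B, hz'⟩ := hBc [u, v, z].toFinset
      (le_trans (List.toFinset_card_le _) (by simp))
    simp only [List.mem_toFinset, List.mem_cons, List.not_mem_nil, or_false, not_or] at hz hz'
    have hzz' : z ≠ z' := fun e => hz'.2.2 e.symm
    refine ⟨g * swap z z', hMb _ ?_ ?_, ?_, ?_⟩
    · rw [Perm.sign_mul, h, sign_swap hzz']
      rfl
    · rcases hg with hg | hg
      · left
        intro x
        rw [Perm.mul_apply, hg, swap_mem_iff_out B z z' x hzB hz'B]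
      · right
        intro x
        rw [Perm.mul_apply, hg, swap_mem_iff_out B z z' x hzB hz'B]
    · rw [Perm.mul_apply, swap_apply_of_ne_of_ne (fun e => hz.1 e.symm) (fun e => hz'.1 e.symm)]
    · rw [Perm.mul_apply, swap_apply_of_ne_of_ne (fun e => hz.2 e.symm) (fun e => hz'.2.1 e.symm)]

include hBc hMb in
theorem gen_good_in (b₁ b₂ : α) (hb₁ : b₁ ∈ B) (hb₂ : b₂ ∈ B) (hb : b₁ ≠ b₂) (u v : α)
    (hu : u ∈ B) (hv : v ∈ B) (huv : u ≠ v) : ∃ g ∈ M, g u = b₁ ∧ g v = b₂ := by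
  have hc₁ : swap u b₁ v ∈ B := (swap_mem_iff_in B u b₁ v hu hb₁).2 hv
  have hc₁b : b₁ ≠ swap u b₁ v := by
    intro e
    have h1 : swap u b₁ u = swap u b₁ v := by rw [swap_apply_left]; exact e
    exact huv ((swap u b₁).injective h1)
  obtain ⟨g', hg', h1, h2⟩ := gen_adj B hBc M hMb (swap (swap u b₁ v) b₂ * swap u b₁)
    (Or.inl (fun x => by
      rw [Perm.mul_apply, swap_mem_iff_in B _ _ _ hc₁ hb₂, swap_mem_iff_in B _ _ _ hu hb₁])) u v
  refine ⟨g', hg', ?_, ?_⟩
  · rw [h1, Perm.mul_apply, swap_apply_left, swap_apply_of_ne_of_ne hc₁b hb]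
  · rw [h2, Perm.mul_apply, swap_apply_left]

include hp1 hp2 hB hBc hg₁ hMa hMb in
theorem gen_good (b₁ b₂ : α) (hb₁ : b₁ ∈ B) (hb₂ : b₂ ∈ B) (hb : b₁ ≠ b₂) (u v : α)
    (huv : u ≠ v) : ∃ g ∈ M, g u = b₁ ∧ g v = b₂ := by
  -- the cross case with `p v ≠ u`
  have cross : ∀ u v : α, u ∈ B → v ∉ B → p v ≠ u → ∃ g ∈ M, g u = b₁ ∧ g v = b₂ := by
    intro u v hu hv hpv
    obtain ⟨y, hyB, hy⟩ := hB [u, p u, p v].toFinset
      (le_trans (List.toFinset_card_le _) (by simp))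
    simp only [List.mem_toFinset, List.mem_cons, List.not_mem_nil, or_false, not_or] at hy
    obtain ⟨hyu, hypu, hypv⟩ := hy
    have hvy : v ≠ y := fun e => hv (e ▸ hyB)
    have huv : u ≠ v := fun e => hv (e ▸ hu)
    have hvpy : v ≠ p y := by
      intro e
      apply hypv
      rw [e, hp1]
    have hupy : u ≠ p y := by
      intro e
      apply hypu
      rw [e, hp1]
    have hpvpy : p v ≠ p y := fun e => hvy (p.injective e)
    have hnodup : [v, y, p v, p y].Nodup := by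
      simp only [List.nodup_cons, List.mem_cons, List.not_mem_nil, or_false, not_or,
        List.nodup_nil, and_true, not_false_eq_true]
      exact ⟨⟨hvy, (hp2 v).symm, hvpy⟩, ⟨hypv, (hp2 y).symm⟩, hpvpy⟩
    have hcomm : swap v y * swap (p v) (p y) = swap (p v) (p y) * swap v y :=
      (disjoint_swap_swap hnodup).commute.eq
    have hσM : swap v y * swap (p v) (p y) ∈ M := by
      apply hMa _ (sign_swap_swap _ _ _ _ hvy hpvpy)
      have e1 : p * swap v y * p⁻¹ = swap (p v) (p y) := (swap_apply_apply p v y).symm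
      have e2 : p * swap (p v) (p y) * p⁻¹ = swap v y := by
        rw [← swap_apply_apply, hp1, hp1]
      have e3 : p * (swap v y * swap (p v) (p y)) * p⁻¹ = swap v y * swap (p v) (p y) := by
        have : p * (swap v y * swap (p v) (p y)) * p⁻¹
            = (p * swap v y * p⁻¹) * (p * swap (p v) (p y) * p⁻¹) := by group
        rw [this, e1, e2, hcomm]
      calc swap v y * swap (p v) (p y) * p
          = p * (swap v y * swap (p v) (p y)) * p⁻¹ * p := by rw [e3]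
        _ = p * (swap v y * swap (p v) (p y)) := by group
    obtain ⟨g, hg, h1, h2⟩ := gen_good_in B hBc M hMb b₁ b₂ hb₁ hb₂ hb u y hu hyB
      (fun e => hyu e.symm)
    refine ⟨g * (swap v y * swap (p v) (p y)), M.mul_mem hg hσM, ?_, ?_⟩
    · rw [Perm.mul_apply, swap_swap_fix _ _ _ _ u huv (fun e => hyu e.symm) (Ne.symm hpv) hupy, h1]
    · rw [Perm.mul_apply, swap_swap_left _ _ _ _ (hp2 v).symm hvpy, h2]
  -- the general cross case
  have cross' : ∀ u v : α, u ∈ B → v ∉ B → ∃ g ∈ M, g u = b₁ ∧ g v = b₂ := by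
    intro u v hu hv
    by_cases hpv : p v = u
    · obtain ⟨v', hv'B, hv'⟩ := hBc [v].toFinset (le_trans (List.toFinset_card_le _) (by simp))
      obtain ⟨v'', hv''B, hv''⟩ := hBc [v, v'].toFinset
        (le_trans (List.toFinset_card_le _) (by simp))
      obtain ⟨v''', hv'''B, hv'''⟩ := hBc [v, v', v''].toFinset
        (le_trans (List.toFinset_card_le _) (by simp))
      simp only [List.mem_toFinset, List.mem_cons, List.not_mem_nil, or_false, not_or]
        at hv' hv'' hv'''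
      have hhM : swap v v' * swap v'' v''' ∈ M := by
        apply hMb _ (sign_swap_swap _ _ _ _ (Ne.symm hv') (Ne.symm hv'''.2.2))
        left
        intro x
        rw [Perm.mul_apply, swap_mem_iff_out B _ _ _ hv hv'B, swap_mem_iff_out B _ _ _ hv''B hv'''B]
      have hpv' : p v' ≠ u := by
        intro e
        exact hv' (p.injective (e.trans hpv.symm))
      obtain ⟨g, hg, h1, h2⟩ := cross u v' hu hv'B hpv'
      refine ⟨g * (swap v v' * swap v'' v'''), M.mul_mem hg hhM, ?_, ?_⟩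
      · rw [Perm.mul_apply, swap_swap_fix _ _ _ _ u (ne_of_mem_of_not_mem hu hv)
          (ne_of_mem_of_not_mem hu hv'B) (ne_of_mem_of_not_mem hu hv''B)
          (ne_of_mem_of_not_mem hu hv'''B), h1]
      · rw [Perm.mul_apply, swap_swap_left _ _ _ _ (Ne.symm hv''.1) (Ne.symm hv'''.1), h2]
    · exact cross u v hu hv hpv
  by_cases hu : u ∈ B
  · by_cases hv : v ∈ B
    · exact gen_good_in B hBc M hMb b₁ b₂ hb₁ hb₂ hb u v hu hv huv
    · exact cross' u v hu hv
  · obtain ⟨g', hg', h1, h2⟩ := gen_adj B hBc M hMb g₁ (Or.inr hg₁) u v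
    have hu' : g' u ∈ B := by rw [h1]; exact (hg₁ u).2 hu
    have huv' : g' u ≠ g' v := fun e => huv (g'.injective e)
    by_cases hv : v ∈ B
    · have hv' : g' v ∉ B := by
        rw [h2]
        exact fun h => ((hg₁ v).1 h) hv
      obtain ⟨g, hg, h3, h4⟩ := cross' (g' u) (g' v) hu' hv'
      exact ⟨g * g', M.mul_mem hg hg', h3, h4⟩
    · have hv' : g' v ∈ B := by rw [h2]; exact (hg₁ v).2 hv
      obtain ⟨g, hg, h3, h4⟩ := gen_good_in B hBc M hMb b₁ b₂ hb₁ hb₂ hb (g' u) (g' v) hu' hv' huv'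
      exact ⟨g * g', M.mul_mem hg hg', h3, h4⟩

include hp1 hp2 hB hBc hg₁ hMa hMb in
/-- the generation lemma -/
theorem gen_alt_le : alternatingGroup α ≤ M := by
  obtain ⟨b₁, hb₁, -⟩ := hB ∅ (by simp)
  obtain ⟨b₂, hb₂, hb₂'⟩ := hB [b₁].toFinset (le_trans (List.toFinset_card_le _) (by simp))
  obtain ⟨b₃, hb₃, hb₃'⟩ := hB [b₁, b₂].toFinset (le_trans (List.toFinset_card_le _) (by simp))
  simp only [List.mem_toFinset, List.mem_cons, List.not_mem_nil, or_false, not_or] at hb₂' hb₃'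
  have hgood := gen_good p hp1 hp2 B hB hBc g₁ hg₁ M hMa hMb b₁ b₂ hb₁ hb₂ (Ne.symm hb₂')
  have h2t : ∀ a b c d : α, a ≠ b → c ≠ d → ∃ g ∈ M, g a = c ∧ g b = d := by
    intro a b c d hab hcd
    obtain ⟨g, hg, h1, h2⟩ := hgood a b hab
    obtain ⟨g', hg', h3, h4⟩ := hgood c d hcd
    refine ⟨g'⁻¹ * g, M.mul_mem (M.inv_mem hg') hg, ?_, ?_⟩
    · rw [Perm.mul_apply, h1, ← h3]
      simp
    · rw [Perm.mul_apply, h2, ← h4]
      simp
  have h3c : (swap b₁ b₂ * swap b₁ b₃).IsThreeCycle :=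
    isThreeCycle_swap_mul_swap_same (Ne.symm hb₂') (Ne.symm hb₃'.1) (Ne.symm hb₃'.2)
  have hmem : swap b₁ b₂ * swap b₁ b₃ ∈ M := by
    apply hMb _ (sign_swap_swap _ _ _ _ (Ne.symm hb₂') (Ne.symm hb₃'.1))
    left
    intro x
    rw [Perm.mul_apply, swap_mem_iff_in B _ _ _ hb₁ hb₂, swap_mem_iff_in B _ _ _ hb₁ hb₃]
  exact alt_le_of_two_trans M h2t _ hmem h3c

end Gen

end Cfsg.Agent.Lib.Helper45.SylMax
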