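import Mathlib
import Cfsg.Agent.Lib.Helper45.SylMax2
import Cfsg.Agent.Lib.Helper45.SylMax4

set_option autoImplicit false

/-!
`n = 2^k + 1`: a Sylow `2`-subgroup of `S_n` or `A_n` lies in a unique maximal subgroup,
the stabilizer of its fixed point.
-/

namespace Cfsg.Agent.Lib.Helper45.SylMax

open Equiv Equiv.Perm
open scoped Pointwise

section Match

variable {α : Type*} [DecidableEq α]

omit [DecidableEq α] in
/-- permutations moving each point within its orbit under the involution `j` -/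
def matchSub (j : Perm α) (hj : ∀ x, j (j x) = x) : Subgroup (Perm α) where
  carrier := {σ | ∀ x, σ x = x ∨ σ x = j x}
  one_mem' := fun _ => Or.inl rfl
  mul_mem' := by
    intro σ τ hσ hτ x
    rw [Perm.mul_apply]
    rcases hτ x with h | h
    · rw [h]
      exact hσ x
    · rw [h]
      rcases hσ (j x) with h' | h'
      · exact Or.inr h'
      · left
        rw [h', hj]
  inv_mem' := by
    intro σ hσ x
    rcases hσ (σ⁻¹ x) with h | h
    · left
      have : σ (σ⁻¹ x) = x := by simp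
      rw [this] at h
      exact h.symm
    · right
      have : σ (σ⁻¹ x) = x := by simp
      rw [this] at h
      exact ((congrArg j h).trans (hj _)).symm

omit [DecidableEq α] in
theorem mem_matchSub (j : Perm α) (hj : ∀ x, j (j x) = x) (σ : Perm α) :
    σ ∈ matchSub j hj ↔ ∀ x, σ x = x ∨ σ x = j x := Iff.rfl

omit [DecidableEq α] in
theorem matchSub_sq (j : Perm α) (hj : ∀ x, j (j x) = x) (σ : Perm α)
    (hσ : σ ∈ matchSub j hj) : σ * σ = 1 := by
  ext x
  rw [Perm.mul_apply, Perm.one_apply]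
  rcases hσ x with h | h
  · rw [h, h]
  · rcases hσ (j x) with h' | h'
    · have h1 : j x = x := σ.injective (h'.trans h.symm)
      rw [h, h', h1]
    · rw [h, h', hj]

theorem swap_mem_matchSub (j : Perm α) (hj : ∀ x, j (j x) = x) (x : α) :
    swap x (j x) ∈ matchSub j hj := by
  intro u
  rw [swap_apply_def]
  split_ifs with h1 h2
  · right
    rw [h1]
  · right
    rw [h2, hj]
  · left
    rfl

theorem GoodInv.conj' {M N : Subgroup (Perm α)} {J : Perm α} {c : α} (h : GoodInv M J c)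
    (g : Perm α) (hg : ∀ σ ∈ M, g * σ * g⁻¹ ∈ N) : GoodInv N (g * J * g⁻¹) (g c) := by
  obtain ⟨h1, h2, h3, h4⟩ := h
  have key : ∀ x, (g * J * g⁻¹) x = g (J (g⁻¹ x)) := fun x => rfl
  refine ⟨?_, ?_, ?_, ?_⟩
  · intro x
    rw [key, key]
    simp [h1]
  · rw [key]
    simp [h2]
  · intro x hx hfix
    rw [key] at hfix
    have h5 : J (g⁻¹ x) = g⁻¹ x := by
      have := congrArg (fun u => g⁻¹ u) hfix
      simpa using this
    have h6 : g⁻¹ x = c := by
      by_contra hne
      exact h3 _ hne h5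
    apply hx
    rw [← h6]
    simp
  · intro x y hx hy
    have hx' : g⁻¹ x ≠ c := by
      intro e
      apply hx
      rw [← e]
      simp
    have hy' : g⁻¹ y ≠ c := by
      intro e
      apply hy
      rw [← e]
      simp
    have e1 : swap x ((g * J * g⁻¹) x) = g * swap (g⁻¹ x) (J (g⁻¹ x)) * g⁻¹ := by
      rw [← swap_apply_apply, key]
      simp
    have e2 : swap y ((g * J * g⁻¹) y) = g * swap (g⁻¹ y) (J (g⁻¹ y)) * g⁻¹ := by
      rw [← swap_apply_apply, key]
      simp
    rw [e1, e2]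
    have e3 : g * swap (g⁻¹ x) (J (g⁻¹ x)) * g⁻¹ * (g * swap (g⁻¹ y) (J (g⁻¹ y)) * g⁻¹)
        = g * (swap (g⁻¹ x) (J (g⁻¹ x)) * swap (g⁻¹ y) (J (g⁻¹ y))) * g⁻¹ := by group
    rw [e3]
    exact hg _ (h4 _ _ hx' hy')

end Match

variable {n : ℕ}

/-- an involution of `Fin n`, `n` odd, with exactly one fixed point -/
theorem exists_matching (hodd : Odd n) :
    ∃ (j : Perm (Fin n)) (ω : Fin n), (∀ x, j (j x) = x) ∧ j ω = ω ∧ ∀ x, x ≠ ω → j x ≠ x := by
  obtain ⟨h, rfl⟩ := hodd
  obtain ⟨j, hj⟩ := (Equiv.Perm.exists_with_cycleType_iff (Fin (2 * h + 1))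
    (m := Multiset.replicate h 2)).2 ⟨by simp [mul_comm], by
      intro a ha
      rw [Multiset.eq_of_mem_replicate ha]⟩
  have hj2 : j ^ 2 = 1 := by
    apply orderOf_dvd_iff_pow_eq_one.1
    rw [← lcm_cycleType, hj]
    apply Multiset.lcm_dvd.2
    intro b hb
    rw [Multiset.eq_of_mem_replicate hb]
  have hcard : j.support.card = 2 * h := by
    rw [← sum_cycleType, hj]
    simp [mul_comm]
  have hcompl : j.supportᶜ.card = 1 := by
    rw [Finset.card_compl, hcard, Fintype.card_fin]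
    omega
  obtain ⟨ω, hω⟩ := Finset.card_eq_one.1 hcompl
  refine ⟨j, ω, ?_, ?_, ?_⟩
  · intro x
    have := congrArg (fun f : Perm (Fin (2 * h + 1)) => f x) hj2
    simpa [pow_two] using this
  · have : ω ∈ j.supportᶜ := by
      rw [hω]
      exact Finset.mem_singleton_self ω
    rw [Finset.mem_compl, Equiv.Perm.mem_support, not_not] at this
    exact this
  · intro x hx
    have : x ∉ j.supportᶜ := by
      rw [hω, Finset.mem_singleton]
      exact hx
    rw [Finset.mem_compl, not_not, Equiv.Perm.mem_support] at this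
    exact this

/-- for `n` odd, any overgroup in `A_n` of a Sylow `2`-subgroup contains the even part of a
matching group -/
theorem exists_goodInv (hodd : Odd n) (R : Sylow 2 (alternatingGroup (Fin n)))
    (M : Subgroup (alternatingGroup (Fin n))) (hRM : (R : Subgroup _) ≤ M) :
    ∃ (J : Perm (Fin n)) (c : Fin n), GoodInv (img M) J c := by
  obtain ⟨j, ω, hj1, hj2, hj3⟩ := exists_matching hodd
  have hQ : IsPGroup 2 ((matchSub j hj1).subgroupOf (alternatingGroup (Fin n))) := by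
    rintro ⟨g, hg⟩
    refine ⟨1, Subtype.ext (Subtype.ext ?_)⟩
    rw [Subgroup.mem_subgroupOf] at hg
    change (g : Perm (Fin n)) ^ 2 ^ 1 = 1
    rw [pow_one, pow_two]
    exact matchSub_sq j hj1 _ hg
  obtain ⟨g, hg⟩ := exists_conj_mem_sylow R _ hQ
  have h0 : GoodInv ((matchSub j hj1) ⊓ alternatingGroup (Fin n)) j ω := by
    refine ⟨hj1, hj2, hj3, ?_⟩
    intro x y hx hy
    exact Subgroup.mem_inf.2
      ⟨(matchSub j hj1).mul_mem (swap_mem_matchSub j hj1 x) (swap_mem_matchSub j hj1 y),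
        mem_alternatingGroup.2
          (sign_swap_swap _ _ _ _ (fun e => hj3 x hx e.symm) (fun e => hj3 y hy e.symm))⟩
  refine ⟨(g : Perm (Fin n)) * j * (g : Perm (Fin n))⁻¹, (g : Perm (Fin n)) ω, h0.conj' _ ?_⟩
  rintro σ ⟨hσ1, hσ2⟩
  have h1 : (⟨σ, hσ2⟩ : alternatingGroup (Fin n)) ∈
      (matchSub j hj1).subgroupOf (alternatingGroup (Fin n)) := by
    rw [Subgroup.mem_subgroupOf]
    exact hσ1
  have h2 := hRM (hg _ h1)
  have h3 := (coe_mem_img M _).2 h2
  exact h3

/-- a group containing a subgroup that fixes `α` and is transitive on the other points, and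
moving `α`, is `2`-transitive -/
theorem two_trans_of_fix_trans (M T : Subgroup (Perm (Fin n))) (hTM : T ≤ M) (α : Fin n)
    (hα : ∀ t ∈ T, t α = α) (htr : ∀ x y, x ≠ α → y ≠ α → ∃ t ∈ T, t x = y)
    (m : Perm (Fin n)) (hm : m ∈ M) (hmα : m α ≠ α) :
    ∀ a b c d : Fin n, a ≠ b → c ≠ d → ∃ g ∈ M, g a = c ∧ g b = d := by
  have step1 : ∀ u, ∃ g ∈ M, g u = α := by
    intro u
    by_cases hu : u = α
    · exact ⟨1, M.one_mem, by rw [hu]; rfl⟩
    · obtain ⟨t, ht, htu⟩ := htr (m α) u hmα hu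
      refine ⟨(t * m)⁻¹, M.inv_mem (M.mul_mem (hTM ht) hm), ?_⟩
      rw [← htu]
      simp
  have step2 : ∀ u v, u ≠ v → ∃ g ∈ M, g u = α ∧ g v = m α := by
    intro u v huv
    obtain ⟨g₁, hg₁, h1⟩ := step1 u
    have hv : g₁ v ≠ α := by
      intro e
      exact huv (g₁.injective (h1.trans e.symm))
    obtain ⟨t, ht, htv⟩ := htr (g₁ v) (m α) hv hmα
    exact ⟨t * g₁, M.mul_mem (hTM ht) hg₁, by rw [Perm.mul_apply, h1, hα t ht],
      by rw [Perm.mul_apply, htv]⟩
  intro a b c d hab hcd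
  obtain ⟨g, hg, h1, h2⟩ := step2 a b hab
  obtain ⟨g', hg', h3, h4⟩ := step2 c d hcd
  refine ⟨g'⁻¹ * g, M.mul_mem (M.inv_mem hg') hg, ?_, ?_⟩
  · rw [Perm.mul_apply, h1, ← h3]
    simp
  · rw [Perm.mul_apply, h2, ← h4]
    simp

/-- `n = 2^k + 1`: the symmetric group -/
theorem unique_perm (k : ℕ) (hk : 2 ≤ k) (hn : n = 2 ^ k + 1) (T : Sylow 2 (Perm (Fin n))) :
    ∃! M : Subgroup (Perm (Fin n)), IsCoatom M ∧ (T : Subgroup (Perm (Fin n))) ≤ M := by
  have h4 : 4 ≤ 2 ^ k := by
    calc 4 = 2 ^ 2 := by norm_num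
      _ ≤ 2 ^ k := Nat.pow_le_pow_right (by norm_num) hk
  obtain ⟨α, hα, htr⟩ := fix_trans k (by omega) hn T
  have : Nontrivial (Fin n) := Fin.nontrivial_iff_two_le.2 (by omega)
  apply existsUnique_coatom _ (MulAction.stabilizer (Perm (Fin n)) α)
    (MulAction.IsPreprimitive.isCoatom_stabilizer_of_isPreprimitive _ α)
  · intro t ht
    rw [MulAction.mem_stabilizer_iff]
    exact hα t ht
  · intro M hM hTM
    by_contra hnot
    obtain ⟨m, hm, hmα⟩ : ∃ m ∈ M, m α ≠ α := by
      by_contra hcon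
      push Not at hcon
      apply hnot
      intro m hm
      rw [MulAction.mem_stabilizer_iff]
      exact hcon m hm
    have h2t := two_trans_of_fix_trans M _ hTM α hα htr m hm hmα
    obtain ⟨a, b, hab, hsw⟩ := exists_swap_mem (by omega) T
    apply hM.1
    rw [eq_top_iff, ← Equiv.Perm.closure_isSwap, Subgroup.closure_le]
    rintro σ ⟨u, v, huv, rfl⟩
    obtain ⟨g, hg, h1, h2⟩ := h2t a b u v hab huv
    rw [SetLike.mem_coe, ← h1, ← h2, swap_apply_apply]
    exact M.mul_mem (M.mul_mem hg (hTM hsw)) (M.inv_mem hg)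

end Cfsg.Agent.Lib.Helper45.SylMax
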