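import Mathlib
import Cfsg.Agent.Lib.Helper45.SylMax5

set_option autoImplicit false

/-!
`n = 2^k + 1`: a Sylow `2`-subgroup of `A_n` lies in a unique maximal subgroup.
-/

namespace Cfsg.Agent.Lib.Helper45.SylMax

open Equiv Equiv.Perm
open scoped Pointwise

/-- the Klein four-group on `{0,1,2,3}` inside `Perm (Fin 5)` -/
def kleinFive : Subgroup (Perm (Fin 5)) where
  carrier := {σ | σ = 1 ∨ σ = swap 0 1 * swap 2 3 ∨ σ = swap 0 2 * swap 1 3 ∨
    σ = swap 0 3 * swap 1 2}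
  one_mem' := Or.inl rfl
  mul_mem' := by
    rintro σ τ (rfl | rfl | rfl | rfl) (rfl | rfl | rfl | rfl) <;>
      simp only [Set.mem_ofPred_eq] <;> decide
  inv_mem' := by
    rintro σ (rfl | rfl | rfl | rfl) <;> simp only [Set.mem_ofPred_eq] <;> decide

theorem mem_kleinFive (σ : Perm (Fin 5)) : σ ∈ kleinFive ↔
    (σ = 1 ∨ σ = swap 0 1 * swap 2 3 ∨ σ = swap 0 2 * swap 1 3 ∨ σ = swap 0 3 * swap 1 2) :=
  Iff.rfl

theorem kleinFive_sq (σ : Perm (Fin 5)) (h : σ ∈ kleinFive) : σ * σ = 1 := by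
  rcases h with rfl | rfl | rfl | rfl <;> decide

theorem kleinFive_sign (σ : Perm (Fin 5)) (h : σ ∈ kleinFive) : sign σ = 1 := by
  rcases h with rfl | rfl | rfl | rfl
  · simp
  · exact sign_swap_swap _ _ _ _ (by decide) (by decide)
  · exact sign_swap_swap _ _ _ _ (by decide) (by decide)
  · exact sign_swap_swap _ _ _ _ (by decide) (by decide)

theorem kleinFive_mem : ∀ a b c d : Fin 5, a ≠ 4 → b ≠ 4 → c ≠ 4 → d ≠ 4 → a ≠ b → a ≠ c →
    a ≠ d → b ≠ c → b ≠ d → c ≠ d →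
    (swap a b * swap c d = 1 ∨ swap a b * swap c d = swap 0 1 * swap 2 3 ∨
      swap a b * swap c d = swap 0 2 * swap 1 3 ∨ swap a b * swap c d = swap 0 3 * swap 1 2) := by
  decide

theorem five_fix : ∀ i : Fin 5, (swap (0 : Fin 5) 1 * swap 2 3 : Perm (Fin 5)) i = i → i = 4 := by
  decide

theorem five_prod : swap (0 : Fin 5) 1 * swap 2 3 * (swap 1 4 * swap 2 3) = swap 1 0 * swap 1 4 := by
  decide

/-- the case `n = 5` -/
theorem exists_threeCycle_five (R : Sylow 2 (alternatingGroup (Fin 5)))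
    (M' : Subgroup (Perm (Fin 5)))
    (hRM : img (R : Subgroup (alternatingGroup (Fin 5))) ≤ M') (α : Fin 5)
    (hα : ∀ t ∈ img (R : Subgroup (alternatingGroup (Fin 5))), t α = α)
    (h2t : ∀ a b c d : Fin 5, a ≠ b → c ≠ d → ∃ g ∈ M', g a = c ∧ g b = d) :
    ∃ σ ∈ M', σ.IsThreeCycle := by
  have hQ : IsPGroup 2 (kleinFive.subgroupOf (alternatingGroup (Fin 5))) := by
    rintro ⟨g, hg⟩
    refine ⟨1, Subtype.ext (Subtype.ext ?_)⟩
    rw [Subgroup.mem_subgroupOf] at hg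
    change (g : Perm (Fin 5)) ^ 2 ^ 1 = 1
    rw [pow_one, pow_two]
    exact kleinFive_sq _ hg
  obtain ⟨g, hg⟩ := exists_conj_mem_sylow R _ hQ
  have key : ∀ σ ∈ kleinFive, (g : Perm (Fin 5)) * σ * (g : Perm (Fin 5))⁻¹ ∈
      img (R : Subgroup (alternatingGroup (Fin 5))) := by
    intro σ hσ
    have h1 : (⟨σ, mem_alternatingGroup.2 (kleinFive_sign σ hσ)⟩ : alternatingGroup (Fin 5)) ∈
        kleinFive.subgroupOf (alternatingGroup (Fin 5)) := by
      rw [Subgroup.mem_subgroupOf]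
      exact hσ
    exact (coe_mem_img _ _).2 (hg _ h1)
  have hv : swap (0 : Fin 5) 1 * swap 2 3 ∈ kleinFive := Or.inr (Or.inl rfl)
  -- `α = g 4`
  have hg4 : (g : Perm (Fin 5)) 4 = α := by
    have h1 := hα _ (key _ hv)
    have h2 : (swap (0 : Fin 5) 1 * swap 2 3 : Perm (Fin 5)) ((g : Perm (Fin 5))⁻¹ α)
        = (g : Perm (Fin 5))⁻¹ α := by
      have := congrArg (fun u => (g : Perm (Fin 5))⁻¹ u) h1
      simpa using this
    have h3 := five_fix _ h2
    rw [← h3]
    simp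
  have hne : (g : Perm (Fin 5)) 0 ≠ (g : Perm (Fin 5)) 1 := fun e => by
    have := (g : Perm (Fin 5)).injective e
    exact absurd this (by decide)
  have hne' : α ≠ (g : Perm (Fin 5)) 0 := by
    rw [← hg4]
    intro e
    have := (g : Perm (Fin 5)).injective e
    exact absurd this (by decide)
  obtain ⟨g', hg', hg'0, -⟩ := h2t ((g : Perm (Fin 5)) 0) ((g : Perm (Fin 5)) 1) α
    ((g : Perm (Fin 5)) 0) hne hne'
  -- `G = g' g` maps `0` to `α`; `H = g⁻¹ g' g` maps `0` to `4`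
  obtain ⟨G, hG⟩ : ∃ G : Perm (Fin 5), G = g' * (g : Perm (Fin 5)) := ⟨_, rfl⟩
  obtain ⟨H, hH⟩ : ∃ H : Perm (Fin 5), H = (g : Perm (Fin 5))⁻¹ * G := ⟨_, rfl⟩
  have hH0 : H 0 = 4 := by
    rw [hH, hG]
    change (g : Perm (Fin 5))⁻¹ (g' ((g : Perm (Fin 5)) 0)) = 4
    rw [hg'0, ← hg4]
    simp
  have hHne : ∀ i : Fin 5, i ≠ 0 → H i ≠ 4 := by
    intro i hi e
    exact hi (H.injective (e.trans hH0.symm))
  have hHinj : ∀ i j : Fin 5, i ≠ j → H i ≠ H j := fun i j h e => h (H.injective e)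
  have hs : G * (swap (0 : Fin 5) 1 * swap 2 3) * G⁻¹ ∈ M' := by
    have h1 := hRM (key _ hv)
    have h2 : G * (swap (0 : Fin 5) 1 * swap 2 3) * G⁻¹
        = g' * ((g : Perm (Fin 5)) * (swap (0 : Fin 5) 1 * swap 2 3) * (g : Perm (Fin 5))⁻¹) * g'⁻¹ := by
      rw [hG]
      group
    rw [h2]
    exact M'.mul_mem (M'.mul_mem hg' h1) (M'.inv_mem hg')
  have hr : G * (swap (1 : Fin 5) 4 * swap 2 3) * G⁻¹ ∈ M' := by
    have h1 : H * (swap (1 : Fin 5) 4 * swap 2 3) * H⁻¹ ∈ kleinFive := by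
      have h2 : H * (swap (1 : Fin 5) 4 * swap 2 3) * H⁻¹ = swap (H 1) (H 4) * swap (H 2) (H 3) := by
        rw [swap_apply_apply, swap_apply_apply]
        group
      rw [h2]
      exact kleinFive_mem _ _ _ _ (hHne 1 (by decide)) (hHne 4 (by decide)) (hHne 2 (by decide))
        (hHne 3 (by decide)) (hHinj _ _ (by decide)) (hHinj _ _ (by decide))
        (hHinj _ _ (by decide)) (hHinj _ _ (by decide)) (hHinj _ _ (by decide))
        (hHinj _ _ (by decide))
    have h3 := hRM (key _ h1)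
    have h4 : G * (swap (1 : Fin 5) 4 * swap 2 3) * G⁻¹
        = (g : Perm (Fin 5)) * (H * (swap (1 : Fin 5) 4 * swap 2 3) * H⁻¹) * (g : Perm (Fin 5))⁻¹ := by
      rw [hH]
      group
    rw [h4]
    exact h3
  refine ⟨G * (swap (0 : Fin 5) 1 * swap 2 3) * G⁻¹ * (G * (swap (1 : Fin 5) 4 * swap 2 3) * G⁻¹),
    M'.mul_mem hs hr, ?_⟩
  have h5 : G * (swap (0 : Fin 5) 1 * swap 2 3) * G⁻¹ * (G * (swap (1 : Fin 5) 4 * swap 2 3) * G⁻¹)
      = swap (G 1) (G 0) * swap (G 1) (G 4) := by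
    rw [swap_apply_apply, swap_apply_apply]
    have : G * (swap (0 : Fin 5) 1 * swap 2 3) * G⁻¹ * (G * (swap (1 : Fin 5) 4 * swap 2 3) * G⁻¹)
        = G * (swap (0 : Fin 5) 1 * swap 2 3 * (swap 1 4 * swap 2 3)) * G⁻¹ := by group
    rw [this, five_prod]
    group
  rw [h5]
  have hGinj : ∀ i j : Fin 5, i ≠ j → G i ≠ G j := fun i j h e => h (G.injective e)
  exact isThreeCycle_swap_mul_swap_same (hGinj _ _ (by decide)) (hGinj _ _ (by decide))
    (hGinj _ _ (by decide))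

variable {n : ℕ}

/-- `n = 2^k + 1`: the alternating group -/
theorem unique_alt (k : ℕ) (hk : 2 ≤ k) (hn : n = 2 ^ k + 1)
    (R : Sylow 2 (alternatingGroup (Fin n))) :
    ∃! M : Subgroup (alternatingGroup (Fin n)),
      IsCoatom M ∧ (R : Subgroup (alternatingGroup (Fin n))) ≤ M := by
  have h4 : 4 ≤ 2 ^ k := by
    calc 4 = 2 ^ 2 := by norm_num
      _ ≤ 2 ^ k := Nat.pow_le_pow_right (by norm_num) hk
  have hodd : Odd n := by
    rw [hn]
    exact (Nat.even_pow.2 ⟨even_two, by omega⟩).add_one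
  obtain ⟨T, hT⟩ := exists_sylow_perm R
  obtain ⟨α, hα, htr⟩ := fix_trans k (by omega) hn T
  obtain ⟨a, b, hab, hsw⟩ := exists_swap_mem (by omega) T
  obtain ⟨w, hw⟩ := exists_notMem_of_card_lt ([α, a, b].toFinset) (by
    refine lt_of_le_of_lt (List.toFinset_card_le _) ?_
    rw [Fintype.card_fin]
    simp
    omega)
  simp only [List.mem_toFinset, List.mem_cons, List.not_mem_nil, or_false, not_or] at hw
  have htr' := trans_even (T : Subgroup (Perm (Fin n))) α htr a b hab hsw w hw.1 hw.2.1 hw.2.2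
  have hαR : ∀ t ∈ img (R : Subgroup (alternatingGroup (Fin n))), t α = α :=
    fun t ht => hα t ((hT t).1 ht).1
  have htrR : ∀ x y, x ≠ α → y ≠ α →
      ∃ t ∈ img (R : Subgroup (alternatingGroup (Fin n))), t x = y := by
    intro x y hx hy
    obtain ⟨t, ht, hs, htx⟩ := htr' x y hx hy
    exact ⟨t, (hT t).2 ⟨ht, mem_alternatingGroup.2 hs⟩, htx⟩
  have hprim : MulAction.IsPreprimitive (alternatingGroup (Fin n)) (Fin n) :=
    alternatingGroup.isPreprimitive_of_three_le_card (Fin n) (by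
      rw [Nat.card_eq_fintype_card, Fintype.card_fin]
      omega)
  have : Nontrivial (Fin n) := Fin.nontrivial_iff_two_le.2 (by omega)
  apply existsUnique_coatom _ (MulAction.stabilizer (alternatingGroup (Fin n)) α)
    (MulAction.IsPreprimitive.isCoatom_stabilizer_of_isPreprimitive _ α)
  · intro r hr
    rw [MulAction.mem_stabilizer_iff]
    exact hαR _ ((coe_mem_img _ r).2 hr)
  · intro M hM hRM
    by_contra hnot
    obtain ⟨m, hm, hmα⟩ : ∃ m ∈ M, (m : Perm (Fin n)) α ≠ α := by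
      by_contra hcon
      push Not at hcon
      apply hnot
      intro m hm
      rw [MulAction.mem_stabilizer_iff]
      exact hcon m hm
    have h2t := two_trans_of_fix_trans (img M) (img (R : Subgroup (alternatingGroup (Fin n))))
      (img_mono hRM) α hαR htrR m ((coe_mem_img M m).2 hm) hmα
    have h3 : ∃ σ ∈ img M, σ.IsThreeCycle := by
      by_cases h9 : 9 ≤ n
      · obtain ⟨J, c, hJ⟩ := exists_goodInv hodd R M hRM
        exact exists_threeCycle (img M) (by rw [Fintype.card_fin]; exact h9) h2t J c hJ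
      · have hk2 : k = 2 := by
          by_contra hne
          have h8 : 2 ^ 3 ≤ 2 ^ k := Nat.pow_le_pow_right (by norm_num) (by omega)
          omega
        subst hk2
        obtain rfl : n = 5 := by
          rw [hn]
          norm_num
        exact exists_threeCycle_five R (img M) (img_mono hRM) α hαR h2t
    obtain ⟨σ, hσ, h3c⟩ := h3
    exact hM.1 (eq_top_of_alt_le_img M (alt_le_of_two_trans (img M) h2t σ hσ h3c))

end Cfsg.Agent.Lib.Helper45.SylMax
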