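import Mathlib
import Cfsg.Agent.Lib.Helper45.SylMax6

set_option autoImplicit false

/-!
`n ≠ 2^k + 1`: a Sylow `2`-subgroup of `S_n` or `A_n` (`n ≥ 5`, `n ≠ 6`) lies in at least two
maximal subgroups.
-/

namespace Cfsg.Agent.Lib.Helper45.SylMax

open Equiv Equiv.Perm
open scoped Pointwise

section Gen

variable {α : Type*} [DecidableEq α]

omit [DecidableEq α] in
theorem smul_eq_of_pres (s : Set α) (g : Perm α) (h : ∀ x, g x ∈ s ↔ x ∈ s) : g • s = s := by
  ext x
  rw [Set.mem_smul_set_iff_inv_smul_mem]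
  change g⁻¹ x ∈ s ↔ x ∈ s
  rw [← h (g⁻¹ x)]
  simp

omit [DecidableEq α] in
theorem apply_mem_of_smul_eq (s : Set α) (g : Perm α) (h : g • s = s) (x : α) (hx : x ∈ s) :
    g x ∈ s := by
  have : g • x ∈ g • s := Set.smul_mem_smul_set hx
  rw [h] at this
  exact this

/-- permutations preserving the partition `{B, Bᶜ}` -/
def halfSub (B : Set α) : Subgroup (Perm α) where
  carrier := {σ | (∀ x, σ x ∈ B ↔ x ∈ B) ∨ (∀ x, σ x ∈ B ↔ x ∉ B)}
  one_mem' := Or.inl (fun _ => Iff.rfl)
  mul_mem' := by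
    rintro σ τ (hσ | hσ) (hτ | hτ)
    · left
      intro x
      rw [Perm.mul_apply, hσ, hτ]
    · right
      intro x
      rw [Perm.mul_apply, hσ, hτ]
    · right
      intro x
      rw [Perm.mul_apply, hσ, hτ]
    · left
      intro x
      rw [Perm.mul_apply, hσ, hτ, not_not]
  inv_mem' := by
    rintro σ (hσ | hσ)
    · left
      intro x
      rw [← hσ (σ⁻¹ x)]
      simp
    · right
      intro x
      have := hσ (σ⁻¹ x)
      simp only [Perm.coe_inv, apply_symm_apply] at this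
      simp only [Perm.coe_inv]
      tauto

omit [DecidableEq α] in
theorem mem_halfSub (B : Set α) (σ : Perm α) :
    σ ∈ halfSub B ↔ ((∀ x, σ x ∈ B ↔ x ∈ B) ∨ (∀ x, σ x ∈ B ↔ x ∉ B)) := Iff.rfl

variable [Fintype α]

/-- an even permutation commuting with the fixed-point-free involution `p` and mapping `x`
to `y` -/
theorem fpf_sigma (p : Perm α) (hp1 : ∀ x, p (p x) = x) (hp2 : ∀ x, p x ≠ x) (x y : α)
    (hxy : x ≠ y) (hy : y ≠ p x) :
    sign (swap x y * swap (p x) (p y)) = 1 ∧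
      swap x y * swap (p x) (p y) * p = p * (swap x y * swap (p x) (p y)) ∧
      (swap x y * swap (p x) (p y)) x = y := by
  have hxpy : x ≠ p y := by
    intro e
    apply hy
    rw [e, hp1]
  have hpp : p x ≠ p y := fun e => hxy (p.injective e)
  have hnodup : [x, y, p x, p y].Nodup := by
    simp only [List.nodup_cons, List.mem_cons, List.not_mem_nil, or_false, not_or,
      List.nodup_nil, and_true, not_false_eq_true]
    exact ⟨⟨hxy, (hp2 x).symm, hxpy⟩, ⟨hy, (hp2 y).symm⟩, hpp⟩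
  have hcomm : swap x y * swap (p x) (p y) = swap (p x) (p y) * swap x y :=
    (disjoint_swap_swap hnodup).commute.eq
  refine ⟨sign_swap_swap _ _ _ _ hxy hpp, ?_, swap_swap_left _ _ _ _ (hp2 x).symm hxpy⟩
  have e1 : p * swap x y * p⁻¹ = swap (p x) (p y) := (swap_apply_apply p x y).symm
  have e2 : p * swap (p x) (p y) * p⁻¹ = swap x y := by
    rw [← swap_apply_apply, hp1, hp1]
  have e3 : p * (swap x y * swap (p x) (p y)) * p⁻¹ = swap x y * swap (p x) (p y) := by
    have : p * (swap x y * swap (p x) (p y)) * p⁻¹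
        = (p * swap x y * p⁻¹) * (p * swap (p x) (p y) * p⁻¹) := by group
    rw [this, e1, e2, hcomm]
  calc swap x y * swap (p x) (p y) * p
      = p * (swap x y * swap (p x) (p y)) * p⁻¹ * p := by rw [e3]
    _ = p * (swap x y * swap (p x) (p y)) := by group

/-- an even permutation not commuting with `p` -/
theorem three_not_comm (p : Perm α) (hp1 : ∀ x, p (p x) = x) (hp2 : ∀ x, p x ≠ x) (x y : α)
    (hxy : x ≠ y) (hy : y ≠ p x) :
    sign (swap x y * swap x (p x)) = 1 ∧
      swap x y * swap x (p x) * p ≠ p * (swap x y * swap x (p x)) := by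
  refine ⟨sign_swap_swap _ _ _ _ hxy (hp2 x).symm, ?_⟩
  intro e
  have h1 := congrArg (fun f : Perm α => f x) e
  simp only [Perm.mul_apply] at h1
  rw [swap_apply_right, swap_apply_left, swap_apply_left,
    swap_apply_of_ne_of_ne (hp2 x) (Ne.symm hy), hp1] at h1
  exact hxy h1.symm

end Gen

variable {n : ℕ}

theorem orbit_pres (T : Subgroup (Perm (Fin n))) (t : Perm (Fin n)) (ht : t ∈ T) (a x : Fin n) :
    t x ∈ MulAction.orbit T a ↔ x ∈ MulAction.orbit T a := by
  rw [mem_orbit_sub, mem_orbit_sub]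
  constructor
  · rintro ⟨t', ht', h⟩
    refine ⟨t⁻¹ * t', T.mul_mem (T.inv_mem ht) ht', ?_⟩
    rw [Perm.mul_apply, h]
    simp
  · rintro ⟨t', ht', h⟩
    exact ⟨t * t', T.mul_mem ht ht', by rw [Perm.mul_apply, h]⟩

theorem cent_ne_top (p : Perm (Fin n)) (hp1 : ∀ x, p (p x) = x) (hp2 : ∀ x, p x ≠ x)
    (h3 : 3 ≤ n) : Subgroup.centralizer ({p} : Set (Perm (Fin n))) ≠ ⊤ ∧
      (Subgroup.centralizer ({p} : Set (Perm (Fin n)))).subgroupOf (alternatingGroup (Fin n))
        ≠ ⊤ := by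
  obtain ⟨x, hx⟩ : ∃ x : Fin n, x = ⟨0, by omega⟩ := ⟨_, rfl⟩
  obtain ⟨y, hy⟩ := exists_notMem_of_card_lt ([x, p x].toFinset) (by
    refine lt_of_le_of_lt (List.toFinset_card_le _) ?_
    rw [Fintype.card_fin]
    simp
    omega)
  simp only [List.mem_toFinset, List.mem_cons, List.not_mem_nil, or_false, not_or] at hy
  obtain ⟨hs, hnc⟩ := three_not_comm p hp1 hp2 x y (fun e => hy.1 e.symm) hy.2
  constructor
  · intro e
    have h1 : swap x y * swap x (p x) ∈ Subgroup.centralizer ({p} : Set (Perm (Fin n))) := by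
      rw [e]
      exact Subgroup.mem_top _
    rw [Subgroup.mem_centralizer_iff] at h1
    exact hnc (h1 p rfl).symm
  · intro e
    have h1 : (⟨swap x y * swap x (p x), mem_alternatingGroup.2 hs⟩ : alternatingGroup (Fin n)) ∈
        (Subgroup.centralizer ({p} : Set (Perm (Fin n)))).subgroupOf (alternatingGroup (Fin n)) := by
      rw [e]
      exact Subgroup.mem_top _
    rw [Subgroup.mem_subgroupOf, Subgroup.mem_centralizer_iff] at h1
    exact hnc (h1 p rfl).symm

/-! ### `n` odd -/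

theorem odd_data (hn : 5 ≤ n) (hodd : Odd n) (hk : ∀ j, n - 1 ≠ 2 ^ j)
    (T : Sylow 2 (Perm (Fin n))) :
    ∃ (α a b c : Fin n) (O : Set (Fin n)), a ≠ b ∧ a ∈ O ∧ b ∈ O ∧ α ∉ O ∧ c ∉ O ∧ c ≠ α ∧
      (∀ t ∈ (T : Subgroup (Perm (Fin n))), t α = α) ∧
      (∀ t ∈ (T : Subgroup (Perm (Fin n))), ∀ x, t x ∈ O ↔ x ∈ O) := by
  obtain ⟨α, hα⟩ := exists_fixed hodd (T : Subgroup (Perm (Fin n))) T.isPGroup'
  obtain ⟨a, b, hab, hsw⟩ := exists_swap_mem (by omega) T
  have haα : a ≠ α := by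
    intro e
    have := hα _ hsw
    rw [← e, swap_apply_left] at this
    exact hab this.symm
  have hO : ∀ y ∈ MulAction.orbit (T : Subgroup (Perm (Fin n))) a, y ≠ α := by
    intro y hy e
    obtain ⟨t, ht, h⟩ := (mem_orbit_sub _ a y).1 hy
    exact haα (t.injective (h.trans (e.trans (hα t ht).symm)))
  obtain ⟨j, hj⟩ := orbit_ncard (T : Subgroup (Perm (Fin n))) T.isPGroup' a
  have hc : ∃ c, c ∉ MulAction.orbit (T : Subgroup (Perm (Fin n))) a ∧ c ≠ α := by
    by_contra hcon
    push Not at hcon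
    have hOeq : MulAction.orbit (T : Subgroup (Perm (Fin n))) a = {α}ᶜ := by
      ext y
      constructor
      · intro hy
        exact hO y hy
      · intro hy
        by_contra h
        exact hy (hcon y h)
    rw [hOeq, Set.ncard_compl, Set.ncard_singleton, Nat.card_eq_fintype_card, Fintype.card_fin]
      at hj
    exact hk j hj
  obtain ⟨c, hc1, hc2⟩ := hc
  exact ⟨α, a, b, c, MulAction.orbit (T : Subgroup (Perm (Fin n))) a, hab,
    MulAction.mem_orbit_self a,
    (mem_orbit_sub _ a b).2 ⟨swap a b, hsw, swap_apply_left a b⟩, fun h => hO α h rfl, hc1, hc2,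
    hα, fun t ht x => orbit_pres _ t ht a x⟩

theorem not_unique_perm_odd (hn : 5 ≤ n) (hodd : Odd n) (hk : ∀ j, n - 1 ≠ 2 ^ j)
    (T : Sylow 2 (Perm (Fin n))) :
    ¬ ∃! M : Subgroup (Perm (Fin n)), IsCoatom M ∧ (T : Subgroup (Perm (Fin n))) ≤ M := by
  obtain ⟨α, a, b, c, O, hab, haO, hbO, hαO, hcO, hcα, hα, hO⟩ := odd_data hn hodd hk T
  have hn2 : ∀ s : Set (Fin n), Nat.card (Fin n) ≠ 2 * s.ncard := by
    intro s
    rw [Nat.card_eq_fintype_card, Fintype.card_fin]
    intro e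
    exact (Nat.not_even_iff_odd.2 hodd) ⟨s.ncard, by omega⟩
  have hK₁ : IsCoatom (MulAction.stabilizer (Perm (Fin n)) ({α} : Set (Fin n))) :=
    Equiv.Perm.isCoatom_stabilizer (Set.singleton_nonempty α)
      ⟨a, fun h => hαO (by rw [← Set.mem_singleton_iff.1 h]; exact haO)⟩ (hn2 _)
  have hK₂ : IsCoatom (MulAction.stabilizer (Perm (Fin n)) O) :=
    Equiv.Perm.isCoatom_stabilizer ⟨a, haO⟩ ⟨α, hαO⟩ (hn2 _)
  apply not_existsUnique_coatom_of_ne _ _ _ ?_ ?_ hK₁ hK₂ ?_
  · intro t ht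
    rw [MulAction.mem_stabilizer_iff]
    apply smul_eq_of_pres
    intro x
    simp only [Set.mem_singleton_iff]
    constructor
    · intro h
      exact t.injective (h.trans (hα t ht).symm)
    · intro h
      rw [h]
      exact hα t ht
  · intro t ht
    rw [MulAction.mem_stabilizer_iff]
    exact smul_eq_of_pres O t (hO t ht)
  · intro e
    have h1 : swap α c ∈ MulAction.stabilizer (Perm (Fin n)) O := by
      rw [MulAction.mem_stabilizer_iff]
      exact smul_eq_of_pres O _ (fun x => swap_mem_iff_out O α c x hαO hcO)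
    rw [← e, MulAction.mem_stabilizer_iff] at h1
    have h2 := apply_mem_of_smul_eq _ _ h1 α rfl
    rw [swap_apply_left] at h2
    exact hcα h2

theorem not_unique_alt_odd (hn : 5 ≤ n) (hodd : Odd n) (hk : ∀ j, n - 1 ≠ 2 ^ j)
    (R : Sylow 2 (alternatingGroup (Fin n))) :
    ¬ ∃! M : Subgroup (alternatingGroup (Fin n)),
      IsCoatom M ∧ (R : Subgroup (alternatingGroup (Fin n))) ≤ M := by
  obtain ⟨T, hT⟩ := exists_sylow_perm R
  obtain ⟨α, a, b, c, O, hab, haO, hbO, hαO, hcO, hcα, hα, hO⟩ := odd_data hn hodd hk T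
  have hRT : ∀ r ∈ (R : Subgroup (alternatingGroup (Fin n))),
      (r : Perm (Fin n)) ∈ (T : Subgroup (Perm (Fin n))) :=
    fun r hr => ((hT _).1 ((coe_mem_img _ r).2 hr)).1
  have hn2 : ∀ s : Set (Fin n), Nat.card (Fin n) ≠ 2 * s.ncard := by
    intro s
    rw [Nat.card_eq_fintype_card, Fintype.card_fin]
    intro e
    exact (Nat.not_even_iff_odd.2 hodd) ⟨s.ncard, by omega⟩
  have hK₁ : IsCoatom (MulAction.stabilizer (alternatingGroup (Fin n)) ({α} : Set (Fin n))) :=
    alternatingGroup.isCoatom_stabilizer (Set.singleton_nonempty α)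
      ⟨a, fun h => hαO (by rw [← Set.mem_singleton_iff.1 h]; exact haO)⟩ (hn2 _)
  have hK₂ : IsCoatom (MulAction.stabilizer (alternatingGroup (Fin n)) O) :=
    alternatingGroup.isCoatom_stabilizer ⟨a, haO⟩ ⟨α, hαO⟩ (hn2 _)
  apply not_existsUnique_coatom_of_ne _ _ _ ?_ ?_ hK₁ hK₂ ?_
  · intro r hr
    rw [MulAction.mem_stabilizer_iff]
    apply smul_eq_of_pres _ (r : Perm (Fin n))
    intro x
    simp only [Set.mem_singleton_iff]
    constructor
    · intro h
      exact (r : Perm (Fin n)).injective (h.trans (hα _ (hRT r hr)).symm)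
    · intro h
      rw [h]
      exact hα _ (hRT r hr)
  · intro r hr
    rw [MulAction.mem_stabilizer_iff]
    exact smul_eq_of_pres O (r : Perm (Fin n)) (hO _ (hRT r hr))
  · intro e
    have hαa : α ≠ a := fun h => hαO (h ▸ haO)
    have hαb : α ≠ b := fun h => hαO (h ▸ hbO)
    have h1 : (⟨swap α c * swap a b, mem_alternatingGroup.2
        (sign_swap_swap _ _ _ _ (Ne.symm hcα) hab)⟩ : alternatingGroup (Fin n)) ∈
        MulAction.stabilizer (alternatingGroup (Fin n)) O := by
      rw [MulAction.mem_stabilizer_iff]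
      apply smul_eq_of_pres O (swap α c * swap a b)
      intro x
      rw [Perm.mul_apply, swap_mem_iff_out O α c _ hαO hcO, swap_mem_iff_in O a b x haO hbO]
    rw [← e, MulAction.mem_stabilizer_iff] at h1
    have h2 := apply_mem_of_smul_eq _ (swap α c * swap a b) h1 α rfl
    rw [Perm.mul_apply, swap_apply_of_ne_of_ne hαa hαb, swap_apply_left] at h2
    exact hcα h2

end Cfsg.Agent.Lib.Helper45.SylMax
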