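import Mathlib
import Cfsg.Agent.Lib.Helper45.SylMax7

set_option autoImplicit false

/-!
`n` even: a Sylow `2`-subgroup of `S_n` or `A_n` (`n ≥ 8`) lies in at least two maximal
subgroups.
-/

namespace Cfsg.Agent.Lib.Helper45.SylMax

open Equiv Equiv.Perm
open scoped Pointwise

variable {n : ℕ}

/-! ### `n` even, not a power of `2` -/

theorem even_data (hn : 8 ≤ n) (heven : Even n) (hpow : ∀ j, n ≠ 2 ^ j)
    (T : Sylow 2 (Perm (Fin n))) :
    ∃ (p : Perm (Fin n)) (O : Set (Fin n)) (x y : Fin n), (∀ x, p (p x) = x) ∧ (∀ x, p x ≠ x) ∧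
      (∀ t ∈ (T : Subgroup (Perm (Fin n))), t * p = p * t) ∧
      (∀ t ∈ (T : Subgroup (Perm (Fin n))), ∀ u, t u ∈ O ↔ u ∈ O) ∧ O.Nonempty ∧ Oᶜ.Nonempty ∧
      Nat.card (Fin n) ≠ 2 * O.ncard ∧ x ∈ O ∧ y ∉ O ∧ y ≠ p x ∧ x ≠ y := by
  obtain ⟨p, hp1, hp2, hpT⟩ := exists_fpf_commuting heven (by omega)
    (T : Subgroup (Perm (Fin n))) T.isPGroup'
  obtain ⟨x₀, hx₀⟩ : ∃ x₀ : Fin n, x₀ = ⟨0, by omega⟩ := ⟨_, rfl⟩
  obtain ⟨j, hj⟩ := orbit_ncard (T : Subgroup (Perm (Fin n))) T.isPGroup' x₀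
  have hx₀O : x₀ ∈ MulAction.orbit (T : Subgroup (Perm (Fin n))) x₀ := MulAction.mem_orbit_self x₀
  have hOc : (MulAction.orbit (T : Subgroup (Perm (Fin n))) x₀)ᶜ.Nonempty := by
    by_contra hcon
    rw [Set.not_nonempty_iff_eq_empty, Set.compl_empty_iff] at hcon
    rw [hcon, Set.ncard_univ, Nat.card_eq_fintype_card, Fintype.card_fin] at hj
    exact hpow j hj
  have hcard : Nat.card (Fin n) ≠ 2 * (MulAction.orbit (T : Subgroup (Perm (Fin n))) x₀).ncard := by
    rw [Nat.card_eq_fintype_card, Fintype.card_fin, hj, ← pow_succ']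
    exact hpow (j + 1)
  obtain ⟨y₀, hy₀⟩ := hOc
  have hxy : ∃ x y : Fin n, x ∈ MulAction.orbit (T : Subgroup (Perm (Fin n))) x₀ ∧
      y ∉ MulAction.orbit (T : Subgroup (Perm (Fin n))) x₀ ∧ y ≠ p x := by
    by_cases h : y₀ = p x₀
    · obtain ⟨z, hz⟩ := exists_notMem_of_card_lt ([x₀, y₀].toFinset) (by
        refine lt_of_le_of_lt (List.toFinset_card_le _) ?_
        rw [Fintype.card_fin]
        simp
        omega)
      simp only [List.mem_toFinset, List.mem_cons, List.not_mem_nil, or_false, not_or] at hz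
      by_cases hzO : z ∈ MulAction.orbit (T : Subgroup (Perm (Fin n))) x₀
      · refine ⟨z, y₀, hzO, hy₀, ?_⟩
        intro e
        exact hz.1 (p.injective (e.symm.trans h))
      · refine ⟨x₀, z, hx₀O, hzO, ?_⟩
        rw [← h]
        exact hz.2
    · exact ⟨x₀, y₀, hx₀O, hy₀, h⟩
  obtain ⟨x, y, hx, hy, hne⟩ := hxy
  exact ⟨p, MulAction.orbit (T : Subgroup (Perm (Fin n))) x₀, x, y, hp1, hp2, hpT,
    fun t ht u => orbit_pres _ t ht x₀ u, ⟨x₀, hx₀O⟩, ⟨y₀, hy₀⟩, hcard, hx, hy, hne,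
    fun e => hy (e ▸ hx)⟩

theorem not_unique_perm_even (hn : 8 ≤ n) (heven : Even n) (hpow : ∀ j, n ≠ 2 ^ j)
    (T : Sylow 2 (Perm (Fin n))) :
    ¬ ∃! M : Subgroup (Perm (Fin n)), IsCoatom M ∧ (T : Subgroup (Perm (Fin n))) ≤ M := by
  obtain ⟨p, O, x, y, hp1, hp2, hpT, hO, hOne, hOcne, hcard, hx, hy, hne, hxy⟩ :=
    even_data hn heven hpow T
  have hK₂ : IsCoatom (MulAction.stabilizer (Perm (Fin n)) O) :=
    Equiv.Perm.isCoatom_stabilizer hOne hOcne hcard
  obtain ⟨hs, hcomm, hσx⟩ := fpf_sigma p hp1 hp2 x y hxy hne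
  apply not_existsUnique_coatom _ (Subgroup.centralizer ({p} : Set (Perm (Fin n))))
    (MulAction.stabilizer (Perm (Fin n)) O) ?_ ?_ (cent_ne_top p hp1 hp2 (by omega)).1 hK₂.1 ?_
  · intro t ht
    rw [Subgroup.mem_centralizer_iff]
    intro h hh
    rw [Set.mem_singleton_iff.1 hh]
    exact (hpT t ht).symm
  · intro t ht
    rw [MulAction.mem_stabilizer_iff]
    exact smul_eq_of_pres O t (hO t ht)
  · intro M h1 h2
    by_contra hne'
    have hM := (hK₂.le_iff_eq hne').1 h2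
    have h3 : swap x y * swap (p x) (p y) ∈ M := by
      apply h1
      rw [Subgroup.mem_centralizer_iff]
      intro h hh
      rw [Set.mem_singleton_iff.1 hh]
      exact hcomm.symm
    rw [hM, MulAction.mem_stabilizer_iff] at h3
    have h4 := apply_mem_of_smul_eq _ _ h3 x hx
    rw [hσx] at h4
    exact hy h4

theorem not_unique_alt_even (hn : 8 ≤ n) (heven : Even n) (hpow : ∀ j, n ≠ 2 ^ j)
    (R : Sylow 2 (alternatingGroup (Fin n))) :
    ¬ ∃! M : Subgroup (alternatingGroup (Fin n)),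
      IsCoatom M ∧ (R : Subgroup (alternatingGroup (Fin n))) ≤ M := by
  obtain ⟨T, hT⟩ := exists_sylow_perm R
  obtain ⟨p, O, x, y, hp1, hp2, hpT, hO, hOne, hOcne, hcard, hx, hy, hne, hxy⟩ :=
    even_data hn heven hpow T
  have hRT : ∀ r ∈ (R : Subgroup (alternatingGroup (Fin n))),
      (r : Perm (Fin n)) ∈ (T : Subgroup (Perm (Fin n))) :=
    fun r hr => ((hT _).1 ((coe_mem_img _ r).2 hr)).1
  have hK₂ : IsCoatom (MulAction.stabilizer (alternatingGroup (Fin n)) O) :=
    alternatingGroup.isCoatom_stabilizer hOne hOcne hcard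
  obtain ⟨hs, hcomm, hσx⟩ := fpf_sigma p hp1 hp2 x y hxy hne
  apply not_existsUnique_coatom _
    ((Subgroup.centralizer ({p} : Set (Perm (Fin n)))).subgroupOf (alternatingGroup (Fin n)))
    (MulAction.stabilizer (alternatingGroup (Fin n)) O) ?_ ?_
    (cent_ne_top p hp1 hp2 (by omega)).2 hK₂.1 ?_
  · intro r hr
    rw [Subgroup.mem_subgroupOf, Subgroup.mem_centralizer_iff]
    intro h hh
    rw [Set.mem_singleton_iff.1 hh]
    exact (hpT _ (hRT r hr)).symm
  · intro r hr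
    rw [MulAction.mem_stabilizer_iff]
    exact smul_eq_of_pres O (r : Perm (Fin n)) (hO _ (hRT r hr))
  · intro M h1 h2
    by_contra hne'
    have hM := (hK₂.le_iff_eq hne').1 h2
    have h3 : (⟨swap x y * swap (p x) (p y), mem_alternatingGroup.2 hs⟩ :
        alternatingGroup (Fin n)) ∈ M := by
      apply h1
      rw [Subgroup.mem_subgroupOf, Subgroup.mem_centralizer_iff]
      intro h hh
      rw [Set.mem_singleton_iff.1 hh]
      exact hcomm.symm
    rw [hM, MulAction.mem_stabilizer_iff] at h3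
    have h4 := apply_mem_of_smul_eq _ (swap x y * swap (p x) (p y)) h3 x hx
    rw [hσx] at h4
    exact hy h4

/-! ### `n` a power of `2` -/

theorem exists_mem_notMem_of_ncard (C : Set (Fin n)) (hC : 4 ≤ C.ncard) (S : Finset (Fin n))
    (hS : S.card ≤ 3) : ∃ u ∈ C, u ∉ S := by
  by_contra hcon
  push Not at hcon
  have hsub : C ⊆ (S : Set (Fin n)) := fun u hu => hcon u hu
  have := Set.ncard_le_ncard hsub S.finite_toSet
  rw [Set.ncard_coe_finset] at this
  omega

theorem pow_data (a : ℕ) (ha : 3 ≤ a) (hn : n = 2 ^ a) (T : Sylow 2 (Perm (Fin n))) :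
    ∃ (p : Perm (Fin n)) (B : Set (Fin n)) (g₁ : Perm (Fin n)), (∀ x, p (p x) = x) ∧
      (∀ x, p x ≠ x) ∧ (∀ t ∈ (T : Subgroup (Perm (Fin n))), t * p = p * t) ∧
      (∀ t ∈ (T : Subgroup (Perm (Fin n))), t ∈ halfSub B) ∧
      (∀ S : Finset (Fin n), S.card ≤ 3 → ∃ u ∈ B, u ∉ S) ∧
      (∀ S : Finset (Fin n), S.card ≤ 3 → ∃ u, u ∉ B ∧ u ∉ S) ∧ (∀ x, g₁ x ∈ B ↔ x ∉ B) := by
  have h8 : 8 ≤ n := by
    rw [hn]
    calc 8 = 2 ^ 3 := by norm_num
      _ ≤ 2 ^ a := Nat.pow_le_pow_right (by norm_num) ha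
  have heven : Even n := by
    rw [hn]
    exact Nat.even_pow.2 ⟨even_two, by omega⟩
  obtain ⟨p, hp1, hp2, hpT⟩ := exists_fpf_commuting heven (by omega)
    (T : Subgroup (Perm (Fin n))) T.isPGroup'
  have htr := trans_pow a (by omega) hn T
  obtain ⟨B, ⟨x, hx⟩, ⟨y, hy⟩, hB⟩ := exists_halves (T : Subgroup (Perm (Fin n))) T.isPGroup'
    (by omega) htr
  obtain ⟨g₁, hg₁T, hg₁x⟩ := htr x y
  have hflip : ∀ u, g₁ u ∈ B ↔ u ∉ B := by
    rcases hB g₁ hg₁T with h | h
    · exfalso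
      apply hy
      rw [← hg₁x]
      exact (h x).2 hx
    · exact h
  have himg : Bᶜ = g₁ '' B := by
    ext u
    constructor
    · intro hu
      refine ⟨g₁⁻¹ u, ?_, by simp⟩
      by_contra hh
      have := (hflip (g₁⁻¹ u)).2 hh
      simp only [Perm.coe_inv, apply_symm_apply] at this
      exact hu this
    · rintro ⟨v, hv, rfl⟩
      intro hh
      exact ((hflip v).1 hh) hv
  have hc1 : Bᶜ.ncard = B.ncard := by
    rw [himg]
    exact Set.ncard_image_of_injective B g₁.injective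
  have hc2 := Set.ncard_add_ncard_compl B
  rw [Nat.card_eq_fintype_card, Fintype.card_fin, hc1] at hc2
  refine ⟨p, B, g₁, hp1, hp2, hpT, fun t ht => hB t ht, ?_, ?_, hflip⟩
  · intro S hS
    exact exists_mem_notMem_of_ncard B (by omega) S hS
  · intro S hS
    obtain ⟨u, hu, hu'⟩ := exists_mem_notMem_of_ncard Bᶜ (by omega) S hS
    exact ⟨u, hu, hu'⟩

theorem half_ne_top (B : Set (Fin n))
    (hB : ∀ S : Finset (Fin n), S.card ≤ 3 → ∃ u ∈ B, u ∉ S)
    (hBc : ∀ S : Finset (Fin n), S.card ≤ 3 → ∃ u, u ∉ B ∧ u ∉ S) :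
    halfSub B ≠ ⊤ ∧ (halfSub B).subgroupOf (alternatingGroup (Fin n)) ≠ ⊤ := by
  obtain ⟨b, hb, -⟩ := hB ∅ (by simp)
  obtain ⟨b', hb', hbb'⟩ := hB [b].toFinset (le_trans (List.toFinset_card_le _) (by simp))
  obtain ⟨c, hc, -⟩ := hBc ∅ (by simp)
  obtain ⟨c', hc', hcc'⟩ := hBc [c].toFinset (le_trans (List.toFinset_card_le _) (by simp))
  obtain ⟨c'', hc'', hcc''⟩ := hBc [c, c'].toFinset (le_trans (List.toFinset_card_le _) (by simp))
  simp only [List.mem_toFinset, List.mem_cons, List.not_mem_nil, or_false, not_or]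
    at hbb' hcc' hcc''
  have hbc : b ≠ c := ne_of_mem_of_not_mem hb hc
  have hnot : swap b c * swap c' c'' ∉ halfSub B := by
    rintro (h | h)
    · have h1 := (h b).2 hb
      rw [swap_swap_left _ _ _ _ (ne_of_mem_of_not_mem hb hc') (ne_of_mem_of_not_mem hb hc'')] at h1
      exact hc h1
    · have h1 := (h b').1
      rw [swap_swap_fix _ _ _ _ b' hbb' (ne_of_mem_of_not_mem hb' hc)
        (ne_of_mem_of_not_mem hb' hc') (ne_of_mem_of_not_mem hb' hc'')] at h1
      exact h1 hb' hb'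
  have hsign : sign (swap b c * swap c' c'') = 1 :=
    sign_swap_swap _ _ _ _ hbc (fun e => hcc''.2 e.symm)
  constructor
  · intro e
    apply hnot
    rw [e]
    exact Subgroup.mem_top _
  · intro e
    apply hnot
    have h1 : (⟨swap b c * swap c' c'', mem_alternatingGroup.2 hsign⟩ : alternatingGroup (Fin n)) ∈
        (halfSub B).subgroupOf (alternatingGroup (Fin n)) := by
      rw [e]
      exact Subgroup.mem_top _
    rw [Subgroup.mem_subgroupOf] at h1
    exact h1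

theorem not_unique_perm_pow (a : ℕ) (ha : 3 ≤ a) (hn : n = 2 ^ a) (T : Sylow 2 (Perm (Fin n))) :
    ¬ ∃! M : Subgroup (Perm (Fin n)), IsCoatom M ∧ (T : Subgroup (Perm (Fin n))) ≤ M := by
  obtain ⟨p, B, g₁, hp1, hp2, hpT, hTB, hB, hBc, hflip⟩ := pow_data a ha hn T
  have h8 : 8 ≤ n := by
    rw [hn]
    calc 8 = 2 ^ 3 := by norm_num
      _ ≤ 2 ^ a := Nat.pow_le_pow_right (by norm_num) ha
  apply not_existsUnique_coatom _ (Subgroup.centralizer ({p} : Set (Perm (Fin n))))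
    (halfSub B) ?_ hTB (cent_ne_top p hp1 hp2 (by omega)).1 (half_ne_top B hB hBc).1 ?_
  · intro t ht
    rw [Subgroup.mem_centralizer_iff]
    intro h hh
    rw [Set.mem_singleton_iff.1 hh]
    exact (hpT t ht).symm
  · intro M h1 h2
    have halt : alternatingGroup (Fin n) ≤ M := by
      apply gen_alt_le p hp1 hp2 B hB hBc g₁ hflip M
      · intro σ _ hσ
        apply h1
        rw [Subgroup.mem_centralizer_iff]
        intro h hh
        rw [Set.mem_singleton_iff.1 hh]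
        exact hσ.symm
      · intro σ _ hσ
        exact h2 hσ
    obtain ⟨b, hb, -⟩ := hB ∅ (by simp)
    obtain ⟨b', hb', hbb'⟩ := hB [b].toFinset (le_trans (List.toFinset_card_le _) (by simp))
    simp only [List.mem_toFinset, List.mem_cons, List.not_mem_nil, or_false] at hbb'
    have hsw : swap b b' ∈ M := by
      apply h2
      left
      intro x
      exact swap_mem_iff_in B b b' x hb hb'
    rw [eq_top_iff]
    intro σ _
    rcases Int.units_eq_one_or (sign σ) with h | h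
    · exact halt (mem_alternatingGroup.2 h)
    · have h3 : σ * swap b b' ∈ M := by
        apply halt
        rw [mem_alternatingGroup, Perm.sign_mul, h, sign_swap (fun e => hbb' e.symm)]
        rfl
      have h4 : σ = σ * swap b b' * swap b b' := by
        rw [mul_assoc, swap_mul_self, mul_one]
      rw [h4]
      exact M.mul_mem h3 hsw

theorem not_unique_alt_pow (a : ℕ) (ha : 3 ≤ a) (hn : n = 2 ^ a)
    (R : Sylow 2 (alternatingGroup (Fin n))) :
    ¬ ∃! M : Subgroup (alternatingGroup (Fin n)),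
      IsCoatom M ∧ (R : Subgroup (alternatingGroup (Fin n))) ≤ M := by
  obtain ⟨T, hT⟩ := exists_sylow_perm R
  obtain ⟨p, B, g₁, hp1, hp2, hpT, hTB, hB, hBc, hflip⟩ := pow_data a ha hn T
  have hRT : ∀ r ∈ (R : Subgroup (alternatingGroup (Fin n))),
      (r : Perm (Fin n)) ∈ (T : Subgroup (Perm (Fin n))) :=
    fun r hr => ((hT _).1 ((coe_mem_img _ r).2 hr)).1
  have h8 : 8 ≤ n := by
    rw [hn]
    calc 8 = 2 ^ 3 := by norm_num
      _ ≤ 2 ^ a := Nat.pow_le_pow_right (by norm_num) ha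
  apply not_existsUnique_coatom _
    ((Subgroup.centralizer ({p} : Set (Perm (Fin n)))).subgroupOf (alternatingGroup (Fin n)))
    ((halfSub B).subgroupOf (alternatingGroup (Fin n))) ?_ ?_
    (cent_ne_top p hp1 hp2 (by omega)).2 (half_ne_top B hB hBc).2 ?_
  · intro r hr
    rw [Subgroup.mem_subgroupOf, Subgroup.mem_centralizer_iff]
    intro h hh
    rw [Set.mem_singleton_iff.1 hh]
    exact (hpT _ (hRT r hr)).symm
  · intro r hr
    rw [Subgroup.mem_subgroupOf]
    exact hTB _ (hRT r hr)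
  · intro M h1 h2
    apply eq_top_of_alt_le_img
    apply gen_alt_le p hp1 hp2 B hB hBc g₁ hflip (img M)
    · intro σ hs hσ
      have h3 : (⟨σ, mem_alternatingGroup.2 hs⟩ : alternatingGroup (Fin n)) ∈ M := by
        apply h1
        rw [Subgroup.mem_subgroupOf, Subgroup.mem_centralizer_iff]
        intro h hh
        rw [Set.mem_singleton_iff.1 hh]
        exact hσ.symm
      exact (coe_mem_img M _).2 h3
    · intro σ hs hσ
      have h3 : (⟨σ, mem_alternatingGroup.2 hs⟩ : alternatingGroup (Fin n)) ∈ M := by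
        apply h2
        rw [Subgroup.mem_subgroupOf]
        exact hσ
      exact (coe_mem_img M _).2 h3

/-! ### assembly -/

theorem pow_ge_three (a : ℕ) (h : 8 ≤ 2 ^ a) : 3 ≤ a := by
  by_contra hcon
  have h2 : a ≤ 2 := by omega
  have : 2 ^ a ≤ 2 ^ 2 := Nat.pow_le_pow_right (by norm_num) h2
  omega

theorem pow_ge_two (j : ℕ) (h : 4 ≤ 2 ^ j) : 2 ≤ j := by
  by_contra hcon
  have h2 : j ≤ 1 := by omega
  have : 2 ^ j ≤ 2 ^ 1 := Nat.pow_le_pow_right (by norm_num) h2
  omega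

theorem not_unique_perm (hn : 5 ≤ n) (h6 : n ≠ 6) (hk : ¬ ∃ k, 2 ≤ k ∧ n = 2 ^ k + 1)
    (T : Sylow 2 (Perm (Fin n))) :
    ¬ ∃! M : Subgroup (Perm (Fin n)), IsCoatom M ∧ (T : Subgroup (Perm (Fin n))) ≤ M := by
  rcases Nat.even_or_odd n with heven | hodd
  · have h8 : 8 ≤ n := by
      obtain ⟨m, hm⟩ := heven
      omega
    by_cases hpow : ∃ a, n = 2 ^ a
    · obtain ⟨a, ha⟩ := hpow
      exact not_unique_perm_pow a (pow_ge_three a (by omega)) ha T
    · push Not at hpow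
      exact not_unique_perm_even h8 heven hpow T
  · apply not_unique_perm_odd hn hodd _ T
    intro j hj
    apply hk
    exact ⟨j, pow_ge_two j (by omega), by omega⟩

theorem not_unique_alt (hn : 5 ≤ n) (h6 : n ≠ 6) (hk : ¬ ∃ k, 2 ≤ k ∧ n = 2 ^ k + 1)
    (R : Sylow 2 (alternatingGroup (Fin n))) :
    ¬ ∃! M : Subgroup (alternatingGroup (Fin n)),
      IsCoatom M ∧ (R : Subgroup (alternatingGroup (Fin n))) ≤ M := by
  rcases Nat.even_or_odd n with heven | hodd
  · have h8 : 8 ≤ n := by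
      obtain ⟨m, hm⟩ := heven
      omega
    by_cases hpow : ∃ a, n = 2 ^ a
    · obtain ⟨a, ha⟩ := hpow
      exact not_unique_alt_pow a (pow_ge_three a (by omega)) ha R
    · push Not at hpow
      exact not_unique_alt_even h8 heven hpow R
  · apply not_unique_alt_odd hn hodd _ R
    intro j hj
    apply hk
    exact ⟨j, pow_ge_two j (by omega), by omega⟩

end Cfsg.Agent.Lib.Helper45.SylMax
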